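import Mathlib
import Cfsg.Agent.Lib.CoprimeAction.Abelian
import Cfsg.Agent.Lib.Cores.Basic

/-!
Fixed points in `[H, A]` for coprime action: basic properties of the subgroups `[h, A]`.
-/

set_option autoImplicit false
set_option linter.style.haveILetI false

open scoped commutatorElement

namespace CfsgLib.MetacyclicP.FixedGen

open CfsgLib.CoprimeAction

variable {G : Type*} [Group G]

/-- The subgroup `[h, A]`, generated by the `h⁻¹ (a h a⁻¹)`. -/
def cl (A : Subgroup G) (h : G) : Subgroup G :=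
  Subgroup.closure {c | ∃ a ∈ A, c = h⁻¹ * (a * h * a⁻¹)}

/-- The subgroup generated by the fixed points in the `[h, A]`, `h ∈ H`. -/
def fixGen (A H : Subgroup G) : Subgroup G :=
  ⨆ h : H, cl A (h : G) ⊓ Subgroup.centralizer (A : Set G)

variable {A H : Subgroup G}

theorem gen_mem_cl {a : G} (ha : a ∈ A) (h : G) : h⁻¹ * (a * h * a⁻¹) ∈ cl A h :=
  Subgroup.subset_closure ⟨a, ha, rfl⟩

theorem cl_le_commutator {h : G} (hh : h ∈ H) : cl A h ≤ ⁅H, A⁆ := by
  refine (Subgroup.closure_le _).2 ?_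
  rintro _ ⟨a, ha, rfl⟩
  rw [show h⁻¹ * (a * h * a⁻¹) = ⁅h⁻¹, a⁆ by simp [commutatorElement_def, mul_assoc]]
  exact Subgroup.commutator_mem_commutator (inv_mem hh) ha

theorem commutator_le_iSup_cl : ⁅H, A⁆ ≤ ⨆ h : H, cl A (h : G) := by
  refine Subgroup.commutator_le.2 fun h hh a ha => ?_
  refine Subgroup.mem_iSup_of_mem (⟨h⁻¹, inv_mem hh⟩ : H) ?_
  rw [show ⁅h, a⁆ = h⁻¹⁻¹ * (a * h⁻¹ * a⁻¹) by simp [commutatorElement_def, mul_assoc]]
  exact gen_mem_cl ha h⁻¹

theorem fixGen_le_centralizer : fixGen A H ≤ Subgroup.centralizer (A : Set G) :=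
  iSup_le fun _ => inf_le_right

theorem fixGen_le_commutator : fixGen A H ≤ ⁅H, A⁆ :=
  iSup_le fun h => inf_le_left.trans (cl_le_commutator h.2)

theorem cl_inf_le_fixGen {h : G} (hh : h ∈ H) :
    cl A h ⊓ Subgroup.centralizer (A : Set G) ≤ fixGen A H :=
  le_iSup_of_le (⟨h, hh⟩ : H) le_rfl

theorem fixGen_mono {K : Subgroup G} (hKH : K ≤ H) : fixGen A K ≤ fixGen A H :=
  iSup_le fun h => cl_inf_le_fixGen (hKH h.2)

variable [Finite G]

theorem le_normalizer_cl (h : G) : A ≤ Subgroup.normalizer (cl A h : Set G) := fun b hb => by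
  refine mem_normalizer_of_conj_mem fun x hx => ?_
  have hle : cl A h ≤ (cl A h).comap (MulAut.conj b).toMonoidHom := by
    refine (Subgroup.closure_le _).2 ?_
    rintro _ ⟨a, ha, rfl⟩
    show b * (h⁻¹ * (a * h * a⁻¹)) * b⁻¹ ∈ cl A h
    rw [show b * (h⁻¹ * (a * h * a⁻¹)) * b⁻¹ =
      (h⁻¹ * (b * h * b⁻¹))⁻¹ * (h⁻¹ * (b * a * h * (b * a)⁻¹)) by group]
    exact mul_mem (inv_mem (gen_mem_cl hb h)) (gen_mem_cl (mul_mem hb ha) h)
  exact hle hx

theorem cl_le (hAH : A ≤ Subgroup.normalizer (H : Set G)) {h : G} (hh : h ∈ H) : cl A h ≤ H :=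
  (cl_le_commutator hh).trans (commutator_le_left hAH)

/-- `C_H(A)` normalises the fixed-point subgroup. -/
theorem mem_normalizer_fixGen {c : G} (hc : c ∈ H) (hcA : c ∈ Subgroup.centralizer (A : Set G)) :
    c ∈ Subgroup.normalizer (fixGen A H : Set G) := by
  refine mem_normalizer_of_conj_mem fun x hx => ?_
  have hle : fixGen A H ≤ (fixGen A H).comap (MulAut.conj c).toMonoidHom := by
    refine iSup_le fun h => ?_
    rintro y ⟨hy, hyA⟩
    show c * y * c⁻¹ ∈ fixGen A H
    refine cl_inf_le_fixGen (mul_mem (mul_mem hc h.2) (inv_mem hc)) ⟨?_, ?_⟩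
    · have hle' : cl A (h : G) ≤ (cl A (c * h * c⁻¹)).comap (MulAut.conj c).toMonoidHom := by
        refine (Subgroup.closure_le _).2 ?_
        rintro _ ⟨a, ha, rfl⟩
        show c * ((h : G)⁻¹ * (a * h * a⁻¹)) * c⁻¹ ∈ cl A (c * h * c⁻¹)
        have hca : a * c = c * a := Subgroup.mem_centralizer_iff.1 hcA a ha
        have e1 : a * (c * h * c⁻¹) * a⁻¹ = c * (a * h * a⁻¹) * c⁻¹ := by
          calc a * (c * h * c⁻¹) * a⁻¹ = (a * c) * h * (a * c)⁻¹ := by group
            _ = (c * a) * h * (c * a)⁻¹ := by rw [hca]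
            _ = _ := by group
        have := gen_mem_cl (A := A) ha (c * h * c⁻¹)
        rw [e1] at this
        simpa [mul_assoc] using this
      exact hle' hy
    · show c * y * c⁻¹ ∈ Subgroup.centralizer (A : Set G)
      exact mul_mem (mul_mem hcA hyA) (inv_mem hcA)
  exact hle hx

theorem card_coprime_of_le {K : Subgroup G} (hcop : (Nat.card A).Coprime (Nat.card H)) (hK : K ≤ H) :
    (Nat.card A).Coprime (Nat.card K) :=
  hcop.coprime_dvd_right (Subgroup.card_dvd_of_le hK)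

/-- `[h, A] = [[h, A], A]`. -/
theorem cl_le_commutator_cl (hAH : A ≤ Subgroup.normalizer (H : Set G))
    (hcop : (Nat.card A).Coprime (Nat.card H)) (hA : Group.IsSolvable A) {h : G} (hh : h ∈ H) :
    cl A h ≤ ⁅cl A h, A⁆ := by
  obtain ⟨c, hc, hcK⟩ := exists_centralizer_mem_coset_of_le (le_normalizer_cl h) (cl_le hAH hh)
    (card_coprime_of_le hcop (cl_le hAH hh)) (Or.inl hA) hh (fun a ha => gen_mem_cl ha h)
  refine (Subgroup.closure_le _).2 ?_
  rintro _ ⟨a, ha, rfl⟩
  have hca : a * c = c * a := Subgroup.mem_centralizer_iff.1 hc.2 a ha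
  have hk : h⁻¹ * c ∈ cl A h := hcK
  show h⁻¹ * (a * h * a⁻¹) ∈ ⁅cl A h, A⁆
  have hcomm := Subgroup.commutator_mem_commutator hk ha
  have e : ⁅h⁻¹ * c, a⁆ = h⁻¹ * (a * h * a⁻¹) := by
    rw [commutatorElement_def]
    calc h⁻¹ * c * a * (h⁻¹ * c)⁻¹ * a⁻¹ = h⁻¹ * (c * a) * c⁻¹ * h * a⁻¹ := by group
      _ = h⁻¹ * (a * c) * c⁻¹ * h * a⁻¹ := by rw [hca]
      _ = _ := by group
  rwa [e] at hcomm

/-- Fixed points of an abelian group decomposed along `[L, A]`. -/
theorem inf_centralizer_le_of_le {L T : Subgroup G} [IsMulCommutative L]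
    (hAL : A ≤ Subgroup.normalizer (L : Set G)) (hcop : (Nat.card A).Coprime (Nat.card L))
    (hTL : T ≤ L) (hTC : T ≤ Subgroup.centralizer (A : Set G)) (h : L ≤ ⁅L, A⁆ ⊔ T) :
    L ⊓ Subgroup.centralizer (A : Set G) ≤ T := by
  rintro x ⟨hxL, hxC⟩
  have hT : T ≤ Subgroup.normalizer ((⁅L, A⁆ : Subgroup G) : Set G) :=
    hTL.trans (le_sup_left.trans (sup_le_normalizer_commutator A L))
  open scoped Pointwise in
  have h1 : x ∈ ((⁅L, A⁆ : Subgroup G) : Set G) * (T : Set G) := by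
    rw [← Subgroup.coe_mul_of_right_le_normalizer_left _ _ hT]; exact h hxL
  obtain ⟨n, hn, t, ht, rfl⟩ := h1
  have hn1 : n ∈ (L ⊓ Subgroup.centralizer (A : Set G)) ⊓ ⁅L, A⁆ :=
    ⟨⟨commutator_le_left hAL hn, by
      simpa using (Subgroup.centralizer (A : Set G)).mul_mem hxC
        ((Subgroup.centralizer (A : Set G)).inv_mem (hTC ht))⟩, hn⟩
  rw [inf_commutator_eq_bot hAL hcop, Subgroup.mem_bot] at hn1
  show n * t ∈ T
  rw [hn1, one_mul]; exact ht

/-- An invariant subgroup of `L` lies in `[L, A] T` as soon as its fixed points lie in `T`. -/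
theorem le_commutator_sup_of_inf_le {L T M : Subgroup G} (hA : Group.IsSolvable A)
    (hcop : (Nat.card A).Coprime (Nat.card L)) (hML : M ≤ L)
    (hAM : A ≤ Subgroup.normalizer (M : Set G))
    (h : M ⊓ Subgroup.centralizer (A : Set G) ≤ T) : M ≤ ⁅L, A⁆ ⊔ T := by
  rw [← commutator_sup_centralizer hAM (hcop.coprime_dvd_right (Subgroup.card_dvd_of_le hML))
    (Or.inl hA)]
  exact sup_le_sup (Subgroup.commutator_mono hML le_rfl) h

/-- The conjugation automorphism induced on `G ⧸ V` fixes the image of `C_H(A)` only. -/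
theorem fixGen_quotient (hA : Group.IsSolvable A) (hAH : A ≤ Subgroup.normalizer (H : Set G))
    (hcop : (Nat.card A).Coprime (Nat.card H)) (V : Subgroup G) [V.Normal] :
    fixGen (A.map (QuotientGroup.mk' V)) (H.map (QuotientGroup.mk' V)) ≤
      (fixGen A H).map (QuotientGroup.mk' V) := by
  set π := QuotientGroup.mk' V with hπ
  refine iSup_le ?_
  rintro ⟨_, h, hh, rfl⟩
  rintro y ⟨hy, hyA⟩
  have hcl : cl (A.map π) (π h) ≤ (cl A h).map π := by
    refine (Subgroup.closure_le _).2 ?_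
    rintro _ ⟨_, ⟨a, ha, rfl⟩, rfl⟩
    exact ⟨_, gen_mem_cl ha h, by simp⟩
  obtain ⟨k, hk, rfl⟩ := hcl hy
  have hclH := cl_le hAH hh
  have hnorm : A ≤ Subgroup.normalizer ((cl A h ⊓ V : Subgroup G) : Set G) := fun a ha =>
    mem_normalizer_of_conj_mem fun z hz =>
      ⟨conj_mem (le_normalizer_cl h ha) hz.1, (inferInstance : V.Normal).conj_mem z hz.2 a⟩
  obtain ⟨c, hc, hck⟩ := exists_centralizer_mem_coset_of_le hnorm inf_le_left
    (card_coprime_of_le hcop (inf_le_left.trans hclH)) (Or.inl hA) hk fun a ha => by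
      refine Subgroup.mem_inf.2 ⟨mul_mem (inv_mem hk) (conj_mem (le_normalizer_cl h ha) hk), ?_⟩
      rw [← QuotientGroup.eq_one_iff]
      show π (k⁻¹ * (a * k * a⁻¹)) = 1
      rw [map_mul, map_inv, map_mul, map_mul, map_inv,
        Subgroup.mem_centralizer_iff.1 hyA (π a) ⟨a, ha, rfl⟩]
      simp
  refine ⟨c, cl_inf_le_fixGen hh hc, ?_⟩
  have : π (k⁻¹ * c) = 1 := (QuotientGroup.eq_one_iff _).2 hck.2
  rwa [map_mul, map_inv, inv_mul_eq_one, eq_comm] at this

/-- A subgroup supplementing the derived subgroup of a nilpotent group is the whole group. -/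
theorem eq_of_sup_derived_eq {K : Subgroup G} (hnil : Group.IsNilpotent H)
    (hKH : K ≤ H) (h : K ⊔ ⁅H, H⁆ = H) : K = H := by
  obtain ⟨n, hn⟩ := (Subgroup.isNilpotent_iff_lowerCentralSeries (S := H)).1 hnil
  have main : ∀ j, K ⊔ H.lowerCentralSeries j = H := by
    intro j
    induction j with
    | zero => exact sup_eq_right.2 hKH
    | succ j ih =>
      have hLle : H.lowerCentralSeries j ≤ H :=
        (H.lowerCentralSeries_antitone (Nat.zero_le j)).trans_eq (Subgroup.lowerCentralSeries_zero H)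
      have hLn : H ≤ Subgroup.normalizer (H.lowerCentralSeries (j + 1) : Set G) :=
        H.self_le_normalizer_lowerCentralSeries (j + 1)
      set T := K ⊔ H.lowerCentralSeries (j + 1) with hT
      have hTH : T ≤ H := sup_le hKH
        ((H.lowerCentralSeries_antitone (Nat.zero_le _)).trans_eq (Subgroup.lowerCentralSeries_zero H))
      have hl : ∀ l ∈ H.lowerCentralSeries j, ∀ s ∈ H, ⁅l, s⁆ ∈ H.lowerCentralSeries (j + 1) :=
        fun l hl s hs => by
          rw [Subgroup.lowerCentralSeries_succ]; exact Subgroup.commutator_mem_commutator hl hs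
      have hdec : ∀ s ∈ H, ∃ k ∈ K, ∃ l ∈ H.lowerCentralSeries j, s = k * l := fun s hs => by
        open scoped Pointwise in
        have h1 : s ∈ (K : Set G) * (H.lowerCentralSeries j : Set G) := by
          rw [← Subgroup.coe_mul_of_left_le_normalizer_right _ _
            (hKH.trans (H.self_le_normalizer_lowerCentralSeries j)), ih]
          exact hs
        obtain ⟨k, hk, l, hl', hkl⟩ := h1
        exact ⟨k, hk, l, hl', hkl.symm⟩
      have hcomm : ⁅H, H⁆ ≤ T := by
        refine Subgroup.commutator_le.2 fun s hs u hu => ?_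
        obtain ⟨k, hk, l, hl', rfl⟩ := hdec s hs
        obtain ⟨k', hk', l', hl'', rfl⟩ := hdec u hu
        have e : ⁅k * l, k' * l'⁆ =
            (k * ⁅l, k' * l'⁆ * k⁻¹) * (⁅k, k'⁆ * (k' * ⁅l', k⁆⁻¹ * k'⁻¹)) := by
          simp [commutatorElement_def, mul_assoc]
        rw [e]
        refine mul_mem (Subgroup.mem_sup_right (conj_mem (hLn (hKH hk)) (hl l hl' _ hu)))
          (mul_mem (Subgroup.mem_sup_left ?_)
            (Subgroup.mem_sup_right (conj_mem (hLn (hKH hk')) (inv_mem (hl l' hl'' k (hKH hk))))))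
        rw [commutatorElement_def]
        exact mul_mem (mul_mem (mul_mem hk hk') (inv_mem hk)) (inv_mem hk')
      exact le_antisymm hTH (h.ge.trans (sup_le le_sup_left hcomm))
  have := main n
  rwa [hn, sup_bot_eq] at this

/-- The fixed points of `A` in `H = [H, A]` lie in the derived subgroup. -/
theorem inf_centralizer_le_derived (hAH : A ≤ Subgroup.normalizer (H : Set G))
    (hcop : (Nat.card A).Coprime (Nat.card H)) (hH : ⁅H, A⁆ = H) :
    H ⊓ Subgroup.centralizer (A : Set G) ≤ ⁅H, H⁆ := by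
  set D := ⁅H, H⁆ with hD
  set R := Subgroup.normalizer (D : Set G) with hR
  have hnD : Subgroup.normalizer (H : Set G) ≤ R := normalizer_le_normalizer_commutator H
  have hHR : H ≤ R := Subgroup.le_normalizer.trans hnD
  have hAR : A ≤ R := hAH.trans hnD
  haveI : (D.subgroupOf R).Normal := Subgroup.normal_subgroupOf_of_le_normalizer le_rfl
  set π := QuotientGroup.mk' (D.subgroupOf R) with hπ
  have hDR : D ≤ R := Subgroup.le_normalizer
  have hcomm : ⁅H.subgroupOf R, A.subgroupOf R⁆ = H.subgroupOf R := by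
    apply Subgroup.map_injective R.subtype_injective
    rw [Subgroup.map_commutator, Subgroup.map_subgroupOf_eq_of_le hHR, Subgroup.map_subgroupOf_eq_of_le hAR, hH]
  haveI : IsMulCommutative ↥((H.subgroupOf R).map π) := ⟨⟨fun a b => Subtype.ext (by
    obtain ⟨x, hx, hxa⟩ := a.2
    obtain ⟨y, hy, hyb⟩ := b.2
    show (a : R ⧸ D.subgroupOf R) * b = (b : R ⧸ D.subgroupOf R) * a
    rw [← hxa, ← hyb, ← commutatorElement_eq_one_iff_mul_comm, ← map_commutatorElement]
    exact (QuotientGroup.eq_one_iff _).2 (Subgroup.commutator_mem_commutator hx hy))⟩⟩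
  have hn : (A.subgroupOf R).map π ≤ Subgroup.normalizer ((H.subgroupOf R).map π : Set (R ⧸ D.subgroupOf R)) := by
    refine (Subgroup.map_mono ?_).trans (Subgroup.le_normalizer_map π)
    intro a ha
    exact Subgroup.mem_normalizer_iff.2 fun x => Subgroup.mem_normalizer_iff.1 (hAH ha) (x : G)
  have hcop' : (Nat.card ↥((A.subgroupOf R).map π)).Coprime (Nat.card ↥((H.subgroupOf R).map π)) := by
    refine Nat.Coprime.coprime_dvd_left (Subgroup.card_map_dvd _ π)
      (Nat.Coprime.coprime_dvd_right (Subgroup.card_map_dvd _ π) ?_)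
    rwa [Nat.card_congr (Subgroup.subgroupOfEquivOfLe hHR).toEquiv,
      Nat.card_congr (Subgroup.subgroupOfEquivOfLe hAR).toEquiv]
  rintro x ⟨hxH, hxC⟩
  have hmem : π ⟨x, hHR hxH⟩ ∈ ((H.subgroupOf R).map π ⊓
      Subgroup.centralizer (((A.subgroupOf R).map π : Subgroup _) : Set (R ⧸ D.subgroupOf R))) ⊓
      ⁅(H.subgroupOf R).map π, (A.subgroupOf R).map π⁆ := by
    refine ⟨⟨⟨⟨x, hHR hxH⟩, hxH, rfl⟩, Subgroup.mem_centralizer_iff.2 ?_⟩, ?_⟩
    · rintro _ ⟨a, ha, rfl⟩
      rw [← map_mul, ← map_mul]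
      exact congrArg π (Subtype.ext (Subgroup.mem_centralizer_iff.1 hxC a ha))
    · rw [← Subgroup.map_commutator, hcomm]
      exact ⟨⟨x, hHR hxH⟩, hxH, rfl⟩
  rw [inf_commutator_eq_bot hn hcop', Subgroup.mem_bot] at hmem
  exact (QuotientGroup.eq_one_iff (⟨x, hHR hxH⟩ : R)).1 hmem

end CfsgLib.MetacyclicP.FixedGen
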