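import Mathlib
import Cfsg.Agent.Lib.CoprimeAction.Basic

/-!
An upper bound for the fixed points of an element of prime order `p ≥ 3` on an irreducible abelian
group on which a fixed-point-free abelian group is normalised by it.
-/

set_option autoImplicit false
set_option linter.style.haveILetI false

namespace CfsgLib.MetacyclicP.FixedGen

variable {G : Type*} [Group G] [Finite G]

omit [Finite G] in
theorem centralizer_zpowers_eq (a : G) :
    Subgroup.centralizer (Subgroup.zpowers a : Set G) = Subgroup.centralizer {a} := by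
  rw [Subgroup.zpowers_eq_closure, Subgroup.centralizer_closure]

theorem card_centralizer_pow_three_le {p : ℕ} [Fact p.Prime] (hp : p ≠ 2) {V A₀ R : Subgroup G}
    (hVab : ∀ u ∈ V, ∀ v ∈ V, u * v = v * u) {t : G} (htp : t ^ p = 1)
    (htV : t ∈ Subgroup.normalizer (V : Set G)) (htA₀ : t ∈ Subgroup.normalizer (A₀ : Set G))
    (htR : t ∈ Subgroup.normalizer (R : Set G)) (hRV : R ≤ Subgroup.normalizer (V : Set G))
    (hA₀R : A₀ ≤ R) (hA₀c : A₀ ≤ Subgroup.centralizer (R : Set G))
    (hirr : ∀ W : Subgroup G, W ≤ V → R ≤ Subgroup.normalizer (W : Set G) →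
      t ∈ Subgroup.normalizer (W : Set G) → W = ⊥ ∨ W = V)
    (hmin : ∀ B : Subgroup G, B ≤ A₀ → t ∈ Subgroup.normalizer (B : Set G) → B = ⊥ ∨ B = A₀)
    (hfree : ∀ a ∈ A₀, t * a = a * t → a = 1) (hA₀ne : A₀ ≠ ⊥)
    (hfaith : V ⊓ Subgroup.centralizer (A₀ : Set G) = ⊥) :
    Nat.card ↥(V ⊓ Subgroup.centralizer ({t} : Set G)) ^ 3 ≤ Nat.card V := by
  classical
  have hp3 : 3 ≤ p := by have := (Fact.out : p.Prime).two_le; omega
  haveI : Fintype V := Fintype.ofFinite _
  -- powers of `t` moving nothing in `A₀`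
  have hpow : ∀ i, i < p → i ≠ 0 → ∀ a : G, Commute (t ^ i) a → Commute t a := by
    intro i hi hi0 a ha
    obtain ⟨j, hj⟩ := Nat.exists_mul_mod_eq_one_of_coprime
      (((Fact.out : p.Prime).coprime_iff_not_dvd.2 fun h => absurd (Nat.le_of_dvd (Nat.pos_of_ne_zero hi0) h) (by omega)).symm)
      (by omega : 1 < p)
    have e : t = (t ^ i) ^ j := by
      rw [← pow_mul, pow_eq_pow_mod (i * j) htp, hj.2, pow_one]
    rw [e]; exact ha.pow_left j
  set C := V ⊓ Subgroup.centralizer ({t} : Set G) with hC
  have hCfix : ∀ u ∈ C, t * u * t⁻¹ = u := fun u hu => by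
    rw [← Subgroup.mem_centralizer_singleton_iff.1 hu.2, mul_inv_cancel_right]
  by_cases hfpf : ∀ a ∈ A₀, a ≠ 1 → V ⊓ Subgroup.centralizer ({a} : Set G) = ⊥
  · -- fixed-point-free: a Vandermonde argument
    haveI hVc : IsMulCommutative V := ⟨⟨fun u v => Subtype.ext (hVab u u.2 v v.2)⟩⟩
    obtain ⟨a, ha, hane⟩ := (Subgroup.bot_or_exists_ne_one A₀).resolve_left hA₀ne
    have hAV : ∀ b ∈ A₀, b ∈ Subgroup.normalizer (V : Set G) := fun b hb => hRV (hA₀R hb)
    let ψ : A₀ → (Additive V → Additive V) := fun b u =>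
      Additive.ofMul ⟨(b : G) * (u.toMul : G) * (b : G)⁻¹,
        (Subgroup.mem_normalizer_iff.1 (hAV b b.2) _).1 u.toMul.2⟩
    open scoped IsMulCommutative in
    let φ : A₀ → AddMonoid.End (Additive V) := fun b =>
      { toFun := ψ b
        map_zero' := Additive.toMul.injective (Subtype.ext (by simp [ψ]))
        map_add' := fun u v => Additive.toMul.injective (Subtype.ext (by simp [ψ, mul_assoc])) }
    have hA₀comm : ∀ b c : A₀, (b : G) * c = c * b := fun b c =>
      (Subgroup.mem_centralizer_iff.1 (hA₀c b.2) c (hA₀R c.2)).symm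
    open scoped IsMulCommutative in
    have hφ : ∀ (b : A₀) (u : Additive V), ((φ b u).toMul : G) = (b : G) * u.toMul * (b : G)⁻¹ :=
      fun b u => rfl
    open scoped IsMulCommutative in
    have hφmul : ∀ (b c : A₀) (u : Additive V), φ (b * c) u = φ b (φ c u) := fun b c u =>
      Additive.toMul.injective (Subtype.ext (by simp [hφ, mul_assoc]))
    have hb : t * a * t⁻¹ ∈ A₀ := (Subgroup.mem_normalizer_iff.1 htA₀ a).1 ha
    have hc : t * (t * a * t⁻¹) * t⁻¹ ∈ A₀ := (Subgroup.mem_normalizer_iff.1 htA₀ _).1 hb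
    set a₁ : A₀ := ⟨a, ha⟩ with ha₁
    set b₁ : A₀ := ⟨_, hb⟩ with hb₁
    set c₁ : A₀ := ⟨_, hc⟩ with hc₁
    have hab : a₁ ≠ b₁ := fun e => hane (hfree a ha (by
      have e' : a = t * a * t⁻¹ := congrArg Subtype.val e
      nth_rw 2 [e']
      rw [inv_mul_cancel_right]))
    have hac : a₁ ≠ c₁ := fun e => hane (hfree a ha (by
      have e' : a = t * (t * a * t⁻¹) * t⁻¹ := congrArg Subtype.val e
      refine hpow 2 (by omega) (by omega) a ?_
      show t ^ 2 * a = a * t ^ 2
      nth_rw 2 [e']
      rw [pow_two]; group))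
    have hbc : b₁ ≠ c₁ := fun e => hab (Subtype.ext (by
      have e' : t * a * t⁻¹ = t * (t * a * t⁻¹) * t⁻¹ := congrArg Subtype.val e
      exact mul_left_cancel (mul_right_cancel e')))
    open scoped IsMulCommutative in
    have hinj : ∀ b c : A₀, b ≠ c → ∀ u : Additive V, φ b u = φ c u → u = 0 := by
      intro b c hne u h
      have h1 : φ (c⁻¹ * b) u = u := by
        rw [hφmul, h, ← hφmul, inv_mul_cancel]
        exact Additive.toMul.injective (Subtype.ext (by simp [hφ]))
      have h2 : (c⁻¹ * b : A₀) ≠ 1 := fun e => hne (inv_mul_eq_one.1 e).symm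
      have h3 := hfpf _ (c⁻¹ * b).2 (fun e => h2 (Subtype.ext e))
      have h4 : (u.toMul : G) ∈ V ⊓ Subgroup.centralizer ({((c⁻¹ * b : A₀) : G)} : Set G) := by
        refine ⟨u.toMul.2, Subgroup.mem_centralizer_singleton_iff.2 ?_⟩
        have h5 : ((c⁻¹ * b : A₀) : G) * u.toMul * ((c⁻¹ * b : A₀) : G)⁻¹ = u.toMul :=
          congrArg (fun z : Additive V => (z.toMul : G)) h1
        nth_rw 1 [← h5]
        group
      rw [h3, Subgroup.mem_bot] at h4
      exact Additive.toMul.injective (Subtype.ext h4)
    -- conjugation by `t` on an equation between fixed points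
    let F : C × C × C → V := fun x => ⟨(x.1 : G) * (a * x.2.1 * a⁻¹) * (a * a * x.2.2 * (a * a)⁻¹),
      mul_mem (mul_mem x.1.2.1 ((Subgroup.mem_normalizer_iff.1 (hAV a ha) _).1 x.2.1.2.1))
        ((Subgroup.mem_normalizer_iff.1 (hAV _ (mul_mem ha ha)) _).1 x.2.2.2.1)⟩
    have hshift : ∀ (b : G) (u v w : C),
        t * ((u : G) * (b * v * b⁻¹) * (b * b * w * (b * b)⁻¹)) * t⁻¹ =
          u * ((t * b * t⁻¹) * v * (t * b * t⁻¹)⁻¹) *
            ((t * b * t⁻¹) * (t * b * t⁻¹) * w * ((t * b * t⁻¹) * (t * b * t⁻¹))⁻¹) := by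
      intro b u v w
      conv_rhs => rw [← hCfix u u.2, ← hCfix v v.2, ← hCfix w w.2]
      group
    open scoped IsMulCommutative in
    have hker : ∀ u v w : Additive V, u + φ a₁ v + φ a₁ (φ a₁ w) = 0 →
        u + φ b₁ v + φ b₁ (φ b₁ w) = 0 → u + φ c₁ v + φ c₁ (φ c₁ w) = 0 → v = 0 ∧ w = 0 := by
      intro u v w e1 e2 e3
      have step : ∀ b c : A₀, b ≠ c → u + φ b v + φ b (φ b w) = 0 → u + φ c v + φ c (φ c w) = 0 →
          v + φ b w + φ c w = 0 := by
        intro b c hne h1 h2
        refine hinj b c hne _ ?_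
        have hcomm : φ b (φ c w) = φ c (φ b w) := by
          rw [← hφmul, ← hφmul, show b * c = c * b from Subtype.ext (hA₀comm b c)]
        have h3 : φ b v + φ b (φ b w) = φ c v + φ c (φ c w) := by
          rw [add_assoc] at h1 h2
          exact add_left_cancel (h1.trans h2.symm)
        simp only [map_add]
        rw [h3, hcomm]
        abel
      have s1 := step a₁ b₁ hab e1 e2
      have s2 := step a₁ c₁ hac e1 e3
      have hw : w = 0 := hinj b₁ c₁ hbc w (add_left_cancel (s1.trans s2.symm))
      subst hw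
      simpa using s1
    open scoped IsMulCommutative in
    have hF : Function.Injective F := by
      intro x y hxy
      obtain ⟨x0, x1, x2⟩ := x
      obtain ⟨y0, y1, y2⟩ := y
      let toA : C → Additive V := fun u => Additive.ofMul ⟨(u : G), u.2.1⟩
      have hFa : ∀ u v w : C, Additive.ofMul (F (u, v, w)) = toA u + φ a₁ (toA v) + φ a₁ (φ a₁ (toA w)) :=
        fun u v w => Additive.toMul.injective (Subtype.ext (by simp [F, toA, hφ, a₁, mul_assoc]))
      have e0 : ((x0 : G) * (a * x1 * a⁻¹) * (a * a * x2 * (a * a)⁻¹)) =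
          (y0 : G) * (a * y1 * a⁻¹) * (a * a * y2 * (a * a)⁻¹) := congrArg Subtype.val hxy
      have e1 := congrArg (fun z => t * z * t⁻¹) e0
      simp only [hshift] at e1
      have e2 := congrArg (fun z => t * z * t⁻¹) e1
      simp only [hshift] at e2
      have conv : ∀ (b : A₀) (u v w : C), ((toA u + φ b (toA v) + φ b (φ b (toA w))).toMul : G) =
          (u : G) * ((b : G) * v * (b : G)⁻¹) * ((b : G) * b * w * ((b : G) * b)⁻¹) :=
        fun b u v w => by simp [toA, hφ, mul_assoc]
      have mk : ∀ b : A₀, (x0 : G) * ((b : G) * x1 * (b : G)⁻¹) * ((b : G) * b * x2 * ((b : G) * b)⁻¹) =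
          (y0 : G) * ((b : G) * y1 * (b : G)⁻¹) * ((b : G) * b * y2 * ((b : G) * b)⁻¹) →
          (toA x0 - toA y0) + φ b (toA x1 - toA y1) + φ b (φ b (toA x2 - toA y2)) = 0 := by
        intro b hb'
        have : toA x0 + φ b (toA x1) + φ b (φ b (toA x2)) = toA y0 + φ b (toA y1) + φ b (φ b (toA y2)) :=
          Additive.toMul.injective (Subtype.ext (by rw [conv, conv]; exact hb'))
        simp only [map_sub]
        rw [← sub_eq_zero] at this
        rw [← this]; abel
      obtain ⟨h1, h2⟩ := hker _ _ _ (mk a₁ e0) (mk b₁ e1) (mk c₁ e2)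
      have h0 := mk a₁ e0
      rw [h1, h2] at h0
      simp only [map_zero, add_zero] at h0
      have back : ∀ u v : C, toA u - toA v = 0 → u = v := fun u v h =>
        Subtype.ext (congrArg (fun z : Additive V => (z.toMul : G)) (sub_eq_zero.1 h))
      rw [back _ _ h0, back _ _ h1, back _ _ h2]
    have h := Nat.card_le_card_of_injective F hF
    rw [Nat.card_prod, Nat.card_prod] at h
    rw [pow_succ, pow_two, mul_assoc]
    exact h
  · -- some element has fixed points: translates of a maximal stabiliser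
    push Not at hfpf
    obtain ⟨a, ha, hane, hafix⟩ := hfpf
    obtain ⟨B, -, hBmax⟩ := Finite.exists_le_maximal
      (p := fun B : Subgroup G => B ≤ A₀ ∧ V ⊓ Subgroup.centralizer (B : Set G) ≠ ⊥)
      (show Subgroup.zpowers a ≤ A₀ ∧ V ⊓ Subgroup.centralizer (Subgroup.zpowers a : Set G) ≠ ⊥ from
        ⟨Subgroup.zpowers_le.2 ha, by rwa [centralizer_zpowers_eq]⟩)
    obtain ⟨⟨hBA, hBU⟩, hBm⟩ := hBmax
    have hBne : B ≠ ⊥ := fun e => by
      have h1 := hBm ⟨Subgroup.zpowers_le.2 ha, by rwa [centralizer_zpowers_eq]⟩ (e ▸ bot_le)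
      rw [e, le_bot_iff, Subgroup.zpowers_eq_bot] at h1
      exact hane h1
    have hBA' : B ≠ A₀ := fun e => hBU (e ▸ hfaith)
    have htAi : ∀ i : ℕ, t ^ i ∈ Subgroup.normalizer (A₀ : Set G) := fun i => pow_mem htA₀ i
    set Bi : ℕ → Subgroup G := fun i => B.map (MulAut.conj (t ^ i)).toMonoidHom with hBi
    set U : ℕ → Subgroup G := fun i => V ⊓ Subgroup.centralizer (Bi i : Set G) with hU
    have hBiA : ∀ i, Bi i ≤ A₀ := fun i => by
      rintro _ ⟨x, hx, rfl⟩
      exact (Subgroup.mem_normalizer_iff.1 (htAi i) x).1 (hBA hx)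
    have hBidist : ∀ i j, i < p → j < p → i ≠ j → ¬ Bi i ≤ Bi j := by
      intro i j hi hj hij hle
      have heq : Bi i = Bi j := Subgroup.eq_of_le_of_card_ge hle (le_of_eq (by
        rw [hBi, Subgroup.card_map_of_injective (MulEquiv.injective _),
          Subgroup.card_map_of_injective (MulEquiv.injective _)]))
      have key : ∀ i j : ℕ, i < j → j < p → Bi i = Bi j → False := by
        intro i j hij hj heq
        have hd : B.map (MulAut.conj (t ^ (j - i))).toMonoidHom = B := by
          refine Subgroup.map_injective (f := (MulAut.conj (t ^ i)).toMonoidHom) (MulEquiv.injective _) ?_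
          have hc : (MulAut.conj (t ^ i)).toMonoidHom.comp (MulAut.conj (t ^ (j - i))).toMonoidHom =
              (MulAut.conj (t ^ j)).toMonoidHom := by
            rw [show t ^ j = t ^ i * t ^ (j - i) by rw [← pow_add]; congr 1; omega, map_mul]; rfl
          rw [Subgroup.map_map, hc]
          exact heq.symm
        have hn : t ^ (j - i) ∈ Subgroup.normalizer (B : Set G) := by
          refine CfsgLib.CoprimeAction.mem_normalizer_of_conj_mem fun x hx => ?_
          rw [← hd]; exact ⟨x, hx, rfl⟩
        obtain ⟨k, hk⟩ := Nat.exists_mul_mod_eq_one_of_coprime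
          (((Fact.out : p.Prime).coprime_iff_not_dvd.2 fun h => absurd (Nat.le_of_dvd (by omega) h) (by omega)).symm :
            (j - i).Coprime p) (by omega : 1 < p)
        have ht : t ∈ Subgroup.normalizer (B : Set G) := by
          have e : t = (t ^ (j - i)) ^ k := by rw [← pow_mul, pow_eq_pow_mod _ htp, hk.2, pow_one]
          rw [e]; exact pow_mem hn k
        rcases hmin B hBA ht with h | h
        · exact hBne h
        · exact hBA' h
      rcases lt_or_gt_of_ne hij with h | h
      · exact key i j h hj heq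
      · exact key j i h hi heq.symm
    have hUconj : ∀ i (x : G), x ∈ U i ↔ (t ^ i)⁻¹ * x * t ^ i ∈ U 0 := by
      intro i x
      simp only [hU, Subgroup.mem_inf]
      refine and_congr (Subgroup.mem_normalizer_iff''.1 (pow_mem htV i) x) ?_
      simp only [Subgroup.mem_centralizer_iff, hBi, SetLike.mem_coe, Subgroup.mem_map_equiv,
        MulAut.conj_symm_apply, pow_zero, inv_one, one_mul, mul_one]
      constructor
      · intro h b hb
        have h1 := congrArg (fun z => (t ^ i)⁻¹ * z * t ^ i) (h (t ^ i * b * (t ^ i)⁻¹) (by simpa [mul_assoc] using hb))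
        simpa [mul_assoc] using h1
      · intro h b hb
        have h1 := congrArg (fun z => t ^ i * z * (t ^ i)⁻¹) (h _ hb)
        simpa [mul_assoc] using h1
    have hUt : ∀ i, ∀ x ∈ U i, t * x * t⁻¹ ∈ U (i + 1) := fun i x hx => by
      rw [hUconj] at hx ⊢
      rw [pow_succ' t i]
      simpa [mul_assoc] using hx
    have hU0p : U p = U 0 := by
      have : Bi p = Bi 0 := by simp only [hBi, htp, pow_zero]
      simp only [hU, this]
    have hUA₀ : ∀ i, ∀ b ∈ A₀, ∀ x ∈ U i, b * x * b⁻¹ ∈ U i := by
      intro i b hb x hx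
      refine ⟨(Subgroup.mem_normalizer_iff.1 (hRV (hA₀R hb)) x).1 hx.1, Subgroup.mem_centralizer_iff.2 fun y hy => ?_⟩
      have hyb : y * b = b * y := Subgroup.mem_centralizer_iff.1 (hA₀c hb) y (hA₀R (hBiA i hy))
      have hyb' : y * b⁻¹ = b⁻¹ * y := (Commute.inv_right hyb).eq
      have hyx : y * x = x * y := Subgroup.mem_centralizer_iff.1 hx.2 y hy
      calc y * (b * x * b⁻¹) = b * (y * x) * b⁻¹ := by rw [← mul_assoc, ← mul_assoc, hyb, mul_assoc b y x]
        _ = b * x * (y * b⁻¹) := by rw [hyx]; group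
        _ = b * x * b⁻¹ * y := by rw [hyb']; group
    -- independence
    haveI hVc : IsMulCommutative V := ⟨⟨fun u v => Subtype.ext (hVab u u.2 v v.2)⟩⟩
    open scoped IsMulCommutative in
    have indep : ∀ s : Finset (Fin p), ∀ f : Fin p → V, (∀ i ∈ s, (f i : G) ∈ U i) →
        ∏ i ∈ s, f i = 1 → ∀ i ∈ s, f i = 1 := by
      intro s
      induction s using Finset.induction_on with
      | empty => intros; simp_all
      | insert j s hj ih =>
        intro f hf hprod
        rw [Finset.prod_insert hj] at hprod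
        have hi : ∀ i ∈ s, f i = 1 := by
          intro i hi
          have hne : i ≠ j := fun e => hj (e ▸ hi)
          have hfix : ∀ b ∈ Bi j, b * (f i : G) * b⁻¹ = f i := by
            intro b hb
            have hbA := hBiA j hb
            let d : V →* V :=
              { toFun := fun v => ⟨b * v * b⁻¹ * (v : G)⁻¹,
                  mul_mem ((Subgroup.mem_normalizer_iff.1 (hRV (hA₀R hbA)) _).1 v.2) (inv_mem v.2)⟩
                map_one' := Subtype.ext (by simp)
                map_mul' := fun u v => Subtype.ext (by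
                  show b * ((u : G) * v) * b⁻¹ * ((u : G) * v)⁻¹ = b * u * b⁻¹ * (u : G)⁻¹ * (b * v * b⁻¹ * (v : G)⁻¹)
                  have hw := hVab _ (inv_mem u.2) _
                    (mul_mem ((Subgroup.mem_normalizer_iff.1 (hRV (hA₀R hbA)) _).1 v.2) (inv_mem v.2))
                  calc b * ((u : G) * v) * b⁻¹ * ((u : G) * v)⁻¹
                      = b * u * b⁻¹ * ((b * v * b⁻¹ * (v : G)⁻¹) * (u : G)⁻¹) := by group
                    _ = b * u * b⁻¹ * ((u : G)⁻¹ * (b * v * b⁻¹ * (v : G)⁻¹)) := by rw [← hw]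
                    _ = _ := by rw [mul_assoc (b * u * b⁻¹)]) }
            have hdj : d (f j) = 1 := Subtype.ext (by
              show b * (f j : G) * b⁻¹ * (f j : G)⁻¹ = 1
              rw [Subgroup.mem_centralizer_iff.1 (hf j (Finset.mem_insert_self _ _)).2 b hb]
              group)
            have h1 : ∏ k ∈ s, d (f k) = 1 := by
              have := congrArg d hprod
              rwa [map_mul, hdj, one_mul, map_prod, map_one] at this
            have h2 := ih (fun k => d (f k)) (fun k hk =>
              mul_mem (hUA₀ k b hbA _ (hf k (Finset.mem_insert_of_mem hk)))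
                (inv_mem (hf k (Finset.mem_insert_of_mem hk)))) h1 i hi
            exact mul_inv_eq_one.1 (congrArg Subtype.val h2)
          have hmem : (f i : G) ∈ V ⊓ Subgroup.centralizer ((Bi i ⊔ Bi j : Subgroup G) : Set G) := by
            refine ⟨(f i).2, ?_⟩
            have hle : Bi i ⊔ Bi j ≤ Subgroup.centralizer ({(f i : G)} : Set G) := sup_le
              (fun y hy => Subgroup.mem_centralizer_singleton_iff.2
                (Subgroup.mem_centralizer_iff.1 (hf i (Finset.mem_insert_of_mem hi)).2 y hy))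
              (fun y hy => Subgroup.mem_centralizer_singleton_iff.2 (by
                nth_rw 2 [← hfix y hy]; group))
            exact Subgroup.mem_centralizer_iff.2 fun y hy => Subgroup.mem_centralizer_singleton_iff.1 (hle hy)
          -- maximality, transported to `B`
          have hbig : V ⊓ Subgroup.centralizer ((Bi i ⊔ Bi j : Subgroup G) : Set G) = ⊥ := by
            by_contra hne'
            obtain ⟨x, hx, hx1⟩ := (Subgroup.bot_or_exists_ne_one _).resolve_left hne'
            set B' := (Bi i ⊔ Bi j).comap (MulAut.conj (t ^ (i : ℕ))).toMonoidHom with hB'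
            have hB'A : B' ≤ A₀ := fun y hy => by
              have h1 : t ^ (i : ℕ) * y * (t ^ (i : ℕ))⁻¹ ∈ A₀ := sup_le (hBiA i) (hBiA j) hy
              exact (Subgroup.mem_normalizer_iff.1 (htAi i) y).2 h1
            have hBB' : B ≤ B' := fun y hy => Subgroup.mem_sup_left ⟨y, hy, rfl⟩
            have hB'U : V ⊓ Subgroup.centralizer (B' : Set G) ≠ ⊥ := by
              refine fun e => hx1 ?_
              have h1 : (t ^ (i : ℕ))⁻¹ * x * t ^ (i : ℕ) ∈ V ⊓ Subgroup.centralizer (B' : Set G) := by
                refine ⟨(Subgroup.mem_normalizer_iff''.1 (pow_mem htV i) x).1 hx.1, Subgroup.mem_centralizer_iff.2 fun y hy => ?_⟩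
                have h2 := congrArg (fun z => (t ^ (i : ℕ))⁻¹ * z * t ^ (i : ℕ))
                  (Subgroup.mem_centralizer_iff.1 hx.2 _ (show t ^ (i : ℕ) * y * (t ^ (i : ℕ))⁻¹ ∈ Bi i ⊔ Bi j from hy))
                simpa [mul_assoc] using h2
              rw [e, Subgroup.mem_bot] at h1
              have h3 := congrArg (fun z => t ^ (i : ℕ) * z * (t ^ (i : ℕ))⁻¹) h1
              simpa [mul_assoc] using h3
            have hle := hBm ⟨hB'A, hB'U⟩ hBB'
            refine hBidist j i j.2 i.2 (fun e => hne (Fin.ext e.symm)) fun y hy => ?_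
            refine Subgroup.mem_map_equiv.2 (hle ?_)
            show t ^ (i : ℕ) * ((MulAut.conj (t ^ (i : ℕ))).symm y) * (t ^ (i : ℕ))⁻¹ ∈ Bi i ⊔ Bi j
            have e : t ^ (i : ℕ) * ((MulAut.conj (t ^ (i : ℕ))).symm y) * (t ^ (i : ℕ))⁻¹ = y := by
              rw [MulAut.conj_symm_apply]; group
            rw [e]
            exact Subgroup.mem_sup_right (S := Bi i) hy
          rw [hbig, Subgroup.mem_bot] at hmem
          exact Subtype.ext hmem
        intro i hi'
        rcases Finset.mem_insert.1 hi' with rfl | h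
        · rw [Finset.prod_eq_one hi, mul_one] at hprod; exact hprod
        · exact hi i h
    -- the product map
    have hUV : ∀ i, U i ≤ V := fun i => inf_le_left
    open scoped IsMulCommutative in
    let Φ : ((i : Fin p) → U i) →* V :=
      { toFun := fun f => ∏ i, (⟨(f i : G), hUV i (f i).2⟩ : V)
        map_one' := Finset.prod_eq_one fun i _ => Subtype.ext rfl
        map_mul' := fun f g => by
          rw [← Finset.prod_mul_distrib]
          exact Finset.prod_congr rfl fun i _ => Subtype.ext rfl }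
    open scoped IsMulCommutative in
    have hΦinj : Function.Injective Φ := by
      refine (injective_iff_map_eq_one Φ).2 fun f hf => funext fun i => Subtype.ext ?_
      have := indep Finset.univ (fun i => ⟨(f i : G), hUV i (f i).2⟩) (fun i _ => (f i).2) hf i (Finset.mem_univ _)
      exact congrArg (fun z : V => (z : G)) this
    open scoped IsMulCommutative in
    have hsingle : ∀ (i : Fin p) (x : G) (hx : x ∈ U i), (Φ (Pi.mulSingle i ⟨x, hx⟩) : G) = x := by
      intro i x hx
      show ((∏ k, (⟨((Pi.mulSingle i (⟨x, hx⟩ : U i) : (k : Fin p) → U k) k : G), _⟩ : V) : V) : G) = x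
      rw [Finset.prod_eq_single i (fun k _ hk => Subtype.ext (by rw [Pi.mulSingle_eq_of_ne hk]; rfl))
        (fun h => absurd (Finset.mem_univ i) h)]
      rw [Pi.mulSingle_eq_same]
    have hp0 : 0 < p := by omega
    let nxt : Fin p → Fin p := fun i => ⟨((i : ℕ) + 1) % p, Nat.mod_lt _ hp0⟩
    have hnxt : ∀ i : Fin p, ∀ x ∈ U i, t * x * t⁻¹ ∈ U (nxt i) := by
      intro i x hx
      have h := hUt i x hx
      by_cases hi : (i : ℕ) + 1 < p
      · have e : ((nxt i : Fin p) : ℕ) = i + 1 := Nat.mod_eq_of_lt hi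
        rwa [e]
      · have hip : (i : ℕ) + 1 = p := by omega
        have e : ((nxt i : Fin p) : ℕ) = 0 := by show ((i : ℕ) + 1) % p = 0; rw [hip, Nat.mod_self]
        rw [e, ← hU0p, ← hip]
        exact h
    open scoped IsMulCommutative in
    have hΦsurj : ∀ v ∈ V, ∃ f, (Φ f : G) = v := by
      set W := Φ.range.map V.subtype with hW
      have hgen : ∀ i : Fin p, U i ≤ W := fun i x hx =>
        ⟨_, ⟨Pi.mulSingle i ⟨x, hx⟩, rfl⟩, hsingle i x hx⟩
      have hWle : W ≤ V := Subgroup.map_subtype_le _
      have hWsup : W ≤ ⨆ i : Fin p, U i := by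
        rintro _ ⟨_, ⟨f, rfl⟩, rfl⟩
        have : Φ f ∈ (⨆ i : Fin p, U i).subgroupOf V :=
          Subgroup.prod_mem _ fun i _ => (show (⟨(f i : G), hUV i (f i).2⟩ : V) ∈ (⨆ i : Fin p, U i).subgroupOf V
            from Subgroup.mem_subgroupOf.2 (le_iSup (fun i : Fin p => U i) i (f i).2))
        exact this
      have hconjle : ∀ g : G, (∀ i : Fin p, ∀ x ∈ U i, g * x * g⁻¹ ∈ W) →
          g ∈ Subgroup.normalizer (W : Set G) := by
        intro g hg
        refine CfsgLib.CoprimeAction.mem_normalizer_of_conj_mem fun x hx => ?_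
        have hle : (⨆ i : Fin p, U i) ≤ W.comap (MulAut.conj g).toMonoidHom := iSup_le fun i y hy => hg i y hy
        exact hle (hWsup hx)
      have hWt : t ∈ Subgroup.normalizer (W : Set G) :=
        hconjle t fun i x hx => hgen (nxt i) (hnxt i x hx)
      have hWR : R ≤ Subgroup.normalizer (W : Set G) := fun g hg =>
        hconjle g fun i x hx => hgen i (by
          refine ⟨(Subgroup.mem_normalizer_iff.1 (hRV hg) x).1 hx.1, Subgroup.mem_centralizer_iff.2 fun y hy => ?_⟩
          have hyg : g * y = y * g := Subgroup.mem_centralizer_iff.1 (hA₀c (hBiA i hy)) g hg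
          have hyg' : y * g⁻¹ = g⁻¹ * y := (Commute.inv_right hyg.symm).eq
          have hyx : y * x = x * y := Subgroup.mem_centralizer_iff.1 hx.2 y hy
          calc y * (g * x * g⁻¹) = g * (y * x) * g⁻¹ := by rw [← mul_assoc, ← mul_assoc, ← hyg, mul_assoc g y x]
            _ = g * x * (y * g⁻¹) := by rw [hyx]; group
            _ = g * x * g⁻¹ * y := by rw [hyg']; group)
      rcases hirr W hWle hWR hWt with h | h
      · exfalso
        refine hBU (le_bot_iff.1 ?_)
        rw [← h]
        intro x hx
        refine hgen ⟨0, hp0⟩ ?_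
        show x ∈ V ⊓ Subgroup.centralizer (B.map (MulAut.conj (t ^ 0)).toMonoidHom : Set G)
        have e : B.map (MulAut.conj (t ^ 0)).toMonoidHom = B := by
          rw [pow_zero, map_one]; exact Subgroup.map_id _
        rw [e]; exact hx
      · intro v hv
        rw [← h] at hv
        obtain ⟨_, ⟨f, rfl⟩, hfv⟩ := hv
        exact ⟨f, hfv⟩
    have hVcard : Nat.card V = Nat.card (U 0) ^ p := by
      have hsurj : Function.Surjective Φ := fun v => by
        obtain ⟨f, hf⟩ := hΦsurj v v.2
        exact ⟨f, Subtype.ext hf⟩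
      rw [← Nat.card_eq_of_bijective Φ ⟨hΦinj, hsurj⟩, Nat.card_pi, Finset.prod_congr rfl fun i _ => ?_,
        Finset.prod_const, Finset.card_univ, Fintype.card_fin]
      have e : U i = (U 0).map (MulAut.conj (t ^ (i : ℕ))).toMonoidHom := by
        ext x; rw [Subgroup.mem_map_equiv, hUconj, MulAut.conj_symm_apply]
      rw [e, Subgroup.card_map_of_injective (MulEquiv.injective _)]
    open scoped IsMulCommutative in
    have hCle : Nat.card C ≤ Nat.card (U 0) := by
      have hex : ∀ c : C, ∃ f, (Φ f : G) = c := fun c => hΦsurj c c.2.1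
      choose f hf using hex
      refine Nat.card_le_card_of_injective (fun c => (⟨(f c ⟨0, hp0⟩ : G), (f c ⟨0, hp0⟩).2⟩ : U 0)) fun c c' he => ?_
      have e0 : (f c ⟨0, hp0⟩ : G) = f c' ⟨0, hp0⟩ := congrArg (fun z : U 0 => (z : G)) he
      -- the coordinates of a fixed point are translates of the first one
      have hstep : ∀ c : C, ∀ i : Fin p, (f c (nxt i) : G) = t * f c i * t⁻¹ := by
        intro c i
        have hbij : Function.Bijective nxt := (Finite.injective_iff_bijective).1 fun a b hab => by
          have h := congrArg Fin.val hab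
          simp only [nxt] at h
          apply Fin.ext
          by_cases ha : (a : ℕ) + 1 < p <;> by_cases hb : (b : ℕ) + 1 < p
          · rw [Nat.mod_eq_of_lt ha, Nat.mod_eq_of_lt hb] at h; omega
          · rw [Nat.mod_eq_of_lt ha, show (b : ℕ) + 1 = p by omega, Nat.mod_self] at h; omega
          · rw [Nat.mod_eq_of_lt hb, show (a : ℕ) + 1 = p by omega, Nat.mod_self] at h; omega
          · omega
        let σ := Equiv.ofBijective nxt hbij
        let g : (k : Fin p) → U k := fun k => ⟨t * (f c (σ.symm k) : G) * t⁻¹, by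
          have := hnxt (σ.symm k) _ (f c (σ.symm k)).2
          rwa [show nxt (σ.symm k) = k from σ.apply_symm_apply k] at this⟩
        have hg : Φ g = Φ (f c) := by
          let τ : V →* V :=
            { toFun := fun v => ⟨t * v * t⁻¹, (Subgroup.mem_normalizer_iff.1 htV v).1 v.2⟩
              map_one' := Subtype.ext (by simp)
              map_mul' := fun u v => Subtype.ext (by simp [mul_assoc]) }
          have h1 : τ (Φ (f c)) = Φ g := by
            simp only [Φ, MonoidHom.coe_mk, OneHom.coe_mk, map_prod]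
            refine Fintype.prod_equiv σ _ _ fun k => Subtype.ext ?_
            show t * (f c k : G) * t⁻¹ = t * (f c (σ.symm (σ k)) : G) * t⁻¹
            rw [σ.symm_apply_apply]
          rw [← h1]
          refine Subtype.ext ?_
          show t * (Φ (f c) : G) * t⁻¹ = Φ (f c)
          rw [hf]; exact hCfix c c.2
        have h2 := congrFun (hΦinj hg) (nxt i)
        rw [← h2]
        show t * (f c (σ.symm (σ i)) : G) * t⁻¹ = _
        rw [σ.symm_apply_apply]
      have hall : ∀ n, ∀ hn : n < p, (f c ⟨n, hn⟩ : G) = f c' ⟨n, hn⟩ := by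
        intro n
        induction n with
        | zero => intro _; exact e0
        | succ n ihn =>
          intro hn
          have e : nxt ⟨n, by omega⟩ = ⟨n + 1, hn⟩ := Fin.ext (Nat.mod_eq_of_lt hn)
          rw [← e, hstep, hstep, ihn (by omega)]
      refine Subtype.ext ?_
      rw [← hf c, ← hf c']
      congr 2
      exact funext fun i => Subtype.ext (hall i i.2)
    rw [hVcard]
    exact (Nat.pow_le_pow_left hCle 3).trans (Nat.pow_le_pow_right Nat.card_pos hp3)

end CfsgLib.MetacyclicP.FixedGen
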