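import Mathlib
import Cfsg.Agent.Lib.MetacyclicP.FixedGenBasic
import Cfsg.Agent.Lib.MetacyclicP.FixedGenCount

/-!
Coprime action of a group `A` of odd prime order: `C_{[H,A]}(A)` is generated by the
`C_{[h,A]}(A)`.
-/

set_option autoImplicit false
set_option linter.style.haveILetI false

open scoped commutatorElement

namespace CfsgLib.MetacyclicP.FixedGen

open CfsgLib.CoprimeAction

universe u

/-- The induction hypothesis. -/
def SmallerOK (p m : ℕ) : Prop :=
  ∀ (G : Type u) [Group G] [Finite G] (A H : Subgroup G), Nat.card H < m → Group.IsSolvable H →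
    A ≤ Subgroup.normalizer (H : Set G) → Nat.card A = p → (Nat.card A).Coprime (Nat.card H) →
    ⁅H, A⁆ ⊓ Subgroup.centralizer (A : Set G) ≤ fixGen A H

variable {p : ℕ} [hp : Fact p.Prime] {G : Type u} [Group G] [Finite G] {A H : Subgroup G}

theorem isSolvable_of_card_prime (hA : Nat.card A = p) : Group.IsSolvable A := by
  haveI := isCyclic_of_prime_card hA
  letI := IsCyclic.commGroup (α := A)
  exact Group.isSolvable_of_comm fun x y => mul_comm x y

/-- Fixed points of the invariant proper subgroup `S`. -/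
theorem inf_centralizer_le_of_lt (IH : SmallerOK.{u} p (Nat.card H)) (hA : Nat.card A = p)
    [Group.IsSolvable H] (hcop : (Nat.card A).Coprime (Nat.card H)) {S : Subgroup G} (hS : S < H)
    (hAS : A ≤ Subgroup.normalizer (S : Set G)) :
    ⁅S, A⁆ ⊓ Subgroup.centralizer (A : Set G) ≤ fixGen A H :=
  (IH G A S (lt_of_le_of_ne (Subgroup.card_le_of_le hS.le)
      fun e => hS.ne (Subgroup.eq_of_le_of_card_ge hS.le e.ge)) (isSolvable_of_le hS.le) hAS hA
    (card_coprime_of_le hcop hS.le)).trans (fixGen_mono hS.le)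

/-- Modulo a nontrivial invariant normal subgroup. -/
theorem inf_centralizer_le_fixGen_sup (IH : SmallerOK.{u} p (Nat.card H)) (hA : Nat.card A = p)
    [Group.IsSolvable H] (hAH : A ≤ Subgroup.normalizer (H : Set G))
    (hcop : (Nat.card A).Coprime (Nat.card H)) (hHA : ⁅H, A⁆ = H) {V : Subgroup G} (hV : V ≤ H)
    (hVne : V ≠ ⊥) (hHV : H ≤ Subgroup.normalizer (V : Set G))
    (hAV : A ≤ Subgroup.normalizer (V : Set G)) :
    H ⊓ Subgroup.centralizer (A : Set G) ≤ fixGen A H ⊔ V := by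
  have hAs := isSolvable_of_card_prime hA
  set R := Subgroup.normalizer (V : Set G) with hR
  haveI : (V.subgroupOf R).Normal := Subgroup.normal_subgroupOf_of_le_normalizer le_rfl
  have hVR : V ≤ R := Subgroup.le_normalizer
  set π := QuotientGroup.mk' (V.subgroupOf R) with hπ
  set A' := A.subgroupOf R with hA'
  set H' := H.subgroupOf R with hH'
  have hAH' : A' ≤ Subgroup.normalizer (H' : Set R) := fun a ha =>
    Subgroup.mem_normalizer_iff.2 fun x => Subgroup.mem_normalizer_iff.1 (hAH ha) (x : G)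
  have hcA : Nat.card A' = p := by rw [hA', Nat.card_congr (Subgroup.subgroupOfEquivOfLe hAV).toEquiv, hA]
  have hcH : Nat.card H' = Nat.card H := by
    rw [hH', Nat.card_congr (Subgroup.subgroupOfEquivOfLe hHV).toEquiv]
  have hcV : Nat.card (V.subgroupOf R) = Nat.card V :=
    Nat.card_congr (Subgroup.subgroupOfEquivOfLe hVR).toEquiv
  have hcop' : (Nat.card A').Coprime (Nat.card H') := by rwa [hcA, hcH, ← hA]
  haveI : Group.IsSolvable H' :=
    Group.isSolvable_of_surjective (Subgroup.subgroupOfEquivOfLe hHV).symm.surjective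
      (f := (Subgroup.subgroupOfEquivOfLe hHV).symm.toMonoidHom)
  haveI : Group.IsSolvable (H'.map π) := Group.isSolvable_of_surjective (π.subgroupMap_surjective H')
  have hcardH : Nat.card V * Nat.card (H'.map π) = Nat.card H := by
    rw [← hcH, ← hcV, ← CfsgLib.Cores.card_comap_mk', ← hπ, Subgroup.comap_map_eq, hπ,
      QuotientGroup.ker_mk', sup_eq_left.2 (show V.subgroupOf R ≤ H' from Subgroup.comap_mono hV)]
  have hcardA : Nat.card (A'.map π) = p := by
    rcases (Nat.dvd_prime hp.out).1 (hcA ▸ Subgroup.card_map_dvd A' π) with h | h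
    · exfalso
      have h1 : A' ≤ V.subgroupOf R := fun a ha => by
        haveI := (Nat.card_eq_one_iff_unique.1 h).1
        have h2 : (⟨π a, a, ha, rfl⟩ : A'.map π) = 1 := Subsingleton.elim _ _
        exact (QuotientGroup.eq_one_iff a).1 (congrArg Subtype.val h2)
      have h3 : Nat.card A' ∣ Nat.card H := (Subgroup.card_dvd_of_le h1).trans
        (hcV.dvd.trans (Subgroup.card_dvd_of_le hV))
      rw [hcA, ← hA] at h3
      have := hp.out.two_le
      have := Nat.Coprime.eq_one_of_dvd hcop h3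
      omega
    · exact h
  have hlt : Nat.card (H'.map π) < Nat.card H := by
    rw [← hcardH]
    exact lt_mul_of_one_lt_left Nat.card_pos (Subgroup.one_lt_card_iff_ne_bot _ |>.2 hVne)
  have hih := IH (R ⧸ V.subgroupOf R) (A'.map π) (H'.map π) hlt inferInstance
    ((Subgroup.map_mono hAH').trans (Subgroup.le_normalizer_map π)) hcardA
    (hcardA ▸ hcA ▸ hcop'.coprime_dvd_right (Subgroup.card_map_dvd _ π))
  have hcomm : ⁅H', A'⁆ = H' := by
    apply Subgroup.map_injective R.subtype_injective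
    rw [Subgroup.map_commutator, hH', hA', Subgroup.map_subgroupOf_eq_of_le hHV,
      Subgroup.map_subgroupOf_eq_of_le hAV, hHA]
  rintro c ⟨hcH', hcC⟩
  have h1 : π ⟨c, hHV hcH'⟩ ∈ ⁅H'.map π, A'.map π⁆ ⊓ Subgroup.centralizer (A'.map π : Set (R ⧸ V.subgroupOf R)) := by
    refine ⟨?_, Subgroup.mem_centralizer_iff.2 ?_⟩
    · rw [← Subgroup.map_commutator, hcomm]; exact ⟨⟨c, hHV hcH'⟩, hcH', rfl⟩
    · rintro _ ⟨a, ha, rfl⟩
      rw [← map_mul, ← map_mul]
      exact congrArg π (Subtype.ext (Subgroup.mem_centralizer_iff.1 hcC a ha))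
  obtain ⟨x, hx, hxc⟩ := fixGen_quotient (isSolvable_of_card_prime hcA) hAH' hcop' (V.subgroupOf R) (hih h1)
  have hxG : (x : G) ∈ fixGen A H := by
    have hle : fixGen A' H' ≤ (fixGen A H).comap R.subtype := by
      refine iSup_le fun h => ?_
      rintro y ⟨hy, hyA⟩
      refine cl_inf_le_fixGen (A := A) (h := ((h : R) : G)) h.2 ⟨?_, ?_⟩
      · have hle' : cl A' (h : R) ≤ (cl A ((h : R) : G)).comap R.subtype := by
          refine (Subgroup.closure_le _).2 ?_
          rintro _ ⟨a, ha, rfl⟩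
          exact gen_mem_cl (A := A) ha _
        exact hle' hy
      · exact Subgroup.mem_centralizer_iff.2 fun a ha =>
          congrArg Subtype.val (Subgroup.mem_centralizer_iff.1 hyA ⟨a, hAV ha⟩ ha)
    exact hle hx
  have hv : x⁻¹ * (⟨c, hHV hcH'⟩ : R) ∈ V.subgroupOf R := QuotientGroup.eq.1 hxc
  have : (x : G) * ((x⁻¹ * (⟨c, hHV hcH'⟩ : R) : R) : G) = c := by simp
  rw [← this]
  exact mul_mem (Subgroup.mem_sup_left hxG) (Subgroup.mem_sup_right hv)

/-- Derived subgroups of proper invariant subgroups, modulo a central `V`. -/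
theorem derived_inf_centralizer_le (IH : SmallerOK.{u} p (Nat.card H)) (hA : Nat.card A = p)
    [Group.IsSolvable H] (hAH : A ≤ Subgroup.normalizer (H : Set G))
    (hcop : (Nat.card A).Coprime (Nat.card H)) {V : Subgroup G}
    (hVc : V ≤ Subgroup.centralizer (H : Set G))
    (hfix : H ⊓ Subgroup.centralizer (A : Set G) ≤ fixGen A H ⊔ V) {S : Subgroup G} (hS : S < H)
    (hAS : A ≤ Subgroup.normalizer (S : Set G)) :
    ⁅S, S⁆ ⊓ Subgroup.centralizer (A : Set G) ≤ fixGen A H := by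
  have hAs := isSolvable_of_card_prime hA
  set M := ⁅S, A⁆ with hM
  set CS := S ⊓ Subgroup.centralizer (A : Set G) with hCS
  set X := fixGen A H with hX
  have hSn : S ≤ Subgroup.normalizer (M : Set G) :=
    le_sup_left.trans (sup_le_normalizer_commutator A S)
  have hcsup := commutator_sup_centralizer hAS (card_coprime_of_le hcop hS.le) (Or.inl hAs)
  have hXH : X ≤ H := fixGen_le_commutator.trans (commutator_le_left hAH)
  have hCC : ⁅CS, CS⁆ ≤ X := by
    refine Subgroup.commutator_le.2 fun a ha b hb => ?_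
    have hdec : ∀ c ∈ CS, ∃ x ∈ X, ∃ v ∈ V, c = x * v := fun c hc => by
      open scoped Pointwise in
      have h1 : c ∈ (X : Set G) * (V : Set G) := by
        rw [← Subgroup.coe_mul_of_left_le_normalizer_right]
        · exact hfix ⟨hS.le hc.1, hc.2⟩
        · intro x hx
          refine mem_normalizer_of_conj_mem fun v hv => ?_
          rw [Subgroup.mem_centralizer_iff.1 (hVc hv) x (hXH hx), mul_inv_cancel_right]
          exact hv
      obtain ⟨x, hx, v, hv, hxv⟩ := h1
      exact ⟨x, hx, v, hv, hxv.symm⟩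
    obtain ⟨x, hx, v, hv, rfl⟩ := hdec a ha
    obtain ⟨y, hy, w, hw, hyw⟩ := hdec b hb
    have hbH : b ∈ H := hS.le hb.1
    have cv : v * b = b * v := (Subgroup.mem_centralizer_iff.1 (hVc hv) b hbH).symm
    have cw : x * w = w * x := Subgroup.mem_centralizer_iff.1 (hVc hw) x (hXH hx)
    have e : ⁅x * v, b⁆ = ⁅x, y⁆ := by
      calc ⁅x * v, b⁆ = x * (v * b) * v⁻¹ * x⁻¹ * b⁻¹ := by rw [commutatorElement_def]; group
        _ = x * b * x⁻¹ * b⁻¹ := by rw [cv]; group
        _ = x * y * (w * x⁻¹) * (y * w)⁻¹ := by rw [hyw]; group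
        _ = x * y * (x⁻¹ * w) * (y * w)⁻¹ := by rw [show w * x⁻¹ = x⁻¹ * w from (Commute.inv_left cw).eq.symm]
        _ = ⁅x, y⁆ := by rw [commutatorElement_def]; group
    rw [e, commutatorElement_def]
    exact mul_mem (mul_mem (mul_mem hx hy) (inv_mem hx)) (inv_mem hy)
  have hnCC : ⁅CS, CS⁆ ≤ S :=
    (Subgroup.commutator_mono inf_le_left inf_le_left).trans (Subgroup.commutator_le.2 fun a ha b hb => by
      rw [commutatorElement_def]; exact mul_mem (mul_mem (mul_mem ha hb) (inv_mem ha)) (inv_mem hb))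
  set T := M ⊔ ⁅CS, CS⁆ with hT
  have hdec : ∀ s ∈ S, ∃ m ∈ M, ∃ c ∈ CS, s = m * c := fun s hs => by
    obtain ⟨m, hm, c, hc, rfl⟩ := commutator_sup_centralizer_aux hAS (card_coprime_of_le hcop hS.le) (Or.inl hAs) hs
    exact ⟨m, hm, c, hc, rfl⟩
  have hMc : ∀ m ∈ M, ∀ s ∈ S, ⁅m, s⁆ ∈ M := fun m hm s hs => by
    rw [commutatorElement_def, mul_assoc m s, mul_assoc m]
    exact mul_mem hm (conj_mem (hSn hs) (inv_mem hm))
  have hconj : ∀ m ∈ M, ∀ z ∈ T, m * z * m⁻¹ ∈ T := fun m hm z hz =>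
    mul_mem (mul_mem (Subgroup.mem_sup_left hm) hz) (inv_mem (Subgroup.mem_sup_left hm))
  have hD : ⁅S, S⁆ ≤ T := by
    refine Subgroup.commutator_le.2 fun s hs u hu => ?_
    obtain ⟨m, hm, c, hc, rfl⟩ := hdec s hs
    obtain ⟨m', hm', c', hc', rfl⟩ := hdec u hu
    have e : ⁅m * c, m' * c'⁆ = (m * (⁅m', c⁆⁻¹ * (m' * ⁅c, c'⁆ * m'⁻¹)) * m⁻¹) * ⁅m, m' * c'⁆ := by
      simp [commutatorElement_def, mul_assoc]
    rw [e]
    exact mul_mem (hconj m hm _ (mul_mem (inv_mem (Subgroup.mem_sup_left (hMc m' hm' c hc.1)))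
      (hconj m' hm' _ (Subgroup.mem_sup_right (Subgroup.commutator_mem_commutator hc hc')))))
      (Subgroup.mem_sup_left (hMc m hm _ hu))
  rintro z ⟨hz, hzC⟩
  open scoped Pointwise in
  have h1 : z ∈ (M : Set G) * ((⁅CS, CS⁆ : Subgroup G) : Set G) := by
    rw [← Subgroup.coe_mul_of_right_le_normalizer_left _ _ (hnCC.trans hSn)]; exact hD hz
  obtain ⟨n, hn, e, he, rfl⟩ := h1
  refine mul_mem ?_ (hCC he)
  refine inf_centralizer_le_of_lt IH hA hcop hS hAS ⟨hn, ?_⟩
  have heC : e ∈ Subgroup.centralizer (A : Set G) := fixGen_le_centralizer (hCC he)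
  simpa using (Subgroup.centralizer (A : Set G)).mul_mem hzC ((Subgroup.centralizer (A : Set G)).inv_mem heC)

theorem bot_lowerCentralSeries_bound (hnil : Group.IsNilpotent H) (hH : H ≠ ⊥) :
    ∃ n, H.lowerCentralSeries n ≠ ⊥ ∧ H.lowerCentralSeries (n + 1) = ⊥ := by
  classical
  have hex := (Subgroup.isNilpotent_iff_lowerCentralSeries (S := H)).1 hnil
  rcases h : Nat.find hex with - | n
  · exact absurd (by simpa [h] using Nat.find_spec hex) hH
  · exact ⟨n, Nat.find_min hex (by omega), h ▸ Nat.find_spec hex⟩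

set_option maxHeartbeats 1000000 in
/-- The nilpotent case. -/
theorem nilpotent_case (hp2 : p ≠ 2) (IH : SmallerOK.{u} p (Nat.card H)) (hA : Nat.card A = p)
    [Group.IsSolvable H] (hAH : A ≤ Subgroup.normalizer (H : Set G))
    (hcop : (Nat.card A).Coprime (Nat.card H)) (hHA : ⁅H, A⁆ = H) (hnil : Group.IsNilpotent H) :
    H ⊓ Subgroup.centralizer (A : Set G) ≤ fixGen A H := by
  have hAs := isSolvable_of_card_prime hA
  set X := fixGen A H with hX
  rcases eq_or_ne H ⊥ with hbot | hbot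
  · exact inf_le_left.trans (hbot ▸ bot_le)
  by_cases hone : ∃ h ∈ H, cl A h = H
  · obtain ⟨h, hh, hcl⟩ := hone
    exact hcl ▸ cl_inf_le_fixGen hh
  push Not at hone
  obtain ⟨n, hn, hn1⟩ := bot_lowerCentralSeries_bound hnil hbot
  set L := H.lowerCentralSeries n with hL
  have hLH : L ≤ H := (H.lowerCentralSeries_antitone (Nat.zero_le n)).trans_eq (Subgroup.lowerCentralSeries_zero H)
  rw [Subgroup.lowerCentralSeries_succ, Subgroup.commutator_eq_bot_iff_le_centralizer] at hn1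
  have hcharA : ∀ j, A ≤ Subgroup.normalizer (H.lowerCentralSeries j : Set G) := fun j a ha => by
    refine mem_normalizer_of_conj_mem fun x hx => ?_
    have e : H.map (MulAut.conj a).toMonoidHom = H := by
      ext y
      rw [Subgroup.mem_map_equiv, MulAut.conj_symm_apply]
      exact (Subgroup.mem_normalizer_iff''.1 (hAH ha) y).symm
    rw [← e, ← Subgroup.map_lowerCentralSeries]
    exact ⟨x, hx, rfl⟩
  haveI hLc : IsMulCommutative L := ⟨⟨fun x y => Subtype.ext
    (Subgroup.mem_centralizer_iff.1 (hn1 x.2) y (hLH y.2)).symm⟩⟩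
  rcases Nat.eq_zero_or_pos n with hn0 | hn0
  · -- abelian
    subst hn0
    haveI : IsMulCommutative H := hLc
    have h := inf_commutator_eq_bot hAH hcop
    rw [hHA] at h
    exact le_trans (le_inf le_rfl inf_le_left) (h.le.trans bot_le)
  have hfix := inf_centralizer_le_fixGen_sup IH hA hAH hcop hHA hLH hn
    (H.self_le_normalizer_lowerCentralSeries n) (hcharA n)
  have hcopL := card_coprime_of_le hcop hLH
  -- it is enough to treat `L`
  suffices hLY : L ≤ ⁅L, A⁆ ⊔ (L ⊓ X) by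
    rintro c ⟨hcH, hcC⟩
    have hLX : L ⊓ Subgroup.centralizer (A : Set G) ≤ X :=
      (inf_centralizer_le_of_le (hcharA n) hcopL inf_le_left
        (inf_le_right.trans fixGen_le_centralizer) hLY).trans inf_le_right
    open scoped Pointwise in
    have h1 : c ∈ (X : Set G) * (L : Set G) := by
      rw [← Subgroup.coe_mul_of_left_le_normalizer_right _ _
        ((fixGen_le_commutator.trans hHA.le).trans (H.self_le_normalizer_lowerCentralSeries n))]
      exact hfix ⟨hcH, hcC⟩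
    obtain ⟨x, hx, l, hl, rfl⟩ := h1
    refine mul_mem hx (hLX ⟨hl, ?_⟩)
    simpa using (Subgroup.centralizer (A : Set G)).mul_mem
      ((Subgroup.centralizer (A : Set G)).inv_mem (fixGen_le_centralizer hx)) hcC
  set Y := ⁅L, A⁆ ⊔ (L ⊓ X) with hY
  have hYL : Y ≤ L := sup_le (commutator_le_left (hcharA n)) inf_le_left
  have hMY : ∀ M : Subgroup G, M ≤ L → A ≤ Subgroup.normalizer (M : Set G) →
      M ⊓ Subgroup.centralizer (A : Set G) ≤ X → M ≤ Y := fun M hM hAM hMX =>
    le_commutator_sup_of_inf_le hAs hcopL hM hAM (le_inf (inf_le_left.trans hM) hMX)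
  set D := ⁅H, H⁆ with hD
  have hDH : D ≤ H := Subgroup.commutator_le.2 fun a ha b hb => by
    rw [commutatorElement_def]; exact mul_mem (mul_mem (mul_mem ha hb) (inv_mem ha)) (inv_mem hb)
  have hDA : A ≤ Subgroup.normalizer (D : Set G) := hAH.trans (normalizer_le_normalizer_commutator H)
  rcases Nat.lt_or_ge n 2 with hn2 | hn2
  · -- class two
    obtain rfl : n = 1 := by omega
    have hLD : L = D := by
      rw [hL, show (1 : ℕ) = 0 + 1 from rfl, Subgroup.lowerCentralSeries_succ, Subgroup.lowerCentralSeries_zero]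
    have hcen : ∀ l ∈ L, ∀ h ∈ H, h * l = l * h := fun l hl h hh => Subgroup.mem_centralizer_iff.1 (hn1 hl) h hh
    have hcl : ∀ a ∈ H, ∀ b ∈ H, ⁅a, b⁆ ∈ L := fun a ha b hb => hLD ▸ Subgroup.commutator_mem_commutator ha hb
    have hmulL : ∀ a ∈ H, ∀ b ∈ H, ∀ c ∈ H, ⁅a * b, c⁆ = ⁅a, c⁆ * ⁅b, c⁆ := by
      intro a ha b hb c hc
      have e : ⁅a * b, c⁆ = a * ⁅b, c⁆ * a⁻¹ * ⁅a, c⁆ := by simp [commutatorElement_def, mul_assoc]
      rw [e, hcen _ (hcl b hb c hc) a ha, mul_inv_cancel_right, hcen _ (hcl a ha c hc) _ (hLH (hcl b hb c hc))]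
    have hmulR : ∀ a ∈ H, ∀ b ∈ H, ∀ c ∈ H, ⁅a, b * c⁆ = ⁅a, b⁆ * ⁅a, c⁆ := by
      intro a ha b hb c hc
      have e : ⁅a, b * c⁆ = ⁅a, b⁆ * (b * ⁅a, c⁆ * b⁻¹) := by simp [commutatorElement_def, mul_assoc]
      rw [e, hcen _ (hcl a ha c hc) b hb, mul_inv_cancel_right]
    obtain ⟨t, ht, htne⟩ := (Subgroup.bot_or_exists_ne_one A).resolve_left (fun e => by
      rw [e, Subgroup.card_bot] at hA; exact hp.out.one_lt.ne hA)
    have hgenA : ∀ s ∈ A, s ≠ 1 → A = Subgroup.zpowers s := fun s hs hs1 => by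
      refine (Subgroup.eq_of_le_of_card_ge (Subgroup.zpowers_le.2 hs) ?_).symm
      rcases (Nat.dvd_prime hp.out).1 (hA ▸ Subgroup.card_dvd_of_le (Subgroup.zpowers_le.2 hs)) with h | h
      · exact absurd (Subgroup.zpowers_eq_bot.1 (Subgroup.card_eq_one.1 h)) hs1
      · rw [hA, h]
    have hAHconj : ∀ s ∈ A, ∀ h ∈ H, s * h * s⁻¹ ∈ H := fun s hs h hh => conj_mem (hAH hs) hh
    have hfixD : H ⊓ Subgroup.centralizer (A : Set G) ≤ D := inf_centralizer_le_derived hAH hcop hHA
    -- `h ↦ h⁻¹ (s h s⁻¹)` is onto modulo `D`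
    have honto : ∀ s ∈ A, s ≠ 1 → ∀ w ∈ H, ∃ h ∈ H, (h⁻¹ * (s * h * s⁻¹))⁻¹ * w ∈ D := by
      intro s hs hs1
      haveI hDn : (D.subgroupOf H).Normal :=
        Subgroup.normal_subgroupOf_of_le_normalizer (Subgroup.le_normalizer.trans (normalizer_le_normalizer_commutator H))
      let τ : H →* H :=
        { toFun := fun h => ⟨s * h * s⁻¹, hAHconj s hs h h.2⟩
          map_one' := Subtype.ext (by simp)
          map_mul' := fun a b => Subtype.ext (by simp [mul_assoc]) }
      set π := QuotientGroup.mk' (D.subgroupOf H) with hπ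
      have hcomm : ∀ a b : H, π a * π b = π b * π a := fun a b => by
        rw [← commutatorElement_eq_one_iff_mul_comm, ← map_commutatorElement]
        exact (QuotientGroup.eq_one_iff _).2 (Subgroup.commutator_mem_commutator a.2 b.2)
      let F : H ⧸ D.subgroupOf H → H ⧸ D.subgroupOf H := fun w =>
        w⁻¹ * QuotientGroup.map (D.subgroupOf H) (D.subgroupOf H) τ (fun x hx => by
          show s * (x : G) * s⁻¹ ∈ D
          exact conj_mem (hDA hs) hx) w
      have hFval : ∀ h : H, F (π h) = π (h⁻¹ * τ h) := fun h => by rw [map_mul, map_inv]; rfl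
      have hinj : Function.Injective F := by
        intro a b hab
        obtain ⟨a, rfl⟩ := QuotientGroup.mk'_surjective _ a
        obtain ⟨b, rfl⟩ := QuotientGroup.mk'_surjective _ b
        rw [hFval, hFval, map_mul, map_mul, map_inv, map_inv] at hab
        have hz : π (τ (b * a⁻¹)) = π (b * a⁻¹) := by
          rw [map_mul, map_inv, map_mul, map_inv, map_mul, map_inv]
          have h1 : π (τ b) = π b * ((π a)⁻¹ * π (τ a)) := by rw [hab, mul_inv_cancel_left]
          rw [h1, mul_assoc, mul_assoc, mul_inv_cancel, mul_one]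
        set z : H := b * a⁻¹
        have hzD : (z : G) ∈ D := by
          have hfix' : ∀ r ∈ A, (z : G)⁻¹ * (r * z * r⁻¹) ∈ D := by
            intro r hr
            rw [hgenA s hs hs1] at hr
            let Fx : Subgroup G :=
              { carrier := {r | r ∈ A ∧ (z : G)⁻¹ * (r * z * r⁻¹) ∈ D}
                one_mem' := ⟨one_mem _, by simp⟩
                mul_mem' := fun {r q} hr hq => ⟨mul_mem hr.1 hq.1, by
                  rw [show (z : G)⁻¹ * (r * q * z * (r * q)⁻¹) =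
                    ((z : G)⁻¹ * (r * z * r⁻¹)) * (r * ((z : G)⁻¹ * (q * z * q⁻¹)) * r⁻¹) by group]
                  exact mul_mem hr.2 (conj_mem (hDA hr.1) hq.2)⟩
                inv_mem' := fun {r} hr => ⟨inv_mem hr.1, by
                  rw [show (z : G)⁻¹ * (r⁻¹ * z * r⁻¹⁻¹) = (r⁻¹ * ((z : G)⁻¹ * (r * z * r⁻¹)) * r⁻¹⁻¹)⁻¹ by group]
                  exact inv_mem (conj_mem (hDA (inv_mem hr.1)) hr.2)⟩ }
            have hz' : z⁻¹ * τ z ∈ D.subgroupOf H := QuotientGroup.eq.1 hz.symm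
            have hsF : s ∈ Fx := ⟨hs, hz'⟩
            exact ((Subgroup.zpowers_le.2 hsF : Subgroup.zpowers s ≤ Fx) hr).2
          obtain ⟨c, hc, hcz⟩ := exists_centralizer_mem_coset_of_le hDA hDH
            (card_coprime_of_le hcop hDH) (Or.inl hAs) z.2 hfix'
          have := mul_mem (hfixD hc) (inv_mem hcz)
          simpa using this
        have h3 : π z = 1 := (QuotientGroup.eq_one_iff z).2 hzD
        rw [map_mul, map_inv, mul_inv_eq_one] at h3
        exact h3.symm
      intro w hw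
      obtain ⟨q, hq⟩ := (Finite.injective_iff_surjective.1 hinj) (π ⟨w, hw⟩)
      obtain ⟨h, rfl⟩ := QuotientGroup.mk'_surjective _ q
      rw [hFval] at hq
      have hq' : (h⁻¹ * τ h)⁻¹ * ⟨w, hw⟩ ∈ D.subgroupOf H := QuotientGroup.eq.1 hq
      exact ⟨h, h.2, hq'⟩
    -- congruences modulo `Y`
    have htwist : ∀ l ∈ L, ∀ s ∈ A, s * l * s⁻¹ * l⁻¹ ∈ Y := fun l hl s hs => by
      refine Subgroup.mem_sup_left ?_
      rw [show s * l * s⁻¹ * l⁻¹ = ⁅l, s⁆⁻¹ by simp [commutatorElement_def, mul_assoc]]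
      exact inv_mem (Subgroup.commutator_mem_commutator hl hs)
    have horbit : ∀ u ∈ H, ⁅u, t * u * t⁻¹⁆ ∈ Y := by
      intro u hu
      obtain ⟨h, hh, hd⟩ := honto t ht htne u hu
      set k := h⁻¹ * (t * h * t⁻¹) with hk
      have hkcl : k ∈ cl A h := gen_mem_cl ht h
      have hkH : k ∈ H := cl_le hAH hh hkcl
      set d := k⁻¹ * u with hdd
      have hdL : d ∈ L := hLD ▸ hd
      have htk : t * k * t⁻¹ ∈ cl A h := conj_mem (le_normalizer_cl h ht) hkcl
      have e : ⁅u, t * u * t⁻¹⁆ = ⁅k, t * k * t⁻¹⁆ := by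
        have hu' : u = k * d := by rw [hdd, mul_inv_cancel_left]
        have htd : t * d * t⁻¹ ∈ L := conj_mem (hcharA 1 ht) hdL
        have z1 : ∀ l ∈ L, ∀ x ∈ H, ⁅l, x⁆ = 1 := fun l hl x hx =>
          commutatorElement_eq_one_iff_mul_comm.2 (hcen l hl x hx).symm
        have z2 : ∀ l ∈ L, ∀ x ∈ H, ⁅x, l⁆ = 1 := fun l hl x hx =>
          commutatorElement_eq_one_iff_mul_comm.2 (hcen l hl x hx)
        rw [hu', show t * (k * d) * t⁻¹ = (t * k * t⁻¹) * (t * d * t⁻¹) by group,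
          hmulL _ hkH _ (hLH hdL) _ (mul_mem (hAHconj t ht k hkH) (hLH htd)),
          z1 d hdL _ (mul_mem (hAHconj t ht k hkH) (hLH htd)), mul_one,
          hmulR _ hkH _ (hAHconj t ht k hkH) _ (hLH htd), z2 _ htd k hkH, mul_one]
      rw [e]
      refine hMY (cl A h ⊓ L) inf_le_right (fun a ha => mem_normalizer_of_conj_mem fun x hx =>
        ⟨conj_mem (le_normalizer_cl h ha) hx.1, conj_mem (hcharA 1 ha) hx.2⟩)
        ((inf_le_inf_right _ inf_le_left).trans (cl_inf_le_fixGen hh)) ⟨?_, hcl _ hkH _ (hAHconj t ht k hkH)⟩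
      show ⁅k, t * k * t⁻¹⁆ ∈ cl A h
      rw [commutatorElement_def]
      exact mul_mem (mul_mem (mul_mem hkcl htk) (inv_mem hkcl)) (inv_mem htk)
    have hYc : ∀ y ∈ Y, ∀ l ∈ L, y * l = l * y := fun y hy l hl => hcen l hl y (hLH (hYL hy))
    -- `β (u, t v) = β (t u, v)`
    have hsym : ∀ u ∈ H, ∀ v ∈ H, ⁅u, t * v * t⁻¹⁆ * ⁅t * u * t⁻¹, v⁆⁻¹ ∈ Y := by
      intro u hu v hv
      have htu := hAHconj t ht u hu
      have htv := hAHconj t ht v hv
      have h1 := horbit _ (mul_mem hu hv)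
      rw [show t * (u * v) * t⁻¹ = (t * u * t⁻¹) * (t * v * t⁻¹) by group,
        hmulL u hu v hv _ (mul_mem htu htv), hmulR u hu _ htu _ htv, hmulR v hv _ htu _ htv] at h1
      have h2 := mul_mem (mul_mem (inv_mem (horbit u hu)) h1) (inv_mem (horbit v hv))
      have e : ⁅u, t * v * t⁻¹⁆ * ⁅t * u * t⁻¹, v⁆⁻¹ = ⁅u, t * u * t⁻¹⁆⁻¹ *
          (⁅u, t * u * t⁻¹⁆ * ⁅u, t * v * t⁻¹⁆ * (⁅v, t * u * t⁻¹⁆ * ⁅v, t * v * t⁻¹⁆)) * ⁅v, t * v * t⁻¹⁆⁻¹ := by
        rw [commutatorElement_inv]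
        group
      rw [e]; exact h2
    have hall : ∀ u ∈ H, ∀ w ∈ H, ⁅u, w⁆ ∈ Y := by
      intro u hu w hw
      have ht2 : t * t ≠ 1 := fun e => by
        have h1 : orderOf t ∣ 2 := orderOf_dvd_of_pow_eq_one (by rw [pow_two]; exact e)
        have h2 : orderOf t ∣ p := hA ▸ Subgroup.orderOf_dvd_natCard A ht
        have h3 : (2 : ℕ).Coprime p := (Nat.coprime_primes Nat.prime_two hp.out).2 (Ne.symm hp2)
        exact htne (orderOf_eq_one_iff.1 (Nat.eq_one_of_dvd_coprimes h3 h1 h2))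
      obtain ⟨v, hv, hvd⟩ := honto (t * t) (mul_mem ht ht) ht2 w hw
      set d := (v⁻¹ * (t * t * v * (t * t)⁻¹))⁻¹ * w with hd
      have hvH : v⁻¹ * (t * t * v * (t * t)⁻¹) ∈ H :=
        mul_mem (inv_mem hv) (hAHconj _ (mul_mem ht ht) v hv)
      have hdL : d ∈ L := hLD ▸ hvd
      have ew : ⁅u, w⁆ = ⁅u, v⁆⁻¹ * ⁅u, t * t * v * (t * t)⁻¹⁆ := by
        have hw' : w = v⁻¹ * (t * t * v * (t * t)⁻¹) * d := by rw [hd, mul_inv_cancel_left]
        rw [hw', hmulR u hu _ hvH _ (hLH hdL),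
          commutatorElement_eq_one_iff_mul_comm.2 (hcen d hdL u hu), mul_one,
          hmulR u hu _ (inv_mem hv) _ (hAHconj _ (mul_mem ht ht) v hv)]
        congr 1
        have := hmulR u hu _ (inv_mem hv) _ hv
        rw [inv_mul_cancel, commutatorElement_eq_one_iff_mul_comm.2 (by rw [mul_one, one_mul])] at this
        exact eq_inv_of_mul_eq_one_left this.symm
      -- ⁅u, t t v⁆ ≡ ⁅t u, t v⁆ ≡ ⁅u, v⁆
      have htv := hAHconj t ht v hv
      have htu := hAHconj t ht u hu
      have h1 := hsym u hu _ htv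
      have h2 : t * ⁅u, v⁆ * t⁻¹ * ⁅u, v⁆⁻¹ ∈ Y := htwist _ (hcl u hu v hv) t ht
      rw [show t * ⁅u, v⁆ * t⁻¹ = ⁅t * u * t⁻¹, t * v * t⁻¹⁆ by simp [commutatorElement_def, mul_assoc]] at h2
      have h3 := mul_mem h1 h2
      rw [show ⁅u, t * (t * v * t⁻¹) * t⁻¹⁆ * ⁅t * u * t⁻¹, t * v * t⁻¹⁆⁻¹ *
          (⁅t * u * t⁻¹, t * v * t⁻¹⁆ * ⁅u, v⁆⁻¹) = ⁅u, t * (t * v * t⁻¹) * t⁻¹⁆ * ⁅u, v⁆⁻¹ by group,
        show t * (t * v * t⁻¹) * t⁻¹ = t * t * v * (t * t)⁻¹ by group] at h3
      rw [ew, (hcen _ (inv_mem (hcl u hu v hv)) _ (hLH (hcl u hu _ (hAHconj _ (mul_mem ht ht) v hv)))).symm]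
      exact h3
    rw [hLD, hD]
    exact Subgroup.commutator_le.2 hall
  · -- higher class
    obtain ⟨m, rfl⟩ : ∃ m, n = m + 1 := ⟨n - 1, by omega⟩
    have hLdef : L = ⁅H.lowerCentralSeries m, H⁆ := Subgroup.lowerCentralSeries_succ _ _
    rw [hLdef]
    refine Subgroup.commutator_le.2 fun r hr u hu => ?_
    have hrH : r ∈ H := (Subgroup.lowerCentralSeries_zero H) ▸ H.lowerCentralSeries_antitone (Nat.zero_le m) hr
    have hrD : r ∈ D := by
      have := H.lowerCentralSeries_antitone (show 1 ≤ m by omega) hr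
      rwa [show (1 : ℕ) = 0 + 1 from rfl, Subgroup.lowerCentralSeries_succ, Subgroup.lowerCentralSeries_zero] at this
    have hcl : ∀ w ∈ H, ⁅r, w⁆ ∈ L := fun w hw => hLdef ▸ Subgroup.commutator_mem_commutator hr hw
    let U : Subgroup G :=
      { carrier := {w | w ∈ H ∧ ⁅r, w⁆ ∈ Y}
        one_mem' := ⟨one_mem _, by simp⟩
        mul_mem' := fun {a b} ha hb => ⟨mul_mem ha.1 hb.1, by
          have e : ⁅r, a * b⁆ = ⁅r, a⁆ * (a * ⁅r, b⁆ * a⁻¹) := by simp [commutatorElement_def, mul_assoc]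
          rw [e, Subgroup.mem_centralizer_iff.1 (hn1 (hcl b hb.1)) a ha.1, mul_inv_cancel_right]
          exact mul_mem ha.2 hb.2⟩
        inv_mem' := fun {a} ha => ⟨inv_mem ha.1, by
          have e : ⁅r, a⁻¹⁆ = a⁻¹ * ⁅r, a⁆⁻¹ * a⁻¹⁻¹ := by simp [commutatorElement_def, mul_assoc]
          rw [e, Subgroup.mem_centralizer_iff.1 (hn1 (inv_mem (hcl a ha.1))) a⁻¹ (inv_mem ha.1), mul_inv_cancel_right]
          exact inv_mem ha.2⟩ }
    have hle : (⨆ h : H, cl A (h : G)) ≤ U := iSup_le fun h w hw => by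
      set S := cl A (h : G) ⊔ D with hS
      have hclH : cl A (h : G) ≤ H := cl_le hAH h.2
      have hAS : A ≤ Subgroup.normalizer (S : Set G) :=
        (le_inf (le_normalizer_cl (h : G)) hDA).trans (Subgroup.normalizer_inf_normalizer_le_normalizer_sup _ _)
      have hSlt : S < H := lt_of_le_of_ne (sup_le hclH hDH) fun e =>
        hone h h.2 (eq_of_sup_derived_eq hnil hclH e)
      refine ⟨hclH hw, hMY (⁅S, S⁆ ⊓ L) inf_le_right (fun a ha => mem_normalizer_of_conj_mem fun x hx =>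
        ⟨conj_mem ((hAS.trans (normalizer_le_normalizer_commutator S)) ha) hx.1, conj_mem (hcharA _ ha) hx.2⟩)
        ((inf_le_inf_right _ inf_le_left).trans
          (derived_inf_centralizer_le IH hA hAH hcop hn1 hfix hSlt hAS))
        ⟨Subgroup.commutator_mem_commutator (Subgroup.mem_sup_right hrD) (Subgroup.mem_sup_left hw),
          hcl w (hclH hw)⟩⟩
    exact (hle (commutator_le_iSup_cl (hHA.symm ▸ hu))).2

end CfsgLib.MetacyclicP.FixedGen
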