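import Mathlib
import Cfsg.Agent.Lib.MetacyclicP.FixedGenMain
import Cfsg.Agent.Lib.ThompsonJ.Replacement

/-!
Coprime action of a group `A` of odd prime order: `C_{[H,A]}(A)` is generated by the
`C_{[h,A]}(A)`; the induction.
-/

set_option autoImplicit false
set_option linter.style.haveILetI false

open scoped commutatorElement Pointwise

namespace CfsgLib.MetacyclicP.FixedGen

open CfsgLib.CoprimeAction

universe u

variable {p : ℕ} [hp : Fact p.Prime] {G : Type u} [Group G] [Finite G] {A H : Subgroup G}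

/-- A minimal invariant normal subgroup. -/
theorem exists_minimal_invariant [Group.IsSolvable H] (hAH : A ≤ Subgroup.normalizer (H : Set G)) (hH : H ≠ ⊥) :
    ∃ V : Subgroup G, ∃ q : ℕ, q.Prime ∧ V ≤ H ∧ V ≠ ⊥ ∧ H ≤ Subgroup.normalizer (V : Set G) ∧
      A ≤ Subgroup.normalizer (V : Set G) ∧ (∀ a ∈ V, ∀ b ∈ V, a * b = b * a) ∧ IsPGroup q V ∧
      ∀ W : Subgroup G, W ≤ V → H ≤ Subgroup.normalizer (W : Set G) →
        A ≤ Subgroup.normalizer (W : Set G) → W = ⊥ ∨ W = V := by
  classical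
  obtain ⟨V, -, hV⟩ := Finite.exists_le_minimal
    (p := fun V : Subgroup G => V ≤ H ∧ V ≠ ⊥ ∧ H ≤ Subgroup.normalizer (V : Set G) ∧ A ≤ Subgroup.normalizer (V : Set G))
    (a := H) ⟨le_rfl, hH, Subgroup.le_normalizer, hAH⟩
  obtain ⟨⟨hVH, hVne, hHV, hAV⟩, hmin⟩ := hV
  have hmin' : ∀ W : Subgroup G, W ≤ V → H ≤ Subgroup.normalizer (W : Set G) →
      A ≤ Subgroup.normalizer (W : Set G) → W = ⊥ ∨ W = V := fun W hWV hHW hAW => by
    by_cases hW : W = ⊥
    · exact Or.inl hW
    · exact Or.inr (le_antisymm hWV (hmin ⟨hWV.trans hVH, hW, hHW, hAW⟩ hWV))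
  haveI : Group.IsSolvable V := isSolvable_of_le hVH
  haveI : Nontrivial V := (Subgroup.nontrivial_iff_ne_bot V).2 hVne
  have hab : ∀ a ∈ V, ∀ b ∈ V, a * b = b * a := by
    rcases hmin' ⁅V, V⁆ (Subgroup.commutator_le.2 fun a ha b hb => by
        rw [commutatorElement_def]; exact mul_mem (mul_mem (mul_mem ha hb) (inv_mem ha)) (inv_mem hb))
      (hHV.trans (normalizer_le_normalizer_commutator V)) (hAV.trans (normalizer_le_normalizer_commutator V)) with h | h
    · exact fun a ha b hb => commutatorElement_eq_one_iff_mul_comm.1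
        (Subgroup.mem_bot.1 (h ▸ Subgroup.commutator_mem_commutator ha hb))
    · exact absurd h (commutator_lt_of_isSolvable V hVne).ne
  obtain ⟨q, hq, hqd⟩ := Nat.exists_prime_and_dvd (Finite.one_lt_card (α := V)).ne'
  haveI : Fact q.Prime := ⟨hq⟩
  obtain ⟨v, hv⟩ := exists_prime_orderOf_dvd_card' q hqd
  let W : Subgroup G :=
    { carrier := {x | x ∈ V ∧ x ^ q = 1}
      one_mem' := ⟨one_mem _, one_pow _⟩
      mul_mem' := fun {a b} ha hb => ⟨mul_mem ha.1 hb.1, by
        rw [(show Commute a b from hab a ha.1 b hb.1).mul_pow, ha.2, hb.2, one_mul]⟩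
      inv_mem' := fun {a} ha => ⟨inv_mem ha.1, by rw [inv_pow, ha.2, inv_one]⟩ }
  have hWn : Subgroup.normalizer (V : Set G) ≤ Subgroup.normalizer (W : Set G) := fun g hg =>
    mem_normalizer_of_conj_mem fun x hx => ⟨conj_mem hg hx.1, by rw [conj_pow, hx.2, mul_one, mul_inv_cancel]⟩
  rcases hmin' W (fun x hx => hx.1) (hHV.trans hWn) (hAV.trans hWn) with h | h
  · exfalso
    have h1 : (v : G) ∈ W := ⟨v.2, by rw [← orderOf_dvd_iff_pow_eq_one, Subgroup.orderOf_coe, hv]⟩
    rw [h, Subgroup.mem_bot] at h1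
    have : v = 1 := Subtype.ext h1
    rw [this, orderOf_one] at hv
    exact hq.one_lt.ne hv
  · refine ⟨V, q, hq, hVH, hVne, hHV, hAV, hab, fun x => ⟨1, ?_⟩, hmin'⟩
    have h1 : (x : G) ∈ W := h.ge x.2
    exact Subtype.ext (by rw [Subgroup.coe_pow, pow_one]; exact h1.2)

/-- Central minimal `V`. -/
theorem central_case (IH : SmallerOK.{u} p (Nat.card H)) (hA : Nat.card A = p) [Group.IsSolvable H]
    (hAH : A ≤ Subgroup.normalizer (H : Set G)) (hcop : (Nat.card A).Coprime (Nat.card H))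
    (hHA : ⁅H, A⁆ = H) (hnil : ¬ Group.IsNilpotent H) {V : Subgroup G} {q : ℕ} (hq : q.Prime)
    (hVH : V ≤ H) (hVc : V ≤ Subgroup.centralizer (H : Set G)) (hVq : IsPGroup q V)
    (hfix : H ⊓ Subgroup.centralizer (A : Set G) ≤ fixGen A H ⊔ V) :
    V ⊓ Subgroup.centralizer (A : Set G) ≤ fixGen A H := by
  haveI : Fact q.Prime := ⟨hq⟩
  obtain ⟨Q, hQA⟩ := exists_invariant_sylow hAH hcop (Or.inl (isSolvable_of_card_prime hA)) q
  set QG := (Q : Subgroup H).map H.subtype with hQG
  rintro z ⟨hzV, hzC⟩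
  set z' : H := ⟨z, hVH hzV⟩ with hz'
  have hzD : z' ∈ commutator H := by
    have h := inf_centralizer_le_derived hAH hcop hHA ⟨hVH hzV, hzC⟩
    rw [← Subgroup.range_subtype H, MonoidHom.range_eq_map, ← Subgroup.map_commutator] at h
    obtain ⟨y, hy, hyz⟩ := h
    rw [commutator_def]
    have e : y = z' := Subtype.ext hyz
    exact e ▸ hy
  have hcen : ∀ x : H, z' * x = x * z' := fun x =>
    Subtype.ext (Subgroup.mem_centralizer_iff.1 (hVc hzV) x x.2).symm
  have hzQ : z' ∈ (Q : Subgroup H) := by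
    haveI : (V.subgroupOf H).Normal := ⟨fun v hv x => by
      show (x : G) * v * (x : G)⁻¹ ∈ V
      rw [show (x : G) * (v : G) = (v : G) * x from Subgroup.mem_centralizer_iff.1 (hVc hv) x x.2,
        mul_inv_cancel_right]
      exact hv⟩
    have hVp : IsPGroup q ↥(V.subgroupOf H) := hVq.comap_subtype
    exact hVp.le_sylow_of_normal Q hzV
  have htr := MonoidHom.transfer_eq_pow (Abelianization.of (G := (Q : Subgroup H))) z' fun k g₀ _ => by
    have : Commute (z' ^ k) g₀ := Commute.pow_left (hcen g₀) k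
    rw [mul_assoc, this.eq, inv_mul_cancel_left]
  have hker : commutator H ≤ (MonoidHom.transfer (Abelianization.of (G := (Q : Subgroup H)))).ker := by
    rw [commutator_def, Subgroup.commutator_le]
    intro a _ b _
    rw [MonoidHom.mem_ker, map_commutatorElement, commutatorElement_eq_one_iff_mul_comm]
    exact mul_comm _ _
  have h1 := hker hzD
  rw [MonoidHom.mem_ker, htr] at h1
  have h2 : (⟨z' ^ (Q : Subgroup H).index, pow_mem hzQ _⟩ : (Q : Subgroup H)) ∈ commutator (Q : Subgroup H) := by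
    rw [← Abelianization.ker_of]; exact h1
  have hzQQ : z ∈ ⁅QG, QG⁆ := by
    have h3 : ((z' ^ (Q : Subgroup H).index : H) : G) ∈ ⁅QG, QG⁆ := by
      have h4 : ((⟨z' ^ (Q : Subgroup H).index, pow_mem hzQ _⟩ : (Q : Subgroup H)) : H) ∈
          ⁅(Q : Subgroup H), (Q : Subgroup H)⁆ := by
        rw [← Subgroup.map_subtype_commutator]
        exact ⟨_, h2, rfl⟩
      rw [hQG, ← Subgroup.map_commutator]
      exact ⟨_, h4, rfl⟩
    -- `z` is a `q`-element and the index is prime to `q`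
    have hnd := Q.not_dvd_index
    obtain ⟨k, hk⟩ := hVq ⟨z, hzV⟩
    have hzk : z ^ q ^ k = 1 := congrArg Subtype.val hk
    have hcp : (q ^ k).Coprime (Q : Subgroup H).index := ((hq.coprime_iff_not_dvd).2 hnd).pow_left k
    obtain ⟨j, hj⟩ : ∃ j, z = (z ^ (Q : Subgroup H).index) ^ j := by
      obtain ⟨j, hj⟩ := exists_pow_eq_self_of_coprime (x := z) (n := (Q : Subgroup H).index)
        ((hcp.coprime_dvd_left (orderOf_dvd_of_pow_eq_one hzk)).symm)
      exact ⟨j, hj.symm⟩
    rw [hj]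
    exact pow_mem h3 j
  have hQlt : QG < H := lt_of_le_of_ne (Subgroup.map_subtype_le _) fun e => hnil (by
    haveI : Group.IsNilpotent QG := (Q.2.map H.subtype).isNilpotent
    exact e ▸ ‹Group.IsNilpotent QG›)
  exact derived_inf_centralizer_le IH hA hAH hcop hVc hfix hQlt hQA ⟨hzQQ, hzC⟩

set_option maxHeartbeats 1000000 in
/-- Complements: the case `H = V ⋊ [h, A]`. -/
theorem complement_case (hp2 : p ≠ 2) (IH : SmallerOK.{u} p (Nat.card H)) (hA : Nat.card A = p)
    [Group.IsSolvable H] (hAH : A ≤ Subgroup.normalizer (H : Set G))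
    (hcop : (Nat.card A).Coprime (Nat.card H)) (hHA : ⁅H, A⁆ = H) {V R : Subgroup G} {q r : ℕ} (hq : q.Prime) (hr : r.Prime)
    (hne : r ≠ q) (hVH : V ≤ H) (hRH : R ≤ H) (hVR : V ⊔ R = H) (hVq : IsPGroup q V) (hRr : IsPGroup r R)
    (hab : ∀ a ∈ V, ∀ b ∈ V, a * b = b * a) (hVne : V ≠ ⊥)
    (hHV : H ≤ Subgroup.normalizer (V : Set G))
    (hAV : A ≤ Subgroup.normalizer (V : Set G)) (hAR : A ≤ Subgroup.normalizer (R : Set G))
    (hirr : ∀ W : Subgroup G, W ≤ V → H ≤ Subgroup.normalizer (W : Set G) →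
      A ≤ Subgroup.normalizer (W : Set G) → W = ⊥ ∨ W = V)
    (hCVR : V ⊓ Subgroup.centralizer (R : Set G) = ⊥)
    {h₀ : G} (hh₀ : h₀ ∈ R) (hcl : cl A h₀ = R) (hfix : H ⊓ Subgroup.centralizer (A : Set G) ≤ fixGen A H ⊔ V) :
    V ⊓ Subgroup.centralizer (A : Set G) ≤ fixGen A H := by
  classical
  haveI : Fact r.Prime := ⟨hr⟩
  haveI : Fact q.Prime := ⟨hq⟩
  have hAs := isSolvable_of_card_prime hA
  set X := fixGen A H with hX
  set CV := V ⊓ Subgroup.centralizer (A : Set G) with hCV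
  have hdisj : V ⊓ R = ⊥ := by
    obtain ⟨a, ha⟩ := IsPGroup.iff_card.1 hVq
    obtain ⟨b, hb⟩ := IsPGroup.iff_card.1 hRr
    refine Subgroup.inf_eq_bot_of_coprime ?_
    rw [ha, hb]
    exact ((Nat.coprime_primes hq hr).2 (Ne.symm hne)).pow a b
  have hRX : R ⊓ Subgroup.centralizer (A : Set G) ≤ X := hcl ▸ cl_inf_le_fixGen (hRH hh₀)
  have hdec : ∀ x ∈ H, ∃ v ∈ V, ∃ s ∈ R, x = v * s := fun x hx => by
    open scoped Pointwise in
    have h1 : x ∈ (V : Set G) * (R : Set G) := by
      rw [← Subgroup.coe_mul_of_right_le_normalizer_left _ _ (hRH.trans hHV), hVR]; exact hx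
    obtain ⟨v, hv, s, hs, hvs⟩ := h1
    exact ⟨v, hv, s, hs, hvs.symm⟩
  have hXdec : ∀ u ∈ CV, ∃ x ∈ X, ∃ v ∈ V, u = x * v := fun u hu => by
    open scoped Pointwise in
    have h1 : u ∈ (X : Set G) * (V : Set G) := by
      rw [← Subgroup.coe_mul_of_left_le_normalizer_right _ _
        ((fixGen_le_commutator.trans (commutator_le_left hAH)).trans hHV)]
      exact hfix ⟨hVH hu.1, hu.2⟩
    obtain ⟨x, hx, v, hv, hxv⟩ := h1
    exact ⟨x, hx, v, hv, hxv.symm⟩
  by_contra hnot
  -- elements of `C_R(A)` centralising `R` act trivially on `C_V(A)` or move everything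
  have hcenfree : ∀ z ∈ R, z ∈ Subgroup.centralizer (R : Set G) → z ∈ Subgroup.centralizer (A : Set G) →
      z ∈ Subgroup.centralizer (V : Set G) := by
    intro z hz hzR hzA
    by_contra hzV
    set W := V ⊓ Subgroup.centralizer ({z} : Set G) with hW
    have hgz : ∀ g, g * z = z * g → g ∈ Subgroup.normalizer (V : Set G) → g ∈ Subgroup.normalizer (W : Set G) := by
      intro g hg hgV
      refine mem_normalizer_of_conj_mem fun x hx => ⟨conj_mem hgV hx.1, ?_⟩
      refine Subgroup.mem_centralizer_singleton_iff.2 ?_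
      have hxz := Subgroup.mem_centralizer_singleton_iff.1 hx.2
      calc g * x * g⁻¹ * z = g * x * (g⁻¹ * z) := by group
        _ = g * (x * z) * g⁻¹ := by rw [(Commute.inv_left hg).eq]; group
        _ = (g * z) * x * g⁻¹ := by rw [hxz]; group
        _ = z * (g * x * g⁻¹) := by rw [hg]; group
    have hWb : W = ⊥ := by
      have hVgz : V ≤ Subgroup.normalizer (W : Set G) := fun v hv => mem_normalizer_of_conj_mem fun x hx => by
        rw [hab v hv x hx.1, mul_inv_cancel_right]; exact hx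
      rcases hirr W inf_le_left (hVR ▸ sup_le hVgz (fun g hg => hgz g (Subgroup.mem_centralizer_iff.1 hzR g hg) (hHV (hRH hg))))
        (fun g hg => hgz g (Subgroup.mem_centralizer_iff.1 hzA g hg) (hAV hg)) with h | h
      · exact h
      · exfalso
        refine hzV (Subgroup.mem_centralizer_iff.2 fun v hv => ?_)
        exact Subgroup.mem_centralizer_singleton_iff.1 ((h.ge hv).2)
    apply hnot
    haveI : Fintype CV := Fintype.ofFinite _
    let f : CV → CV := fun u => ⟨z * u * z⁻¹ * (u : G)⁻¹, V.mul_mem (conj_mem (hHV (hRH hz)) u.2.1) (V.inv_mem u.2.1),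
      (Subgroup.centralizer (A : Set G)).mul_mem ((Subgroup.centralizer (A : Set G)).mul_mem
        ((Subgroup.centralizer (A : Set G)).mul_mem hzA u.2.2)
        ((Subgroup.centralizer (A : Set G)).inv_mem hzA))
        ((Subgroup.centralizer (A : Set G)).inv_mem u.2.2)⟩
    have hinj : Function.Injective f := by
      intro u w huw
      have e : z * u * z⁻¹ * (u : G)⁻¹ = z * w * z⁻¹ * (w : G)⁻¹ := congrArg Subtype.val huw
      have hm : (w : G)⁻¹ * u ∈ W := by
        refine Subgroup.mem_inf.2 ⟨V.mul_mem (V.inv_mem w.2.1) u.2.1, Subgroup.mem_centralizer_singleton_iff.2 ?_⟩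
        have h1 : z * ((w : G)⁻¹ * u) * z⁻¹ = (w : G)⁻¹ * u := by
          have a1 : z * u * z⁻¹ ∈ V := conj_mem (hHV (hRH hz)) u.2.1
          have a2 : z * w * z⁻¹ ∈ V := conj_mem (hHV (hRH hz)) w.2.1
          calc z * ((w : G)⁻¹ * u) * z⁻¹ = (z * w * z⁻¹)⁻¹ * ((z * u * z⁻¹ * (u : G)⁻¹) * u) := by group
            _ = (z * w * z⁻¹)⁻¹ * ((z * w * z⁻¹ * (w : G)⁻¹) * u) := by rw [e]
            _ = (w : G)⁻¹ * u := by group
        nth_rw 1 [← h1]
        group
      rw [hWb, Subgroup.mem_bot, inv_mul_eq_one] at hm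
      exact Subtype.ext hm.symm
    intro u hu
    obtain ⟨w, hw⟩ := (Finite.injective_iff_surjective.1 hinj) ⟨u, hu⟩
    have e : z * w * z⁻¹ * (w : G)⁻¹ = u := congrArg Subtype.val hw
    rw [← e, show z * w * z⁻¹ * (w : G)⁻¹ = z * ((w : G) * z⁻¹ * (w : G)⁻¹) by group]
    have hzX : z ∈ X := hRX ⟨hz, hzA⟩
    exact mul_mem hzX (conj_mem (mem_normalizer_fixGen (hVH w.2.1) w.2.2) (inv_mem hzX))
  -- the action of `R` is faithful as far as fixed points are concerned
  have hC0 : R ⊓ Subgroup.centralizer (V : Set G) = ⊥ := by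
    by_contra hne0
    apply hnot
    set C0 := R ⊓ Subgroup.centralizer (V : Set G) with hC0
    have hcnorm : ∀ s ∈ Subgroup.normalizer (V : Set G), ∀ y ∈ Subgroup.centralizer (V : Set G),
        s * y * s⁻¹ ∈ Subgroup.centralizer (V : Set G) := fun s hs y hy =>
      Subgroup.mem_centralizer_iff.2 fun v hv => by
        have h1 := Subgroup.mem_centralizer_iff.1 hy (s⁻¹ * v * s) ((Subgroup.mem_normalizer_iff''.1 hs v).1 hv)
        have h2 := congrArg (fun t => s * t * s⁻¹) h1
        simpa [mul_assoc] using h2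
    have hHC : H ≤ Subgroup.normalizer (C0 : Set G) := hVR ▸ sup_le
      (fun v hv => mem_normalizer_of_conj_mem fun y hy => by
        rw [Subgroup.mem_centralizer_iff.1 hy.2 v hv, mul_inv_cancel_right]; exact hy)
      (fun s hs => mem_normalizer_of_conj_mem fun y hy => Subgroup.mem_inf.2
        ⟨mul_mem (mul_mem hs hy.1) (inv_mem hs), hcnorm s (hHV (hRH hs)) y hy.2⟩)
    have hAC : A ≤ Subgroup.normalizer (C0 : Set G) := fun a ha => mem_normalizer_of_conj_mem fun y hy =>
      Subgroup.mem_inf.2 ⟨conj_mem (hAR ha) hy.1, hcnorm a (hAV ha) y hy.2⟩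
    have hfix0 := inf_centralizer_le_fixGen_sup IH hA hAH hcop hHA (inf_le_left.trans hRH) hne0 hHC hAC
    intro u hu
    open scoped Pointwise in
    have h1 : u ∈ (X : Set G) * (C0 : Set G) := by
      rw [← Subgroup.coe_mul_of_left_le_normalizer_right _ _
        ((fixGen_le_commutator.trans (commutator_le_left hAH)).trans hHC)]
      exact hfix0 ⟨hVH hu.1, hu.2⟩
    obtain ⟨x, hx, c, hc, rfl⟩ := h1
    refine mul_mem hx (hRX ⟨hc.1, ?_⟩)
    simpa using (Subgroup.centralizer (A : Set G)).mul_mem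
      ((Subgroup.centralizer (A : Set G)).inv_mem (fixGen_le_centralizer hx)) hu.2
  -- a minimal invariant subgroup of the centre of `R`
  have hRne : R ≠ ⊥ := fun e => hVne (le_bot_iff.1 (hCVR ▸ le_inf le_rfl
    (fun v _ => Subgroup.mem_centralizer_iff.2 fun s hs => by
      rw [SetLike.mem_coe, e, Subgroup.mem_bot] at hs; subst hs; simp)))
  set Z0 := R ⊓ Subgroup.centralizer (R : Set G) with hZ0
  have hZ0A : A ≤ Subgroup.normalizer (Z0 : Set G) := fun a ha => mem_normalizer_of_conj_mem fun y hy =>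
    Subgroup.mem_inf.2 ⟨conj_mem (hAR ha) hy.1, Subgroup.mem_centralizer_iff.2 fun v hv => by
      have h1 := Subgroup.mem_centralizer_iff.1 hy.2 (a⁻¹ * v * a) ((Subgroup.mem_normalizer_iff''.1 (hAR ha) v).1 hv)
      have h2 := congrArg (fun t => a * t * a⁻¹) h1
      simpa [mul_assoc] using h2⟩
  have hZ0ne : Z0 ≠ ⊥ := by
    haveI : Nontrivial R := (Subgroup.nontrivial_iff_ne_bot R).2 hRne
    haveI := hRr.center_nontrivial
    obtain ⟨z, hz, hz1⟩ := (Subgroup.bot_or_exists_ne_one (Subgroup.center R)).resolve_left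
      ((Subgroup.nontrivial_iff_ne_bot _).1 inferInstance)
    refine fun e => hz1 (Subtype.ext (Subgroup.mem_bot.1 (e ▸ (⟨z.2, ?_⟩ : (z : G) ∈ Z0))))
    exact Subgroup.mem_centralizer_iff.2 fun a ha =>
      congrArg Subtype.val (Subgroup.mem_center_iff.1 hz ⟨a, ha⟩)
  obtain ⟨A₀, hA₀le, hA₀⟩ := Finite.exists_le_minimal
    (p := fun B : Subgroup G => B ≤ Z0 ∧ B ≠ ⊥ ∧ A ≤ Subgroup.normalizer (B : Set G))
    (a := Z0) ⟨le_rfl, hZ0ne, hZ0A⟩
  obtain ⟨⟨-, hA₀ne, hA₀A⟩, hA₀min⟩ := hA₀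
  have hA₀R : A₀ ≤ R := hA₀le.trans inf_le_left
  have hA₀c : A₀ ≤ Subgroup.centralizer (R : Set G) := hA₀le.trans inf_le_right
  obtain ⟨t, ht, htne⟩ := (Subgroup.bot_or_exists_ne_one A).resolve_left (fun e => by
    rw [e, Subgroup.card_bot] at hA; exact hp.out.one_lt.ne hA)
  have hgenA : A = Subgroup.zpowers t := by
    refine (Subgroup.eq_of_le_of_card_ge (Subgroup.zpowers_le.2 ht) ?_).symm
    rcases (Nat.dvd_prime hp.out).1 (hA ▸ Subgroup.card_dvd_of_le (Subgroup.zpowers_le.2 ht)) with h | h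
    · exact absurd (Subgroup.zpowers_eq_bot.1 (Subgroup.card_eq_one.1 h)) htne
    · rw [hA, h]
  have htp : t ^ p = 1 := by
    rw [← orderOf_dvd_iff_pow_eq_one, ← hA]
    exact Subgroup.orderOf_dvd_natCard A ht
  have hCt : Subgroup.centralizer (A : Set G) = Subgroup.centralizer ({t} : Set G) := by
    rw [hgenA, centralizer_zpowers_eq]
  have hA₀free : ∀ a ∈ A₀, t * a = a * t → a = 1 := by
    intro a ha hta
    have h1 := hcenfree a (hA₀R ha) (hA₀c ha) (hCt ▸ Subgroup.mem_centralizer_singleton_iff.2 hta.symm)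
    exact Subgroup.mem_bot.1 (hC0 ▸ Subgroup.mem_inf.2 ⟨hA₀R ha, h1⟩)
  have hcard3 := card_centralizer_pow_three_le (p := p) hp2 (R := R) hab htp (hAV ht) (hA₀A ht) (hAR ht)
    (hRH.trans hHV) hA₀R hA₀c ?_ ?_ hA₀free hA₀ne ?_
  rotate_left
  · intro W hW hRW htW
    refine hirr W hW (hVR ▸ sup_le (fun v hv => mem_normalizer_of_conj_mem fun x hx => by
      rw [hab v hv x (hW hx), mul_inv_cancel_right]; exact hx) hRW) ?_
    rw [hgenA]; exact Subgroup.zpowers_le.2 htW
  · intro B hB htB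
    by_cases hBb : B = ⊥
    · exact Or.inl hBb
    · refine Or.inr (le_antisymm hB (hA₀min ⟨hB.trans hA₀le, hBb, ?_⟩ hB))
      rw [hgenA]; exact Subgroup.zpowers_le.2 htB
  · set W := V ⊓ Subgroup.centralizer (A₀ : Set G) with hW
    have hWn : ∀ g ∈ Subgroup.normalizer (V : Set G), g ∈ Subgroup.normalizer (A₀ : Set G) →
        g ∈ Subgroup.normalizer (W : Set G) := fun g hgV hgA => mem_normalizer_of_conj_mem fun x hx =>
      Subgroup.mem_inf.2 ⟨conj_mem hgV hx.1, Subgroup.mem_centralizer_iff.2 fun b hb => by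
        have h1 := Subgroup.mem_centralizer_iff.1 hx.2 (g⁻¹ * b * g) ((Subgroup.mem_normalizer_iff''.1 hgA b).1 hb)
        have h2 := congrArg (fun s => g * s * g⁻¹) h1
        simpa [mul_assoc] using h2⟩
    have hRn : R ≤ Subgroup.normalizer (A₀ : Set G) := fun s hs => mem_normalizer_of_conj_mem fun x hx => by
      rw [Subgroup.mem_centralizer_iff.1 (hA₀c hx) s hs, mul_inv_cancel_right]; exact hx
    rcases hirr W inf_le_left (hVR ▸ sup_le (fun v hv => mem_normalizer_of_conj_mem fun x hx => by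
        rw [hab v hv x hx.1, mul_inv_cancel_right]; exact hx) (fun s hs => hWn s (hHV (hRH hs)) (hRn hs)))
      (fun a ha => hWn a (hAV ha) (hA₀A ha)) with h | h
    · exact h
    · exfalso
      refine hA₀ne (le_bot_iff.1 (hC0 ▸ le_inf hA₀R ?_))
      exact Subgroup.le_centralizer_iff.1 (h.ge.trans inf_le_right)
  -- every `h₀ v` gives an invariant complement
  have hsq : Nat.card V ≤ Nat.card CV * Nat.card CV := by
    have hpair : ∀ v : V, ∃ w w' : CV, (v : G) = h₀⁻¹ * w * h₀ * w' := by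
      intro v
      set k := h₀ * (v : G) with hk
      have hkH : k ∈ H := mul_mem (hRH hh₀) (hVH v.2)
      set K := cl A k with hK
      have hKH : K ≤ H := cl_le hAH hkH
      have hKA : A ≤ Subgroup.normalizer (K : Set G) := le_normalizer_cl k
      -- `R ≤ V K`
      have hRK : R ≤ V ⊔ K := by
        rw [← hcl]
        refine (Subgroup.closure_le _).2 ?_
        rintro _ ⟨a, ha, rfl⟩
        have e : h₀⁻¹ * (a * h₀ * a⁻¹) = v * (k⁻¹ * (a * k * a⁻¹)) * (a * (v : G) * a⁻¹)⁻¹ := by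
          rw [hk]; group
        rw [e]
        exact mul_mem (mul_mem (Subgroup.mem_sup_left v.2) (Subgroup.mem_sup_right (gen_mem_cl ha k)))
          (inv_mem (Subgroup.mem_sup_left (conj_mem (hAV ha) v.2)))
      have hVK : V ⊔ K = H := le_antisymm (sup_le hVH hKH) (hVR ▸ sup_le le_sup_left hRK)
      have hKint : V ⊓ K = ⊥ := by
        rcases hirr (V ⊓ K) inf_le_left (hVK ▸ sup_le (fun a ha => mem_normalizer_of_conj_mem fun x hx => by
            rw [hab a ha x hx.1, mul_inv_cancel_right]; exact hx)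
          (fun a ha => mem_normalizer_of_conj_mem fun x hx => Subgroup.mem_inf.2
            ⟨conj_mem (hHV (hKH ha)) hx.1, mul_mem (mul_mem ha hx.2) (inv_mem ha)⟩))
          (fun a ha => mem_normalizer_of_conj_mem fun x hx => Subgroup.mem_inf.2
            ⟨conj_mem (hAV ha) hx.1, conj_mem (hKA ha) hx.2⟩) with h | h
        · exact h
        · exfalso
          refine hnot fun u hu => ?_
          exact cl_inf_le_fixGen hkH ⟨(h.ge.trans inf_le_right) hu.1, hu.2⟩
      have hKcard : Nat.card K = Nat.card R := by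
        have h1 := CfsgLib.ThompsonJ.card_sup_mul_card_inf K V (hKH.trans hHV)
        have h2 := CfsgLib.ThompsonJ.card_sup_mul_card_inf R V (hRH.trans hHV)
        rw [sup_comm, hVK, inf_comm, hKint, Subgroup.card_bot, mul_one] at h1
        rw [sup_comm, hVR, inf_comm, hdisj, Subgroup.card_bot, mul_one] at h2
        exact Nat.eq_of_mul_eq_mul_right Nat.card_pos (h1.symm.trans h2)
      have hcopK : (Nat.card K).Coprime (Nat.card V) := by
        obtain ⟨a, ha⟩ := IsPGroup.iff_card.1 hVq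
        obtain ⟨b, hb⟩ := IsPGroup.iff_card.1 hRr
        rw [hKcard, ha, hb]
        exact ((Nat.coprime_primes hr hq).2 hne).pow b a
      obtain ⟨n, hn, hKn⟩ := exists_le_conj_of_coprime (hRH.trans hHV) (hVR.symm ▸ hKH) hcopK
        (Or.inr (by
          haveI : IsMulCommutative V := ⟨⟨fun a b => Subtype.ext (hab a a.2 b b.2)⟩⟩
          exact isSolvable_of_isMulCommutative V))
      have hnA : n ∈ Subgroup.centralizer (A : Set G) := by
        refine Subgroup.mem_centralizer_iff.2 fun a ha => ?_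
        set n' := a * n * a⁻¹ with hn'
        have hn'V : n' ∈ V := conj_mem (hAV ha) hn
        -- both `n` and `a n a⁻¹` carry `R` onto `K`
        have hKeq : ∀ x, x ∈ K ↔ n⁻¹ * x * n ∈ R := by
          intro x
          have e : K = MulAut.conj n • R := Subgroup.eq_of_le_of_card_ge hKn (by rw [card_conj_smul, hKcard])
          rw [e, mem_conj_iff]
        have hm : n⁻¹ * n' ∈ V ⊓ Subgroup.centralizer (R : Set G) := by
          set m := n⁻¹ * n' with hm
          have hmV : m ∈ V := mul_mem (inv_mem hn) hn'V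
          refine ⟨hmV, Subgroup.mem_centralizer_iff.2 fun s hs => ?_⟩
          -- `m` maps `R` into `R`
          have hs' : a⁻¹ * s * a ∈ R := (Subgroup.mem_normalizer_iff''.1 (hAR ha) s).1 hs
          have h1 : n * (a⁻¹ * s * a) * n⁻¹ ∈ K := (hKeq _).2 (by simpa [mul_assoc] using hs')
          have h2 : a * (n * (a⁻¹ * s * a) * n⁻¹) * a⁻¹ ∈ K := conj_mem (hKA ha) h1
          have h3 : m * s * m⁻¹ ∈ R := by
            have := (hKeq _).1 h2
            simpa [hm, hn', mul_assoc] using this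
          have h4 : m * s * m⁻¹ * s⁻¹ ∈ V ⊓ R := by
            refine ⟨?_, R.mul_mem h3 (R.inv_mem hs)⟩
            show m * s * m⁻¹ * s⁻¹ ∈ V
            rw [show m * s * m⁻¹ * s⁻¹ = m * (s * m⁻¹ * s⁻¹) by group]
            exact mul_mem hmV (conj_mem (hHV (hRH hs)) (inv_mem hmV))
          rw [hdisj, Subgroup.mem_bot, ← commutatorElement_def, commutatorElement_eq_one_iff_mul_comm] at h4
          exact h4.symm
        rw [hCVR, Subgroup.mem_bot, inv_mul_eq_one] at hm
        calc a * n = n' * a := by rw [hn']; group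
          _ = n * a := by rw [← hm]
      obtain ⟨c, hc, hck⟩ := exists_centralizer_mem_coset_of_le hKA hKH (card_coprime_of_le hcop hKH)
        (Or.inl hAs) hkH (fun a ha => gen_mem_cl ha k)
      obtain ⟨w, hw, s, hs, hws⟩ := hdec c hc.1
      have hfix' : w ∈ CV ∧ s ∈ Subgroup.centralizer (A : Set G) := by
        have key : ∀ a ∈ A, a * w * a⁻¹ = w ∧ a * s * a⁻¹ = s := by
          intro a ha
          have e : (a * w * a⁻¹) * (a * s * a⁻¹) = w * s := by
            rw [← hws]
            calc a * w * a⁻¹ * (a * s * a⁻¹) = a * (w * s) * a⁻¹ := by group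
              _ = c := by rw [← hws, Subgroup.mem_centralizer_iff.1 hc.2 a ha, mul_inv_cancel_right]
          have hd : w⁻¹ * (a * w * a⁻¹) ∈ V ⊓ R := by
            refine ⟨V.mul_mem (V.inv_mem hw) (conj_mem (hAV ha) hw), ?_⟩
            show w⁻¹ * (a * w * a⁻¹) ∈ R
            have e2 : w⁻¹ * (a * w * a⁻¹) = s * (a * s * a⁻¹)⁻¹ := by
              calc w⁻¹ * (a * w * a⁻¹) = w⁻¹ * ((a * w * a⁻¹) * (a * s * a⁻¹)) * (a * s * a⁻¹)⁻¹ := by group
                _ = w⁻¹ * (w * s) * (a * s * a⁻¹)⁻¹ := by rw [e]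
                _ = _ := by group
            rw [e2]
            exact mul_mem hs (inv_mem (conj_mem (hAR ha) hs))
          rw [hdisj, Subgroup.mem_bot, inv_mul_eq_one] at hd
          exact ⟨hd.symm, by rw [← hd] at e; exact mul_left_cancel e⟩
        exact ⟨⟨hw, Subgroup.mem_centralizer_iff.2 fun a ha => by
            nth_rw 2 [← (key a ha).1]; group⟩,
          Subgroup.mem_centralizer_iff.2 fun a ha => by nth_rw 2 [← (key a ha).2]; group⟩
      -- `k = c · (n s' n⁻¹)`
      have hs' : n⁻¹ * (c⁻¹ * k) * n ∈ R := by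
        have e : K = MulAut.conj n • R := Subgroup.eq_of_le_of_card_ge hKn (by rw [card_conj_smul, hKcard])
        have hck' : c⁻¹ * k ∈ K := by simpa using inv_mem hck
        rw [e] at hck'
        exact mem_conj_iff.1 hck'
      set s' := n⁻¹ * (c⁻¹ * k) * n with hs'def
      have hkeq : h₀ * (v : G) * n = w * (s * n * s⁻¹) * (s * s') := by
        rw [hs'def, ← hk, hws]; group
      -- the `R`-parts agree
      have hW : w * (s * n * s⁻¹) ∈ V := mul_mem hw (conj_mem (hHV (hRH hs)) hn)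
      have hmem : (w * (s * n * s⁻¹))⁻¹ * (h₀ * ((v : G) * n) * h₀⁻¹) ∈ V ⊓ R := by
        refine ⟨V.mul_mem (V.inv_mem hW) (conj_mem (hHV (hRH hh₀)) (mul_mem v.2 hn)), ?_⟩
        show (w * (s * n * s⁻¹))⁻¹ * (h₀ * ((v : G) * n) * h₀⁻¹) ∈ R
        rw [show (w * (s * n * s⁻¹))⁻¹ * (h₀ * ((v : G) * n) * h₀⁻¹) =
          (w * (s * n * s⁻¹))⁻¹ * (h₀ * (v : G) * n) * h₀⁻¹ by group, hkeq, inv_mul_cancel_left]
        exact mul_mem (mul_mem hs hs') (inv_mem hh₀)
      rw [hdisj, Subgroup.mem_bot, inv_mul_eq_one] at hmem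
      have hw' : w * (s * n * s⁻¹) ∈ CV := ⟨hW, (Subgroup.centralizer (A : Set G)).mul_mem hfix'.1.2
        ((Subgroup.centralizer (A : Set G)).mul_mem ((Subgroup.centralizer (A : Set G)).mul_mem hfix'.2 hnA)
          ((Subgroup.centralizer (A : Set G)).inv_mem hfix'.2))⟩
      refine ⟨⟨_, hw'⟩, ⟨n⁻¹, V.inv_mem hn, (Subgroup.centralizer (A : Set G)).inv_mem hnA⟩, ?_⟩
      show (v : G) = h₀⁻¹ * (w * (s * n * s⁻¹)) * h₀ * n⁻¹
      rw [hmem]; group
    choose w w' hww using hpair
    have hinj : Function.Injective fun v : V => (w v, w' v) := fun a b hab' => by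
      simp only [Prod.mk.injEq] at hab'
      exact Subtype.ext (by rw [hww a, hww b, hab'.1, hab'.2])
    have := Nat.card_le_card_of_injective _ hinj
    rwa [Nat.card_prod] at this
  rw [← hCt] at hcard3
  change Nat.card CV ^ 3 ≤ Nat.card V at hcard3
  have hpos : 0 < Nat.card CV := Nat.card_pos
  have hc1 : Nat.card CV = 1 := by
    by_contra h
    have h2 : 2 ≤ Nat.card CV := by omega
    have h5 : Nat.card CV * Nat.card CV * 2 ≤ Nat.card CV ^ 3 := by
      rw [pow_succ, pow_two]; exact Nat.mul_le_mul_left _ h2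
    have : 0 < Nat.card CV * Nat.card CV := Nat.mul_pos hpos hpos
    omega
  rw [hc1, one_mul] at hsq
  haveI : Nontrivial V := (Subgroup.nontrivial_iff_ne_bot V).2 hVne
  have := Finite.one_lt_card (α := V)
  omega

set_option maxHeartbeats 1000000 in
/-- Noncentral minimal `V`. -/
theorem noncentral_case (hp2 : p ≠ 2) (IH : SmallerOK.{u} p (Nat.card H)) (hA : Nat.card A = p)
    [Group.IsSolvable H] (hAH : A ≤ Subgroup.normalizer (H : Set G))
    (hcop : (Nat.card A).Coprime (Nat.card H)) (hHA : ⁅H, A⁆ = H) {V : Subgroup G} {q : ℕ} (hq : q.Prime)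
    (hVH : V ≤ H) (hVne : V ≠ ⊥) (hHV : H ≤ Subgroup.normalizer (V : Set G))
    (hAV : A ≤ Subgroup.normalizer (V : Set G)) (hab : ∀ a ∈ V, ∀ b ∈ V, a * b = b * a) (hVq : IsPGroup q V)
    (hirr : ∀ W : Subgroup G, W ≤ V → H ≤ Subgroup.normalizer (W : Set G) →
      A ≤ Subgroup.normalizer (W : Set G) → W = ⊥ ∨ W = V)
    (hnc : ¬ V ≤ Subgroup.centralizer (H : Set G)) :
    V ⊓ Subgroup.centralizer (A : Set G) ≤ fixGen A H := by
  classical
  haveI : Fact q.Prime := ⟨hq⟩
  have hAs := isSolvable_of_card_prime hA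
  set X := fixGen A H with hX
  have hfix := inf_centralizer_le_fixGen_sup IH hA hAH hcop hHA hVH hVne hHV hAV
  set Cv := H ⊓ Subgroup.centralizer (V : Set G) with hCv
  have hcnorm : ∀ s ∈ Subgroup.normalizer (V : Set G), ∀ y ∈ Subgroup.centralizer (V : Set G),
      s * y * s⁻¹ ∈ Subgroup.centralizer (V : Set G) := fun s hs y hy =>
    Subgroup.mem_centralizer_iff.2 fun v hv => by
      have h1 := Subgroup.mem_centralizer_iff.1 hy (s⁻¹ * v * s) ((Subgroup.mem_normalizer_iff''.1 hs v).1 hv)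
      have h2 := congrArg (fun t => s * t * s⁻¹) h1
      simpa [mul_assoc] using h2
  have hCvH : H ≤ Subgroup.normalizer (Cv : Set G) := fun g hg => mem_normalizer_of_conj_mem fun y hy =>
    Subgroup.mem_inf.2 ⟨mul_mem (mul_mem hg hy.1) (inv_mem hg), hcnorm g (hHV hg) y hy.2⟩
  have hCvA : A ≤ Subgroup.normalizer (Cv : Set G) := fun g hg => mem_normalizer_of_conj_mem fun y hy =>
    Subgroup.mem_inf.2 ⟨conj_mem (hAH hg) hy.1, hcnorm g (hAV hg) y hy.2⟩
  have hCvlt : Cv < H := lt_of_le_of_ne inf_le_left fun e => hnc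
    (Subgroup.le_centralizer_iff.1 (e ▸ inf_le_right))
  obtain ⟨N, -, hN⟩ := Finite.exists_le_minimal
    (p := fun N : Subgroup G => Cv < N ∧ N ≤ H ∧ H ≤ Subgroup.normalizer (N : Set G) ∧ A ≤ Subgroup.normalizer (N : Set G))
    (a := H) ⟨hCvlt, le_rfl, Subgroup.le_normalizer, hAH⟩
  obtain ⟨⟨hCvN, hNH, hHN, hAN⟩, hNmin⟩ := hN
  haveI hNs : Group.IsSolvable N := isSolvable_of_le hNH
  haveI : (Cv.subgroupOf N).Normal := Subgroup.normal_subgroupOf_of_le_normalizer (hNH.trans hCvH)
  set π := QuotientGroup.mk' (Cv.subgroupOf N) with hπ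
  haveI : Group.IsSolvable (N ⧸ Cv.subgroupOf N) := Group.isSolvable_of_surjective (QuotientGroup.mk'_surjective _)
  haveI hQnt : Nontrivial (N ⧸ Cv.subgroupOf N) := by
    obtain ⟨n, hn, hn'⟩ := SetLike.exists_of_lt hCvN
    refine ⟨⟨π ⟨n, hn⟩, 1, fun e => hn' ?_⟩⟩
    have h1 : (⟨n, hn⟩ : N) ∈ Cv.subgroupOf N := (QuotientGroup.eq_one_iff _).1 e
    exact h1
  -- invariant subgroups between
  have hbetween : ∀ M : Subgroup G, Cv ≤ M → M ≤ N → H ≤ Subgroup.normalizer (M : Set G) →
      A ≤ Subgroup.normalizer (M : Set G) → M = Cv ∨ M = N := fun M h1 h2 h3 h4 => by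
    rcases h1.eq_or_lt with h | h
    · exact Or.inl h.symm
    · exact Or.inr (le_antisymm h2 (hNmin ⟨h, h2.trans hNH, h3, h4⟩ h2))
  have hNN : ⁅N, N⁆ ≤ Cv := by
    have hle : ⁅N, N⁆ ≤ N := Subgroup.commutator_le.2 fun a ha b hb => by
      rw [commutatorElement_def]; exact mul_mem (mul_mem (mul_mem ha hb) (inv_mem ha)) (inv_mem hb)
    rcases hbetween (⁅N, N⁆ ⊔ Cv) le_sup_right (sup_le hle hCvN.le)
      ((le_inf (hHN.trans (normalizer_le_normalizer_commutator N)) hCvH).trans
        (Subgroup.normalizer_inf_normalizer_le_normalizer_sup _ _))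
      ((le_inf (hAN.trans (normalizer_le_normalizer_commutator N)) hCvA).trans
        (Subgroup.normalizer_inf_normalizer_le_normalizer_sup _ _)) with h | h
    · exact le_sup_left.trans h.le
    · exfalso
      have hper : commutator (N ⧸ Cv.subgroupOf N) = ⊤ := by
        refine top_le_iff.1 fun y _ => ?_
        obtain ⟨⟨n, hn⟩, rfl⟩ := QuotientGroup.mk'_surjective _ y
        have h1 : n ∈ (((commutator (N ⧸ Cv.subgroupOf N)).comap π).map N.subtype) := by
          refine (sup_le ?_ ?_ : ⁅N, N⁆ ⊔ Cv ≤ _) (h.ge hn)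
          · rw [← Subgroup.map_subtype_commutator]
            refine Subgroup.map_mono ?_
            rw [← Subgroup.map_le_iff_le_comap, commutator_def, commutator_def, Subgroup.map_commutator]
            exact Subgroup.commutator_mono le_top le_top
          · intro c hc
            exact ⟨⟨c, hCvN.le hc⟩, by rw [SetLike.mem_coe, Subgroup.mem_comap,
              show π ⟨c, hCvN.le hc⟩ = 1 from (QuotientGroup.eq_one_iff _).2 hc]; exact one_mem _, rfl⟩
        obtain ⟨y, hy, hyn⟩ := h1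
        have e : y = ⟨n, hn⟩ := Subtype.ext hyn
        exact e ▸ hy
      exact (Group.IsSolvable.commutator_lt_top_of_nontrivial (N ⧸ Cv.subgroupOf N)).ne hper
  obtain ⟨r, hr, hrd⟩ := Nat.exists_prime_and_dvd (Finite.one_lt_card (α := N ⧸ Cv.subgroupOf N)).ne'
  haveI : Fact r.Prime := ⟨hr⟩
  have hcommN : ∀ a b : N, π a * π b = π b * π a := fun a b => by
    rw [← commutatorElement_eq_one_iff_mul_comm, ← map_commutatorElement]
    exact (QuotientGroup.eq_one_iff _).2 (hNN (Subgroup.commutator_mem_commutator a.2 b.2))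
  have hexp : ∀ n ∈ N, n ^ r ∈ Cv := by
    have hpw : ∀ a : N, (a : G) ^ r ∈ Cv ↔ π a ^ r = 1 := fun a => by
      rw [← map_pow]
      exact ((QuotientGroup.eq_one_iff (a ^ r)).trans (by rw [Subgroup.mem_subgroupOf, Subgroup.coe_pow])).symm
    let M : Subgroup G :=
      { carrier := {n | n ∈ N ∧ n ^ r ∈ Cv}
        one_mem' := ⟨one_mem _, by rw [one_pow]; exact one_mem _⟩
        mul_mem' := fun {a b} ha hb => ⟨mul_mem ha.1 hb.1, (hpw ⟨a * b, mul_mem ha.1 hb.1⟩).2 (by
          rw [show (⟨a * b, mul_mem ha.1 hb.1⟩ : N) = ⟨a, ha.1⟩ * ⟨b, hb.1⟩ from rfl, map_mul,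
            (show Commute (π ⟨a, ha.1⟩) (π ⟨b, hb.1⟩) from hcommN _ _).mul_pow,
            (hpw ⟨a, ha.1⟩).1 ha.2, (hpw ⟨b, hb.1⟩).1 hb.2, one_mul])⟩
        inv_mem' := fun {a} ha => ⟨inv_mem ha.1, by rw [inv_pow]; exact inv_mem ha.2⟩ }
    have hMn : ∀ g, g ∈ Subgroup.normalizer (N : Set G) → g ∈ Subgroup.normalizer (Cv : Set G) →
        g ∈ Subgroup.normalizer (M : Set G) := fun g h1 h2 => mem_normalizer_of_conj_mem fun x hx =>
      ⟨conj_mem h1 hx.1, by rw [conj_pow]; exact conj_mem h2 hx.2⟩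
    rcases hbetween M (fun c hc => ⟨hCvN.le hc, pow_mem hc r⟩) (fun x hx => hx.1)
      (fun g hg => hMn g (hHN hg) (hCvH hg)) (fun g hg => hMn g (hAN hg) (hCvA hg)) with h | h
    · exfalso
      obtain ⟨y, hy⟩ := exists_prime_orderOf_dvd_card' r hrd
      obtain ⟨⟨n, hn⟩, rfl⟩ := QuotientGroup.mk'_surjective _ y
      have h1 : n ∈ M := ⟨hn, (hpw ⟨n, hn⟩).2 (by rw [← orderOf_dvd_iff_pow_eq_one, hy])⟩
      rw [h] at h1
      rw [show π ⟨n, hn⟩ = 1 from (QuotientGroup.eq_one_iff _).2 h1, orderOf_one] at hy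
      exact hr.one_lt.ne hy
    · exact fun n hn => (h.ge hn).2
  have hquotr : IsPGroup r (N ⧸ Cv.subgroupOf N) := fun y => by
    obtain ⟨n, rfl⟩ := QuotientGroup.mk'_surjective _ y
    refine ⟨1, ?_⟩
    rw [pow_one, ← map_pow]
    exact (QuotientGroup.eq_one_iff _).2 (hexp n n.2)
  have hCN : V ⊓ Subgroup.centralizer (N : Set G) = ⊥ := by
    set W := V ⊓ Subgroup.centralizer (N : Set G) with hW
    have hWn : ∀ g, g ∈ Subgroup.normalizer (V : Set G) → g ∈ Subgroup.normalizer (N : Set G) →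
        g ∈ Subgroup.normalizer (W : Set G) := fun g h1 h2 => mem_normalizer_of_conj_mem fun x hx =>
      Subgroup.mem_inf.2 ⟨conj_mem h1 hx.1, Subgroup.mem_centralizer_iff.2 fun b hb => by
        have e1 := Subgroup.mem_centralizer_iff.1 hx.2 (g⁻¹ * b * g) ((Subgroup.mem_normalizer_iff''.1 h2 b).1 hb)
        have e2 := congrArg (fun s => g * s * g⁻¹) e1
        simpa [mul_assoc] using e2⟩
    rcases hirr W inf_le_left (fun g hg => hWn g (hHV hg) (hHN hg)) (fun g hg => hWn g (hAV hg) (hAN hg)) with h | h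
    · exact h
    · exfalso
      refine hCvN.not_ge (le_inf hNH (Subgroup.le_centralizer_iff.1 ?_))
      exact h.ge.trans inf_le_right
  have hrq : r ≠ q := by
    rintro rfl
    -- an `r`-group acting on an `r`-group has fixed points
    let φ : N →* MulAut V :=
      { toFun := fun n =>
          { toFun := fun v => ⟨(n : G) * v * (n : G)⁻¹, conj_mem (hHV (hNH n.2)) v.2⟩
            invFun := fun v => ⟨(n : G)⁻¹ * v * n, conj_mem' (hHV (hNH n.2)) v.2⟩
            left_inv := fun v => Subtype.ext (by simp [mul_assoc])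
            right_inv := fun v => Subtype.ext (by simp [mul_assoc])
            map_mul' := fun a b => Subtype.ext (by simp [mul_assoc]) }
        map_one' := MulEquiv.ext fun v => Subtype.ext (by simp)
        map_mul' := fun a b => MulEquiv.ext fun v => Subtype.ext (by simp [mul_assoc]) }
    have hker : ∀ n : N, (n : G) ∈ Cv → φ n = 1 := fun n hn => MulEquiv.ext fun v => Subtype.ext (by
      show (n : G) * v * (n : G)⁻¹ = v
      rw [← Subgroup.mem_centralizer_iff.1 hn.2 v v.2, mul_inv_cancel_right])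
    have hrange : IsPGroup r φ.range := fun y => by
      obtain ⟨_, n, rfl⟩ := y
      refine ⟨1, Subtype.ext ?_⟩
      rw [Subgroup.coe_pow, pow_one, ← map_pow]
      exact hker _ (hexp n n.2)
    have hmod := hrange.card_modEq_card_fixedPoints V
    have hVd : r ∣ Nat.card V := by
      obtain ⟨a, ha⟩ := IsPGroup.iff_card.1 hVq
      rcases a with - | a
      · exact absurd (Subgroup.card_eq_one.1 (by simpa using ha)) hVne
      · exact ha ▸ dvd_pow_self r (by omega)
    have hfd : r ∣ Nat.card (MulAction.fixedPoints φ.range V) :=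
      (Nat.modEq_zero_iff_dvd).1 (hmod.symm.trans (Nat.modEq_zero_iff_dvd.2 hVd))
    have hone : (1 : V) ∈ MulAction.fixedPoints φ.range V := fun g => map_one (g : MulAut V)
    haveI : Nonempty (MulAction.fixedPoints φ.range V) := ⟨⟨1, hone⟩⟩
    have h2 : 1 < Nat.card (MulAction.fixedPoints φ.range V) :=
      lt_of_lt_of_le hr.one_lt (Nat.le_of_dvd Nat.card_pos hfd)
    haveI := Finite.one_lt_card_iff_nontrivial.1 h2
    obtain ⟨⟨v, hv⟩, hv1⟩ := exists_ne (⟨1, hone⟩ : MulAction.fixedPoints φ.range V)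
    refine hv1 (Subtype.ext (Subtype.ext (Subgroup.mem_bot.1 (hCN ▸ Subgroup.mem_inf.2
      ⟨v.2, Subgroup.mem_centralizer_iff.2 fun n hn => ?_⟩))))
    have h3 : (n : G) * (v : G) * n⁻¹ = v :=
      congrArg Subtype.val (hv ⟨φ ⟨n, hn⟩, ⟨⟨n, hn⟩, rfl⟩⟩)
    nth_rw 2 [← h3]
    group
  obtain ⟨Q, hQA⟩ := exists_invariant_sylow hAN (card_coprime_of_le hcop hNH) (Or.inl hAs) r
  set QG := (Q : Subgroup N).map N.subtype with hQG
  have hQN : QG ≤ N := Subgroup.map_subtype_le _
  have hQH : QG ≤ H := hQN.trans hNH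
  have hQr : IsPGroup r QG := Q.2.map _
  have hNQ : ∀ n ∈ N, ∃ s ∈ QG, s⁻¹ * n ∈ Cv := by
    have hsup : (Q : Subgroup N) ⊔ Cv.subgroupOf N = ⊤ := by
      set T := (Q : Subgroup N) ⊔ Cv.subgroupOf N
      rw [← Subgroup.index_eq_one]
      have h1 : T.index ∣ (Q : Subgroup N).index := Subgroup.index_dvd_of_le le_sup_left
      have h2 : T.index ∣ (Cv.subgroupOf N).index := Subgroup.index_dvd_of_le le_sup_right
      obtain ⟨e, he⟩ := IsPGroup.iff_card.1 hquotr
      rw [Subgroup.index_eq_card (Cv.subgroupOf N), he] at h2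
      exact Nat.eq_one_of_dvd_coprimes ((hr.coprime_iff_not_dvd.2 Q.not_dvd_index).pow_left e) h2 h1
    intro n hn
    have h1 : (⟨n, hn⟩ : N) ∈ (Q : Subgroup N) ⊔ Cv.subgroupOf N := by rw [hsup]; trivial
    obtain ⟨s, hs, c, hc, hsc⟩ := Subgroup.mem_sup_of_normal_right.1 h1
    refine ⟨s, ⟨s, hs, rfl⟩, ?_⟩
    have e : (s : G) * (c : G) = n := congrArg Subtype.val hsc
    rw [← e, inv_mul_cancel_left]; exact hc
  have hCQ : V ⊓ Subgroup.centralizer (QG : Set G) = ⊥ := by
    rw [eq_bot_iff, ← hCN]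
    rintro v ⟨hv, hvQ⟩
    refine ⟨hv, Subgroup.mem_centralizer_iff.2 fun n hn => ?_⟩
    obtain ⟨s, hs, hc⟩ := hNQ n hn
    have h1 : Commute s v := Subgroup.mem_centralizer_iff.1 hvQ s hs
    have h2 : Commute (s⁻¹ * n) v := (Subgroup.mem_centralizer_iff.1 hc.2 v hv).symm
    have h3 := h1.mul_left h2
    rw [mul_inv_cancel_left] at h3
    exact h3
  set R := ⁅QG, A⁆ with hR
  have hQRn : QG ⊔ A ≤ Subgroup.normalizer (R : Set G) := sup_le_normalizer_commutator A QG
  have hRQ : R ≤ QG := commutator_le_left hQA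
  have hRA : A ≤ Subgroup.normalizer (R : Set G) := le_sup_right.trans hQRn
  have hcopQ : (Nat.card A).Coprime (Nat.card QG) := card_coprime_of_le hcop hQH
  have hRR : ⁅R, A⁆ = R := commutator_commutator_eq hQA hcopQ (Or.inl hAs)
  haveI hVc : IsMulCommutative V := ⟨⟨fun a b => Subtype.ext (hab a a.2 b b.2)⟩⟩
  set V0 := V ⊓ Subgroup.centralizer (R : Set G) with hV0
  have hV0n : ∀ g, g ∈ Subgroup.normalizer (V : Set G) → g ∈ Subgroup.normalizer (R : Set G) →
      g ∈ Subgroup.normalizer (V0 : Set G) := fun g h1 h2 => mem_normalizer_of_conj_mem fun x hx =>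
    Subgroup.mem_inf.2 ⟨conj_mem h1 hx.1, Subgroup.mem_centralizer_iff.2 fun b hb => by
      have e1 := Subgroup.mem_centralizer_iff.1 hx.2 (g⁻¹ * b * g) ((Subgroup.mem_normalizer_iff''.1 h2 b).1 hb)
      have e2 := congrArg (fun s => g * s * g⁻¹) e1
      simpa [mul_assoc] using e2⟩
  have hcopRV : (Nat.card R).Coprime (Nat.card V) := by
    obtain ⟨a, ha⟩ := IsPGroup.iff_card.1 hVq
    obtain ⟨b, hb⟩ := IsPGroup.iff_card.1 (hQr.to_le hRQ)
    rw [ha, hb]
    exact ((Nat.coprime_primes hr hq).2 hrq).pow b a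
  have hRV : R ≤ Subgroup.normalizer (V : Set G) := hRQ.trans (hQH.trans hHV)
  -- fixed points centralised by `R`
  have hV0X : V0 ⊓ Subgroup.centralizer (A : Set G) ≤ X := by
    set W := V0 ⊓ Subgroup.centralizer (A : Set G) with hW
    set CQ := QG ⊓ Subgroup.centralizer (A : Set G) with hCQdef
    have hCQW : CQ ≤ Subgroup.normalizer (W : Set G) := fun c hc => mem_normalizer_of_conj_mem fun x hx =>
      Subgroup.mem_inf.2 ⟨conj_mem (hV0n c (hHV (hQH hc.1)) (hQRn (Subgroup.mem_sup_left hc.1))) hx.1,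
        mul_mem (mul_mem hc.2 hx.2) (inv_mem hc.2)⟩
    have hcopW : (Nat.card CQ).Coprime (Nat.card W) := by
      obtain ⟨a, ha⟩ := IsPGroup.iff_card.1 (hVq.to_le (inf_le_left.trans inf_le_left : W ≤ V))
      obtain ⟨b, hb⟩ := IsPGroup.iff_card.1 (hQr.to_le (inf_le_left : CQ ≤ QG))
      rw [ha, hb]
      exact ((Nat.coprime_primes hr hq).2 hrq).pow b a
    haveI : IsMulCommutative W := ⟨⟨fun a b => Subtype.ext (hab a a.2.1.1 b b.2.1.1)⟩⟩
    rw [← commutator_sup_centralizer hCQW hcopW (Or.inr (isSolvable_of_isMulCommutative W))]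
    refine sup_le (Subgroup.commutator_le.2 fun w hw c hc => ?_) ?_
    · open scoped Pointwise in
      have h1 : c ∈ (X : Set G) * (V : Set G) := by
        rw [← Subgroup.coe_mul_of_left_le_normalizer_right _ _
          ((fixGen_le_commutator.trans (commutator_le_left hAH)).trans hHV)]
        exact hfix ⟨hQH hc.1, hc.2⟩
      obtain ⟨x, hx, v, hv, hxv⟩ := h1
      have e : ⁅w, c⁆ = ⁅w, x⁆ := by
        have hxV : x ∈ Subgroup.normalizer (V : Set G) := hHV ((fixGen_le_commutator.trans (commutator_le_left hAH)) hx)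
        have hwV : w ∈ V := hw.1.1
        rw [← hxv, commutatorElement_def, commutatorElement_def]
        calc w * (x * v) * w⁻¹ * (x * v)⁻¹ = w * x * (v * w⁻¹) * v⁻¹ * x⁻¹ := by group
          _ = w * x * (w⁻¹ * v) * v⁻¹ * x⁻¹ := by rw [hab v hv _ (inv_mem hwV)]
          _ = _ := by group
      rw [e, commutatorElement_def]
      exact mul_mem (conj_mem (mem_normalizer_fixGen (hVH hw.1.1) hw.2) hx) (inv_mem hx)
    · intro w hw
      have : w ∈ V ⊓ Subgroup.centralizer (QG : Set G) := by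
        refine ⟨hw.1.1.1, Subgroup.mem_centralizer_iff.2 fun s hs => ?_⟩
        have hdec : s ∈ R ⊔ CQ := by
          rw [hR, hCQdef, commutator_sup_centralizer hQA hcopQ (Or.inl hAs)]; exact hs
        have hle : R ⊔ CQ ≤ Subgroup.centralizer ({w} : Set G) := sup_le
          (fun y hy => Subgroup.mem_centralizer_singleton_iff.2 (Subgroup.mem_centralizer_iff.1 hw.1.1.2 y hy))
          (fun y hy => Subgroup.mem_centralizer_singleton_iff.2 (Subgroup.mem_centralizer_iff.1 hw.2 y hy))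
        exact Subgroup.mem_centralizer_singleton_iff.1 (hle hdec)
      rw [hCQ, Subgroup.mem_bot] at this
      exact this ▸ one_mem _
  have hcopV := card_coprime_of_le hcop hVH
  set Y := ⁅V, A⁆ ⊔ (V ⊓ X) with hY
  have hMY : ∀ M : Subgroup G, M ≤ V → A ≤ Subgroup.normalizer (M : Set G) →
      M ⊓ Subgroup.centralizer (A : Set G) ≤ X → M ≤ Y := fun M hM hAM hMX =>
    le_commutator_sup_of_inf_le hAs hcopV hM hAM (le_inf (inf_le_left.trans hM) hMX)
  have hVRA : ∀ K : Subgroup G, A ≤ Subgroup.normalizer (K : Set G) → K ≤ H →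
      A ≤ Subgroup.normalizer ((⁅V, K⁆ : Subgroup G) : Set G) := fun K hK _ a ha =>
    mem_normalizer_of_conj_mem fun x hx => by
      have hle : ⁅V, K⁆ ≤ (⁅V, K⁆).comap (MulAut.conj a).toMonoidHom := Subgroup.commutator_le.2 fun v hv k hk => by
        show (MulAut.conj a) ⁅v, k⁆ ∈ ⁅V, K⁆
        rw [map_commutatorElement]
        exact Subgroup.commutator_mem_commutator (conj_mem (hAV ha) hv) (conj_mem (hK ha) hk)
      exact hle hx
  have hcase : ∀ K : Subgroup G, K ≤ H → A ≤ Subgroup.normalizer (K : Set G) → K ≤ ⁅K, A⁆ →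
      V ⊔ K ≠ H → ⁅V, K⁆ ≤ Y := by
    intro K hKH hKA hKK hne
    have hVK : ⁅V, K⁆ ≤ V := commutator_le_left (hKH.trans hHV)
    refine hMY _ hVK (hVRA K hKA hKH) ?_
    refine le_trans (inf_le_inf_right _ ?_) (inf_centralizer_le_of_lt IH hA hcop
      (lt_of_le_of_ne (sup_le hVH hKH) hne)
      ((le_inf hAV hKA).trans (Subgroup.normalizer_inf_normalizer_le_normalizer_sup _ _)))
    refine Subgroup.commutator_le.2 fun v hv k hk => ?_
    have hk' : k ∈ ⁅V ⊔ K, A⁆ := Subgroup.commutator_mono le_sup_right le_rfl (hKK hk)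
    have hn : v ∈ Subgroup.normalizer ((⁅V ⊔ K, A⁆ : Subgroup G) : Set G) :=
      sup_le_normalizer_commutator A (V ⊔ K) (Subgroup.mem_sup_left (Subgroup.mem_sup_left hv))
    rw [commutatorElement_def]
    exact mul_mem (conj_mem hn hk') (inv_mem hk')
  by_cases hVRH : V ⊔ R = H
  · -- `H` is a semidirect product
    have hV0bot : V0 = ⊥ := by
      refine eq_bot_iff.2 ?_
      rcases hirr V0 inf_le_left (hVRH ▸ sup_le (fun v hv => mem_normalizer_of_conj_mem fun x hx => by
          rw [hab v hv x hx.1, mul_inv_cancel_right]; exact hx) (fun s hs => hV0n s (hRV hs) (Subgroup.le_normalizer hs)))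
        (fun a ha => hV0n a (hAV ha) (hRA ha)) with h | h
      · exact h.le
      · exfalso
        refine hnc (hVRH ▸ Subgroup.le_centralizer_iff.1 (sup_le ?_ (Subgroup.le_centralizer_iff.1 (h.ge.trans inf_le_right))))
        exact fun v hv => Subgroup.mem_centralizer_iff.2 fun u hu => hab u hu v hv
    by_cases hone : ∃ h ∈ R, cl A h = R
    · obtain ⟨h₀, hh₀, hcl⟩ := hone
      exact complement_case hp2 IH hA hAH hcop hHA hq hr hrq hVH (hRQ.trans hQH) hVRH hVq (hQr.to_le hRQ) hab hVne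
        hHV hAV hRA hirr hV0bot hh₀ hcl hfix
    push Not at hone
    have hRcop := card_coprime_of_le hcop (hRQ.trans hQH)
    set M := ⨆ h : R, ⁅V, cl A (h : G)⁆ with hM
    have hclR : ∀ h : R, cl A (h : G) ≤ R := fun h => cl_le hRA h.2
    have hMV : M ≤ V := iSup_le fun h => commutator_le_left ((hclR h).trans hRV)
    have hMY' : M ≤ Y := by
      refine iSup_le fun h => hcase _ ((hclR h).trans (hRQ.trans hQH)) (le_normalizer_cl _)
        (cl_le_commutator_cl hRA hRcop hAs h.2) fun e => hone h h.2 ?_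
      refine le_antisymm (hclR h) fun s hs => ?_
      open scoped Pointwise in
      have h1 : s ∈ (V : Set G) * (cl A (h : G) : Set G) := by
        rw [← Subgroup.coe_mul_of_right_le_normalizer_left _ _ ((hclR h).trans hRV), e]
        exact (hRQ.trans hQH) hs
      obtain ⟨v, hv, k, hk, hvk⟩ := h1
      have hv' : v ∈ V ⊓ R := by
        refine ⟨hv, ?_⟩
        show v ∈ R
        have : v = s * k⁻¹ := by rw [← hvk]; group
        rw [this]; exact mul_mem hs (inv_mem (hclR h hk))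
      rw [Subgroup.inf_eq_bot_of_coprime hcopRV.symm, Subgroup.mem_bot] at hv'
      rw [← hvk, hv']
      show (1 : G) * k ∈ cl A (h : G)
      rw [one_mul]; exact hk
    -- `[V, R] ≤ M`
    let U : Subgroup G :=
      { carrier := {s | s ∈ R ∧ s ∈ Subgroup.normalizer (M : Set G) ∧ ∀ v ∈ V, ⁅v, s⁆ ∈ M}
        one_mem' := ⟨one_mem _, one_mem _, fun v _ => by simp⟩
        mul_mem' := fun {a b} ha hb => ⟨mul_mem ha.1 hb.1, mul_mem ha.2.1 hb.2.1, fun v hv => by
          have e : ⁅v, a * b⁆ = ⁅v, a⁆ * (a * ⁅v, b⁆ * a⁻¹) := by simp [commutatorElement_def, mul_assoc]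
          rw [e]; exact mul_mem (ha.2.2 v hv) (conj_mem ha.2.1 (hb.2.2 v hv))⟩
        inv_mem' := fun {a} ha => ⟨inv_mem ha.1, inv_mem ha.2.1, fun v hv => by
          have e : ⁅v, a⁻¹⁆ = a⁻¹ * ⁅v, a⁆⁻¹ * a⁻¹⁻¹ := by simp [commutatorElement_def, mul_assoc]
          rw [e]; exact conj_mem (inv_mem ha.2.1) (inv_mem (ha.2.2 v hv))⟩ }
    have hle : (⨆ h : R, cl A (h : G)) ≤ U := iSup_le fun h k hk => by
      have hin : ∀ v ∈ V, ⁅v, k⁆ ∈ M := fun v hv =>
        le_iSup (fun h : R => ⁅V, cl A (h : G)⁆) h (Subgroup.commutator_mem_commutator hv hk)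
      refine ⟨hclR h hk, mem_normalizer_of_conj_mem fun m hm => ?_, hin⟩
      rw [show k * m * k⁻¹ = (m * ⁅m⁻¹, k⁆) by simp [commutatorElement_def, mul_assoc]]
      exact mul_mem hm (hin _ (inv_mem (hMV hm)))
    have hVR : ⁅V, R⁆ ≤ M := Subgroup.commutator_le.2 fun v hv s hs =>
      (hle (commutator_le_iSup_cl (hRR.symm ▸ hs))).2.2 v hv
    have hVY : V ≤ Y := by
      conv_lhs => rw [← commutator_sup_centralizer hRV hcopRV (Or.inr (isSolvable_of_isMulCommutative V))]
      refine sup_le (hVR.trans hMY') ?_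
      rw [← hV0, hV0bot]; exact bot_le
    exact (inf_centralizer_le_of_le hAV hcopV inf_le_left (inf_le_right.trans fixGen_le_centralizer) hVY).trans inf_le_right
  · have hVY : V ≤ Y := by
      conv_lhs => rw [← commutator_sup_centralizer hRV hcopRV (Or.inr (isSolvable_of_isMulCommutative V))]
      exact sup_le (hcase R (hRQ.trans hQH) hRA hRR.ge hVRH)
        (hMY V0 inf_le_left (fun a ha => hV0n a (hAV ha) (hRA ha)) hV0X)
    exact (inf_centralizer_le_of_le hAV hcopV inf_le_left (inf_le_right.trans fixGen_le_centralizer) hVY).trans inf_le_right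

theorem smallerOK_all (hp2 : p ≠ 2) : ∀ m, SmallerOK.{u} p m := by
  intro m
  induction m with
  | zero => intro G _ _ A H h; exact absurd h (Nat.not_lt_zero _)
  | succ m ihm =>
    intro G _ _ A H hlt hs hAH hA hcop
    haveI := hs
    rcases Nat.lt_or_ge (Nat.card H) m with h | h
    · exact ihm G A H h hs hAH hA hcop
    have IH : SmallerOK.{u} p (Nat.card H) := by
      have : Nat.card H = m := by omega
      rw [this]; exact ihm
    have hAs := isSolvable_of_card_prime hA
    rcases (commutator_le_left hAH).eq_or_lt with hHA | hlt'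
    swap
    · have hAK : A ≤ Subgroup.normalizer ((⁅H, A⁆ : Subgroup G) : Set G) :=
        le_sup_right.trans (sup_le_normalizer_commutator A H)
      have h1 := inf_centralizer_le_of_lt IH hA hcop hlt' hAK
      rwa [commutator_commutator_eq hAH hcop (Or.inl hAs)] at h1
    rw [hHA]
    by_cases hnil : Group.IsNilpotent H
    · exact nilpotent_case hp2 IH hA hAH hcop hHA hnil
    have hH : H ≠ ⊥ := fun e => hnil (e ▸ inferInstance)
    obtain ⟨V, q, hq, hVH, hVne, hHV, hAV, hab, hVq, hirr⟩ := exists_minimal_invariant hAH hH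
    have hfix := inf_centralizer_le_fixGen_sup IH hA hAH hcop hHA hVH hVne hHV hAV
    have hVX : V ⊓ Subgroup.centralizer (A : Set G) ≤ fixGen A H := by
      by_cases hc : V ≤ Subgroup.centralizer (H : Set G)
      · exact central_case IH hA hAH hcop hHA hnil hq hVH hc hVq hfix
      · exact noncentral_case hp2 IH hA hAH hcop hHA hq hVH hVne hHV hAV hab hVq hirr hc
    rintro c ⟨hcH, hcC⟩
    open scoped Pointwise in
    have h1 : c ∈ (fixGen A H : Set G) * (V : Set G) := by
      rw [← Subgroup.coe_mul_of_left_le_normalizer_right _ _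
        ((fixGen_le_commutator.trans (commutator_le_left hAH)).trans hHV)]
      exact hfix ⟨hcH, hcC⟩
    obtain ⟨x, hx, v, hv, rfl⟩ := h1
    refine mul_mem hx (hVX ⟨hv, ?_⟩)
    simpa using (Subgroup.centralizer (A : Set G)).mul_mem
      ((Subgroup.centralizer (A : Set G)).inv_mem (fixGen_le_centralizer hx)) hcC

/-- `C_{[H,A]}(A)` is generated by the `C_{[h,A]}(A)`. -/
theorem commutator_inf_centralizer_eq_fixGen (hp2 : p ≠ 2) [Group.IsSolvable H]
    (hAH : A ≤ Subgroup.normalizer (H : Set G)) (hA : Nat.card A = p)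
    (hcop : (Nat.card A).Coprime (Nat.card H)) :
    ⁅H, A⁆ ⊓ Subgroup.centralizer (A : Set G) = fixGen A H :=
  le_antisymm (smallerOK_all hp2 (Nat.card H + 1) G A H (Nat.lt_succ_self _) inferInstance hAH hA hcop)
    (le_inf fixGen_le_commutator fixGen_le_centralizer)

end CfsgLib.MetacyclicP.FixedGen
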