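import Mathlib
import Cfsg.Agent.Lib.MetacyclicP.FixedVector

/-!
Fixed-space bounds for maps permuting blocks, fixed cosets in soluble groups, and base change of fixed
spaces.
-/

set_option autoImplicit false
set_option linter.style.haveILetI false

open Module

namespace CfsgLib.MetacyclicP

universe u v w

variable {K : Type u} [Field K]

/-- Orbits of a permutation of prime order. -/
theorem card_orbits_perm {X : Type*} [Fintype X] (τ : Equiv.Perm X) {p : ℕ} (hp : p.Prime)
    (hτ : τ ^ p = 1) [Fintype (MulAction.orbitRel.Quotient (Subgroup.zpowers τ) X)] :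
    p * Fintype.card (MulAction.orbitRel.Quotient (Subgroup.zpowers τ) X) ≤
      Fintype.card X + (p - 1) * Nat.card {y // τ y = y} := by
  classical
  have hfixpow : ∀ g : Subgroup.zpowers τ, ∀ y, τ y = y → (g : Equiv.Perm X) y = y := by
    intro g y hy
    obtain ⟨i, hi⟩ := g.2
    rw [← hi]
    exact Equiv.Perm.zpow_apply_eq_self_of_apply_eq_self hy i
  by_cases hτ1 : τ = 1
  · subst hτ1
    have h1 : Nat.card {y : X // (1 : Equiv.Perm X) y = y} = Fintype.card X := by
      rw [Nat.card_eq_fintype_card]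
      exact Fintype.card_congr (Equiv.subtypeUnivEquiv fun y => rfl)
    rw [h1]
    have h2 := Nat.mul_le_mul_left p (Fintype.card_le_of_surjective
      (Quotient.mk (MulAction.orbitRel (Subgroup.zpowers (1 : Equiv.Perm X)) X)) Quotient.mk_surjective)
    refine h2.trans (le_of_eq ?_)
    obtain ⟨m, rfl⟩ : ∃ m, p = m + 1 := ⟨p - 1, by have := hp.pos; omega⟩
    rw [Nat.add_sub_cancel, Nat.succ_mul]
    exact Nat.add_comm _ _
  have hord : orderOf τ = p := by
    haveI := Fact.mk hp
    exact orderOf_eq_prime hτ hτ1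
  have hcard : Fintype.card (Subgroup.zpowers τ) = p := by
    rw [← Nat.card_eq_fintype_card, Nat.card_zpowers, hord]
  have h1 := MulAction.sum_card_fixedBy_eq_card_orbits_mul_card_group (Subgroup.zpowers τ) X
  rw [hcard] at h1
  rw [mul_comm, ← h1, ← Finset.add_sum_erase _ _ (Finset.mem_univ (1 : Subgroup.zpowers τ))]
  refine Nat.add_le_add (Fintype.card_subtype_le _) ?_
  refine (Finset.sum_le_card_nsmul _ _ (Nat.card {y // τ y = y}) fun g hg => ?_).trans ?_
  · rw [Nat.card_eq_fintype_card]
    refine Fintype.card_le_of_injective (fun y => ⟨y.1, ?_⟩) fun a b h => Subtype.ext (congrArg Subtype.val h :)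
    have hy : (g : Equiv.Perm X) y.1 = y.1 := y.2
    have hg1 : (g : Equiv.Perm X) ≠ 1 := fun h => Finset.ne_of_mem_erase hg (Subtype.ext h)
    have hgen : Subgroup.zpowers (g : Equiv.Perm X) = Subgroup.zpowers τ :=
      Subgroup.eq_of_le_of_card_ge (Subgroup.zpowers_le.2 g.2) (by
        rw [Nat.card_zpowers, Nat.card_zpowers, hord]
        haveI := Fact.mk hp
        refine (orderOf_eq_prime ?_ hg1).ge
        obtain ⟨i, hi⟩ := g.2
        rw [← hi, ← zpow_natCast, ← zpow_mul, mul_comm, zpow_mul, zpow_natCast, hτ, one_zpow])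
    obtain ⟨i, hi⟩ : τ ∈ Subgroup.zpowers (g : Equiv.Perm X) := by rw [hgen]; exact Subgroup.mem_zpowers τ
    have h5 := Equiv.Perm.zpow_apply_eq_self_of_apply_eq_self hy i
    exact (DFunLike.congr_fun hi y.1).symm.trans h5
  · rw [smul_eq_mul, Finset.card_erase_of_mem (Finset.mem_univ _), Finset.card_univ, hcard]

/-- The fixed space of a map permuting the blocks of a decomposition of the identity. -/
theorem finrank_fixed_le_orbits {M : Type v} [AddCommGroup M] [Module K M] [FiniteDimensional K M]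
    {X : Type w} [Fintype X] (P : X → Module.End K M) (hP : ∑ y, P y = 1) (L : Module.End K M)
    (τ : Equiv.Perm X) (hL : ∀ y, L * P y = P (τ y) * L) {d : ℕ}
    (hd : ∀ y, finrank K (LinearMap.range (P y)) ≤ d) {p : ℕ} (hp : p.Prime) (hτ : τ ^ p = 1) :
    p * finrank K (LinearMap.ker (L - 1)) ≤ d * (Fintype.card X + (p - 1) * Nat.card {y // τ y = y}) := by
  classical
  haveI : Fintype (MulAction.orbitRel.Quotient (Subgroup.zpowers τ) X) := Fintype.ofFinite _
  set O := MulAction.orbitRel.Quotient (Subgroup.zpowers τ) X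
  let r : LinearMap.ker (L - 1) →ₗ[K] ((o : O) → LinearMap.range (P (Quotient.out o))) :=
    { toFun := fun v o => ⟨P (Quotient.out o) (v : M), ⟨_, rfl⟩⟩
      map_add' := fun a b => funext fun o => Subtype.ext (by simp)
      map_smul' := fun c a => funext fun o => Subtype.ext (by simp) }
  have hr : Function.Injective r := by
    rw [← LinearMap.ker_eq_bot, eq_bot_iff]
    intro v hv
    have hv' : ∀ o : O, P (Quotient.out o) (v : M) = 0 := fun o => congrArg Subtype.val (congrFun hv o)
    have hfix : L (v : M) = v := by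
      have := v.2
      rw [LinearMap.mem_ker, LinearMap.sub_apply, Module.End.one_apply, sub_eq_zero] at this
      exact this
    have hstep : ∀ y, P y (v : M) = 0 → P (τ y) (v : M) = 0 := by
      intro y hy
      rw [← hfix, ← Module.End.mul_apply, ← hL, Module.End.mul_apply, hy, map_zero]
    have hpow : ∀ (j : ℕ) (y : X), P y (v : M) = 0 → P ((τ ^ j) y) (v : M) = 0 := by
      intro j
      induction j with
      | zero => intro y hy; exact hy
      | succ j ih => intro y hy; rw [pow_succ', Equiv.Perm.mul_apply]; exact hstep _ (ih y hy)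
    refine Subtype.ext ?_
    have h0 : (v : M) = ∑ y, P y (v : M) := by rw [← LinearMap.sum_apply, hP]; rfl
    show (v : M) = 0
    rw [h0]
    refine Finset.sum_eq_zero fun y _ => ?_
    obtain ⟨g, hg⟩ : y ∈ MulAction.orbit (Subgroup.zpowers τ)
        (Quotient.out (Quotient.mk (MulAction.orbitRel (Subgroup.zpowers τ) X) y)) :=
      MulAction.orbitRel_apply.1 ((MulAction.orbitRel (Subgroup.zpowers τ) X).symm'
        (Quotient.exact (Quotient.out_eq _)))
    obtain ⟨j, hj⟩ := (isOfFinOrder_of_finite τ).mem_powers_iff_mem_zpowers.2 g.2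
    have hj' : τ ^ j = (g : Equiv.Perm X) := hj
    have h1 := hpow j _ (hv' (Quotient.mk (MulAction.orbitRel (Subgroup.zpowers τ) X) y))
    rw [hj'] at h1
    rw [← hg]
    exact h1
  have h1 : finrank K (LinearMap.ker (L - 1)) ≤ Fintype.card O * d := by
    refine (LinearMap.finrank_le_finrank_of_injective hr).trans ?_
    rw [Module.finrank_pi_fintype]
    refine (Finset.sum_le_card_nsmul _ _ d fun o _ => hd _).trans ?_
    rw [smul_eq_mul, Finset.card_univ]
  calc p * finrank K (LinearMap.ker (L - 1)) ≤ p * (Fintype.card O * d) := Nat.mul_le_mul_left p h1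
    _ = d * (p * Fintype.card O) := by ring
    _ ≤ _ := Nat.mul_le_mul_left d (card_orbits_perm τ hp hτ)

/-- The commutant of a nontrivial map is larger than the square of its fixed space. -/
theorem sq_fixed_lt_commutant {M : Type v} [AddCommGroup M] [Module K M] [FiniteDimensional K M]
    (θ : Module.End K M) (hθ : θ ≠ 1) :
    finrank K (LinearMap.ker (θ - 1)) ^ 2 <
      finrank K (LinearMap.ker (LinearMap.mulLeft K θ - LinearMap.mulRight K θ)) := by
  set C := LinearMap.ker (θ - 1) with hC
  set R := LinearMap.range (θ - 1) with hR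
  let Φ : ((M ⧸ R) →ₗ[K] C) →ₗ[K] Module.End K M :=
    { toFun := fun g => C.subtype ∘ₗ g ∘ₗ R.mkQ
      map_add' := fun a b => LinearMap.ext fun y => by simp
      map_smul' := fun c a => LinearMap.ext fun y => by simp }
  have hΦ : Function.Injective Φ := fun a b h => Submodule.linearMap_qext _
    (LinearMap.ext fun y => Subtype.ext (LinearMap.congr_fun h y))
  have hfinQ : finrank K (M ⧸ R) = finrank K C := by
    have h1 := Submodule.finrank_quotient_add_finrank R
    have h2 := LinearMap.finrank_range_add_finrank_ker (θ - 1)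
    rw [hC]
    rw [hR] at h1 ⊢
    omega
  have hle : LinearMap.range Φ ≤ LinearMap.ker (LinearMap.mulLeft K θ - LinearMap.mulRight K θ) := by
    rintro _ ⟨g, rfl⟩
    rw [LinearMap.mem_ker, LinearMap.sub_apply, LinearMap.mulLeft_apply, LinearMap.mulRight_apply,
      sub_eq_zero]
    refine LinearMap.ext fun y => ?_
    rw [Module.End.mul_apply, Module.End.mul_apply]
    show θ ((g (R.mkQ y) : C) : M) = ((g (R.mkQ (θ y)) : C) : M)
    have h1 : R.mkQ (θ y) = R.mkQ y := (Submodule.Quotient.eq R).2 ⟨y, by simp⟩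
    have h2 := LinearMap.mem_ker.1 (g (R.mkQ y)).2
    rw [LinearMap.sub_apply, Module.End.one_apply, sub_eq_zero] at h2
    rw [h1, h2]
  have hne : LinearMap.range Φ < LinearMap.ker (LinearMap.mulLeft K θ - LinearMap.mulRight K θ) := by
    refine lt_of_le_of_ne hle fun heq => hθ ?_
    have h1 : (1 : Module.End K M) ∈ LinearMap.range Φ := by rw [heq]; simp
    obtain ⟨g, hg⟩ := h1
    refine LinearMap.ext fun y => ?_
    have h2 : ((g (R.mkQ y) : C) : M) = y := LinearMap.congr_fun hg y
    have h3 := LinearMap.mem_ker.1 (g (R.mkQ y)).2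
    rw [LinearMap.sub_apply, Module.End.one_apply, sub_eq_zero, h2] at h3
    rw [h3, Module.End.one_apply]
  have h1 := Submodule.finrank_lt_finrank_of_lt hne
  rwa [LinearMap.finrank_range_of_inj hΦ, Module.finrank_linearMap, hfinQ, ← pow_two] at h1

/-- Fixed spaces of a map leaving a subspace invariant. -/
theorem finrank_ker_le_sub_add_quot {M : Type v} [AddCommGroup M] [Module K M] [FiniteDimensional K M]
    (W : Submodule K M) (f : Module.End K M) (hW : ∀ y ∈ W, f y ∈ W) :
    finrank K (LinearMap.ker f) ≤ finrank K (LinearMap.ker (f.restrict hW)) +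
      finrank K (LinearMap.ker (W.mapQ W f (fun y hy => hW y hy))) := by
  set g := W.mkQ.comp (LinearMap.ker f).subtype with hg
  have h1 := LinearMap.finrank_range_add_finrank_ker g
  have h2 : finrank K (LinearMap.range g) ≤ finrank K (LinearMap.ker (W.mapQ W f (fun y hy => hW y hy))) := by
    refine Submodule.finrank_mono ?_
    rintro _ ⟨⟨y, hy⟩, rfl⟩
    rw [LinearMap.mem_ker] at hy ⊢
    show W.mapQ W f _ (Submodule.Quotient.mk y) = 0
    rw [Submodule.mapQ_apply, hy, Submodule.Quotient.mk_zero]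
  have h3 : finrank K (LinearMap.ker g) ≤ finrank K (LinearMap.ker (f.restrict hW)) := by
    let ι : LinearMap.ker g →ₗ[K] LinearMap.ker (f.restrict hW) :=
      { toFun := fun y => ⟨⟨((y : LinearMap.ker f) : M), (Submodule.Quotient.mk_eq_zero W).1 y.2⟩,
          Subtype.ext (y : LinearMap.ker f).2⟩
        map_add' := fun a b => rfl
        map_smul' := fun c a => rfl }
    exact LinearMap.finrank_le_finrank_of_injective (f := ι) fun a b h =>
      Subtype.ext (Subtype.ext (congrArg (fun z => ((z : W) : M)) (congrArg Subtype.val h)))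
  omega

/-- A ring map of endomorphisms does not decrease fixed spaces. -/
theorem finrank_fixed_baseChange {F : Type u} [Field F] {V : Type v} [AddCommGroup V] [Module F V]
    [FiniteDimensional F V] {L : Type w} [Field L] {M : Type*} [AddCommGroup M] [Module L M]
    [FiniteDimensional L M] (Φ : Module.End F V →+* Module.End L M) (hΦ : Function.Injective Φ)
    (T : Module.End F V) :
    finrank F (LinearMap.ker (T - 1)) ≤ finrank L (LinearMap.ker (Φ T - 1)) := by
  classical
  set C := LinearMap.ker (T - 1) with hC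
  let b := Module.finBasis F C
  obtain ⟨P, hP⟩ := LinearMap.exists_leftInverse_of_injective C.subtype C.ker_subtype
  have hP' : ∀ c : C, P c = c := fun c => LinearMap.congr_fun hP c
  let e : Fin (finrank F C) → Module.End F V := fun i =>
    ((b.coord i).comp P).smulRight ((b i : C) : V)
  have hee : ∀ i j, e i * e j = if i = j then e i else 0 := by
    intro i j
    refine LinearMap.ext fun y => ?_
    simp only [Module.End.mul_apply, e, LinearMap.smulRight_apply, LinearMap.comp_apply, map_smul, hP',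
      Basis.coord_apply, b.repr_self, smul_eq_mul]
    by_cases h : i = j
    · subst h; simp
    · simp [if_neg h, Finsupp.single_eq_of_ne h]
  have hTe : ∀ i, (T - 1) * e i = 0 := fun i => LinearMap.ext fun y => by
    simp only [Module.End.mul_apply, e, LinearMap.smulRight_apply, map_smul]
    rw [LinearMap.mem_ker.1 (b i).2, smul_zero, LinearMap.zero_apply]
  have hne : ∀ i, e i ≠ 0 := fun i h => by
    have h1 := LinearMap.congr_fun h ((b i : C) : V)
    simp only [e, LinearMap.smulRight_apply, LinearMap.comp_apply, hP', Basis.coord_apply, b.repr_self,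
      Finsupp.single_eq_same, one_smul, LinearMap.zero_apply] at h1
    exact b.ne_zero i (Subtype.ext h1)
  have hy : ∀ i, ∃ y, y ∈ LinearMap.ker (Φ T - 1) ∧ Φ (e i) y = y ∧ y ≠ 0 := by
    intro i
    obtain ⟨z, hz⟩ : ∃ z, Φ (e i) z ≠ 0 := by
      by_contra! h
      exact hne i (hΦ ((LinearMap.ext h : Φ (e i) = 0).trans (map_zero Φ).symm))
    refine ⟨Φ (e i) z, ?_, ?_, hz⟩
    · rw [LinearMap.mem_ker, ← map_one Φ, ← map_sub, ← Module.End.mul_apply, ← map_mul, hTe, map_zero,
        LinearMap.zero_apply]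
    · rw [← Module.End.mul_apply, ← map_mul, hee, if_pos rfl]
  choose y hyk hye hy0 using hy
  have hli : LinearIndependent L (fun i => (⟨y i, hyk i⟩ : LinearMap.ker (Φ T - 1))) := by
    rw [Fintype.linearIndependent_iff]
    intro c hc i
    have h1 := congrArg (fun z : LinearMap.ker (Φ T - 1) => Φ (e i) (z : M)) hc
    simp only [Submodule.coe_sum, Submodule.coe_smul, map_sum, map_smul, ZeroMemClass.coe_zero,
      map_zero] at h1
    rw [Finset.sum_eq_single i] at h1
    · rw [hye] at h1
      exact (smul_eq_zero.1 h1).resolve_right (hy0 i)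
    · intro j _ hji
      rw [← hye j, ← Module.End.mul_apply, ← map_mul, hee, if_neg hji.symm, map_zero, LinearMap.zero_apply,
        smul_zero]
    · intro h; exact absurd (Finset.mem_univ i) h
  simpa using hli.fintype_card_le_finrank

/-- An element of prime order `p > 3` whose conjugates generate a soluble group fixes at most a quarter of
the cosets of a proper subgroup. -/
theorem four_mul_fixed_le {G : Type*} [Group G] [Finite G] [Group.IsSolvable G] {p : ℕ} (hp : p.Prime)
    (hp3 : 3 < p) {x : G} (hx : x ^ p = 1) (hgen : Subgroup.normalClosure ({x} : Set G) = ⊤)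
    {S : Subgroup G} (hS : S ≠ ⊤) : 4 * Nat.card {y : G ⧸ S // x • y = y} ≤ S.index := by
  classical
  obtain ⟨M, hM, hSM⟩ := (eq_top_or_exists_le_coatom S).resolve_left hS
  -- reduce to the maximal subgroup
  suffices hmax : 4 * Nat.card {y : G ⧸ M // x • y = y} ≤ M.index by
    have hle : Nat.card {y : G ⧸ S // x • y = y} ≤
        Nat.card {y : G ⧸ M // x • y = y} * S.relIndex M := by
      let e := Subgroup.quotientEquivProdOfLE hSM
      rw [Subgroup.relIndex, Subgroup.index, ← Nat.card_prod]
      refine Nat.card_le_card_of_injective (fun y => (⟨(e y.1).1, ?_⟩, (e y.1).2)) ?_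
      · obtain ⟨y, hy⟩ := y
        induction y using QuotientGroup.induction_on with | _ g =>
        show x • ((g : G ⧸ M)) = (g : G ⧸ M)
        rw [MulAction.Quotient.smul_mk, QuotientGroup.eq]
        exact hSM (QuotientGroup.eq.1 hy)
      · intro a b h
        exact Subtype.ext (e.injective (Prod.ext (congrArg (fun z => (Subtype.val z.1)) h :)
          (congrArg Prod.snd h :)))
    rw [← Subgroup.relIndex_mul_index hSM]
    calc 4 * Nat.card {y : G ⧸ S // x • y = y}
        ≤ 4 * (Nat.card {y : G ⧸ M // x • y = y} * S.relIndex M) := Nat.mul_le_mul_left 4 hle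
      _ = S.relIndex M * (4 * Nat.card {y : G ⧸ M // x • y = y}) := by ring
      _ ≤ _ := Nat.mul_le_mul_left _ hmax
  by_cases hnone : IsEmpty {y : G ⧸ M // x • y = y}
  · simp [Nat.card_of_isEmpty]
  rw [not_isEmpty_iff] at hnone
  obtain ⟨⟨y₀, hy₀⟩⟩ := hnone
  obtain ⟨g, rfl⟩ := QuotientGroup.mk_surjective y₀
  set x' := g⁻¹ * x * g with hx'
  have hx'M : x' ∈ M := by
    rw [MulAction.Quotient.smul_mk, QuotientGroup.eq] at hy₀
    have h1 := M.inv_mem hy₀
    simpa [hx', mul_assoc] using h1
  have hcard : Nat.card {y : G ⧸ M // x • y = y} = Nat.card {y : G ⧸ M // x' • y = y} := by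
    refine Nat.card_congr ((MulAction.toPerm g⁻¹).subtypeEquiv fun y => ?_)
    rw [MulAction.toPerm_apply, hx', ← mul_smul,
      show g⁻¹ * x * g * g⁻¹ = g⁻¹ * x by group, mul_smul, smul_left_cancel_iff]
  rw [hcard]
  -- a chief factor regular on the cosets
  set Kc := M.normalCore with hKc
  haveI : Kc.Normal := Subgroup.normalCore_normal M
  have hKM : Kc ≤ M := Subgroup.normalCore_le M
  obtain ⟨N, hNmin⟩ := exists_minimal_of_wellFoundedLT (fun N : Subgroup G => N.Normal ∧ Kc < N)
    ⟨⊤, inferInstance, lt_top_iff_ne_top.2 fun h => hM.1 (top_le_iff.1 (h ▸ hKM))⟩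
  obtain ⟨hNn, hKN⟩ := hNmin.prop
  haveI := hNn
  have hNM : ¬ N ≤ M := fun h => hKN.not_ge (Subgroup.normal_le_normalCore.2 h)
  have hsup : M ⊔ N = ⊤ := hM.2 _ (lt_of_le_of_ne le_sup_left fun h => hNM (le_sup_right.trans_eq h.symm))
  have hNab : ∀ a ∈ N, ∀ b ∈ N, a * b * a⁻¹ * b⁻¹ ∈ Kc := by
    have hcomm : ⁅N, N⁆ ≤ Kc := by
      have hle : ⁅N, N⁆ ⊔ Kc ≤ N := sup_le (Subgroup.commutator_le_self N) hKN.le
      by_contra hnle
      have heq : ⁅N, N⁆ ⊔ Kc = N :=
        le_antisymm hle (hNmin.le_of_le ⟨inferInstance, lt_of_le_of_ne le_sup_right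
          fun h => hnle (le_sup_left.trans_eq h.symm)⟩ hle)
      set π := QuotientGroup.mk' Kc with hπ
      have h1 : ⁅N.map π, N.map π⁆ = N.map π := by
        rw [← Subgroup.map_commutator]
        conv_rhs => rw [← heq, Subgroup.map_sup, (Subgroup.map_eq_bot_iff Kc).2 (by rw [hπ, QuotientGroup.ker_mk']), sup_bot_eq]
      obtain ⟨n, hn⟩ := Group.IsSolvable.solvable (G := G ⧸ Kc)
      have hall : ∀ m, N.map π ≤ derivedSeries (G ⧸ Kc) m := by
        intro m
        induction m with
        | zero => simp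
        | succ m ih =>
          rw [derivedSeries_succ]
          exact le_trans (le_of_eq h1.symm) (Subgroup.commutator_mono ih ih)
      have h2 : N.map π = ⊥ := le_bot_iff.1 (hn ▸ hall n)
      rw [Subgroup.map_eq_bot_iff, hπ, QuotientGroup.ker_mk'] at h2
      exact hKN.not_ge h2
    intro a ha b hb
    exact hcomm (Subgroup.commutator_mem_commutator ha hb)
  have hMN : N ⊓ M ≤ Kc := by
    haveI : (N ⊓ M).Normal := by
      refine ⟨fun n hn g => ?_⟩
      obtain ⟨m, hm, n', hn', rfl⟩ := Subgroup.mem_sup_of_normal_right.1 (hsup ▸ Subgroup.mem_top g)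
      refine ⟨hNn.conj_mem n hn.1 _, ?_⟩
      have h1 : n' * n * n'⁻¹ ∈ M := by
        have h2 := M.mul_mem (hKM (hNab n' hn' n hn.1)) hn.2
        simpa using h2
      have h3 := M.mul_mem (M.mul_mem hm h1) (M.inv_mem hm)
      simpa [mul_assoc] using h3
    exact Subgroup.normal_le_normalCore.2 inf_le_right
  -- cosets correspond to `N / Kc`
  set π := QuotientGroup.mk' Kc with hπ
  set N' := N.map π with hN'
  have hrepr : ∀ y : G ⧸ M, ∃ n ∈ N, (n : G ⧸ M) = y := by
    intro y
    induction y using QuotientGroup.induction_on with | _ g =>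
    obtain ⟨n, hn, m, hm, rfl⟩ := Subgroup.mem_sup_of_normal_left.1 ((sup_comm M N ▸ hsup) ▸ Subgroup.mem_top g)
    exact ⟨n, hn, QuotientGroup.eq.2 (by simpa using hm)⟩
  choose nf hnfN hnf using hrepr
  let F : (G ⧸ M) → N' := fun y => ⟨π (nf y), nf y, hnfN y, rfl⟩
  have hFmk : ∀ n (hn : n ∈ N), F (n : G ⧸ M) = ⟨π n, n, hn, rfl⟩ := by
    intro n hn
    refine Subtype.ext ?_
    show π (nf (n : G ⧸ M)) = π n
    exact QuotientGroup.eq.2 (hMN ⟨N.mul_mem (N.inv_mem (hnfN _)) hn, QuotientGroup.eq.1 (hnf _)⟩)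
  have hFbij : Function.Bijective F := by
    refine ⟨fun a b h => ?_, fun z => ?_⟩
    · rw [← hnf a, ← hnf b, QuotientGroup.eq]
      exact hKM (QuotientGroup.eq.1 (congrArg Subtype.val h))
    · obtain ⟨_, n, hn, rfl⟩ := z
      exact ⟨_, hFmk n hn⟩
  have hidx : M.index = Nat.card N' := Nat.card_congr (Equiv.ofBijective F hFbij)
  -- fixed cosets correspond to centralised elements
  set C : Subgroup N' := (Subgroup.centralizer ({π x'} : Set (G ⧸ Kc))).subgroupOf N' with hC
  have hfixed : Nat.card {y : G ⧸ M // x' • y = y} = Nat.card C := by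
    refine Nat.card_congr ((Equiv.ofBijective F hFbij).subtypeEquiv fun y => ?_)
    rw [Equiv.ofBijective_apply, hC, Subgroup.mem_subgroupOf, Subgroup.mem_centralizer_singleton_iff]
    show x' • y = y ↔ π (nf y) * π x' = π x' * π (nf y)
    conv_lhs => rw [← hnf y, MulAction.Quotient.smul_mk, QuotientGroup.eq]
    rw [← map_mul, ← map_mul, hπ, QuotientGroup.mk'_apply, QuotientGroup.mk'_apply, QuotientGroup.eq]
    set n := nf y
    have hn := hnfN y
    constructor
    · intro h
      have h0 : n⁻¹ * x' * n ∈ M := by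
        have h1 := M.inv_mem h
        simpa [mul_assoc] using h1
      have h1 : (n * x')⁻¹ * (x' * n) ∈ M := by
        have h2 := M.mul_mem (M.inv_mem hx'M) h0
        simpa [mul_assoc] using h2
      refine hMN ⟨?_, h1⟩
      have h3 := N.mul_mem (hNn.conj_mem' _ (N.inv_mem hn) x') hn
      simpa [mul_assoc] using h3
    · intro h
      have h2 := M.mul_mem hx'M (hKM h)
      have h3 : n⁻¹ * x' * n ∈ M := by simpa [mul_assoc] using h2
      have h4 := M.inv_mem h3
      simpa [mul_assoc] using h4
  rw [hfixed, hidx, ← C.card_mul_index, mul_comm]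
  refine Nat.mul_le_mul_left _ ?_
  by_contra hlt
  rw [not_le] at hlt
  have hi0 : C.index ≠ 0 := Subgroup.FiniteIndex.index_ne_zero
  -- `x'` acts trivially
  have hmod : ∀ z : G ⧸ Kc, z ∈ N' → π x' * z * (π x')⁻¹ ∈ N' := by
    rintro _ ⟨n, hn, rfl⟩
    exact ⟨x' * n * x'⁻¹, hNn.conj_mem n hn x', by simp⟩
  have habN : ∀ a ∈ N', ∀ b ∈ N', a * b = b * a := by
    rintro _ ⟨a, ha, rfl⟩ _ ⟨b, hb, rfl⟩
    have h1 : π (a * b * a⁻¹ * b⁻¹) = 1 := (QuotientGroup.eq_one_iff _).2 (hNab a ha b hb)
    simp only [map_mul, map_inv] at h1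
    exact mul_inv_eq_iff_eq_mul.1 (mul_inv_eq_one.1 h1)
  have hx'p : x' ^ p = 1 := by
    have h1 : x' = g⁻¹ * x * g⁻¹⁻¹ := by rw [inv_inv]
    rw [h1, conj_pow, hx, mul_one, mul_inv_cancel]
  let δ : N' →* N' := MonoidHom.mk' (fun z => ⟨π x' * z * (π x')⁻¹ * (z : G ⧸ Kc)⁻¹,
    N'.mul_mem (hmod z z.2) (N'.inv_mem z.2)⟩) fun a b => Subtype.ext (by
      show π x' * ((a : G ⧸ Kc) * b) * (π x')⁻¹ * ((a : G ⧸ Kc) * b)⁻¹ = _
      calc π x' * ((a : G ⧸ Kc) * b) * (π x')⁻¹ * ((a : G ⧸ Kc) * b)⁻¹
          = (π x' * a * (π x')⁻¹) * ((π x' * b * (π x')⁻¹) * (b : G ⧸ Kc)⁻¹) * (a : G ⧸ Kc)⁻¹ := by group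
        _ = (π x' * a * (π x')⁻¹) * (a : G ⧸ Kc)⁻¹ * ((π x' * b * (π x')⁻¹) * (b : G ⧸ Kc)⁻¹) := by
          rw [mul_assoc, habN _ (N'.mul_mem (hmod b b.2) (N'.inv_mem b.2)) _ (N'.inv_mem a.2), ← mul_assoc])
  have hker : δ.ker = C := by
    ext z
    rw [MonoidHom.mem_ker, hC, Subgroup.mem_subgroupOf, Subgroup.mem_centralizer_singleton_iff,
      Subtype.ext_iff]
    show π x' * z * (π x')⁻¹ * (z : G ⧸ Kc)⁻¹ = 1 ↔ _
    rw [mul_inv_eq_one, mul_inv_eq_iff_eq_mul]
    exact eq_comm
  have hrange : Nat.card δ.range = C.index := by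
    rw [← hker, Subgroup.index, Nat.card_congr (QuotientGroup.quotientKerEquivRange δ).toEquiv]
  -- the automorphism fixes the cosets of `C`
  let α : MulAut N' :=
    { toFun := fun z => ⟨π x' * z * (π x')⁻¹, hmod z z.2⟩
      invFun := fun z => ⟨(π x')⁻¹ * z * π x', by
        obtain ⟨_, n, hn, rfl⟩ := z
        exact ⟨x'⁻¹ * n * x', hNn.conj_mem' n hn x', by simp⟩⟩
      left_inv := fun z => Subtype.ext (by simp [mul_assoc])
      right_inv := fun z => Subtype.ext (by simp [mul_assoc])
      map_mul' := fun a b => Subtype.ext (by simp [mul_assoc]) }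
  have hδα : ∀ z, α z = δ z * z := fun z => Subtype.ext (by
    show π x' * z * (π x')⁻¹ = π x' * z * (π x')⁻¹ * (z : G ⧸ Kc)⁻¹ * z
    rw [inv_mul_cancel_right])
  have hαp : ∀ z, (α ^ p) z = z := by
    intro z
    have hpow : ∀ (m : ℕ) (z : N'), (((α ^ m) z : N') : G ⧸ Kc) = π x' ^ m * z * (π x' ^ m)⁻¹ := by
      intro m
      induction m with
      | zero => intro z; simp
      | succ m ih =>
        intro z
        rw [pow_succ', MulAut.mul_apply]
        show π x' * (((α ^ m) z : N') : G ⧸ Kc) * (π x')⁻¹ = _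
        rw [ih, pow_succ']; group
    refine Subtype.ext ?_
    rw [hpow, ← map_pow, hx'p, map_one, inv_one, one_mul, mul_one]
  have hαR : δ.range.map α.toMonoidHom ≤ δ.range := by
    rintro _ ⟨_, ⟨w, rfl⟩, rfl⟩
    refine ⟨α w, Subtype.ext ?_⟩
    show π x' * (π x' * w * (π x')⁻¹) * (π x')⁻¹ * (π x' * w * (π x')⁻¹)⁻¹ =
      π x' * (π x' * w * (π x')⁻¹ * (w : G ⧸ Kc)⁻¹) * (π x')⁻¹
    group
  -- `α` fixes the small group `δ.range` pointwise
  have hfixR : ∀ z ∈ δ.range, α z = z := by
    intro z hz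
    let β : Equiv.Perm δ.range :=
      { toFun := fun w => ⟨α w, hαR ⟨w, w.2, rfl⟩⟩
        invFun := fun w => ⟨(α ^ (p - 1)) w, by
          have hall : ∀ m, (α ^ m) (w : N') ∈ δ.range := by
            intro m
            induction m with
            | zero => exact w.2
            | succ m ih => rw [pow_succ', MulAut.mul_apply]; exact hαR ⟨_, ih, rfl⟩
          exact hall _⟩
        left_inv := fun w => Subtype.ext (by
          show (α ^ (p - 1)) (α w) = w
          rw [← MulAut.mul_apply, ← pow_succ, Nat.sub_add_cancel hp.one_le, hαp])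
        right_inv := fun w => Subtype.ext (by
          show α ((α ^ (p - 1)) w) = w
          rw [← MulAut.mul_apply, ← pow_succ', Nat.sub_add_cancel hp.one_le, hαp]) }
    have hβp : β ^ p = 1 := by
      ext w
      have hpw : ∀ m : ℕ, (((β ^ m) w : δ.range) : N') = (α ^ m) w := by
        intro m
        induction m with
        | zero => rfl
        | succ m ih => rw [pow_succ', pow_succ', Equiv.Perm.mul_apply, MulAut.mul_apply, ← ih]; rfl
      rw [hpw, hαp]; rfl
    have hβ1 : β = 1 := by
      by_contra hb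
      haveI := Fact.mk hp
      haveI : Fintype δ.range := Fintype.ofFinite _
      have h1 : p ∣ (Fintype.card δ.range).factorial := by
        rw [← Fintype.card_perm, ← orderOf_eq_prime hβp hb]
        exact orderOf_dvd_card
      rw [hp.dvd_factorial, ← Nat.card_eq_fintype_card, hrange] at h1
      omega
    exact congrArg Subtype.val (DFunLike.congr_fun hβ1 (⟨z, hz⟩ : δ.range))
  have hδ1 : ∀ z, δ z = 1 := by
    intro z
    have hit : ∀ m : ℕ, (α ^ m) z = δ z ^ m * z := by
      intro m
      induction m with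
      | zero => simp
      | succ m ih =>
        rw [pow_succ', MulAut.mul_apply, ih, map_mul, map_pow, hfixR _ ⟨z, rfl⟩, hδα, ← mul_assoc, ← pow_succ]
    have h1 : δ z ^ p = 1 := by
      have h := hit p
      rw [hαp, right_eq_mul] at h
      exact h
    have h2 : δ z ^ C.index = 1 := by
      have h3 := pow_card_eq_one' (G := δ.range) (x := ⟨δ z, z, rfl⟩)
      rw [hrange] at h3
      exact congrArg Subtype.val h3
    have hco : p.gcd C.index = 1 := hp.coprime_iff_not_dvd.2 fun hd => by
      have := Nat.le_of_dvd (Nat.pos_of_ne_zero hi0) hd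
      omega
    rw [← pow_one (δ z), ← hco]
    exact pow_gcd_eq_one.2 ⟨h1, h2⟩
  -- the centraliser of `N'` meets `M` in the core
  set D : Subgroup G := (Subgroup.centralizer (N' : Set (G ⧸ Kc))).comap π with hD
  haveI hN'n : N'.Normal := Subgroup.Normal.map hNn π (QuotientGroup.mk'_surjective Kc)
  haveI hDn : D.Normal := Subgroup.Normal.comap Subgroup.normal_centralizer π
  have hDM : D ⊓ M ≤ Kc := by
    haveI : (D ⊓ M).Normal := by
      refine ⟨fun d hd g => ⟨hDn.conj_mem d hd.1 g, ?_⟩⟩
      obtain ⟨m, hm, n, hn, rfl⟩ := Subgroup.mem_sup_of_normal_right.1 (hsup ▸ Subgroup.mem_top g)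
      have h1 : n * d * n⁻¹ * d⁻¹ ∈ Kc := by
        refine (QuotientGroup.eq_one_iff _).1 ?_
        show π (n * d * n⁻¹ * d⁻¹) = 1
        have h2 := Subgroup.mem_centralizer_iff.1 hd.1 (π n) ⟨n, hn, rfl⟩
        simp only [map_mul, map_inv]
        rw [h2]
        group
      have h3 := M.mul_mem (M.mul_mem hm (M.mul_mem (hKM h1) hd.2)) (M.inv_mem hm)
      simpa [mul_assoc] using h3
    exact Subgroup.normal_le_normalCore.2 inf_le_right
  have hxD : x' ∈ D := by
    rw [hD, Subgroup.mem_comap, Subgroup.mem_centralizer_iff]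
    intro z hz
    have h1 := hδ1 ⟨z, hz⟩
    rw [← MonoidHom.mem_ker, hker, hC, Subgroup.mem_subgroupOf, Subgroup.mem_centralizer_singleton_iff] at h1
    exact h1
  have hxK : x ∈ Kc := by
    have h1 := (inferInstance : Kc.Normal).conj_mem x' (hDM ⟨hxD, hx'M⟩) g
    simpa [hx', mul_assoc] using h1
  exact hM.1 (top_le_iff.1 (hgen ▸ (Subgroup.normalClosure_le_normal
    (Set.singleton_subset_iff.2 hxK)).trans hKM))

end CfsgLib.MetacyclicP
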