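import Mathlib
import Cfsg.Agent.Lib.MetacyclicP.HalfFixedTools

/-!
Fixed spaces of a map of prime order `p > 3` normalising a group of linear maps of class two: the case of a
large index, and the case of a transvection modulo the centre.
-/

set_option autoImplicit false
set_option linter.style.haveILetI false

open Module

namespace CfsgLib.MetacyclicP

open CfsgLib.HallHigmanB

universe u v w

variable {K : Type u} [Field K]

/-- Eigenspaces inside a subspace have total dimension at most its dimension. -/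
theorem sum_finrank_inf_eigenspace_le {M : Type v} [AddCommGroup M] [Module K M] [FiniteDimensional K M]
    (W : Submodule K M) (f : Module.End K M) (S : Finset K) :
    ∑ μ ∈ S, finrank K ↥(W ⊓ f.eigenspace μ) ≤ finrank K W := by
  classical
  suffices h : ∑ μ ∈ S, finrank K ↥(W ⊓ f.eigenspace μ) ≤
      finrank K ↥(⨆ μ ∈ S, W ⊓ f.eigenspace μ) by
    exact h.trans (Submodule.finrank_mono (iSup₂_le fun μ _ => inf_le_left))
  induction S using Finset.induction_on with
  | empty => simp
  | insert a S ha ih =>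
    rw [Finset.sum_insert ha, Finset.iSup_insert]
    have hdisj : (W ⊓ f.eigenspace a) ⊓ (⨆ μ ∈ S, W ⊓ f.eigenspace μ) = ⊥ := by
      rw [← disjoint_iff]
      refine (f.eigenspaces_iSupIndep.disjoint_biSup (y := (S : Set K)) (by simpa using ha)).mono
        inf_le_right ?_
      exact iSup₂_mono fun μ _ => inf_le_right
    have h1 := Submodule.finrank_sup_add_finrank_inf_eq (W ⊓ f.eigenspace a)
      (⨆ μ ∈ S, W ⊓ f.eigenspace μ)
    rw [hdisj, finrank_bot, Nat.add_zero] at h1
    omega

/-- A scalar power makes a map invertible. -/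
theorem injective_of_pow_eq_smul {M : Type v} [AddCommGroup M] [Module K M] {B : Module.End K M} {β : K}
    {p : ℕ} (hp : 0 < p) (hB : B ^ p = β • 1) (hβ : β ≠ 0) (t : ℕ) :
    Function.Injective (B ^ t : Module.End K M) := by
  have h1 : Function.Injective B := by
    refine (injective_iff_map_eq_zero B).2 fun y hy => ?_
    have h2 : (B ^ p) y = 0 := by
      obtain ⟨q, rfl⟩ : ∃ q, p = q + 1 := ⟨p - 1, by omega⟩
      rw [pow_succ, Module.End.mul_apply, hy, map_zero]
    rw [hB, LinearMap.smul_apply, Module.End.one_apply] at h2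
    exact (smul_eq_zero.1 h2).resolve_left hβ
  induction t with
  | zero => exact fun a b h => h
  | succ t ih =>
    rw [pow_succ]
    exact ih.comp h1

/-- **The transvection case.** -/
theorem half_of_transvection [IsAlgClosed K] {M : Type v} [AddCommGroup M] [Module K M]
    [FiniteDimensional K M] [Nontrivial M] {p : ℕ} (hp : p.Prime) (hp3 : 3 < p) (hpK : (p : K) ≠ 0)
    (θ B D : Module.End K M) (hθp : θ ^ p = 1) {β δ : K} (hB : B ^ p = β • 1) (hβ : β ≠ 0)
    (hD : D ^ p = δ • 1) (hδ : δ ≠ 0) {η ζ : K} (hη : η ^ p = 1) (hη1 : η ≠ 1)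
    (hDB : D * B = η • (B * D)) (hθB : θ * B = D * B * θ) (hζ : ζ ^ p = 1)
    (hθD : θ * D = ζ • (D * θ)) :
    2 * finrank K (LinearMap.ker (θ - 1)) < finrank K M := by
  classical
  haveI := Fact.mk hp
  set C := LinearMap.ker (θ - 1) with hC
  have hCm : ∀ y, y ∈ C ↔ θ y = y := fun y => by
    rw [hC, LinearMap.mem_ker, LinearMap.sub_apply, Module.End.one_apply, sub_eq_zero]
  have hn0 : 0 < finrank K M := Module.finrank_pos
  have hprimη : IsPrimitiveRoot η p := by
    rw [← orderOf_eq_prime hη hη1]; exact IsPrimitiveRoot.orderOf η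
  by_cases hζ1 : ζ = 1
  swap
  · -- the powers of `D` separate the fixed space
    have hprim : IsPrimitiveRoot ζ p := by
      rw [← orderOf_eq_prime hζ hζ1]; exact IsPrimitiveRoot.orderOf ζ
    have hstep : ∀ (t : ℕ) (y : M), θ ((D ^ t) y) = ζ ^ t • (D ^ t) (θ y) := by
      intro t
      induction t with
      | zero => intro y; simp
      | succ t ih =>
        intro y
        rw [pow_succ', Module.End.mul_apply, ← Module.End.mul_apply θ D, hθD, LinearMap.smul_apply,
          Module.End.mul_apply, ih, map_smul, smul_smul, ← pow_succ', ← Module.End.mul_apply D]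
    have hle : ∀ t : ℕ, finrank K C ≤ finrank K ↥(⊤ ⊓ θ.eigenspace (ζ ^ t)) := by
      intro t
      have hmem : ∀ y : C, (D ^ t) (y : M) ∈ ⊤ ⊓ θ.eigenspace (ζ ^ t) := fun y =>
        ⟨Submodule.mem_top, Module.End.mem_eigenspace_iff.2 (by rw [hstep, (hCm _).1 y.2])⟩
      exact LinearMap.finrank_le_finrank_of_injective
        (f := LinearMap.codRestrict _ ((D ^ t).comp C.subtype) hmem)
        fun a b h => Subtype.ext (injective_of_pow_eq_smul hp.pos hD hδ t (congrArg Subtype.val h))
    have h1 := sum_finrank_inf_eigenspace_le ⊤ θ ((Finset.range p).image (fun t => ζ ^ t))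
    rw [Finset.sum_image (fun a ha b hb h =>
      hprim.pow_inj (Finset.mem_range.1 ha) (Finset.mem_range.1 hb) h), finrank_top] at h1
    have h2 : p * finrank K C ≤ finrank K M := by
      refine le_trans ?_ h1
      calc p * finrank K C = ∑ _t ∈ Finset.range p, finrank K C := by simp
        _ ≤ _ := Finset.sum_le_sum fun t _ => hle t
    nlinarith
  subst hζ1
  rw [one_smul] at hθD
  -- an eigenvalue of `D`, carried along by `B`
  obtain ⟨μ, hμ⟩ := Module.End.exists_eigenvalue D
  have hθinj : ∀ y, θ y = 0 → y = 0 := by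
    intro y hy
    have h := injective_of_pow_eq_smul (t := 1) hp.pos (hθp.trans (one_smul K _).symm) one_ne_zero
    rw [pow_one] at h
    exact h (hy.trans (map_zero θ).symm)
  have hθeig : ∀ (ν : K) (y : M), D y = ν • y → D (θ y) = ν • θ y := fun ν y hy => by
    rw [← Module.End.mul_apply, ← hθD, Module.End.mul_apply, hy, map_smul]
  have hBstep : ∀ (ν : K) (t : ℕ) (y : M), D y = ν • y →
      D ((B ^ t) y) = (ν * η ^ t) • (B ^ t) y ∧
      θ ((B ^ t) y) = (ν ^ t * η ^ (t + 1).choose 2) • (B ^ t) (θ y) := by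
    intro ν t
    induction t with
    | zero => intro y hy; simp [hy]
    | succ t ih =>
      intro y hy
      obtain ⟨h1, h2⟩ := ih y hy
      obtain ⟨h1', -⟩ := ih (θ y) (hθeig ν y hy)
      refine ⟨?_, ?_⟩
      · rw [pow_succ' B, Module.End.mul_apply, ← Module.End.mul_apply D B, hDB, LinearMap.smul_apply,
          Module.End.mul_apply, h1, map_smul, smul_smul, ← Module.End.mul_apply B, pow_succ']
        congr 1; ring
      · rw [pow_succ' B, Module.End.mul_apply, ← Module.End.mul_apply θ B, hθB, Module.End.mul_apply,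
          h2, map_smul, Module.End.mul_apply, ← Module.End.mul_apply D B, hDB, LinearMap.smul_apply,
          Module.End.mul_apply, h1', map_smul, smul_smul, smul_smul, ← Module.End.mul_apply B]
        congr 1
        rw [Nat.choose_succ_succ' (t + 1) 1, Nat.choose_one_right]
        ring
  -- every eigenvalue is a root of unity
  have hroot : ∀ (ν : K) (y : M), D y = ν • y → y ≠ 0 → ν ^ p = 1 := by
    intro ν y hy hy0
    have h1 := (hBstep ν p y hy).2
    rw [hB, LinearMap.smul_apply, LinearMap.smul_apply, Module.End.one_apply, Module.End.one_apply,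
      map_smul, smul_smul] at h1
    have h2 : ((ν ^ p * η ^ (p + 1).choose 2 - 1) * β) • θ y = 0 := by
      rw [sub_mul, sub_smul, one_mul, ← h1, sub_self]
    have h3 := (smul_eq_zero.1 h2).resolve_right (fun h => hy0 (hθinj y h))
    have h4 := sub_eq_zero.1 ((mul_eq_zero.1 h3).resolve_right hβ)
    have h5 : η ^ (p + 1).choose 2 = 1 := by
      obtain ⟨c, hc⟩ : p ∣ (p + 1).choose 2 := by
        have hodd := hp.odd_of_ne_two (by omega)
        obtain ⟨q, hq⟩ := hodd
        refine ⟨q + 1, ?_⟩
        rw [Nat.choose_two_right, Nat.add_sub_cancel]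
        subst hq
        rw [show (2 * q + 1 + 1) * (2 * q + 1) = 2 * ((2 * q + 1) * (q + 1)) by ring,
          Nat.mul_div_cancel_left _ two_pos]
      rw [hc, pow_mul, hη, one_pow]
    rwa [h5, mul_one] at h4
  obtain ⟨u₀, hu₀⟩ := hμ.exists_hasEigenvector
  have hμp : μ ^ p = 1 := hroot μ u₀ hu₀.apply_eq_smul hu₀.2
  have hD1 : D ^ p = 1 := by
    have h1 : (D ^ p) u₀ = μ ^ p • u₀ := hu₀.pow_apply p
    rw [hD, LinearMap.smul_apply, Module.End.one_apply, hμp] at h1
    have h2 : (δ - 1) • u₀ = 0 := by rw [sub_smul, h1, sub_self]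
    rw [hD, sub_eq_zero.1 ((smul_eq_zero.1 h2).resolve_right hu₀.2), one_smul]
  obtain ⟨m, -, rfl⟩ := hprimη.eq_pow_of_pow_eq_one hμp
  set E := D.eigenspace (η ^ m) with hE
  set e := finrank K E with he
  have he0 : 0 < e := by
    haveI : Nontrivial E := Submodule.nontrivial_iff_ne_bot.2 hμ
    exact Module.finrank_pos
  -- `p * e ≤ n`
  have hpe : p * e ≤ finrank K M := by
    have h1 := sum_finrank_inf_eigenspace_le ⊤ D ((Finset.range p).image (fun t => η ^ m * η ^ t))
    rw [Finset.sum_image (fun a ha b hb h => hprimη.pow_inj (Finset.mem_range.1 ha) (Finset.mem_range.1 hb)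
      (mul_left_cancel₀ (pow_ne_zero _ (hprimη.ne_zero hp.ne_zero)) h)), finrank_top] at h1
    refine le_trans ?_ h1
    calc p * e = ∑ _t ∈ Finset.range p, e := by simp
      _ ≤ _ := Finset.sum_le_sum fun t _ => by
        have hmem : ∀ y : E, (B ^ t) (y : M) ∈ ⊤ ⊓ D.eigenspace (η ^ m * η ^ t) := fun y =>
          ⟨Submodule.mem_top, Module.End.mem_eigenspace_iff.2
            (hBstep _ t y (Module.End.mem_eigenspace_iff.1 y.2)).1⟩
        exact LinearMap.finrank_le_finrank_of_injective
          (f := LinearMap.codRestrict _ ((B ^ t).comp E.subtype) hmem)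
          fun a b h => Subtype.ext (injective_of_pow_eq_smul hp.pos hB hβ t (congrArg Subtype.val h))
  -- the projections on the eigenspaces of `D`
  let ν : ℕ → K := fun t => η ^ (m + (p - t))
  have hν : ∀ t, ν t ^ p = 1 := fun t => by
    show (η ^ (m + (p - t))) ^ p = 1
    rw [← pow_mul, mul_comm, pow_mul, hη, one_pow]
  have hν0 : ∀ t, ν t ≠ 0 := fun t => pow_ne_zero _ (hprimη.ne_zero hp.ne_zero)
  let P : ℕ → Module.End K M := fun t =>
    (p : K)⁻¹ • ∑ i ∈ Finset.range p, ((ν t)⁻¹ • D) ^ i
  have hPeig : ∀ t y, D (P t y) = ν t • P t y := by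
    intro t y
    have h1 : ((ν t)⁻¹ • D - 1) * ∑ i ∈ Finset.range p, ((ν t)⁻¹ • D) ^ i = 0 := by
      rw [mul_geom_sum, smul_pow, inv_pow, hν, inv_one, one_smul, hD1, sub_self]
    have h2 := LinearMap.congr_fun h1 y
    rw [Module.End.mul_apply, LinearMap.sub_apply, Module.End.one_apply, LinearMap.smul_apply,
      LinearMap.zero_apply, sub_eq_zero] at h2
    show D (((p : K)⁻¹ • ∑ i ∈ Finset.range p, ((ν t)⁻¹ • D) ^ i) y) =
      ν t • ((p : K)⁻¹ • ∑ i ∈ Finset.range p, ((ν t)⁻¹ • D) ^ i) y
    rw [LinearMap.smul_apply, map_smul, smul_comm (ν t), ← h2, smul_inv_smul₀ (hν0 t), h2]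
  have hPsum : ∑ t ∈ Finset.range p, P t = 1 := by
    show ∑ t ∈ Finset.range p, (p : K)⁻¹ • ∑ i ∈ Finset.range p, ((ν t)⁻¹ • D) ^ i = 1
    rw [← Finset.smul_sum, Finset.sum_comm, Finset.sum_eq_single 0]
    · simp [← Nat.cast_smul_eq_nsmul K, smul_smul, inv_mul_cancel₀ hpK]
    · intro i hi hi0
      simp only [smul_pow]
      rw [← Finset.sum_smul]
      have h1 : ∑ t ∈ Finset.range p, ((ν t)⁻¹) ^ i = (η ^ (m + p))⁻¹ ^ i * ∑ t ∈ Finset.range p, (η ^ i) ^ t := by
        rw [Finset.mul_sum]
        refine Finset.sum_congr rfl fun t ht => ?_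
        have ht' := (Finset.mem_range.1 ht).le
        rw [← pow_mul, mul_comm i t, pow_mul η t i, ← mul_pow]
        congr 1
        have h2 : η ^ (m + p) = η ^ (m + (p - t)) * η ^ t := by
          rw [← pow_add]; congr 1; omega
        rw [h2, mul_inv, mul_assoc, inv_mul_cancel₀ (pow_ne_zero _ (hprimη.ne_zero hp.ne_zero)), mul_one]
      rw [h1, geom_sum_eq, ← pow_mul η i p, mul_comm i p, pow_mul, hη, one_pow, sub_self, zero_div,
        mul_zero, zero_smul]
      intro h
      exact hprimη.pow_ne_one_of_pos_of_lt hi0 (Finset.mem_range.1 hi) h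
    · intro h; exact absurd (Finset.mem_range.2 hp.pos) h
  have hcomm : ∀ t, θ * P t = P t * θ := fun t => by
    have hc : Commute θ ((ν t)⁻¹ • D) := (show Commute θ D from hθD).smul_right _
    exact ((Commute.sum_right _ _ _ fun i _ => hc.pow_right i).smul_right _).eq
  -- the fixed space meets each of them in an eigenspace of `θ` on `E`
  let ex : ℕ → ℕ := fun t => (m + (p - t)) * t + (t + 1).choose 2
  have hfix : finrank K C ≤ ∑ t ∈ Finset.range p, finrank K ↥(E ⊓ θ.eigenspace (η ^ ex t)) := by
    let F : Fin p → Submodule K M := fun t => E ⊓ θ.eigenspace (η ^ ex t)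
    have hmem : ∀ (t : Fin p) (y : C), (B ^ (t : ℕ)) (P t (y : M)) ∈ F t := by
      intro t y
      have h1 := hBstep _ (t : ℕ) _ (hPeig t (y : M))
      refine ⟨Module.End.mem_eigenspace_iff.2 ?_, Module.End.mem_eigenspace_iff.2 ?_⟩
      · rw [h1.1]
        congr 1
        show η ^ (m + (p - (t : ℕ))) * η ^ (t : ℕ) = η ^ m
        rw [← pow_add, show m + (p - (t : ℕ)) + (t : ℕ) = m + p by omega, pow_add, hη, mul_one]
      · rw [h1.2, ← Module.End.mul_apply θ, hcomm, Module.End.mul_apply, (hCm _).1 y.2]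
        congr 1
        show (η ^ (m + (p - (t : ℕ)))) ^ (t : ℕ) * η ^ ((t : ℕ) + 1).choose 2 = _
        rw [← pow_mul, ← pow_add]
    let r : C →ₗ[K] ((t : Fin p) → F t) := LinearMap.pi fun t =>
      LinearMap.codRestrict _ (((B ^ (t : ℕ)) * P t).comp C.subtype) (hmem t)
    have hr : Function.Injective r := by
      intro a b h
      refine Subtype.ext ?_
      rw [show (a : M) = (∑ t ∈ Finset.range p, P t) (a : M) by rw [hPsum]; rfl,
        show (b : M) = (∑ t ∈ Finset.range p, P t) (b : M) by rw [hPsum]; rfl,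
        LinearMap.sum_apply, LinearMap.sum_apply]
      refine Finset.sum_congr rfl fun t ht => ?_
      exact injective_of_pow_eq_smul hp.pos hB hβ t
        (congrArg Subtype.val (congrFun h ⟨t, Finset.mem_range.1 ht⟩))
    refine (LinearMap.finrank_le_finrank_of_injective hr).trans ?_
    rw [Module.finrank_pi_fintype]
    exact le_of_eq (Fin.sum_univ_eq_sum_range (fun t => finrank K ↥(E ⊓ θ.eigenspace (η ^ ex t))) p)
  -- each eigenvalue occurs at most twice
  have hfib : ∀ i j, i < p → j < p → i ≠ j → η ^ ex i = η ^ ex j →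
      ((i + j : ℕ) : ZMod p) = ((2 * m + 1 : ℕ) : ZMod p) := by
    intro i j hi hj hij h
    have hex : ∀ t, t ≤ p → ((2 * ex t : ℕ) : ZMod p) = (2 * m + 1) * t - (t : ZMod p) ^ 2 := by
      intro t ht
      have h1 : 2 * ((t + 1).choose 2) = (t + 1) * t := by
        rw [Nat.choose_two_right, Nat.add_sub_cancel]
        exact Nat.mul_div_cancel' (mul_comm t (t + 1) ▸ (Nat.even_mul_succ_self t).two_dvd)
      show ((2 * ((m + (p - t)) * t + (t + 1).choose 2) : ℕ) : ZMod p) = _
      rw [Nat.mul_add, h1]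
      push_cast [Nat.cast_sub ht, ZMod.natCast_self]
      ring
    have h1 : ((2 * ex i : ℕ) : ZMod p) = ((2 * ex j : ℕ) : ZMod p) := by
      rw [ZMod.natCast_eq_natCast_iff]
      refine Nat.ModEq.mul_left 2 ?_
      rw [hprimη.eq_orderOf]
      exact (hprimη.isOfFinOrder hp.ne_zero).pow_eq_pow_iff_modEq.1 h
    rw [hex i hi.le, hex j hj.le] at h1
    have h2 : ((i : ZMod p) - j) * ((2 * m + 1) - (i + j)) = 0 := by linear_combination h1
    rcases mul_eq_zero.1 h2 with h3 | h3
    · exfalso
      rw [sub_eq_zero, ZMod.natCast_eq_natCast_iff] at h3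
      exact hij (Nat.ModEq.eq_of_lt_of_lt h3 hi hj)
    · push_cast
      exact (sub_eq_zero.1 h3).symm
  have hfix2 : finrank K C ≤ 2 * e := by
    refine hfix.trans ?_
    rw [Finset.sum_comp (fun c => finrank K ↥(E ⊓ θ.eigenspace c)) (fun t => η ^ ex t)]
    refine (Finset.sum_le_sum fun c _ => ?_).trans
      ((le_of_eq (Finset.mul_sum _ _ 2).symm).trans
        (Nat.mul_le_mul_left 2 (sum_finrank_inf_eigenspace_le E θ _)))
    rw [smul_eq_mul]
    refine Nat.mul_le_mul_right _ ?_
    by_contra hlt
    obtain ⟨a, b, c, ha, hb, hc, hab, hac, hbc⟩ := Finset.two_lt_card_iff.1 (not_le.1 hlt)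
    simp only [Finset.mem_filter, Finset.mem_range] at ha hb hc
    have h1 := hfib a b ha.1 hb.1 hab (ha.2.trans hb.2.symm)
    have h2 := hfib a c ha.1 hc.1 hac (ha.2.trans hc.2.symm)
    rw [← h2, Nat.cast_add, Nat.cast_add, add_right_inj, ZMod.natCast_eq_natCast_iff] at h1
    exact hbc (Nat.ModEq.eq_of_lt_of_lt h1 hb.1 hc.1)
  have hp5 : 5 ≤ p := by
    by_contra h
    have : p = 4 := by omega
    exact absurd (this ▸ hp) (by decide)
  nlinarith [Nat.mul_le_mul_right e hp5]

/-- **The large index case.** -/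
theorem half_of_index [IsAlgClosed K] {Q : Type w} [Group Q] [Finite Q] {p : ℕ} (hp : p.Prime)
    (φ : MulAut Q) (τ : Equiv.Perm (Q ⧸ Subgroup.center Q))
    (hτ : ∀ g : Q, τ (g : Q ⧸ Subgroup.center Q) = ((φ g : Q) : Q ⧸ Subgroup.center Q))
    (hbound : 4 * Nat.card (Q ⧸ Subgroup.center Q) + 4 * (p - 1) * Nat.card {y // τ y = y} ≤
      p * Nat.card (Q ⧸ Subgroup.center Q))
    (hmove : ∃ g, φ g ≠ g) (hcc : ∀ a b : Q, a * b * a⁻¹ * b⁻¹ ∈ Subgroup.center Q) :
    ∀ (n : ℕ) (M : Type v) [AddCommGroup M] [Module K M] [FiniteDimensional K M] [Nontrivial M],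
      finrank K M ≤ n → ∀ (σ : Q →* Module.End K M) (θ : Module.End K M), Function.Injective σ →
      θ ^ p = 1 → (∀ g, θ * σ g = σ (φ g) * θ) →
      (∀ g ∈ Subgroup.center Q, ∃ c : K, σ g = c • (1 : Module.End K M)) →
      2 * finrank K (LinearMap.ker (θ - 1)) < finrank K M := by
  classical
  intro n
  induction n with
  | zero =>
    intro M _ _ _ _ hn
    have : 0 < finrank K M := Module.finrank_pos
    omega
  | succ n ih =>
  intro M _ _ _ _ hn σ θ hinj hθp hθ hZ
  by_cases hred : ∃ W : Submodule K M, (∀ g, ∀ y ∈ W, σ g y ∈ W) ∧ (∀ y ∈ W, θ y ∈ W) ∧ W ≠ ⊥ ∧ W ≠ ⊤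
  · obtain ⟨W, hW, hWθ, hW0, hWtop⟩ := hred
    haveI : Nontrivial W := Submodule.nontrivial_iff_ne_bot.2 hW0
    haveI : Nontrivial (M ⧸ W) := Submodule.Quotient.nontrivial_iff.2 hWtop
    let σW : Q →* Module.End K W :=
      { toFun := fun g => (σ g).restrict (hW g)
        map_one' := LinearMap.ext fun x => Subtype.ext (by simp)
        map_mul' := fun a b => LinearMap.ext fun x => Subtype.ext (by simp) }
    let σV : Q →* Module.End K (M ⧸ W) :=
      { toFun := fun g => W.mapQ W (σ g) (fun x hx => hW g x hx)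
        map_one' := Submodule.linearMap_qext _ (LinearMap.ext fun x => by simp)
        map_mul' := fun a b => Submodule.linearMap_qext _ (LinearMap.ext fun x => by simp) }
    let θW : Module.End K W := θ.restrict hWθ
    let θV : Module.End K (M ⧸ W) := W.mapQ W θ (fun x hx => hWθ x hx)
    have hscW : ∀ g ∈ Subgroup.center Q, ∃ c : K, σ g = c • 1 ∧ σW g = c • 1 ∧ σV g = c • 1 := by
      intro g hg
      obtain ⟨c, hc⟩ := hZ g hg
      refine ⟨c, hc, LinearMap.ext fun x => Subtype.ext ?_,
        Submodule.linearMap_qext _ (LinearMap.ext fun x => ?_)⟩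
      · show σ g x = _
        rw [hc]; rfl
      · show Submodule.Quotient.mk (σ g x) = _
        rw [hc]; rfl
    have hinjgen : ∀ {U : Type v} [AddCommGroup U] [Module K U] [Nontrivial U] (σU : Q →* Module.End K U),
        (∀ g ∈ Subgroup.center Q, ∃ c : K, σ g = c • 1 ∧ σU g = c • 1) → Function.Injective σU := by
      intro U _ _ _ σU hsc
      have key : ∀ g ∈ Subgroup.center Q, σU g = 1 → g = 1 := by
        intro g hg h1
        obtain ⟨c, hc, hcU⟩ := hsc g hg
        obtain ⟨y, hy⟩ := exists_ne (0 : U)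
        have h2 := LinearMap.congr_fun (hcU.symm.trans h1) y
        rw [LinearMap.smul_apply, Module.End.one_apply] at h2
        have h3 : (c - 1) • y = 0 := by rw [sub_smul, one_smul, h2, sub_self]
        rw [sub_eq_zero.1 ((smul_eq_zero.1 h3).resolve_right hy), one_smul, ← map_one σ] at hc
        exact hinj hc
      refine (injective_iff_map_eq_one σU).2 fun g hg => key g ?_ hg
      rw [Subgroup.mem_center_iff]
      intro a
      have h1 : σU (a * g * a⁻¹ * g⁻¹) = 1 := by
        have hg' : σU g⁻¹ = 1 := by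
          have h3 : σU g * σU g⁻¹ = 1 := by rw [← map_mul, mul_inv_cancel, map_one]
          rwa [hg, one_mul] at h3
        rw [map_mul, map_mul, map_mul, hg, mul_one, hg', mul_one, ← map_mul, mul_inv_cancel, map_one]
      exact mul_inv_eq_iff_eq_mul.1 (mul_inv_eq_one.1 (key _ (hcc a g) h1))
    have hpowW : ∀ (k : ℕ) (x : W), (((θW ^ k) x : W) : M) = (θ ^ k) x := by
      intro k
      induction k with
      | zero => intro x; rfl
      | succ k ihk =>
        intro x
        rw [pow_succ', pow_succ', Module.End.mul_apply, Module.End.mul_apply, ← ihk]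
        rfl
    have hpowV : ∀ (k : ℕ) (x : M),
        (θV ^ k) (Submodule.Quotient.mk x) = Submodule.Quotient.mk ((θ ^ k) x) := by
      intro k
      induction k with
      | zero => intro x; rfl
      | succ k ihk =>
        intro x
        rw [pow_succ', pow_succ', Module.End.mul_apply, Module.End.mul_apply, ihk]
        rfl
    have hlt : finrank K W < finrank K M := Submodule.finrank_lt hWtop
    have hsum := Submodule.finrank_quotient_add_finrank W
    have hW1 : 0 < finrank K W := Module.finrank_pos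
    have h1 := ih W (by omega) σW θW
      (hinjgen σW fun g hg => by obtain ⟨c, a, b, _⟩ := hscW g hg; exact ⟨c, a, b⟩)
      (LinearMap.ext fun x => Subtype.ext (by rw [hpowW, hθp]; rfl))
      (fun g => LinearMap.ext fun x => Subtype.ext (LinearMap.congr_fun (hθ g) x))
      (fun g hg => by obtain ⟨c, _, b, _⟩ := hscW g hg; exact ⟨c, b⟩)
    have h2 := ih (M ⧸ W) (by omega) σV θV
      (hinjgen σV fun g hg => by obtain ⟨c, a, _, b⟩ := hscW g hg; exact ⟨c, a, b⟩)
      (Submodule.linearMap_qext _ (LinearMap.ext fun x => by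
        show (θV ^ p) (Submodule.Quotient.mk x) = Submodule.Quotient.mk x
        rw [hpowV, hθp]; rfl))
      (fun g => Submodule.linearMap_qext _ (LinearMap.ext fun x => congrArg Submodule.Quotient.mk
        (LinearMap.congr_fun (hθ g) x)))
      (fun g hg => by obtain ⟨c, _, _, b⟩ := hscW g hg; exact ⟨c, b⟩)
    have hf : ∀ y ∈ W, (θ - 1 : Module.End K M) y ∈ W := fun y hy => by
      rw [LinearMap.sub_apply, Module.End.one_apply]; exact W.sub_mem (hWθ y hy) hy
    have h3 := finrank_ker_le_sub_add_quot W (θ - 1) hf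
    have e1 : (θ - 1 : Module.End K M).restrict hf = θW - 1 := LinearMap.ext fun x => Subtype.ext rfl
    have e2 : W.mapQ W (θ - 1 : Module.End K M) (fun y hy => hf y hy) = θV - 1 :=
      Submodule.linearMap_qext _ (LinearMap.ext fun x => rfl)
    rw [e1, e2] at h3
    omega
  · push Not at hred
    have hirr : ∀ W : Submodule K M, (∀ g, ∀ y ∈ W, σ g y ∈ W) → (∀ y ∈ W, θ y ∈ W) →
        W = ⊥ ∨ W = ⊤ := fun W hW hWθ => by
      by_cases h : W = ⊥
      · exact Or.inl h
      · exact Or.inr (hred W hW hWθ h)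
    have hcomm : ∀ a b : Q, ∃ c : K, σ (a * b * a⁻¹ * b⁻¹) = c • (1 : Module.End K M) :=
      fun a b => hZ _ (hcc a b)
    have hθu : IsUnit θ := IsUnit.of_pow_eq_one hθp hp.ne_zero
    have hirrσ := irreducible_of_scalar_center σ hinj φ θ hθu hθ hirr hZ hcomm
    haveI : Fintype (Q ⧸ Subgroup.center Q) := Fintype.ofFinite _
    let rep : Q ⧸ Subgroup.center Q → Q := fun x => Quotient.out x
    have hrep : ∀ x : Q ⧸ Subgroup.center Q, (QuotientGroup.mk (rep x) : Q ⧸ Subgroup.center Q) = x := fun x => Quotient.out_eq x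
    choose χ hχ using hcomm
    have hne : ∀ g, σ g ≠ 0 := fun g h => by
      have h1 : σ g * σ g⁻¹ = 1 := by rw [← map_mul, mul_inv_cancel, map_one]
      rw [h, zero_mul] at h1
      exact zero_ne_one h1
    have hconj : ∀ g z : Q, σ (g * z * g⁻¹) = χ g z • σ z := fun g z => by
      rw [show g * z * g⁻¹ = g * z * g⁻¹ * z⁻¹ * z by group, map_mul, hχ, smul_mul_assoc, one_mul]
    have hli : LinearIndependent K (fun x => σ (rep x)) := by
      refine linearIndependent_of_eigen _ (fun x => hne _)
        (fun g => (LinearMap.mulLeft K (σ g)).comp (LinearMap.mulRight K (σ g⁻¹)))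
        (fun x g => χ g (rep x)) (fun x g => ?_) (fun x y hxy => ?_)
      · show σ g * (σ (rep x) * σ g⁻¹) = _
        rw [← map_mul, ← map_mul, ← mul_assoc, hconj]
      · have key : (rep x)⁻¹ * rep y ∈ Subgroup.center Q := by
          rw [Subgroup.mem_center_iff]
          intro g
          set a := rep x
          set b := rep y
          have h2 : σ (g * b * g⁻¹) = σ (g * a * g⁻¹) * σ (a⁻¹ * b) := by
            rw [hconj g a, hconj g b, smul_mul_assoc, ← map_mul, mul_inv_cancel_left, hxy g]
          have h3 : σ (g * b * g⁻¹) = σ (g * a * g⁻¹ * (g * (a⁻¹ * b) * g⁻¹)) := by congr 1; group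
          rw [h3, ← map_mul] at h2
          have h4 := mul_left_cancel (hinj h2)
          exact mul_inv_eq_iff_eq_mul.1 h4
        rw [← hrep x, ← hrep y]
        exact QuotientGroup.eq.2 key
    have hrel : ∀ a b : Q, (a : Q ⧸ Subgroup.center Q) = (b : Q ⧸ Subgroup.center Q) → ∃ c : K, σ a = c • σ b := by
      intro a b hab
      obtain ⟨c, hc⟩ := hZ _ (QuotientGroup.eq.1 hab.symm : b⁻¹ * a ∈ Subgroup.center Q)
      exact ⟨c, by rw [show a = b * (b⁻¹ * a) by group, map_mul, hc, mul_smul_comm, mul_one]⟩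
    have hspan : ⊤ ≤ Submodule.span K (Set.range fun x => σ (rep x)) := by
      rw [← span_range_eq_top σ hirrσ, Submodule.span_le]
      rintro _ ⟨g, rfl⟩
      obtain ⟨c, hc⟩ := hrel g (rep (g : Q ⧸ Subgroup.center Q)) (hrep _).symm
      rw [SetLike.mem_coe, hc]
      exact Submodule.smul_mem _ c (Submodule.subset_span ⟨_, rfl⟩)
    let B : Basis (Q ⧸ Subgroup.center Q) K (Module.End K M) := Basis.mk hli hspan
    have hN2 : Nat.card (Q ⧸ Subgroup.center Q) = finrank K M ^ 2 := by
      rw [Nat.card_eq_fintype_card, ← finrank_eq_card_basis B, Module.finrank_linearMap, pow_two]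
    have hθne : θ ≠ 1 := by
      rintro rfl
      obtain ⟨g, hg⟩ := hmove
      exact hg (hinj (by simpa using (hθ g).symm))
    obtain ⟨θu, hθu'⟩ := hθu
    have hinv : θ * (↑θu⁻¹ : Module.End K M) = 1 := by rw [← hθu']; exact θu.mul_inv
    have hinv' : (↑θu⁻¹ : Module.End K M) * θ = 1 := by rw [← hθu']; exact θu.inv_mul
    let L : Module.End K (Module.End K M) :=
      (LinearMap.mulLeft K θ).comp (LinearMap.mulRight K (↑θu⁻¹ : Module.End K M))
    have hLap : ∀ f, L f = θ * (f * (↑θu⁻¹ : Module.End K M)) := fun f => rfl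
    have hω : ∀ x, ∃ c : K, L (B x) = c • B (τ x) := by
      intro x
      simp only [B, Basis.mk_apply]
      obtain ⟨c, hc⟩ := hrel (φ (rep x)) (rep (τ x)) (by
        rw [hrep]; conv_rhs => rw [← hrep x]
        exact (hτ _).symm)
      refine ⟨c, ?_⟩
      rw [hLap, ← mul_assoc, hθ, mul_assoc, hinv, mul_one, hc]
    choose ω hω using hω
    have hτp : τ ^ p = 1 := by
      have hpw : ∀ (k : ℕ) (g : Q), (τ ^ k) (g : Q ⧸ Subgroup.center Q) = (((φ ^ k) g : Q) : Q ⧸ Subgroup.center Q) := by
        intro k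
        induction k with
        | zero => intro g; rfl
        | succ k ihk =>
          intro g; rw [pow_succ', pow_succ', Equiv.Perm.mul_apply, ihk, MulAut.mul_apply, hτ]
      refine Equiv.ext fun y => ?_
      rw [← hrep y, hpw]
      have h := intertwine_pow (fun g => σ g) φ θ hθ p (rep y)
      rw [hθp, one_mul, mul_one] at h
      rw [hinj h.symm]
      rfl
    let P : Q ⧸ Subgroup.center Q → Module.End K (Module.End K M) := fun y => (B.coord y).smulRight (B y)
    have hP : ∑ y, P y = 1 := by
      refine LinearMap.ext fun f => ?_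
      simp only [P, LinearMap.sum_apply, LinearMap.smulRight_apply, Basis.coord_apply,
        Module.End.one_apply]
      exact B.sum_repr f
    have hL : ∀ y, L * P y = P (τ y) * L := by
      intro y
      refine B.ext fun z => ?_
      simp only [Module.End.mul_apply, P, LinearMap.smulRight_apply, Basis.coord_apply, map_smul, hω,
        B.repr_self]
      by_cases h : z = y
      · subst h; simp
      · simp [Finsupp.single_eq_of_ne (Ne.symm h),
          Finsupp.single_eq_of_ne (fun e : τ y = τ z => h (τ.injective e).symm)]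
    have h1 := finrank_fixed_le_orbits P hP L τ hL (d := 1) (fun y => by
      refine (Submodule.finrank_mono (t := Submodule.span K {B y}) ?_).trans
        (by rw [finrank_span_singleton (B.ne_zero y)])
      rintro _ ⟨f, rfl⟩
      exact Submodule.smul_mem _ _ (Submodule.mem_span_singleton_self _)) hp hτp
    have hker : LinearMap.ker (LinearMap.mulLeft K θ - LinearMap.mulRight K θ) ≤ LinearMap.ker (L - 1) := by
      intro f hf
      rw [LinearMap.mem_ker, LinearMap.sub_apply, LinearMap.mulLeft_apply, LinearMap.mulRight_apply,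
        sub_eq_zero] at hf
      rw [LinearMap.mem_ker, LinearMap.sub_apply, Module.End.one_apply, sub_eq_zero, hLap, ← mul_assoc,
        hf, mul_assoc, hinv, mul_one]
    have h2 := (sq_fixed_lt_commutant θ hθne).trans_le (Submodule.finrank_mono hker)
    rw [one_mul, ← Nat.card_eq_fintype_card] at h1
    set f := finrank K (LinearMap.ker (θ - 1))
    set c := finrank K (LinearMap.ker (L - 1))
    set X := Nat.card (Q ⧸ Subgroup.center Q)
    set F := Nat.card {y // τ y = y}
    have h3 : 4 * (p * (f ^ 2 + 1)) ≤ p * X :=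
      (Nat.mul_le_mul_left 4 ((Nat.mul_le_mul_left p h2).trans h1)).trans
        (le_trans (by rw [Nat.mul_add, mul_assoc]) hbound)
    have h4 : p * (4 * (f ^ 2 + 1)) ≤ p * X := by rw [Nat.mul_left_comm]; exact h3
    have h5 := Nat.le_of_mul_le_mul_left h4 hp.pos
    rw [hN2] at h5
    by_contra hlt
    nlinarith [Nat.mul_le_mul (not_lt.1 hlt) (not_lt.1 hlt)]

end CfsgLib.MetacyclicP
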