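import Mathlib
import Cfsg.Agent.Lib.MetacyclicP.HalfFixedPair

/-!
An element of prime order `p > 3` whose conjugates generate a soluble group fixes less than half of every
faithful irreducible module.
-/

set_option autoImplicit false
set_option linter.style.haveILetI false

open Module

namespace CfsgLib.MetacyclicP

universe u v w

variable {K : Type u} [Field K] {M : Type v} [AddCommGroup M] [Module K M] [FiniteDimensional K M]
  {G : Type w} [Group G] [Finite G]

/-- The order of a normal abelian subgroup of a faithful irreducible linear group is invertible. -/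
theorem natCard_ne_zero_of_faithful_irreducible [Nontrivial M] {ℓ : ℕ} [Fact ℓ.Prime] [CharP K ℓ]
    (ρ : G →* Module.End K M) (hinj : Function.Injective ρ)
    (hirr : ∀ W : Submodule K M, (∀ g, ∀ y ∈ W, ρ g y ∈ W) → W = ⊥ ∨ W = ⊤)
    (A : Subgroup G) [A.Normal] (hA : ∀ a ∈ A, ∀ b ∈ A, a * b = b * a) :
    (Nat.card A : K) ≠ 0 := by
  classical
  intro h0
  have hℓ : ℓ ∣ Nat.card A := (CharP.cast_eq_zero_iff K ℓ _).1 h0
  obtain ⟨a, ha⟩ := exists_prime_orderOf_dvd_card' ℓ hℓ
  let N : Subgroup G :=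
    { carrier := {g | g ∈ A ∧ g ^ ℓ = 1}
      one_mem' := ⟨A.one_mem, one_pow _⟩
      mul_mem' := fun {b c} hb hc => ⟨A.mul_mem hb.1 hc.1, by
        rw [(show Commute b c from hA b hb.1 c hc.1).mul_pow, hb.2, hc.2, one_mul]⟩
      inv_mem' := fun {b} hb => ⟨A.inv_mem hb.1, by rw [inv_pow, hb.2, inv_one]⟩ }
  have hnil : ∀ n ∈ N, (ρ n - 1) ^ ℓ = 0 := fun n hn => by
    haveI : CharP (Module.End K M) ℓ :=
      charP_of_injective_algebraMap (algebraMap K (Module.End K M)).injective ℓ
    rw [sub_pow_char_of_commute ℓ (Commute.one_right _), ← map_pow, hn.2, map_one, one_pow, sub_self]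
  obtain ⟨U, hU0, hUi, hUmin⟩ := exists_minimal_invariant (fun n : N => ρ (n : G))
  have hfix : ∀ n ∈ N, ∀ y ∈ U, ρ n y = y := by
    intro n hn y hy
    have hne : U ⊓ LinearMap.ker (ρ n - 1) ≠ ⊥ := by
      intro hbot
      obtain ⟨z, hz, hz0⟩ := Submodule.exists_mem_ne_zero_of_ne_bot hU0
      have hstep : ∀ j, ∀ z ∈ U, ((ρ n - 1) ^ j : Module.End K M) z = 0 → z = 0 := by
        intro j
        induction j with
        | zero => intro z _ h; exact h
        | succ j ih =>
          intro z hz h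
          rw [pow_succ, Module.End.mul_apply] at h
          have hmem : (ρ n - 1) z ∈ U := by
            rw [LinearMap.sub_apply, Module.End.one_apply]
            exact U.sub_mem (hUi ⟨n, hn⟩ z hz) hz
          have : z ∈ U ⊓ LinearMap.ker (ρ n - 1) := ⟨hz, LinearMap.mem_ker.2 (ih _ hmem h)⟩
          rwa [hbot, Submodule.mem_bot] at this
      exact hz0 (hstep ℓ z hz (by rw [hnil n hn, LinearMap.zero_apply]))
    have h := (hUmin (U ⊓ LinearMap.ker (ρ n - 1)) inf_le_left (fun m z hz => by
      refine ⟨hUi m z hz.1, LinearMap.mem_ker.2 ?_⟩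
      have h1 : ρ n (ρ m z) = ρ m (ρ n z) := by
        rw [← Module.End.mul_apply, ← map_mul, hA n hn.1 m m.2.1, map_mul, Module.End.mul_apply]
      have h2 := LinearMap.mem_ker.1 hz.2
      rw [LinearMap.sub_apply, Module.End.one_apply, sub_eq_zero] at h2 ⊢
      rw [h1, h2])).resolve_left hne
    have h2 := LinearMap.mem_ker.1 (h.ge hy).2
    rwa [LinearMap.sub_apply, Module.End.one_apply, sub_eq_zero] at h2
  let W : Submodule K M := ⨅ n : N, LinearMap.ker (ρ (n : G) - 1)
  have hW : ∀ y, y ∈ W ↔ ∀ n ∈ N, ρ n y = y := fun y => by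
    simp [W, sub_eq_zero]
  have hWtop : W = ⊤ := by
    refine (hirr W fun g y hy => (hW _).2 fun n hn => ?_).resolve_left ?_
    · have hn' : g⁻¹ * n * g ∈ N := ⟨Subgroup.Normal.conj_mem' inferInstance n hn.1 g, by
        have h1 : g⁻¹ * n * g = g⁻¹ * n * g⁻¹⁻¹ := by rw [inv_inv]
        rw [h1, conj_pow, hn.2]; group⟩
      rw [← Module.End.mul_apply, ← map_mul, show n * g = g * (g⁻¹ * n * g) by group, map_mul,
        Module.End.mul_apply, (hW y).1 hy _ hn']
    · intro hbot
      refine hU0 (eq_bot_iff.2 fun y hy => ?_)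
      rw [← hbot, hW]
      exact fun n hn => hfix n hn y hy
  have haN : (a : G) ∈ N := ⟨a.2, by rw [← SubgroupClass.coe_pow, ← ha, pow_orderOf_eq_one, OneMemClass.coe_one]⟩
  have h1 : ρ (a : G) = 1 := LinearMap.ext fun y => (hW y).1 (hWtop ▸ Submodule.mem_top) _ haN
  have h2 : (a : G) = 1 := hinj (h1.trans (map_one ρ).symm)
  rw [← Subgroup.orderOf_coe, h2, orderOf_one] at ha
  exact (Fact.out : ℓ.Prime).ne_one ha.symm

/-- **First case:** a normal abelian subgroup which does not act by scalars. -/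
theorem half_of_nonscalar [IsAlgClosed K] [Nontrivial M] [Group.IsSolvable G] {p : ℕ} (hp : p.Prime)
    (hp3 : 3 < p) (ρ : G →* Module.End K M)
    (hirr : ∀ W : Submodule K M, (∀ g, ∀ y ∈ W, ρ g y ∈ W) → W = ⊥ ∨ W = ⊤)
    {x : G} (hx : x ^ p = 1) (hgen : Subgroup.normalClosure ({x} : Set G) = ⊤)
    (A : Subgroup G) [hAn : A.Normal] (hA : ∀ a ∈ A, ∀ b ∈ A, a * b = b * a)
    (hAK : (Nat.card A : K) ≠ 0) (hns : ∃ a ∈ A, ∀ c : K, ρ a ≠ c • (1 : Module.End K M)) :
    2 * finrank K (LinearMap.ker (ρ x - 1)) < finrank K M := by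
  classical
  haveI : Fintype A := Fintype.ofFinite _
  obtain ⟨U, hU0, hUi, hUmin⟩ := exists_minimal_invariant (fun a : A => ρ (a : G))
  haveI : Nontrivial U := Submodule.nontrivial_iff_ne_bot.2 hU0
  have hirrU : ∀ W : Submodule K U, (∀ a : A, ∀ w ∈ W, (ρ (a : G)).restrict (hUi a) w ∈ W) →
      W = ⊥ ∨ W = ⊤ := by
    intro W hW
    rcases hUmin (W.map U.subtype) (Submodule.map_subtype_le U W) (fun g u hu => by
      obtain ⟨z, hz, rfl⟩ := hu
      exact ⟨(ρ (g : G)).restrict (hUi g) z, hW g z hz, rfl⟩) with h | h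
    · exact Or.inl (Submodule.map_injective_of_injective U.injective_subtype (by rw [h, Submodule.map_bot]))
    · exact Or.inr (Submodule.map_injective_of_injective U.injective_subtype
        (by rw [h, Submodule.map_subtype_top]))
  have hsc : ∀ a : A, ∃ c : K, (ρ (a : G)).restrict (hUi a) = c • (1 : Module.End K U) := fun a =>
    HallHigmanB.exists_scalar (fun b : A => (ρ (b : G)).restrict (hUi b)) hirrU fun b =>
      LinearMap.ext fun z => Subtype.ext (by
        show ρ a (ρ b z) = ρ b (ρ a z)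
        rw [← Module.End.mul_apply, ← map_mul, hA a a.2 b b.2, map_mul, Module.End.mul_apply])
  choose c hc using hsc
  obtain ⟨u, hu⟩ := exists_ne (0 : U)
  have hu0 : (u : M) ≠ 0 := fun h => hu (Subtype.ext h)
  have heig : ∀ a : A, ρ (a : G) (u : M) = c a • (u : M) := fun a =>
    congrArg Subtype.val (LinearMap.congr_fun (hc a) u)
  have hsmulinj : ∀ {r s : K}, r • (u : M) = s • (u : M) → r = s := fun {r s} h =>
    sub_eq_zero.1 ((smul_eq_zero.1 (show (r - s) • (u : M) = 0 by rw [sub_smul, h, sub_self])).resolve_right hu0)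
  let χ : A →* K :=
    { toFun := c
      map_one' := hsmulinj (by rw [← heig, one_smul]; simp)
      map_mul' := fun a b => hsmulinj (by
        rw [← heig, Subgroup.coe_mul, map_mul, Module.End.mul_apply, heig, map_smul, heig, smul_smul,
          mul_comm]) }
  have hχ : ∀ a : A, ρ (a : G) (u : M) = χ a • (u : M) := heig
  have hχ0 : ∀ a, χ a ≠ 0 := fun a h => by
    have h1 : χ a * χ a⁻¹ = 1 := by rw [← map_mul, mul_inv_cancel, map_one]
    rw [h, zero_mul] at h1
    exact zero_ne_one h1
  -- the stabiliser and the translates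
  let cj : G → MulAut A := fun g => MulAut.conjNormal g
  have hcj : ∀ g (a : A), ((cj g a : A) : G) = g * a * g⁻¹ := fun g a => MulAut.conjNormal_apply g a
  have hcjm : ∀ g h (a : A), cj (g * h) a = cj g (cj h a) := fun g h a => by
    show MulAut.conjNormal (g * h) a = _
    rw [map_mul]; rfl
  let S : Subgroup G :=
    { carrier := {g | ∀ a, χ (cj g a) = χ a}
      one_mem' := fun a => by rw [show cj 1 a = a from Subtype.ext (by rw [hcj]; simp)]
      mul_mem' := fun {g h} hg hh a => by rw [hcjm, hg, hh]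
      inv_mem' := fun {g} hg a => by
        have h1 := hg (cj g⁻¹ a)
        rw [← hcjm, mul_inv_cancel, show cj 1 a = a from Subtype.ext (by rw [hcj]; simp)] at h1
        exact h1.symm }
  let Wf : G → Submodule K M := fun g => ⨅ a : A, (ρ (a : G)).eigenspace (χ (cj g⁻¹ a))
  have hWf : ∀ g y, y ∈ Wf g ↔ ∀ a : A, ρ (a : G) y = χ (cj g⁻¹ a) • y := fun g y => by
    simp [Wf, Module.End.mem_eigenspace_iff]
  have htrans : ∀ h g y, y ∈ Wf g → ρ h y ∈ Wf (h * g) := by
    intro h g y hy
    rw [hWf] at hy ⊢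
    intro a
    have h1 := hy (cj h⁻¹ a)
    rw [hcj, inv_inv] at h1
    rw [← Module.End.mul_apply, ← map_mul, show (a : G) * h = h * (h⁻¹ * a * h) by group, map_mul,
      Module.End.mul_apply, h1, map_smul, mul_inv_rev, hcjm]
  have hu1 : (u : M) ∈ Wf 1 := (hWf _ _).2 fun a => by
    rw [inv_one, show cj 1 a = a from Subtype.ext (by rw [hcj]; simp)]; exact hχ a
  have hcoset : ∀ g h : G, g⁻¹ * h ∈ S ↔ ∀ a, χ (cj h⁻¹ a) = χ (cj g⁻¹ a) := by
    intro g h
    constructor
    · intro hs a
      rw [← hs (cj h⁻¹ a), ← hcjm]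
      congr 2
      rw [mul_assoc, mul_inv_cancel, mul_one]
    · intro hs a
      have h1 := hs (cj h a)
      rw [← hcjm, ← hcjm, inv_mul_cancel, show cj 1 a = a from Subtype.ext (by rw [hcj]; simp)] at h1
      exact h1.symm
  have hStop : S ≠ ⊤ := by
    intro htop
    have hW1 : Wf 1 = ⊤ := by
      refine (hirr (Wf 1) fun g y hy => ?_).resolve_left fun h => hu0 ?_
      · have h1 := htrans g 1 y hy
        rw [hWf] at h1 ⊢
        intro a
        rw [h1 a]
        congr 1
        exact (hcoset 1 (g * 1)).1 (htop ▸ Subgroup.mem_top _) a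
      · rwa [h, Submodule.mem_bot] at hu1
    obtain ⟨a, ha, hane⟩ := hns
    refine hane (χ (cj (1 : G)⁻¹ ⟨a, ha⟩)) (LinearMap.ext fun y => ?_)
    exact (hWf 1 y).1 (hW1 ▸ Submodule.mem_top) ⟨a, ha⟩
  haveI : Fintype (G ⧸ S) := Fintype.ofFinite _
  let W : G ⧸ S → Submodule K M := fun y => Wf (Quotient.out y)
  have hWg : ∀ g : G, W (g : G ⧸ S) = Wf g := by
    intro g
    have h1 : g⁻¹ * Quotient.out (g : G ⧸ S) ∈ S := QuotientGroup.eq.1 (Quotient.out_eq _).symm
    show Wf _ = Wf g
    simp only [Wf]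
    exact iInf_congr fun a => by rw [(hcoset _ _).1 h1 a]
  let χy : G ⧸ S → A →* K := fun y => χ.comp (cj (Quotient.out y)⁻¹).toMonoidHom
  have hWy : ∀ y z, z ∈ W y ↔ ∀ a : A, ρ (a : G) z = χy y a • z := fun y z => hWf _ z
  have hdist : ∀ y z, (∀ a, χy y a = χy z a) → y = z := by
    intro y z h
    rw [← Quotient.out_eq y, ← Quotient.out_eq z]
    exact QuotientGroup.eq.2 ((hcoset _ _).2 fun a => (h a).symm)
  have hWsmul : ∀ (g : G) y z, z ∈ W y → ρ g z ∈ W (g • y) := by
    intro g y z hz
    induction y using QuotientGroup.induction_on with | _ h =>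
    rw [hWg] at hz
    rw [MulAction.Quotient.smul_mk, hWg]
    exact htrans g h z hz
  -- the projections
  let P : G ⧸ S → Module.End K M := fun y =>
    (Nat.card A : K)⁻¹ • ∑ a : A, (χy y a)⁻¹ • ρ (a : G)
  have hχy0 : ∀ y a, χy y a ≠ 0 := fun y a => hχ0 _
  have hPon : ∀ y z v, v ∈ W z → P y v = if y = z then v else 0 := by
    intro y z v hv
    simp only [P, LinearMap.smul_apply, LinearMap.sum_apply]
    rw [Finset.sum_congr rfl fun a _ => by rw [(hWy z v).1 hv a, smul_smul], ← Finset.sum_smul, smul_smul]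
    by_cases h : y = z
    · subst h
      rw [if_pos rfl, Finset.sum_congr rfl fun a _ => inv_mul_cancel₀ (hχy0 y a)]
      rw [Finset.sum_const, nsmul_eq_mul, mul_one, Finset.card_univ, ← Nat.card_eq_fintype_card,
        inv_mul_cancel₀ hAK, one_smul]
    · rw [if_neg h]
      obtain ⟨b, hb⟩ : ∃ b, χy y b ≠ χy z b := by
        by_contra! hall; exact h (hdist y z hall)
      have hb' : (χy y b)⁻¹ * χy z b ≠ 1 := fun hh => hb ((inv_mul_eq_one₀ (hχy0 y b)).1 hh)
      have h1 : ((χy y b)⁻¹ * χy z b) * ∑ a, (χy y a)⁻¹ * χy z a = ∑ a, (χy y a)⁻¹ * χy z a := by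
        rw [Finset.mul_sum]
        refine Fintype.sum_equiv (Equiv.mulLeft b) _ _ fun a => ?_
        rw [Equiv.coe_mulLeft, map_mul, map_mul, mul_inv]
        ring
      have h2 : ∑ a, (χy y a)⁻¹ * χy z a = 0 := by
        by_contra h3
        exact hb' (mul_right_cancel₀ h3 (h1.trans (one_mul _).symm))
      rw [h2, mul_zero, zero_smul]
  have hPrange : ∀ y, LinearMap.range (P y) ≤ W y := by
    rintro y _ ⟨v, rfl⟩
    rw [hWy]
    intro b
    simp only [P, LinearMap.smul_apply, LinearMap.sum_apply, map_smul, map_sum]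
    rw [smul_comm (χy y b)]
    congr 1
    rw [Finset.smul_sum]
    refine Fintype.sum_equiv (Equiv.mulLeft b) _ _ fun a => ?_
    rw [Equiv.coe_mulLeft, smul_smul, map_mul, mul_inv, ← mul_assoc, mul_inv_cancel₀ (hχy0 y b), one_mul,
      Subgroup.coe_mul, map_mul, Module.End.mul_apply]
  have hspan : (⨆ y, W y) = ⊤ := by
    refine (hirr _ fun g v hv => ?_).resolve_left fun h => hu0 ?_
    · revert v
      show (⨆ y, W y) ≤ (⨆ y, W y).comap (ρ g)
      exact iSup_le fun y z hz => Submodule.mem_iSup_of_mem (g • y) (hWsmul g y z hz)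
    · have h1 : (u : M) ∈ W ((1 : G) : G ⧸ S) := by rw [hWg]; exact hu1
      have h2 := Submodule.mem_iSup_of_mem ((1 : G) : G ⧸ S) h1
      rwa [h, Submodule.mem_bot] at h2
  have hext : ∀ (f g : Module.End K M), (∀ y, ∀ v ∈ W y, f v = g v) → f = g := by
    intro f g h
    refine LinearMap.ext fun v => ?_
    have h1 : (⊤ : Submodule K M) ≤ LinearMap.eqLocus f g := hspan ▸ iSup_le (fun y v hv => h y v hv)
    exact h1 Submodule.mem_top
  have hPsum : ∑ y, P y = 1 := by
    refine hext _ _ fun z v hv => ?_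
    rw [LinearMap.sum_apply, Finset.sum_congr rfl fun y _ => hPon y z v hv, Finset.sum_ite_eq',
      if_pos (Finset.mem_univ _)]
    rfl
  let τ : Equiv.Perm (G ⧸ S) := MulAction.toPerm x
  have hL : ∀ y, ρ x * P y = P (τ y) * ρ x := by
    intro y
    refine hext _ _ fun z v hv => ?_
    rw [Module.End.mul_apply, Module.End.mul_apply, hPon y z v hv, hPon (τ y) (x • z) _ (hWsmul x z v hv)]
    by_cases h : y = z
    · subst h; rw [if_pos rfl]; exact (if_pos rfl).symm
    · rw [if_neg h, if_neg (fun e : τ y = x • z => h ((MulAction.toPerm x).injective e)), map_zero]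
  have hτp : τ ^ p = 1 := by
    show (MulAction.toPermHom G (G ⧸ S) x) ^ p = 1
    rw [← map_pow, hx, map_one]
  set d := finrank K (W ((1 : G) : G ⧸ S)) with hd
  have hρinj : ∀ g, Function.Injective (ρ g) := fun g =>
    ((Module.End.isUnit_iff _).1 ((Group.isUnit g).map ρ)).injective
  have hdim : ∀ y, finrank K (W y) = d := by
    intro y
    induction y using QuotientGroup.induction_on with | _ g =>
    have hle : ∀ (g : G) y, finrank K (W y) ≤ finrank K (W (g • y)) := fun g y =>
      LinearMap.finrank_le_finrank_of_injective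
        (f := LinearMap.codRestrict _ ((ρ g).comp (W y).subtype) fun v => hWsmul g y v v.2)
        fun a b h => Subtype.ext (hρinj g (congrArg Subtype.val h))
    refine le_antisymm ?_ ?_
    · have h := hle g⁻¹ (g : G ⧸ S)
      rwa [MulAction.Quotient.smul_mk, smul_eq_mul, inv_mul_cancel] at h
    · have h := hle g ((1 : G) : G ⧸ S)
      rwa [MulAction.Quotient.smul_mk, smul_eq_mul, mul_one] at h
  have h1 := finrank_fixed_le_orbits P hPsum (ρ x) τ hL (d := d)
    (fun y => (Submodule.finrank_mono (hPrange y)).trans (hdim y).le) hp hτp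
  have h2 : Fintype.card (G ⧸ S) * d ≤ finrank K M := by
    let e : ((y : G ⧸ S) → W y) →ₗ[K] M :=
      ∑ y, (W y).subtype.comp (LinearMap.proj y)
    have he : Function.Injective e := by
      intro a b hab
      funext z
      refine Subtype.ext ?_
      have h3 : ∀ f : (y : G ⧸ S) → W y, P z (e f) = (f z : M) := by
        intro f
        simp only [e, LinearMap.sum_apply, map_sum, LinearMap.comp_apply, LinearMap.proj_apply,
          Submodule.subtype_apply]
        rw [Finset.sum_congr rfl fun y _ => hPon z y _ (f y).2, Finset.sum_ite_eq,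
          if_pos (Finset.mem_univ _)]
      rw [← h3, ← h3, hab]
    have := LinearMap.finrank_le_finrank_of_injective he
    rwa [Module.finrank_pi_fintype, Finset.sum_congr rfl fun y _ => hdim y, Finset.sum_const,
      smul_eq_mul, Finset.card_univ] at this
  have hd0 : 0 < d := by
    haveI : Nontrivial (W ((1 : G) : G ⧸ S)) := Submodule.nontrivial_iff_ne_bot.2 fun h => hu0 (by
      rw [hWg] at h
      rwa [h, Submodule.mem_bot] at hu1)
    exact Module.finrank_pos
  have h3 : 4 * Nat.card {y // τ y = y} ≤ Fintype.card (G ⧸ S) := by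
    rw [← Nat.card_eq_fintype_card]
    exact four_mul_fixed_le hp hp3 hx hgen hStop
  set X := Fintype.card (G ⧸ S)
  set F := Nat.card {y // τ y = y}
  set f := finrank K (LinearMap.ker (ρ x - 1))
  have hX : 0 < X := Fintype.card_pos
  obtain ⟨q, rfl⟩ : ∃ q, p = q + 4 := ⟨p - 4, by omega⟩
  rw [show q + 4 - 1 = q + 3 by omega] at h1
  have h4 : 4 * ((q + 4) * f) ≤ d * X * (q + 7) := by
    calc 4 * ((q + 4) * f) ≤ 4 * (d * (X + (q + 3) * F)) := Nat.mul_le_mul_left 4 h1
      _ = d * (4 * X + (q + 3) * (4 * F)) := by ring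
      _ ≤ d * (4 * X + (q + 3) * X) := by gcongr
      _ = d * X * (q + 7) := by ring
  by_contra hlt
  nlinarith [Nat.mul_le_mul_left (q + 4) (not_lt.1 hlt), Nat.mul_pos hd0 hX]

/-- **The irreducible case** over an algebraically closed field. -/
theorem half_fixed_of_faithful_irreducible [IsAlgClosed K] [Nontrivial M] [Group.IsSolvable G] {ℓ : ℕ}
    [Fact ℓ.Prime] [CharP K ℓ] {p : ℕ} (hp : p.Prime) (hp3 : 3 < p) (ρ : G →* Module.End K M)
    (hinj : Function.Injective ρ)
    (hirr : ∀ W : Submodule K M, (∀ g, ∀ y ∈ W, ρ g y ∈ W) → W = ⊥ ∨ W = ⊤)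
    {x : G} (hx : x ^ p = 1) (hgen : Subgroup.normalClosure ({x} : Set G) = ⊤) (hx1 : x ≠ 1) :
    2 * finrank K (LinearMap.ker (ρ x - 1)) < finrank K M := by
  classical
  by_cases hns : ∃ A : Subgroup G, A.Normal ∧ (∀ a ∈ A, ∀ b ∈ A, a * b = b * a) ∧
      ∃ a ∈ A, ∀ c : K, ρ a ≠ c • (1 : Module.End K M)
  · obtain ⟨A, hAn, hA, h⟩ := hns
    exact half_of_nonscalar hp hp3 ρ hirr hx hgen A hA
      (natCard_ne_zero_of_faithful_irreducible (ℓ := ℓ) ρ hinj hirr A hA) h
  push Not at hns
  have hscal : ∀ A : Subgroup G, A.Normal → (∀ a ∈ A, ∀ b ∈ A, a * b = b * a) → A ≤ Subgroup.center G := by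
    intro A hAn hA a ha
    obtain ⟨c, hc⟩ := hns A hAn hA a ha
    rw [Subgroup.mem_center_iff]
    intro g
    apply hinj
    rw [map_mul, map_mul, hc, mul_smul_comm, mul_one, smul_mul_assoc, one_mul]
  have hcsc : ∀ z ∈ Subgroup.center G, ∃ c : K, ρ z = c • (1 : Module.End K M) := fun z hz =>
    hns (Subgroup.center G) inferInstance (fun a ha b _ => (Subgroup.mem_center_iff.1 ha b).symm) z hz
  by_cases hab : Subgroup.center G = ⊤
  · obtain ⟨c, hc⟩ := hcsc x (hab ▸ Subgroup.mem_top x)
    have hker : LinearMap.ker (ρ x - 1) = ⊥ := by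
      rw [eq_bot_iff]
      intro y hy
      rw [LinearMap.mem_ker, LinearMap.sub_apply, Module.End.one_apply, hc, LinearMap.smul_apply,
        Module.End.one_apply] at hy
      have h1 : (c - 1) • y = 0 := by rw [sub_smul, one_smul, hy]
      refine (Submodule.mem_bot _).2 ((smul_eq_zero.1 h1).resolve_left fun h => hx1 (hinj ?_))
      rw [hc, sub_eq_zero.1 h, one_smul, map_one]
    rw [hker, finrank_bot, mul_zero]
    exact Module.finrank_pos
  -- a minimal noncentral normal subgroup
  obtain ⟨B, hBmin⟩ := exists_minimal_of_wellFoundedLT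
    (fun B : Subgroup G => B.Normal ∧ ¬ B ≤ Subgroup.center G)
    ⟨⊤, inferInstance, fun h => hab (top_le_iff.1 h)⟩
  obtain ⟨hBn, hBZ⟩ := hBmin.prop
  haveI := hBn
  have hBlow : ∀ N : Subgroup G, N.Normal → N ≤ B → N ≠ B → N ≤ Subgroup.center G := fun N hN hle hne => by
    by_contra h
    exact hne (le_antisymm hle (hBmin.le_of_le ⟨hN, h⟩ hle))
  have hBB : ⁅B, B⁆ ≤ Subgroup.center G := by
    refine hBlow _ inferInstance (Subgroup.commutator_le_self B) fun h => hBZ ?_
    obtain ⟨n, hn⟩ := Group.IsSolvable.solvable (G := G)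
    have hall : ∀ m, B ≤ derivedSeries G m := by
      intro m
      induction m with
      | zero => simp
      | succ m ih =>
        rw [derivedSeries_succ]
        exact le_trans (le_of_eq h.symm) (Subgroup.commutator_mono ih ih)
    exact (hn ▸ hall n).trans bot_le
  have hZB : ∀ z : B, z ∈ Subgroup.center B ↔ (z : G) ∈ Subgroup.center G := by
    intro z
    refine ⟨fun hz => ?_, fun hz => Subgroup.mem_center_iff.2 fun a =>
      Subtype.ext (Subgroup.mem_center_iff.1 hz a)⟩
    refine hscal ((Subgroup.center B).map B.subtype) inferInstance ?_ ⟨z, hz, rfl⟩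
    rintro _ ⟨a, ha, rfl⟩ _ ⟨b, -, rfl⟩
    exact congrArg Subtype.val (Subgroup.mem_center_iff.1 ha b).symm
  have hcc : ∀ a b : B, a * b * a⁻¹ * b⁻¹ ∈ Subgroup.center B := fun a b =>
    (hZB _).2 (hBB (Subgroup.commutator_mem_commutator a.2 b.2))
  -- conjugates of powers
  have hconjpow : ∀ (a b : B) (j : ℕ), a ^ j * b * (a ^ j)⁻¹ = (a * b * a⁻¹ * b⁻¹) ^ j * b := by
    intro a b j
    set c := a * b * a⁻¹ * b⁻¹ with hc
    induction j with
    | zero => simp
    | succ j ih =>
      have hca : Commute a (c ^ j) :=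
        Subgroup.mem_center_iff.1 ((Subgroup.center B).pow_mem (hcc a b) j) a
      calc a ^ (j + 1) * b * (a ^ (j + 1))⁻¹ = a * (a ^ j * b * (a ^ j)⁻¹) * a⁻¹ := by
            rw [pow_succ']; group
        _ = a * c ^ j * b * a⁻¹ := by rw [ih]; group
        _ = c ^ j * (a * b * a⁻¹) := by rw [hca.eq]; group
        _ = c ^ (j + 1) * b := by rw [pow_succ, hc]; group
  -- the prime
  obtain ⟨r, hr, b₀, hb₀Z, hb₀⟩ : ∃ r : ℕ, r.Prime ∧ ∃ b : B, b ∉ Subgroup.center B ∧ b ^ r ∈ Subgroup.center B := by
    obtain ⟨g, hgB, hgZ⟩ := SetLike.not_le_iff_exists.1 hBZ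
    haveI : Nontrivial (B ⧸ Subgroup.center B) := by
      refine ⟨((⟨g, hgB⟩ : B) : B ⧸ Subgroup.center B), 1, fun h => hgZ ?_⟩
      exact (hZB _).1 ((QuotientGroup.eq_one_iff _).1 h)
    obtain ⟨r, hr, hrd⟩ := Nat.exists_prime_and_dvd
      (Finite.one_lt_card (α := B ⧸ Subgroup.center B)).ne'
    haveI := Fact.mk hr
    obtain ⟨y, hy⟩ := exists_prime_orderOf_dvd_card' r hrd
    obtain ⟨b, rfl⟩ := QuotientGroup.mk_surjective y
    refine ⟨r, hr, b, fun h => ?_, ?_⟩
    · rw [(QuotientGroup.eq_one_iff _).2 h, orderOf_one] at hy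
      exact hr.ne_one hy.symm
    · rw [← QuotientGroup.eq_one_iff, QuotientGroup.mk_pow, ← hy, pow_orderOf_eq_one]
  haveI := Fact.mk hr
  -- `B` has exponent `r` modulo the centre
  have hpowr : ∀ b : B, b ^ r ∈ Subgroup.center B := by
    have hqc : ∀ y z : B ⧸ Subgroup.center B, Commute y z := by
      intro y z
      obtain ⟨a, rfl⟩ := QuotientGroup.mk_surjective y
      obtain ⟨b, rfl⟩ := QuotientGroup.mk_surjective z
      show (a : B ⧸ Subgroup.center B) * b = b * a
      rw [← mul_inv_eq_one, mul_inv_rev, ← mul_assoc, ← QuotientGroup.mk_inv, ← QuotientGroup.mk_inv,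
        ← QuotientGroup.mk_mul, ← QuotientGroup.mk_mul, ← QuotientGroup.mk_mul,
        QuotientGroup.eq_one_iff]
      exact hcc a b
    let T : Subgroup B :=
      { carrier := {b | ((b : B ⧸ Subgroup.center B)) ^ r = 1}
        one_mem' := by simp
        mul_mem' := fun {a b} ha hb => by
          show ((a * b : B) : B ⧸ Subgroup.center B) ^ r = 1
          rw [QuotientGroup.mk_mul, (hqc _ _).mul_pow, ha, hb, one_mul]
        inv_mem' := fun {a} ha => by
          show ((a⁻¹ : B) : B ⧸ Subgroup.center B) ^ r = 1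
          rw [QuotientGroup.mk_inv, inv_pow, ha, inv_one] }
    have hTmem : ∀ b : B, b ∈ T ↔ b ^ r ∈ Subgroup.center B := fun b => by
      show ((b : B ⧸ Subgroup.center B)) ^ r = 1 ↔ _
      rw [← QuotientGroup.mk_pow, QuotientGroup.eq_one_iff]
    haveI : (T.map B.subtype).Normal := by
      refine ⟨?_⟩
      rintro _ ⟨b, hb, rfl⟩ g
      refine ⟨MulAut.conjNormal g b, ?_, MulAut.conjNormal_apply g b⟩
      rw [SetLike.mem_coe, hTmem, ← map_pow, hZB, MulAut.conjNormal_apply]
      rw [SetLike.mem_coe, hTmem, hZB] at hb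
      exact Subgroup.Normal.conj_mem inferInstance _ hb g
    have hTB : T.map B.subtype = B := by
      by_contra hne
      exact hb₀Z ((hZB b₀).2 (hBlow _ inferInstance (Subgroup.map_subtype_le T) hne
        ⟨b₀, (hTmem b₀).2 hb₀, rfl⟩))
    intro b
    obtain ⟨t, ht, htb⟩ := (hTB.ge b.2 : (b : G) ∈ T.map B.subtype)
    rw [← Subtype.ext htb]
    exact (hTmem t).1 ht
  have hcommr : ∀ a b : B, (a * b * a⁻¹ * b⁻¹) ^ r = 1 := by
    intro a b
    have h := hconjpow a b r
    rw [show a ^ r * b * (a ^ r)⁻¹ = b by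
      rw [← Subgroup.mem_center_iff.1 (hpowr a) b, mul_inv_cancel_right]] at h
    exact mul_eq_right.1 h.symm
  let σ : B →* Module.End K M := ρ.comp B.subtype
  have hσinj : Function.Injective σ := hinj.comp Subtype.val_injective
  have hσZ : ∀ g ∈ Subgroup.center B, ∃ c : K, σ g = c • (1 : Module.End K M) := fun g hg =>
    hcsc _ ((hZB g).1 hg)
  -- `r` differs from the characteristic
  have hrK : (r : K) ≠ 0 := by
    intro h0
    have hrℓ : r = ℓ := ((Nat.prime_dvd_prime_iff_eq (Fact.out : ℓ.Prime) hr).1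
      ((CharP.cast_eq_zero_iff K ℓ r).1 h0)).symm
    refine hb₀Z (Subgroup.mem_center_iff.2 fun a => ?_)
    obtain ⟨c, hc⟩ := hσZ _ (hcc a b₀)
    have h1 : σ (a * b₀ * a⁻¹ * b₀⁻¹) ^ r = 1 := by rw [← map_pow, hcommr, map_one]
    haveI : CharP (Module.End K M) ℓ :=
      charP_of_injective_algebraMap (algebraMap K (Module.End K M)).injective ℓ
    rw [hc, smul_pow, one_pow] at h1
    obtain ⟨y, hy⟩ := exists_ne (0 : M)
    have h2 : (c ^ r - 1) • y = 0 := by
      have h3 := LinearMap.congr_fun h1 y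
      rw [LinearMap.smul_apply, Module.End.one_apply] at h3
      rw [sub_smul, one_smul, h3, sub_self]
    have h4 : (c - 1) ^ r = 0 := by
      subst hrℓ
      rw [sub_pow_char, one_pow, (smul_eq_zero.1 h2).resolve_right hy]
    have h5 : a * b₀ * a⁻¹ * b₀⁻¹ = 1 := hσinj (by
      rw [hc, sub_eq_zero.1 (pow_eq_zero_iff hr.ne_zero |>.1 h4), one_smul, map_one])
    exact mul_inv_eq_iff_eq_mul.1 (mul_inv_eq_one.1 h5)
  -- the automorphism
  let φ : MulAut B := MulAut.conjNormal x
  have hφ : ∀ b : B, ((φ b : B) : G) = x * b * x⁻¹ := fun b => MulAut.conjNormal_apply x b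
  have hφZ : ∀ z ∈ Subgroup.center B, φ z = z := fun z hz => Subtype.ext (by
    rw [hφ, Subgroup.mem_center_iff.1 ((hZB z).1 hz) x, mul_inv_cancel_right])
  let Φ : (B ⧸ Subgroup.center B) →* (B ⧸ Subgroup.center B) :=
    QuotientGroup.map _ _ φ.toMonoidHom (fun z hz => by rw [Subgroup.mem_comap]; exact (hφZ z hz).symm ▸ hz)
  have hΦ : ∀ b : B, Φ (b : B ⧸ Subgroup.center B) = ((φ b : B) : B ⧸ Subgroup.center B) := fun b => rfl
  let Φ' : (B ⧸ Subgroup.center B) →* (B ⧸ Subgroup.center B) :=
    QuotientGroup.map _ _ φ.symm.toMonoidHom (fun z hz => by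
      rw [Subgroup.mem_comap]
      show φ.symm z ∈ _
      rw [show φ.symm z = z from φ.injective (by rw [φ.apply_symm_apply, hφZ z hz])]
      exact hz)
  let τ : Equiv.Perm (B ⧸ Subgroup.center B) :=
    { toFun := Φ
      invFun := Φ'
      left_inv := fun y => by
        induction y using QuotientGroup.induction_on with | _ b => simp [Φ, Φ']
      right_inv := fun y => by
        induction y using QuotientGroup.induction_on with | _ b => simp [Φ, Φ'] }
  have hτ : ∀ b : B, τ (b : B ⧸ Subgroup.center B) = ((φ b : B) : B ⧸ Subgroup.center B) := fun b => rfl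
  let C : Subgroup (B ⧸ Subgroup.center B) := MonoidHom.eqLocus Φ (MonoidHom.id _)
  have hCcard : Nat.card {y // τ y = y} = Nat.card C := rfl
  -- `x` does not act trivially modulo the centre
  have hCtop : C ≠ ⊤ := by
    intro htop
    have hxall : ∀ b : B, b⁻¹ * φ b ∈ Subgroup.center B := fun b => by
      have h1 : Φ (b : B ⧸ Subgroup.center B) = (b : B ⧸ Subgroup.center B) :=
        (htop ▸ Subgroup.mem_top _ : (b : B ⧸ Subgroup.center B) ∈ C)
      exact QuotientGroup.eq.1 h1.symm
    let R : Subgroup G :=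
      { carrier := {g | ∀ b : B, (b : G)⁻¹ * (g * b * g⁻¹) ∈ Subgroup.center G}
        one_mem' := fun b => by simp
        mul_mem' := fun {g h} hg hh b => by
          have h1 := hh b
          have h2 := hg b
          set z := (b : G)⁻¹ * (h * b * h⁻¹) with hz
          have h3 : (b : G)⁻¹ * (g * h * b * (g * h)⁻¹) = (b : G)⁻¹ * (g * b * g⁻¹) * z := by
            have h4 : g * h * (b : G) * (g * h)⁻¹ = g * ((b : G) * z) * g⁻¹ := by rw [hz]; group
            rw [h4, ← mul_assoc g, mul_assoc (g * (b : G)), ← Subgroup.mem_center_iff.1 h1 g⁻¹]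
            group
          rw [h3]
          exact (Subgroup.center G).mul_mem h2 h1
        inv_mem' := fun {g} hg b => by
          have h1 := hg ⟨g⁻¹ * b * g, by simpa using hBn.conj_mem _ b.2 g⁻¹⟩
          have h2 : (g⁻¹ * (b : G) * g)⁻¹ * b ∈ Subgroup.center G := by
            simpa [mul_assoc] using h1
          have h3 := (Subgroup.center G).inv_mem (Subgroup.Normal.conj_mem inferInstance _ h2 1)
          simp only [one_mul, inv_one, mul_one, mul_inv_rev, inv_inv] at h3
          rw [inv_inv]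
          exact h3 }
    haveI : R.Normal := by
      refine ⟨fun g hg h b => ?_⟩
      have h1 := Subgroup.Normal.conj_mem inferInstance _
        (hg ⟨h⁻¹ * b * h, by simpa using hBn.conj_mem _ b.2 h⁻¹⟩) h
      simpa [mul_assoc] using h1
    have hRtop : R = ⊤ := by
      rw [eq_top_iff, ← hgen]
      refine Subgroup.normalClosure_le_normal (Set.singleton_subset_iff.2 fun b => ?_)
      have h1 := (hZB _).1 (hxall b)
      rwa [Subgroup.coe_mul, Subgroup.coe_inv, hφ] at h1
    refine hb₀Z (Subgroup.mem_center_iff.2 fun a => ?_)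
    let N : Subgroup G := Subgroup.center G ⊔ Subgroup.zpowers (b₀ : G)
    have hNn : N.Normal := by
      refine ⟨fun n hn g => ?_⟩
      obtain ⟨z, hz, w, hw, rfl⟩ := Subgroup.mem_sup_of_normal_left.1 hn
      obtain ⟨i, rfl⟩ := hw
      have h1 : g * (b₀ : G) * g⁻¹ ∈ N := by
        have h2 : (b₀ : G) * ((b₀ : G)⁻¹ * (g * b₀ * g⁻¹)) ∈ N :=
          N.mul_mem (Subgroup.mem_sup_right (Subgroup.mem_zpowers _))
            (Subgroup.mem_sup_left ((hRtop ▸ Subgroup.mem_top g : g ∈ R) b₀))
        rwa [mul_inv_cancel_left] at h2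
      have h2 : g * (z * (b₀ : G) ^ i) * g⁻¹ = z * (g * b₀ * g⁻¹) ^ i := by
        rw [← mul_assoc, Subgroup.mem_center_iff.1 hz g, conj_zpow]; group
      rw [h2]
      exact N.mul_mem (Subgroup.mem_sup_left hz) (N.zpow_mem h1 i)
    have hNle : N ≤ Subgroup.centralizer {(b₀ : G)} := by
      refine sup_le (Subgroup.center_le_centralizer _) ?_
      rw [Subgroup.zpowers_le]
      exact Subgroup.mem_centralizer_singleton_iff.2 rfl
    have hNab : ∀ u ∈ N, ∀ w ∈ N, u * w = w * u := by
      intro u hu w hw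
      obtain ⟨z, hz, t, ⟨i, rfl⟩, rfl⟩ := Subgroup.mem_sup_of_normal_left.1 hu
      have h1 : w * (b₀ : G) ^ i = (b₀ : G) ^ i * w :=
        (Commute.zpow_right (Subgroup.mem_centralizer_singleton_iff.1 (hNle hw) : Commute w (b₀ : G)) i).eq
      rw [mul_assoc, ← h1, ← mul_assoc, ← Subgroup.mem_center_iff.1 hz w, mul_assoc]
    have h1 : (b₀ : G) ∈ Subgroup.center G :=
      hscal N hNn hNab (Subgroup.mem_sup_right (Subgroup.mem_zpowers _))
    exact Subtype.ext (Subgroup.mem_center_iff.1 h1 a)
  have hθ : ∀ b, ρ x * σ b = σ (φ b) * ρ x := fun b => by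
    show ρ x * ρ b = ρ ((φ b : B) : G) * ρ x
    rw [← map_mul, ← map_mul, hφ, inv_mul_cancel_right]
  have hθp : ρ x ^ p = 1 := by rw [← map_pow, hx, map_one]
  -- the index of the fixed points
  have hqr : IsPGroup r (B ⧸ Subgroup.center B) := fun y => by
    obtain ⟨b, rfl⟩ := QuotientGroup.mk_surjective y
    exact ⟨1, by rw [pow_one, ← QuotientGroup.mk_pow, QuotientGroup.eq_one_iff]; exact hpowr b⟩
  obtain ⟨k, hk⟩ := hqr.index C
  have hXF : Nat.card (B ⧸ Subgroup.center B) = Nat.card C * r ^ k := by rw [← hk, C.card_mul_index]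
  have hk0 : k ≠ 0 := by
    rintro rfl
    rw [pow_zero, Subgroup.index_eq_one] at hk
    exact hCtop hk
  rcases (show k = 1 ∨ 2 ≤ k by omega) with rfl | hk2
  · -- a transvection modulo the centre
    rw [pow_one] at hk
    obtain ⟨yb, -, hyb⟩ := SetLike.exists_of_lt (lt_top_iff_ne_top.2 hCtop)
    obtain ⟨b, rfl⟩ := QuotientGroup.mk_surjective yb
    obtain ⟨d, hd⟩ : ∃ d : B, d = φ b * b⁻¹ := ⟨_, rfl⟩
    have hφb : φ b = d * b := by rw [hd, inv_mul_cancel_right]
    let C' : Subgroup B := C.comap (QuotientGroup.mk' (Subgroup.center B))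
    have hC'i : C'.index = r := by
      show (C.comap _).index = r
      rw [Subgroup.index_comap_of_surjective _ (QuotientGroup.mk'_surjective _), hk]
    have hC'b : b ∉ C' := hyb
    have hC'd : ∀ c ∈ C', c * d = d * c := by
      intro c hc
      have h1 : Φ (c : B ⧸ Subgroup.center B) = (c : B ⧸ Subgroup.center B) := hc
      obtain ⟨z, hz, hcz⟩ : ∃ z ∈ Subgroup.center B, φ c = c * z :=
        ⟨c⁻¹ * φ c, QuotientGroup.eq.1 h1.symm, (mul_inv_cancel_left _ _).symm⟩
      have h2 : φ (c * b * c⁻¹ * b⁻¹) = c * b * c⁻¹ * b⁻¹ := hφZ _ (hcc c b)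
      rw [map_mul, map_mul, map_mul, map_inv, map_inv, hcz, hφb] at h2
      have h3 : c * z * (d * b) * (c * z)⁻¹ * (d * b)⁻¹ =
          c * d * c⁻¹ * (c * b * c⁻¹ * b⁻¹) * d⁻¹ := by
        have hz' := Subgroup.mem_center_iff.1 hz (d * b)
        calc c * z * (d * b) * (c * z)⁻¹ * (d * b)⁻¹
            = c * (z * (d * b) * z⁻¹) * c⁻¹ * (d * b)⁻¹ := by group
          _ = c * (d * b) * c⁻¹ * (d * b)⁻¹ := by rw [← hz', mul_inv_cancel_right]
          _ = _ := by group
      rw [h3] at h2
      have hcen := Subgroup.mem_center_iff.1 (hcc c b) d⁻¹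
      generalize c * b * c⁻¹ * b⁻¹ = e at h2 hcen
      rw [mul_assoc _ e d⁻¹, ← hcen, ← mul_assoc, mul_eq_right] at h2
      exact mul_inv_eq_iff_eq_mul.1 (mul_inv_eq_one.1 h2)
    have hdZ : d ∉ Subgroup.center B := by
      intro h
      apply hC'b
      show Φ (b : B ⧸ Subgroup.center B) = (b : B ⧸ Subgroup.center B)
      rw [hΦ, hφb, QuotientGroup.mk_mul, (QuotientGroup.eq_one_iff d).2 h, one_mul]
    have hgen2 : ∀ e, e ∉ C' → e * d = d * e → False := by
      intro e he hed
      apply hdZ
      rw [Subgroup.mem_center_iff]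
      intro a
      have hle : C' ≤ Subgroup.centralizer {d} := fun c hc =>
        Subgroup.mem_centralizer_singleton_iff.2 (hC'd c hc)
      have htop : Subgroup.centralizer {d} = ⊤ := by
        rw [← Subgroup.index_eq_one]
        have h1 := Subgroup.relIndex_mul_index hle
        rw [hC'i] at h1
        rcases (Nat.dvd_prime hr).1 (Dvd.intro_left _ h1) with h | h
        · exact h
        · exfalso
          rw [h, Nat.mul_eq_right hr.ne_zero, Subgroup.relIndex_eq_one] at h1
          exact he (h1 (Subgroup.mem_centralizer_singleton_iff.2 hed))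
      exact Subgroup.mem_centralizer_singleton_iff.1 (htop ▸ Subgroup.mem_top a)
    have hdC : d ∈ C' := by
      by_contra h
      exact hgen2 d h rfl
    have hbd : b * d ≠ d * b := fun h => hgen2 b hC'b h
    -- iterates
    obtain ⟨z₀, hz₀, hφd⟩ : ∃ z ∈ Subgroup.center B, φ d = d * z :=
      ⟨d⁻¹ * φ d, QuotientGroup.eq.1 (show Φ (d : B ⧸ Subgroup.center B) = d from hdC).symm,
        (mul_inv_cancel_left _ _).symm⟩
    have hφdj : ∀ j : ℕ, (φ ^ j) d = d * z₀ ^ j := by
      intro j
      induction j with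
      | zero => simp
      | succ j ih =>
        rw [pow_succ', MulAut.mul_apply, ih, map_mul, map_pow, hφZ z₀ hz₀, hφd, mul_assoc, ← pow_succ']
    have hφp : φ ^ p = 1 := by
      show (MulAut.conjNormal (H := B) x) ^ p = 1
      rw [← map_pow, hx, map_one]
    have hz₀p : z₀ ^ p = 1 := by
      have h := hφdj p
      rw [hφp, MulAut.one_apply] at h
      exact mul_eq_left.1 h.symm
    have hτbj : ∀ j : ℕ, (((φ ^ j) b : B) : B ⧸ Subgroup.center B) =
        (d : B ⧸ Subgroup.center B) ^ j * (b : B ⧸ Subgroup.center B) := by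
      intro j
      induction j with
      | zero => simp
      | succ j ih =>
        rw [pow_succ', MulAut.mul_apply, ← hΦ, ih, map_mul, map_pow,
          show Φ (d : B ⧸ Subgroup.center B) = d from hdC, hΦ, hφb, QuotientGroup.mk_mul, ← mul_assoc,
          ← pow_succ]
    have hdp : (d : B ⧸ Subgroup.center B) ^ p = 1 := by
      have h := hτbj p
      rw [hφp, MulAut.one_apply] at h
      exact mul_eq_right.1 h.symm
    have hrp : r = p := by
      have h1 : orderOf (d : B ⧸ Subgroup.center B) ∣ r :=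
        orderOf_dvd_of_pow_eq_one (by rw [← QuotientGroup.mk_pow, QuotientGroup.eq_one_iff]; exact hpowr d)
      have h2 : orderOf (d : B ⧸ Subgroup.center B) ∣ p := orderOf_dvd_of_pow_eq_one hdp
      have h3 : orderOf (d : B ⧸ Subgroup.center B) ≠ 1 := fun h =>
        hdZ ((QuotientGroup.eq_one_iff d).1 (orderOf_eq_one_iff.1 h))
      rw [← ((Nat.dvd_prime hr).1 h1).resolve_left h3, ((Nat.dvd_prime hp).1 h2).resolve_left h3]
    subst hrp
    obtain ⟨β, hβ⟩ := hσZ _ (hpowr b)
    obtain ⟨δ, hδ⟩ := hσZ _ (hpowr d)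
    obtain ⟨η, hη⟩ := hσZ _ (hcc d b)
    obtain ⟨ζ, hζ⟩ := hσZ _ hz₀
    obtain ⟨y, hy⟩ := exists_ne (0 : M)
    have hone : ∀ (c : K) (g : B), σ g = c • (1 : Module.End K M) → c ≠ 0 ∧ (g = 1 ↔ c = 1) := by
      intro c g hg
      refine ⟨fun h => ?_, fun h => ?_, fun h => hσinj (by rw [hg, h, one_smul, map_one])⟩
      · have h1 : σ g * σ g⁻¹ = 1 := by rw [← map_mul, mul_inv_cancel, map_one]
        rw [hg, h, zero_smul, zero_mul] at h1
        exact zero_ne_one h1
      · subst h
        rw [map_one] at hg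
        have h1 := LinearMap.congr_fun hg y
        rw [LinearMap.smul_apply, Module.End.one_apply] at h1
        have h2 : (c - 1) • y = 0 := by rw [sub_smul, one_smul, ← h1, sub_self]
        exact sub_eq_zero.1 ((smul_eq_zero.1 h2).resolve_right hy)
    have hpw : ∀ (c : K) (g : B) (j : ℕ), σ g = c • (1 : Module.End K M) → σ (g ^ j) = c ^ j • (1 : Module.End K M) :=
      fun c g j hg => by rw [map_pow, hg, smul_pow, one_pow]
    refine half_of_transvection hp hp3 hrK (ρ x) (σ b) (σ d) hθp (β := β) (δ := δ) (η := η) (ζ := ζ)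
      (by rw [← map_pow, hβ]) (hone β _ hβ).1 (by rw [← map_pow, hδ]) (hone δ _ hδ).1 ?_ ?_ ?_ ?_ ?_ ?_
    · exact ((hone _ _ (hpw η _ r hη)).2).1 (hcommr d b)
    · intro h
      exact hbd (mul_inv_eq_iff_eq_mul.1 (mul_inv_eq_one.1 (((hone η _ hη).2).2 h))).symm
    · rw [← map_mul, show d * b = d * b * d⁻¹ * b⁻¹ * (b * d) by group, map_mul, hη, smul_mul_assoc,
        one_mul, map_mul]
    · rw [hθ, hφb, map_mul]
    · exact ((hone _ _ (hpw ζ _ r hζ)).2).1 hz₀p
    · rw [hθ, hφd, map_mul, hζ, mul_smul_comm, mul_one, smul_mul_assoc]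
  · -- large index
    refine half_of_index hp φ τ hτ ?_ ?_ hcc _ M le_rfl σ (ρ x) hσinj hθp hθ hσZ
    · rw [hCcard, hXF]
      have hp5 : 5 ≤ p := by
        by_contra h
        have : p = 4 := by omega
        exact absurd (this ▸ hp) (by decide)
      suffices h : 4 * (r ^ k) + 4 * (p - 1) ≤ p * r ^ k by
        calc 4 * (Nat.card C * r ^ k) + 4 * (p - 1) * Nat.card C
            = Nat.card C * (4 * r ^ k + 4 * (p - 1)) := by ring
          _ ≤ Nat.card C * (p * r ^ k) := Nat.mul_le_mul_left _ h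
          _ = p * (Nat.card C * r ^ k) := by ring
      obtain ⟨q, hq⟩ : ∃ q, p = q + 5 := ⟨p - 5, by omega⟩
      rw [show p - 1 = q + 4 by omega]
      by_cases h16 : 16 ≤ r ^ k
      · subst hq; nlinarith [Nat.mul_le_mul_left q h16]
      · have hr2 := hr.two_le
        have hrp : r ≠ p := by
          intro h
          apply h16
          calc 16 ≤ r ^ 2 := by rw [h]; nlinarith
            _ ≤ r ^ k := Nat.pow_le_pow_right hr.pos hk2
        have hmod : 1 ≡ r ^ k [MOD p] := by
          haveI : Fintype (B ⧸ Subgroup.center B) := Fintype.ofFinite _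
          haveI := Fact.mk hp
          have hτp : τ ^ p ^ 1 = 1 := by
            have hj : ∀ (j : ℕ) (b : B), (τ ^ j) (b : B ⧸ Subgroup.center B) =
                (((φ ^ j) b : B) : B ⧸ Subgroup.center B) := by
              intro j
              induction j with
              | zero => intro b; rfl
              | succ j ih => intro b; rw [pow_succ', pow_succ', Equiv.Perm.mul_apply, ih, MulAut.mul_apply, hτ]
            refine Equiv.ext fun y => ?_
            obtain ⟨b, rfl⟩ := QuotientGroup.mk_surjective y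
            rw [pow_one, hj]
            have hφp : φ ^ p = 1 := by
              show (MulAut.conjNormal (H := B) x) ^ p = 1
              rw [← map_pow, hx, map_one]
            rw [hφp]; rfl
          have h1 := Equiv.Perm.card_compl_support_modEq hτp
          have h2 : (Equiv.Perm.support τ)ᶜ.card = Nat.card C := by
            rw [← hCcard, Nat.card_eq_fintype_card, Fintype.card_subtype]
            congr 1
            ext y; simp
          rw [h2, ← Nat.card_eq_fintype_card, hXF] at h1
          conv at h1 => lhs; rw [← mul_one (Nat.card C)]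
          refine Nat.ModEq.cancel_left_of_coprime ?_ h1
          obtain ⟨i, hi⟩ := IsPGroup.iff_card.1 (hqr.to_subgroup C)
          rw [hi]
          exact (Nat.Coprime.pow_right i ((Nat.coprime_primes hp hr).2 (Ne.symm hrp)))
        have hdvd : p ∣ r ^ k - 1 := (Nat.modEq_iff_dvd' (Nat.one_le_pow _ _ hr.pos)).1 hmod
        have hk4 : k < 4 := by
          by_contra h
          exact h16 (le_trans (by decide : 16 ≤ 2 ^ 4) ((Nat.pow_le_pow_left hr2 4).trans
            (Nat.pow_le_pow_right hr.pos (not_lt.1 h))))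
        have hr4 : r < 4 := by
          by_contra h
          exact h16 (le_trans (by decide : 16 ≤ 4 ^ 2) ((Nat.pow_le_pow_left (not_lt.1 h) 2).trans
            (Nat.pow_le_pow_right hr.pos hk2)))
        interval_cases r <;> interval_cases k <;> simp only [Nat.reducePow, Nat.reduceSub] at hdvd h16 ⊢ <;>
          first
          | omega
          | (have hle := Nat.le_of_dvd (by norm_num) hdvd
             interval_cases p <;> omega)
    · by_contra hall
      push Not at hall
      apply hCtop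
      rw [eq_top_iff]
      intro y _
      obtain ⟨b, rfl⟩ := QuotientGroup.mk_surjective y
      show Φ (b : B ⧸ Subgroup.center B) = (b : B ⧸ Subgroup.center B)
      rw [hΦ, hall]

set_option maxHeartbeats 1000000 in
/-- Composition factors: if some normal subgroup has zero norm on `M`, the bound holds for `M`. -/
theorem half_fixed_of_norm_zero [IsAlgClosed K] [Group.IsSolvable G] {ℓ : ℕ} [Fact ℓ.Prime] [CharP K ℓ]
    {p : ℕ} (hp : p.Prime) (hp3 : 3 < p) {x : G} (hx : x ^ p = 1)
    (hgen : Subgroup.normalClosure ({x} : Set G) = ⊤) (N : Subgroup G) [Fintype N]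
    (hN : (Nat.card N : K) ≠ 0) :
    ∀ (n : ℕ) (U : Type v) [AddCommGroup U] [Module K U] [FiniteDimensional K U] [Nontrivial U],
      finrank K U ≤ n → ∀ σ : G →* Module.End K U, (∑ a : N, σ (a : G)) = 0 →
      2 * finrank K (LinearMap.ker (σ x - 1)) < finrank K U := by
  classical
  intro n
  induction n with
  | zero =>
    intro U _ _ _ _ hn
    have : 0 < finrank K U := Module.finrank_pos
    omega
  | succ n ih =>
  intro U _ _ _ _ hn σ hσ
  by_cases hred : ∃ W : Submodule K U, (∀ g, ∀ y ∈ W, σ g y ∈ W) ∧ W ≠ ⊥ ∧ W ≠ ⊤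
  · obtain ⟨W, hW, hW0, hWtop⟩ := hred
    haveI : Nontrivial W := Submodule.nontrivial_iff_ne_bot.2 hW0
    haveI : Nontrivial (U ⧸ W) := Submodule.Quotient.nontrivial_iff.2 hWtop
    let σW : G →* Module.End K W :=
      { toFun := fun g => (σ g).restrict (hW g)
        map_one' := LinearMap.ext fun z => Subtype.ext (by simp)
        map_mul' := fun a b => LinearMap.ext fun z => Subtype.ext (by simp) }
    let σV : G →* Module.End K (U ⧸ W) :=
      { toFun := fun g => W.mapQ W (σ g) (fun z hz => hW g z hz)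
        map_one' := Submodule.linearMap_qext _ (LinearMap.ext fun z => by simp)
        map_mul' := fun a b => Submodule.linearMap_qext _ (LinearMap.ext fun z => by simp) }
    have hlt : finrank K W < finrank K U := Submodule.finrank_lt hWtop
    have hsum := Submodule.finrank_quotient_add_finrank W
    have hW1 : 0 < finrank K W := Module.finrank_pos
    have h1 := ih W (by omega) σW (LinearMap.ext fun z => Subtype.ext (by
      have h := LinearMap.congr_fun hσ (z : U)
      simp only [LinearMap.sum_apply, LinearMap.zero_apply, Submodule.coe_sum] at h ⊢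
      exact h))
    have h2 := ih (U ⧸ W) (by omega) σV (Submodule.linearMap_qext _ (LinearMap.ext fun z => by
      have h := congrArg W.mkQ (LinearMap.congr_fun hσ z)
      simp only [LinearMap.sum_apply, LinearMap.zero_apply, map_sum, map_zero, LinearMap.comp_apply] at h ⊢
      exact h))
    have hf : ∀ y ∈ W, (σ x - 1 : Module.End K U) y ∈ W := fun y hy => by
      rw [LinearMap.sub_apply, Module.End.one_apply]; exact W.sub_mem (hW x y hy) hy
    have h3 := finrank_ker_le_sub_add_quot W (σ x - 1) hf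
    have e1 : (σ x - 1 : Module.End K U).restrict hf = σW x - 1 := LinearMap.ext fun z => Subtype.ext rfl
    have e2 : W.mapQ W (σ x - 1 : Module.End K U) (fun y hy => hf y hy) = σV x - 1 :=
      Submodule.linearMap_qext _ (LinearMap.ext fun z => rfl)
    rw [e1, e2] at h3
    omega
  · push Not at hred
    have hirr : ∀ W : Submodule K U, (∀ g, ∀ y ∈ W, σ g y ∈ W) → W = ⊥ ∨ W = ⊤ := fun W hW => by
      by_cases h : W = ⊥
      · exact Or.inl h
      · exact Or.inr (hred W hW h)
    have hx1 : σ x ≠ 1 := by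
      intro h1
      have hker : σ.ker = ⊤ := by
        rw [eq_top_iff, ← hgen]
        exact Subgroup.normalClosure_le_normal (Set.singleton_subset_iff.2 h1)
      rw [Finset.sum_congr rfl fun a _ => MonoidHom.mem_ker.1 (hker ▸ Subgroup.mem_top (a : G)),
        Finset.sum_const, Finset.card_univ, ← Nat.cast_smul_eq_nsmul K, ← Nat.card_eq_fintype_card,
        smul_eq_zero] at hσ
      exact one_ne_zero (hσ.resolve_left hN)
    have hgen' : Subgroup.normalClosure ({(x : G ⧸ σ.ker)} : Set (G ⧸ σ.ker)) = ⊤ := by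
      have h := Subgroup.map_normalClosure ({x} : Set G) (QuotientGroup.mk' σ.ker)
        (QuotientGroup.mk'_surjective _)
      rw [hgen, Subgroup.map_top_of_surjective _ (QuotientGroup.mk'_surjective _), Set.image_singleton] at h
      exact h.symm
    let σ' : G ⧸ σ.ker →* Module.End K U := QuotientGroup.lift σ.ker σ le_rfl
    have hσ' : Function.Injective σ' := by
      refine (injective_iff_map_eq_one σ').2 fun y hy => ?_
      induction y using QuotientGroup.induction_on with | _ g =>
      exact (QuotientGroup.eq_one_iff g).2 hy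
    exact half_fixed_of_faithful_irreducible (ℓ := ℓ) hp hp3 σ' hσ'
      (fun W hW => hirr W fun g y hy => hW (g : G ⧸ σ.ker) y hy)
      (x := (x : G ⧸ σ.ker)) (by rw [← QuotientGroup.mk_pow, hx]; rfl) hgen'
      (fun h => hx1 (MonoidHom.mem_ker.1 ((QuotientGroup.eq_one_iff x).1 h)))

omit [Finite G] in
/-- A nontrivial soluble group has a nontrivial abelian normal subgroup. -/
theorem exists_comm_normal (G : Type w) [Group G] [Group.IsSolvable G] [Nontrivial G] :
    ∃ A : Subgroup G, A.Normal ∧ A ≠ ⊥ ∧ ∀ a ∈ A, ∀ b ∈ A, a * b = b * a := by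
  classical
  have hs := Group.IsSolvable.solvable (G := G)
  have h0 : Nat.find hs ≠ 0 := fun h => by
    have h1 := Nat.find_spec hs
    rw [h, derivedSeries_zero] at h1
    exact top_ne_bot h1
  obtain ⟨m, hm⟩ := Nat.exists_eq_succ_of_ne_zero h0
  refine ⟨derivedSeries G m, inferInstance, Nat.find_min hs (by omega), fun a ha b hb => ?_⟩
  have h1 := Nat.find_spec hs
  rw [hm, derivedSeries_succ, Subgroup.commutator_eq_bot_iff_le_centralizer] at h1
  exact ((h1 ha) b hb).symm

end CfsgLib.MetacyclicP
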