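import Mathlib
import Cfsg.Agent.Lib.MetacyclicP.HalfFixed
import Cfsg.Agent.Lib.HallHigmanB.Minimal

/-!
The half bound over an arbitrary field of prime characteristic.
-/

set_option autoImplicit false
set_option linter.style.haveILetI false

open Module

namespace CfsgLib.MetacyclicP

universe u v w

/-- If some subgroup has zero norm on a module, an element of prime order `p > 3` whose conjugates
generate the soluble group fixes less than half of it. -/
theorem half_fixed_module {G : Type w} [Group G] [Finite G] [Group.IsSolvable G] {p : ℕ} (hp : p.Prime)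
    (hp3 : 3 < p) {x : G} (hx : x ^ p = 1) (hgen : Subgroup.normalClosure ({x} : Set G) = ⊤)
    {k : Type u} [Field k] (ℓ : ℕ) [Fact ℓ.Prime] [CharP k ℓ]
    {V : Type v} [AddCommGroup V] [Module k V] [FiniteDimensional k V] [Nontrivial V]
    (σ : G →* Module.End k V) (N : Subgroup G) [Fintype N] (hN : (Nat.card N : k) ≠ 0)
    (hnorm : (∑ a : N, σ (a : G)) = 0) :
    2 * finrank k (LinearMap.ker (σ x - 1)) < finrank k V := by
  classical
  haveI : CharP (AlgebraicClosure k) ℓ :=
    charP_of_injective_algebraMap (algebraMap k (AlgebraicClosure k)).injective ℓ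
  obtain ⟨Φ, hΦ⟩ := HallHigmanB.exists_baseChange (F := k) (V := V) (AlgebraicClosure k)
  haveI : Nonempty (Fin (finrank k V)) := ⟨⟨0, Module.finrank_pos⟩⟩
  have hNK : (Nat.card N : AlgebraicClosure k) ≠ 0 := by
    rw [← map_natCast (algebraMap k (AlgebraicClosure k))]
    exact fun h => hN ((map_eq_zero _).1 h)
  have h1 := half_fixed_of_norm_zero (ℓ := ℓ) hp hp3 hx hgen N hNK (finrank k V)
    (Fin (finrank k V) → AlgebraicClosure k) (by simp) (Φ.toMonoidHom.comp σ) (by
      show ∑ a : N, Φ (σ (a : G)) = 0
      rw [← map_sum, hnorm, map_zero])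
  have h2 := finrank_fixed_baseChange Φ hΦ (σ x)
  rw [Module.finrank_fin_fun] at h1
  change 2 * finrank (AlgebraicClosure k) (LinearMap.ker (Φ (σ x) - 1)) < finrank k V at h1
  omega

end CfsgLib.MetacyclicP
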