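import Mathlib
import Cfsg.Agent.Lib.MetacyclicP.HalfFixedModule
import Cfsg.Agent.Lib.CoprimeAction.Basic
import Cfsg.Agent.Lib.PGroups.Frattini
import Cfsg.Agent.Lib.ElementOrders.FPFFactor

/-!
A maximal soluble subgroup generated by two conjugates of an element of prime order `p > 3`: its normal
`q`-subgroups centralise every `r`-group (`r ≠ q`) which it normalises.
-/

set_option autoImplicit false
set_option linter.style.haveILetI false

open Module
open scoped commutatorElement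

namespace CfsgLib.MetacyclicP

set_option maxHeartbeats 1000000 in
/-- **Key step of Flavell's lemma.** -/
theorem centralises_of_max_pair {G : Type*} [Group G] [Finite G] {p : ℕ} (hp : p.Prime) (hp3 : 3 < p)
    {x a : G} (hx : x ^ p = 1) {A : Subgroup G}
    (hAdef : A = Subgroup.zpowers x ⊔ Subgroup.zpowers (a * x * a⁻¹)) (haA : a ∈ A)
    (hAs : Group.IsSolvable A)
    (hmax : ∀ b : G, A ≤ Subgroup.zpowers x ⊔ Subgroup.zpowers (b * x * b⁻¹) →
      Group.IsSolvable ↥(Subgroup.zpowers x ⊔ Subgroup.zpowers (b * x * b⁻¹)) →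
      b ∈ Subgroup.zpowers x ⊔ Subgroup.zpowers (b * x * b⁻¹) →
      Subgroup.zpowers x ⊔ Subgroup.zpowers (b * x * b⁻¹) = A)
    {q r : ℕ} [Fact q.Prime] [Fact r.Prime] (hqr : q ≠ r) {F : Subgroup G} (hFA : F ≤ A)
    (hF : IsPGroup q F) (hFn : A ≤ Subgroup.normalizer (F : Set G)) :
    ∀ (n : ℕ) (V : Subgroup G), Nat.card V ≤ n → IsPGroup r V →
      A ≤ Subgroup.normalizer (V : Set G) → F ≤ Subgroup.centralizer (V : Set G) := by
  classical
  intro n
  induction n with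
  | zero =>
    intro V hn
    have : 0 < Nat.card V := Nat.card_pos
    omega
  | succ n ih =>
  intro V hn hV hAV
  by_contra hne
  have hFV : F ≤ Subgroup.normalizer (V : Set G) := hFA.trans hAV
  have hxA : x ∈ A := hAdef ▸ Subgroup.mem_sup_left (Subgroup.mem_zpowers x)
  have hyA : a * x * a⁻¹ ∈ A := hAdef ▸ Subgroup.mem_sup_right (Subgroup.mem_zpowers _)
  have hcop : (Nat.card F).Coprime (Nat.card V) := IsPGroup.coprime_card_of_ne q r hqr F V hF hV
  have hlow : ∀ U : Subgroup G, U ≤ V → U ≠ V → A ≤ Subgroup.normalizer (U : Set G) →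
      F ≤ Subgroup.centralizer (U : Set G) := fun U hUV hUne hAU =>
    ih U (by
      have hlt : Nat.card U < Nat.card V := lt_of_le_of_ne
        (Nat.le_of_dvd Nat.card_pos (Subgroup.card_dvd_of_le hUV))
        fun h => hUne (Subgroup.eq_of_le_of_card_ge hUV h.ge)
      omega) (hV.to_le hUV) hAU
  -- `V` is not contained in `A`
  have hVA : ¬ V ≤ A := by
    intro hVA
    apply hne
    intro f hf
    refine Subgroup.mem_centralizer_iff.2 fun v hv => ?_
    have hdis : Disjoint F V := IsPGroup.disjoint_of_ne q r hqr F V hF hV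
    haveI h1 : (F.subgroupOf A).Normal := Subgroup.normal_subgroupOf_of_le_normalizer hFn
    haveI h2 : (V.subgroupOf A).Normal := Subgroup.normal_subgroupOf_of_le_normalizer hAV
    have h3 : Disjoint (F.subgroupOf A) (V.subgroupOf A) := by
      rw [disjoint_iff, eq_bot_iff]
      rintro ⟨g, hg⟩ hgm
      exact Subgroup.mem_bot.2 (Subtype.ext (Subgroup.disjoint_def.1 hdis hgm.1 hgm.2))
    exact (congrArg Subtype.val (Subgroup.commute_of_normal_of_disjoint _ _ h1 h2 h3 ⟨f, hFA hf⟩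
      ⟨v, hVA hv⟩ hf hv).eq).symm
  -- `[V, F] = V`
  have hVF : ⁅V, F⁆ = V := by
    by_contra hlt
    have hn1 : A ≤ Subgroup.normalizer ((⁅V, F⁆ : Subgroup G) : Set G) := by
      intro g hg
      refine CfsgLib.CoprimeAction.mem_normalizer_of_conj_mem fun z hz => ?_
      have h1 : MulAut.conj g z ∈ (⁅V, F⁆).map (MulAut.conj g).toMonoidHom := ⟨z, hz, rfl⟩
      rw [Subgroup.map_commutator] at h1
      refine Subgroup.commutator_mono ?_ ?_ h1
      · rintro _ ⟨v, hv, rfl⟩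
        exact CfsgLib.CoprimeAction.conj_mem (hAV hg) hv
      · rintro _ ⟨v, hv, rfl⟩
        exact CfsgLib.CoprimeAction.conj_mem (hFn hg) hv
    have h2 := hlow _ (CfsgLib.CoprimeAction.commutator_le_left hFV) hlt hn1
    have h3 := CfsgLib.CoprimeAction.commutator_commutator_eq hFV hcop
      (Or.inl (by haveI := hF.isNilpotent; infer_instance))
    have h4 : ⁅⁅V, F⁆, F⁆ = ⊥ := by
      rw [Subgroup.commutator_eq_bot_iff_le_centralizer]
      exact Subgroup.le_centralizer_iff.1 h2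
    rw [h4, eq_comm, Subgroup.commutator_eq_bot_iff_le_centralizer] at h3
    exact hne (Subgroup.le_centralizer_iff.1 h3)
  haveI hVnt : Nontrivial V := by
    rw [Subgroup.nontrivial_iff_ne_bot]
    rintro rfl
    exact hne fun f _ => Subgroup.mem_centralizer_iff.2 fun v hv => by
      rw [Subgroup.mem_bot.1 hv, one_mul, mul_one]
  -- the module
  set Φ := frattini V with hΦdef
  letI : CommGroup (V ⧸ Φ) :=
    { (inferInstance : Group (V ⧸ Φ)) with
      mul_comm := by
        intro y z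
        obtain ⟨u, rfl⟩ := QuotientGroup.mk_surjective y
        obtain ⟨v, rfl⟩ := QuotientGroup.mk_surjective z
        show ((u * v : V) : V ⧸ Φ) = ((v * u : V) : V ⧸ Φ)
        rw [QuotientGroup.eq, show (u * v)⁻¹ * (v * u) = ⁅v⁻¹, u⁻¹⁆ by
          rw [commutatorElement_def]; group]
        exact CfsgLib.PGroups.commutatorElement_mem_frattini hV _ _ }
  have hWexp : ∀ y : V ⧸ Φ, y ^ r = 1 := by
    intro y
    obtain ⟨u, rfl⟩ := QuotientGroup.mk_surjective y
    rw [← QuotientGroup.mk_pow, QuotientGroup.eq_one_iff]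
    exact CfsgLib.PGroups.pow_mem_frattini hV u
  let φA : A →* MulAut V := V.normalizerMonoidHom.comp (Subgroup.inclusion hAV)
  have hφA : ∀ (g : A) (v : V), ((φA g v : V) : G) = (g : G) * v * (g : G)⁻¹ := fun g v => rfl
  letI : Module (ZMod r) (Additive (V ⧸ Φ)) := by
    exact AddCommGroup.zmodModule (n := r) (G := Additive (V ⧸ Φ)) (fun y => hWexp y.toMul)
  haveI : Finite (Additive (V ⧸ Φ)) := inferInstanceAs (Finite (V ⧸ Φ))
  haveI : Module.Finite (ZMod r) (Additive (V ⧸ Φ)) := Module.Finite.of_finite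
  have hΦtop : Φ ≠ ⊤ := by
    intro h
    have h1 : (⊥ : Subgroup V) = ⊤ := frattini_nongenerating (by rw [← hΦdef, h, sup_top_eq])
    exact bot_ne_top h1
  haveI : Nontrivial (Additive (V ⧸ Φ)) := by
    obtain ⟨u, -, hu⟩ := SetLike.exists_of_lt (lt_top_iff_ne_top.2 hΦtop)
    exact ⟨Additive.ofMul (u : V ⧸ Φ), 0, fun h => hu ((QuotientGroup.eq_one_iff u).1 h)⟩
  let mk : V → Additive (V ⧸ Φ) := fun v => Additive.ofMul (v : V ⧸ Φ)
  have hmk : ∀ u v, mk (u * v) = mk u + mk v := fun u v => rfl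
  have hmk0 : ∀ u, mk u = 0 ↔ u ∈ Φ := fun u => QuotientGroup.eq_one_iff u
  have hmksurj : Function.Surjective mk := fun w => QuotientGroup.mk_surjective w.toMul
  have hchar : ∀ (g : A) (v : V), v ∈ Φ → φA g v ∈ Φ := by
    intro g v hv
    have := (Subgroup.characteristic_iff_comap_eq.mp (inferInstance : Φ.Characteristic)) (φA g)
    exact this.symm.le hv
  let act : A → Module.End (ZMod r) (Additive (V ⧸ Φ)) := fun g =>
    ((QuotientGroup.map Φ Φ (φA g).toMonoidHom (fun v hv => hchar g v hv)).toAdditive).toZModLinearMap r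
  have hact : ∀ g v, act g (mk v) = mk (φA g v) := fun g v => rfl
  let σ : A →* Module.End (ZMod r) (Additive (V ⧸ Φ)) :=
    { toFun := act
      map_one' := LinearMap.ext fun w => by
        obtain ⟨v, rfl⟩ := hmksurj w
        rw [hact, map_one]; rfl
      map_mul' := fun g h => LinearMap.ext fun w => by
        obtain ⟨v, rfl⟩ := hmksurj w
        rw [hact, map_mul]; rfl }
  have hσ : ∀ g v, σ g (mk v) = mk (φA g v) := hact
  let F' : Subgroup A := F.subgroupOf A
  haveI : F'.Normal := Subgroup.normal_subgroupOf_of_le_normalizer hFn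
  haveI : Fintype F' := Fintype.ofFinite _
  have hF'card : (Nat.card F' : ZMod r) ≠ 0 := by
    rw [Ne, CharP.cast_eq_zero_iff (ZMod r) r]
    intro h
    rw [Nat.card_congr (Subgroup.subgroupOfEquivOfLe hFA).toEquiv] at h
    obtain ⟨k, hk⟩ := IsPGroup.iff_card.1 hF
    rw [hk] at h
    exact hqr ((Nat.prime_dvd_prime_iff_eq Fact.out Fact.out).1 ((Fact.out : r.Prime).dvd_of_dvd_pow h)).symm
  -- the norm of `F` vanishes
  set e : Module.End (ZMod r) (Additive (V ⧸ Φ)) := ∑ f : F', σ (f : A) with he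
  have hef : ∀ (f : F') w, e (σ (f : A) w) = e w := by
    intro f w
    rw [he, LinearMap.sum_apply, LinearMap.sum_apply]
    refine Fintype.sum_equiv (Equiv.mulRight f) _ _ fun g => ?_
    rw [Equiv.coe_mulRight, Subgroup.coe_mul, map_mul, Module.End.mul_apply]
  have hnorm : e = 0 := by
    let S : Subgroup G :=
      { carrier := {g | ∃ h : g ∈ V, e (mk ⟨g, h⟩) = 0}
        one_mem' := ⟨V.one_mem, by
          show e (mk 1) = 0
          rw [(hmk0 1).2 Φ.one_mem, map_zero]⟩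
        mul_mem' := fun {g h} ⟨hg, hg'⟩ ⟨hh, hh'⟩ => ⟨V.mul_mem hg hh, by
          show e (mk (⟨g, hg⟩ * ⟨h, hh⟩)) = 0
          rw [hmk, map_add, hg', hh', add_zero]⟩
        inv_mem' := fun {g} ⟨hg, hg'⟩ => ⟨V.inv_mem hg, by
          show e (mk (⟨g, hg⟩ : V)⁻¹) = 0
          rw [show mk (⟨g, hg⟩ : V)⁻¹ = - mk ⟨g, hg⟩ from rfl, map_neg, hg', neg_zero]⟩ }
    have hle : ⁅V, F⁆ ≤ S := by
      rw [Subgroup.commutator_le]
      intro v hv f hf
      let f' : F' := ⟨⟨f, hFA hf⟩, hf⟩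
      refine ⟨CfsgLib.CoprimeAction.commutator_le_left hFV (Subgroup.commutator_mem_commutator hv hf), ?_⟩
      have h1 : (⟨⁅v, f⁆, CfsgLib.CoprimeAction.commutator_le_left hFV
          (Subgroup.commutator_mem_commutator hv hf)⟩ : V) = ⟨v, hv⟩ * φA f'.1 (⟨v, hv⟩ : V)⁻¹ := by
        refine Subtype.ext ?_
        show ⁅v, f⁆ = v * (f * v⁻¹ * f⁻¹)
        rw [commutatorElement_def]; group
      rw [h1, hmk, map_add, ← hσ, hef,
        show mk (⟨v, hv⟩ : V)⁻¹ = - mk ⟨v, hv⟩ from rfl, map_neg, add_neg_cancel]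
    refine LinearMap.ext fun w => ?_
    obtain ⟨⟨v, hv⟩, rfl⟩ := hmksurj w
    obtain ⟨h, h'⟩ := hle (hVF.symm ▸ hv : v ∈ ⁅V, F⁆)
    exact h'
  -- irreducible
  have hirr : ∀ N : AddSubgroup (Additive (V ⧸ Φ)), (∀ g, ∀ w ∈ N, σ g w ∈ N) → N = ⊥ ∨ N = ⊤ := by
    intro N hN
    let U : Subgroup G :=
      { carrier := {g | ∃ h : g ∈ V, mk ⟨g, h⟩ ∈ N}
        one_mem' := ⟨V.one_mem, by
          show mk 1 ∈ N
          rw [(hmk0 1).2 Φ.one_mem]; exact N.zero_mem⟩
        mul_mem' := fun {g h} ⟨hg, hg'⟩ ⟨hh, hh'⟩ => ⟨V.mul_mem hg hh, by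
          show mk (⟨g, hg⟩ * ⟨h, hh⟩) ∈ N
          rw [hmk]; exact N.add_mem hg' hh'⟩
        inv_mem' := fun {g} ⟨hg, hg'⟩ => ⟨V.inv_mem hg, N.neg_mem hg'⟩ }
    have hUV : U ≤ V := by
      intro g hg
      exact hg.choose
    by_cases hU : U = V
    · right
      rw [eq_top_iff]
      intro w _
      obtain ⟨⟨v, hv⟩, rfl⟩ := hmksurj w
      obtain ⟨h, h'⟩ := (hU.ge hv : v ∈ U)
      exact h'
    · left
      have hAU : A ≤ Subgroup.normalizer (U : Set G) := by
        intro g hg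
        refine CfsgLib.CoprimeAction.mem_normalizer_of_conj_mem fun z hz => ?_
        obtain ⟨h, h'⟩ := hz
        refine ⟨CfsgLib.CoprimeAction.conj_mem (hAV hg) h, ?_⟩
        have h1 := hN ⟨g, hg⟩ _ h'
        rwa [hσ] at h1
      have hc := hlow U hUV hU hAU
      rw [eq_bot_iff]
      intro w hw
      obtain ⟨⟨v, hv⟩, rfl⟩ := hmksurj w
      have hvU : v ∈ U := ⟨hv, hw⟩
      have hfixf : ∀ f : F', σ (f : A) (mk ⟨v, hv⟩) = mk ⟨v, hv⟩ := fun f => by
        rw [hσ]
        congr 1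
        refine Subtype.ext ?_
        rw [hφA]
        show ((f : A) : G) * v * ((f : A) : G)⁻¹ = v
        have hfF : ((f : A) : G) ∈ F := Subgroup.mem_subgroupOf.1 f.2
        rw [← Subgroup.mem_centralizer_iff.1 (hc hfF) v hvU, mul_inv_cancel_right]
      have h1 : e (mk ⟨v, hv⟩) = (Nat.card F' : ZMod r) • mk ⟨v, hv⟩ := by
        rw [he, LinearMap.sum_apply]
        simp only [hfixf]
        rw [Finset.sum_const, Finset.card_univ, ← Nat.card_eq_fintype_card, ← Nat.cast_smul_eq_nsmul (ZMod r)]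
      rw [hnorm, LinearMap.zero_apply, eq_comm, smul_eq_zero] at h1
      exact AddSubgroup.mem_bot.2 (h1.resolve_left hF'card)
  -- the half bound for both generators
  let xA : A := ⟨x, hxA⟩
  let aA : A := ⟨a, haA⟩
  let yA : A := aA * xA * aA⁻¹
  have hgen : Subgroup.normalClosure ({xA} : Set A) = ⊤ := by
    rw [eq_top_iff]
    intro g _
    have h1 : A ≤ (Subgroup.normalClosure ({xA} : Set A)).map A.subtype := by
      conv_lhs => rw [hAdef]
      rw [sup_le_iff, Subgroup.zpowers_le, Subgroup.zpowers_le]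
      have hx0 : xA ∈ Subgroup.normalClosure ({xA} : Set A) :=
        Subgroup.subset_normalClosure (Set.mem_singleton xA)
      exact ⟨Subgroup.mem_map_of_mem A.subtype hx0,
        Subgroup.mem_map_of_mem A.subtype (Subgroup.normalClosure_normal.conj_mem xA hx0 aA)⟩
    obtain ⟨g', hg', hgg⟩ := h1 g.2
    rwa [← Subtype.ext hgg]
  have hxAp : xA ^ p = 1 := Subtype.ext hx
  have hhalf := half_fixed_module hp hp3 hxAp hgen r σ F' hF'card hnorm
  have hyker : finrank (ZMod r) (LinearMap.ker (σ yA - 1)) ≤ finrank (ZMod r) (LinearMap.ker (σ xA - 1)) := by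
    refine LinearMap.finrank_le_finrank_of_injective
      (f := LinearMap.codRestrict _ ((σ aA⁻¹).comp (LinearMap.ker (σ yA - 1)).subtype) fun w => ?_) ?_
    · have hw := LinearMap.mem_ker.1 w.2
      rw [LinearMap.sub_apply, Module.End.one_apply, sub_eq_zero] at hw
      rw [LinearMap.mem_ker, LinearMap.sub_apply, Module.End.one_apply, sub_eq_zero, LinearMap.comp_apply,
        Submodule.subtype_apply]
      conv_rhs => rw [← hw]
      rw [← Module.End.mul_apply, ← Module.End.mul_apply, ← map_mul, ← map_mul]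
      congr 2
      show xA * aA⁻¹ = aA⁻¹ * (aA * xA * aA⁻¹)
      group
    · intro w₁ w₂ h
      exact Subtype.ext (((Module.End.isUnit_iff _).1 ((Group.isUnit aA⁻¹).map σ)).injective
        (congrArg Subtype.val h))
  obtain ⟨w, hw⟩ : ∃ w, w ∉ LinearMap.ker (σ xA - 1) ⊔ LinearMap.ker (σ yA - 1) := by
    by_contra! hall
    have h1 : LinearMap.ker (σ xA - 1) ⊔ LinearMap.ker (σ yA - 1) = ⊤ := eq_top_iff.2 fun w _ => hall w
    have h2 := Submodule.finrank_add_le_finrank_add_finrank (LinearMap.ker (σ xA - 1)) (LinearMap.ker (σ yA - 1))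
    rw [h1, finrank_top] at h2
    omega
  obtain ⟨⟨u, huV⟩, rfl⟩ := hmksurj w
  -- the new pair
  set b := u * a with hb
  have hy' : b * x * b⁻¹ = u * (a * x * a⁻¹) * u⁻¹ := by rw [hb]; group
  set B := Subgroup.zpowers x ⊔ Subgroup.zpowers (b * x * b⁻¹) with hB
  have hxB : x ∈ B := Subgroup.mem_sup_left (Subgroup.mem_zpowers x)
  have hyB : u * (a * x * a⁻¹) * u⁻¹ ∈ B := hy' ▸ Subgroup.mem_sup_right (Subgroup.mem_zpowers _)
  have hBH : B ≤ A ⊔ V := by
    rw [hB, sup_le_iff, Subgroup.zpowers_le, Subgroup.zpowers_le, hy']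
    exact ⟨Subgroup.mem_sup_left hxA, Subgroup.mul_mem _ (Subgroup.mul_mem _ (Subgroup.mem_sup_right huV)
      (Subgroup.mem_sup_left hyA)) (Subgroup.inv_mem _ (Subgroup.mem_sup_right huV))⟩
  have hHN : A ⊔ V ≤ Subgroup.normalizer (V : Set G) := sup_le hAV Subgroup.le_normalizer
  have hBV : B ≤ Subgroup.normalizer (V : Set G) := hBH.trans hHN
  let Φ' : Subgroup G := Φ.map V.subtype
  have hΦ'V : Φ' ≤ V := Subgroup.map_subtype_le _
  have hΦ'n : A ⊔ V ≤ Subgroup.normalizer (Φ' : Set G) := by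
    intro g hg
    refine CfsgLib.CoprimeAction.mem_normalizer_of_conj_mem ?_
    rintro _ ⟨v, hv, rfl⟩
    have h1 := (Subgroup.characteristic_iff_comap_eq.mp (inferInstance : Φ.Characteristic))
      (V.normalizerMonoidHom ⟨g, hHN hg⟩)
    exact ⟨V.normalizerMonoidHom ⟨g, hHN hg⟩ v, h1.symm.le hv, rfl⟩
  let B' : Subgroup G := B ⊔ Φ'
  have hB'N : B' ≤ Subgroup.normalizer (V : Set G) := sup_le hBV (hΦ'V.trans Subgroup.le_normalizer)
  -- the trace of `B'` on `V`
  let N : AddSubgroup (Additive (V ⧸ Φ)) :=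
    { carrier := {z | ∃ v : V, (v : G) ∈ B' ∧ mk v = z}
      zero_mem' := ⟨1, B'.one_mem, (hmk0 1).2 Φ.one_mem⟩
      add_mem' := fun {z₁ z₂} ⟨v₁, h₁, e₁⟩ ⟨v₂, h₂, e₂⟩ => ⟨v₁ * v₂, B'.mul_mem h₁ h₂, by rw [hmk, e₁, e₂]⟩
      neg_mem' := fun {z} ⟨v, h, e⟩ => ⟨v⁻¹, B'.inv_mem h, by rw [← e]; rfl⟩ }
  have hexists : ∀ g : A, ∃ v : V, (v : G) * (g : G) ∈ B' := by
    intro g
    have h1 : A ≤ V ⊔ B' := by
      conv_lhs => rw [hAdef]
      rw [sup_le_iff, Subgroup.zpowers_le, Subgroup.zpowers_le]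
      refine ⟨Subgroup.mem_sup_right (Subgroup.mem_sup_left hxB), ?_⟩
      have h2 : u⁻¹ * (u * (a * x * a⁻¹) * u⁻¹) * u ∈ V ⊔ B' :=
        Subgroup.mul_mem _ (Subgroup.mul_mem _ (Subgroup.mem_sup_left (V.inv_mem huV))
          (Subgroup.mem_sup_right (Subgroup.mem_sup_left hyB))) (Subgroup.mem_sup_left huV)
      rwa [show u⁻¹ * (u * (a * x * a⁻¹) * u⁻¹) * u = a * x * a⁻¹ by group] at h2
    have h3 : (g : G) ∈ (↑(V ⊔ B') : Set G) := h1 g.2
    rw [Subgroup.coe_mul_of_right_le_normalizer_left V B' hB'N] at h3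
    obtain ⟨v, hv, β, hβ, hvβ⟩ := Set.mem_mul.1 h3
    exact ⟨⟨v⁻¹, V.inv_mem hv⟩, by
      show v⁻¹ * (g : G) ∈ B'
      rw [← hvβ, inv_mul_cancel_left]; exact hβ⟩
  have hNinv : ∀ g, ∀ z ∈ N, σ g z ∈ N := by
    rintro g _ ⟨v, hv, rfl⟩
    obtain ⟨c, hc⟩ := hexists g
    refine ⟨c * φA g v * c⁻¹, ?_, ?_⟩
    · show (c : G) * ((g : G) * v * (g : G)⁻¹) * (c : G)⁻¹ ∈ B'
      have h1 := B'.mul_mem (B'.mul_mem hc hv) (B'.inv_mem hc)
      simpa [mul_assoc] using h1
    · rw [hσ, hmk, hmk, show mk c⁻¹ = - mk c from rfl]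
      abel
  rcases hirr N hNinv with hN | hN
  · -- complement case
    have huniq : ∀ (g : G) (v v' : V), (v : G) * g ∈ B' → (v' : G) * g ∈ B' → mk v = mk v' := by
      intro g v v' h h'
      have h1 : mk (v * v'⁻¹) ∈ N := ⟨_, by
        show (v : G) * (v' : G)⁻¹ ∈ B'
        have := B'.mul_mem h (B'.inv_mem h')
        simpa [mul_assoc] using this, rfl⟩
      rw [hN, AddSubgroup.mem_bot, hmk, show mk v'⁻¹ = - mk v' from rfl, ← sub_eq_add_neg, sub_eq_zero] at h1
      exact h1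
    choose c hc using hexists
    have hcoc : ∀ g h : A, mk (c (g * h)) = mk (c g) + σ g (mk (c h)) := by
      intro g h
      rw [hσ, ← hmk]
      refine huniq ((g * h : A) : G) _ _ (hc _) ?_
      show (c g : G) * ((g : G) * (c h : G) * (g : G)⁻¹) * ((g : G) * (h : G)) ∈ B'
      have h1 := B'.mul_mem (hc g) (hc h)
      simpa [mul_assoc] using h1
    set w₀ : Additive (V ⧸ Φ) := ∑ f : F', mk (c (f : A)) with hw₀
    have hgw : ∀ g : A, σ g w₀ = w₀ - (Nat.card F' : ZMod r) • mk (c g) := by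
      intro g
      have h1 : ∑ f : F', mk (c (g * (f : A))) = (Nat.card F' : ZMod r) • mk (c g) + σ g w₀ := by
        simp only [hcoc g]
        rw [Finset.sum_add_distrib, Finset.sum_const,
          Finset.card_univ, ← Nat.card_eq_fintype_card, ← Nat.cast_smul_eq_nsmul (ZMod r), hw₀, map_sum]
      have h2 : ∑ f : F', mk (c (g * (f : A))) = w₀ := by
        let E : F' ≃ F' := (MulAut.conjNormal g : MulAut F').toEquiv
        rw [hw₀]
        have h3 : ∑ f : F', mk (c (g * (f : A))) = ∑ f : F', mk (c ((f : A) * g)) := by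
          refine Fintype.sum_equiv E _ _ fun f => ?_
          show _ = mk (c (((MulAut.conjNormal g f : F') : A) * g))
          rw [MulAut.conjNormal_apply, inv_mul_cancel_right]
        rw [h3]
        simp only [hcoc _ g]
        rw [Finset.sum_add_distrib,
          ← LinearMap.sum_apply, ← he, hnorm, LinearMap.zero_apply, add_zero]
      exact eq_sub_of_add_eq' (h1.symm.trans h2)
    have hcx : mk (c xA) = 0 := by
      rw [← (hmk0 1).2 Φ.one_mem]
      exact huniq x _ _ (hc xA) (by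
        show (1 : G) * x ∈ B'
        rw [one_mul]; exact Subgroup.mem_sup_left hxB)
    have hcy : mk (c yA) = mk ⟨u, huV⟩ - σ yA (mk ⟨u, huV⟩) := by
      rw [hσ, sub_eq_add_neg, show - mk (φA yA ⟨u, huV⟩) = mk (φA yA ⟨u, huV⟩)⁻¹ from rfl, ← hmk]
      refine huniq (yA : G) _ _ (hc yA) ?_
      show u * (a * x * a⁻¹ * u * (a * x * a⁻¹)⁻¹)⁻¹ * (a * x * a⁻¹) ∈ B'
      have h1 : u * (a * x * a⁻¹) * u⁻¹ ∈ B' := Subgroup.mem_sup_left hyB
      simpa [mul_assoc] using h1
    apply hw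
    have h1 : w₀ ∈ LinearMap.ker (σ xA - 1) := by
      rw [LinearMap.mem_ker, LinearMap.sub_apply, Module.End.one_apply, hgw, hcx, smul_zero, sub_zero,
        sub_self]
    have h2 : (Nat.card F' : ZMod r) • mk ⟨u, huV⟩ - w₀ ∈ LinearMap.ker (σ yA - 1) := by
      rw [LinearMap.mem_ker, LinearMap.sub_apply, Module.End.one_apply, map_sub, map_smul, hgw, hcy,
        smul_sub]
      abel
    have h3 : (Nat.card F' : ZMod r) • mk ⟨u, huV⟩ ∈ LinearMap.ker (σ xA - 1) ⊔ LinearMap.ker (σ yA - 1) := by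
      rw [← add_sub_cancel w₀ ((Nat.card F' : ZMod r) • mk ⟨u, huV⟩)]
      exact Submodule.add_mem_sup h1 h2
    have h4 := Submodule.smul_mem _ (Nat.card F' : ZMod r)⁻¹ h3
    rwa [inv_smul_smul₀ hF'card] at h4
  · -- `V ≤ B`
    have hVB' : ∀ v : V, ∃ v' : V, (v' : G) ∈ B' ∧ v'⁻¹ * v ∈ Φ := by
      intro v
      obtain ⟨v', hv', h⟩ := (hN.symm ▸ AddSubgroup.mem_top _ : mk v ∈ N)
      exact ⟨v', hv', (hmk0 _).1 (by rw [hmk, show mk v'⁻¹ = - mk v' from rfl, h, neg_add_cancel])⟩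
    have hBΦ : ∀ z ∈ B', ∃ β ∈ B, ∃ f ∈ Φ', z = β * f := by
      intro z hz
      have hn : B ≤ Subgroup.normalizer (Φ' : Set G) := hBH.trans hΦ'n
      have h3 : z ∈ (↑(B ⊔ Φ') : Set G) := hz
      rw [Subgroup.coe_mul_of_left_le_normalizer_right B Φ' hn] at h3
      obtain ⟨β, hβ, f, hf, h⟩ := Set.mem_mul.1 h3
      exact ⟨β, hβ, f, hf, h.symm⟩
    have hBtop : B.subgroupOf V ⊔ Φ = ⊤ := by
      rw [eq_top_iff]
      intro v _
      obtain ⟨v', hv', hvΦ⟩ := hVB' v
      obtain ⟨β, hβ, f, ⟨f', hf', rfl⟩, hβf⟩ := hBΦ _ hv'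
      have hβV : β ∈ V := by
        rw [show β = (v' : G) * (f' : G)⁻¹ by rw [hβf]; simp]
        exact V.mul_mem v'.2 (V.inv_mem f'.2)
      have hv'e : v' = (⟨β, hβV⟩ : V) * f' := Subtype.ext hβf
      rw [show v = (⟨β, hβV⟩ : V) * (f' * (v'⁻¹ * v)) by rw [hv'e]; group]
      exact Subgroup.mul_mem_sup (show (⟨β, hβV⟩ : V) ∈ B.subgroupOf V from hβ) (Φ.mul_mem hf' hvΦ)
    have hVB : V ≤ B := Subgroup.subgroupOf_eq_top.1 (frattini_nongenerating hBtop)
    have hAB : A ≤ B := by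
      conv_lhs => rw [hAdef]
      rw [sup_le_iff, Subgroup.zpowers_le, Subgroup.zpowers_le]
      refine ⟨hxB, ?_⟩
      rw [show a * x * a⁻¹ = u⁻¹ * (u * (a * x * a⁻¹) * u⁻¹) * u by group]
      exact B.mul_mem (B.mul_mem (B.inv_mem (hVB huV)) hyB) (hVB huV)
    have hsolv : Group.IsSolvable B := by
      haveI : Group.IsSolvable ↥(V ⊔ A) := CfsgLib.ElementOrders.isSolvable_sup_of_le_normalizer
        (by haveI := hV.isNilpotent; infer_instance) hAs hAV
      exact CfsgLib.CoprimeAction.isSolvable_of_le (hBH.trans (sup_comm A V).le)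
    exact hVA (hVB.trans (le_of_eq (hmax b hAB hsolv (B.mul_mem (hVB huV) (hAB haA)))))

end CfsgLib.MetacyclicP
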