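import Mathlib
import Cfsg.Agent.Lib.HallHigmanB.Minimal

/-!
An action on an elementary abelian group gives a representation over an algebraically closed field.
-/

set_option autoImplicit false
set_option linter.style.haveILetI false

open Module

namespace CfsgLib.MetacyclicP

/-- An action on a finite abelian group of prime exponent `p`, seen over the algebraic closure of
`ZMod p`: the kernel is unchanged and a fixed vector gives a fixed element. -/
theorem exists_rep {G : Type*} [Group G] {p : ℕ} [Fact p.Prime] {P : Type*} [CommGroup P] [Finite P]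
    [Nontrivial P] (hP : ∀ x : P, x ^ p = 1) (φ : G →* MulAut P) :
    ∃ (n : ℕ) (ρ : G →* Module.End (AlgebraicClosure (ZMod p)) (Fin n → AlgebraicClosure (ZMod p))),
      0 < n ∧ (∀ g, ρ g = 1 ↔ φ g = 1) ∧
      ∀ g v, ρ g v = v → v ≠ 0 → ∃ a : P, a ≠ 1 ∧ φ g a = a := by
  letI : Module (ZMod p) (Additive P) := by
    exact AddCommGroup.zmodModule (n := p) (G := Additive P) (fun x => hP x.toMul)
  haveI : Finite (Additive P) := inferInstanceAs (Finite P)
  haveI : Nontrivial (Additive P) := inferInstanceAs (Nontrivial P)
  haveI : Module.Finite (ZMod p) (Additive P) := Module.Finite.of_finite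
  let f : G → Module.End (ZMod p) (Additive P) := fun g =>
    { toFun := fun x => Additive.ofMul (φ g x.toMul)
      map_add' := fun x y => by
        show Additive.ofMul (φ g (x.toMul * y.toMul)) = _
        rw [map_mul]; rfl
      map_smul' := fun c x => by
        obtain ⟨n, rfl⟩ := ZMod.natCast_zmod_surjective c
        simp only [RingHom.id_apply, Nat.cast_smul_eq_nsmul]
        show Additive.ofMul (φ g (x.toMul ^ n)) = _
        rw [map_pow]; rfl }
  have hf1 : f 1 = 1 := by
    refine LinearMap.ext fun x => ?_
    show Additive.ofMul (φ 1 x.toMul) = x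
    rw [map_one]; rfl
  have hfm : ∀ a b, f (a * b) = f a * f b := by
    intro a b
    refine LinearMap.ext fun x => ?_
    show Additive.ofMul (φ (a * b) x.toMul) = Additive.ofMul (φ a (φ b x.toMul))
    rw [map_mul]; rfl
  let ρ0 : G →* Module.End (ZMod p) (Additive P) := MonoidHom.mk ⟨f, hf1⟩ hfm
  obtain ⟨Φ, hΦ⟩ := HallHigmanB.exists_baseChange (F := ZMod p) (V := Additive P)
    (AlgebraicClosure (ZMod p))
  refine ⟨finrank (ZMod p) (Additive P), Φ.toMonoidHom.comp ρ0, Module.finrank_pos, fun g => ?_,
    fun g v hv hv0 => ?_⟩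
  · show Φ (ρ0 g) = 1 ↔ _
    rw [← map_one Φ, hΦ.eq_iff]
    constructor
    · intro h
      refine MulEquiv.ext fun a => ?_
      have h1 := LinearMap.congr_fun h (Additive.ofMul a)
      exact h1
    · intro h
      refine LinearMap.ext fun x => ?_
      show Additive.ofMul (φ g x.toMul) = x
      rw [h]; rfl
  · by_contra! hno
    have hinj : Function.Injective ⇑((ρ0 g - 1 : Module.End (ZMod p) (Additive P))) := by
      rw [← LinearMap.ker_eq_bot, eq_bot_iff]
      intro x hx
      rw [LinearMap.mem_ker, LinearMap.sub_apply, Module.End.one_apply, sub_eq_zero] at hx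
      by_contra hx0
      exact hno x.toMul (fun h => hx0 (Submodule.mem_bot _ |>.2 (by simpa using h))) hx
    have hu : IsUnit (ρ0 g - 1) := (Module.End.isUnit_iff _).2
      ⟨hinj, LinearMap.injective_iff_surjective.1 hinj⟩
    have hu' := (Module.End.isUnit_iff _).1 (hu.map Φ.toMonoidHom)
    refine hv0 (hu'.injective ?_)
    show (Φ (ρ0 g - 1)) v = Φ (ρ0 g - 1) 0
    rw [map_zero (Φ (ρ0 g - 1)), map_sub, map_one, LinearMap.sub_apply, Module.End.one_apply, sub_eq_zero]
    exact hv

end CfsgLib.MetacyclicP
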