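import Mathlib
import Cfsg.Prelude.Def_Transfer
import Cfsg.Agent.Lib.MetacyclicP.FixedVector
import Cfsg.Agent.Lib.MetacyclicP.ModuleRep

/-!
Eigenvectors of abelian subgroups in a representation, for groups without elements of order `pqr`.
-/

set_option autoImplicit false
set_option linter.style.haveILetI false

open Module

namespace CfsgLib.MetacyclicP

open CfsgLib.HallHigmanB

variable {G : Type*} [Group G] [Finite G] {k : Type*} [Field k] [IsAlgClosed k]
  {V : Type*} [AddCommGroup V] [Module k V] [FiniteDimensional k V] (ρ : G →* Module.End k V)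

/-- An eigenvector for a subgroup. -/
def IsEigen (A : Subgroup G) (x : V) (χ : G → k) : Prop := x ≠ 0 ∧ ∀ a ∈ A, ρ a x = χ a • x

variable {ρ}

theorem IsEigen.map_mul {A : Subgroup G} {x : V} {χ : G → k} (h : IsEigen ρ A x χ) {a b : G}
    (ha : a ∈ A) (hb : b ∈ A) : χ (a * b) = χ a * χ b := by
  have h1 := h.2 _ (A.mul_mem ha hb)
  rw [_root_.map_mul, Module.End.mul_apply, h.2 _ hb, map_smul, h.2 _ ha, smul_smul] at h1
  have h2 : (χ (a * b) - χ b * χ a) • x = 0 := by rw [sub_smul, ← h1, sub_self]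
  rw [mul_comm (χ a)]
  exact sub_eq_zero.1 ((smul_eq_zero.1 h2).resolve_right h.1)

theorem IsEigen.map_one {A : Subgroup G} {x : V} {χ : G → k} (h : IsEigen ρ A x χ) : χ 1 = 1 := by
  have h1 := h.2 _ A.one_mem
  rw [_root_.map_one, Module.End.one_apply] at h1
  have h2 : (χ 1 - 1) • x = 0 := by rw [sub_smul, ← h1, one_smul, sub_self]
  exact sub_eq_zero.1 ((smul_eq_zero.1 h2).resolve_right h.1)

/-- The inverse of a translation. -/
theorem rho_inv_apply (g : G) (x : V) : ρ g⁻¹ (ρ g x) = x := by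
  rw [← Module.End.mul_apply, ← _root_.map_mul, inv_mul_cancel, _root_.map_one, Module.End.one_apply]

theorem rho_ne_zero (g : G) {x : V} (hx : x ≠ 0) : ρ g x ≠ 0 := fun h => hx (by
  rw [← rho_inv_apply (ρ := ρ) g x, h, _root_.map_zero])

/-- A commutative subgroup has an eigenvector in each nonzero invariant subspace. -/
theorem exists_eigen {A : Subgroup G} (hA : ∀ a ∈ A, ∀ b ∈ A, a * b = b * a) (W : Submodule k V)
    (hW0 : W ≠ ⊥) (hW : ∀ a ∈ A, ∀ x ∈ W, ρ a x ∈ W) : ∃ x ∈ W, ∃ χ : G → k, IsEigen ρ A x χ := by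
  classical
  obtain ⟨U, hU⟩ := exists_minimal_of_wellFoundedLT
    (fun U : Submodule k V => U ≠ ⊥ ∧ U ≤ W ∧ ∀ a ∈ A, ∀ x ∈ U, ρ a x ∈ U) ⟨W, hW0, le_rfl, hW⟩
  obtain ⟨hU0, hUW, hUi⟩ := hU.prop
  haveI : Nontrivial U := Submodule.nontrivial_iff_ne_bot.2 hU0
  have hirr : ∀ W' : Submodule k U, (∀ a : A, ∀ w ∈ W', (ρ a).restrict (hUi a a.2) w ∈ W') →
      W' = ⊥ ∨ W' = ⊤ := by
    intro W' hW'
    by_cases h0 : W'.map U.subtype = ⊥
    · exact Or.inl (Submodule.map_injective_of_injective U.injective_subtype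
        (by rw [h0, Submodule.map_bot]))
    · refine Or.inr (Submodule.map_injective_of_injective U.injective_subtype ?_)
      rw [Submodule.map_subtype_top]
      refine le_antisymm (Submodule.map_subtype_le U W') (hU.le_of_le ⟨h0, (Submodule.map_subtype_le U W').trans hUW,
        ?_⟩ (Submodule.map_subtype_le U W'))
      rintro a ha _ ⟨y, hy, rfl⟩
      exact ⟨_, hW' ⟨a, ha⟩ y hy, rfl⟩
  have hsc : ∀ a : A, ∃ c : k, (ρ a).restrict (hUi a a.2) = c • (1 : Module.End k U) := fun a =>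
    exists_scalar (fun b : A => (ρ b).restrict (hUi b b.2)) hirr fun b => LinearMap.ext fun y =>
      Subtype.ext (by
        show ρ a (ρ b y) = ρ b (ρ a y)
        rw [← Module.End.mul_apply, ← _root_.map_mul, hA _ a.2 _ b.2, _root_.map_mul, Module.End.mul_apply])
  choose c hc using hsc
  obtain ⟨y, hy⟩ := exists_ne (0 : U)
  refine ⟨y, hUW y.2, fun g => if h : g ∈ A then c ⟨g, h⟩ else 0, fun h => hy (Subtype.ext h),
    fun a ha => ?_⟩
  simp only [dif_pos ha]
  exact congrArg Subtype.val (LinearMap.congr_fun (hc ⟨a, ha⟩) y)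

/-- If `b ∈ A` moves a vector of `W`, some eigenvector of `A` in `W` has `χ b ≠ 1`. -/
theorem exists_eigen_ne {A : Subgroup G} (hA : ∀ a ∈ A, ∀ b ∈ A, a * b = b * a) (W : Submodule k V)
    (hW : ∀ a ∈ A, ∀ x ∈ W, ρ a x ∈ W) {b : G} (hb : b ∈ A) (hbk : (orderOf b : k) ≠ 0)
    (hne : ∃ x ∈ W, ρ b x ≠ x) : ∃ x ∈ W, ∃ χ : G → k, IsEigen ρ A x χ ∧ χ b ≠ 1 := by
  set n := orderOf b with hn
  set P : Module.End k V := ∑ i ∈ Finset.range n, ρ b ^ i with hP
  have hPc : ∀ a ∈ A, P * ρ a = ρ a * P := fun a ha => by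
    rw [hP, Finset.sum_mul, Finset.mul_sum]
    refine Finset.sum_congr rfl fun i _ => ?_
    rw [← map_pow, ← _root_.map_mul, ← _root_.map_mul, hA _ (A.pow_mem hb i) _ ha]
  have hPb : ρ b * P = P := by
    have h1 : (ρ b - 1) * P = 0 := by
      rw [hP, mul_geom_sum, ← map_pow, hn, pow_orderOf_eq_one, _root_.map_one, sub_self]
    rwa [sub_mul, one_mul, sub_eq_zero] at h1
  set W' := W ⊓ LinearMap.ker P with hW'
  have hW'0 : W' ≠ ⊥ := by
    obtain ⟨x, hx, hxne⟩ := hne
    intro h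
    have hPx : P x ∈ W := by
      rw [hP, LinearMap.sum_apply]
      refine W.sum_mem fun i _ => ?_
      rw [← map_pow]
      exact hW _ (A.pow_mem hb i) x hx
    have hPP : P (P x) = (n : k) • P x := by
      have hfix : ∀ i, (ρ b ^ i) (P x) = P x := by
        intro i
        induction i with
        | zero => simp
        | succ i ih =>
          rw [pow_succ, Module.End.mul_apply]
          rw [show ρ b (P x) = P x from LinearMap.congr_fun hPb x, ih]
      rw [hP] at hfix ⊢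
      rw [LinearMap.sum_apply (f := fun i => ρ b ^ i), Finset.sum_congr rfl (fun i _ => hfix i),
        Finset.sum_const, Finset.card_range, Nat.cast_smul_eq_nsmul]
    have hmem : (n : k) • x - P x ∈ W' := by
      refine ⟨W.sub_mem (W.smul_mem _ hx) hPx, ?_⟩
      rw [SetLike.mem_coe, LinearMap.mem_ker, map_sub, map_smul, hPP, sub_self]
    rw [h, Submodule.mem_bot, sub_eq_zero] at hmem
    apply hxne
    have h2 : ρ b ((n : k) • x) = (n : k) • x := by
      rw [hmem]; exact LinearMap.congr_fun hPb x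
    rw [map_smul] at h2
    exact (smul_right_injective V hbk) h2
  obtain ⟨x, hx, χ, hχ⟩ := exists_eigen hA W' hW'0 (fun a ha x hx => ⟨hW a ha x hx.1, by
    rw [SetLike.mem_coe, LinearMap.mem_ker, ← Module.End.mul_apply, hPc a ha, Module.End.mul_apply,
      LinearMap.mem_ker.1 hx.2, _root_.map_zero]⟩)
  refine ⟨x, hx.1, χ, hχ, fun h1 => ?_⟩
  have hbx : ρ b x = x := by rw [hχ.2 b hb, h1, one_smul]
  have h3 : P x = (n : k) • x := by
    have hfix : ∀ i, (ρ b ^ i) x = x := by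
      intro i
      induction i with
      | zero => simp
      | succ i ih => rw [pow_succ, Module.End.mul_apply, hbx, ih]
    rw [hP, LinearMap.sum_apply, Finset.sum_congr rfl (fun i _ => hfix i),
      Finset.sum_const, Finset.card_range, Nat.cast_smul_eq_nsmul]
  rw [LinearMap.mem_ker.1 hx.2] at h3
  exact hχ.1 ((smul_eq_zero.1 h3.symm).resolve_left hbk)

/-- An eigencharacter of a noncyclic group of exponent `p` has a nontrivial kernel. -/
theorem IsEigen.exists_ker {A : Subgroup G} {x : V} {χ : G → k} (h : IsEigen ρ A x χ) {p : ℕ}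
    (hp : p.Prime) (hexp : ∀ a ∈ A, a ^ p = 1) (hcard : p < Nat.card A) :
    ∃ a ∈ A, a ≠ 1 ∧ χ a = 1 := by
  by_contra! hno
  let f : A → {z : k // z ∈ Polynomial.nthRootsFinset p (1 : k)} := fun a => ⟨χ a, by
    rw [Polynomial.mem_nthRootsFinset hp.pos]
    have hpow : ∀ m : ℕ, χ ((a : G) ^ m) = χ a ^ m := by
      intro m
      induction m with
      | zero => rw [pow_zero, pow_zero, h.map_one]
      | succ m ih => rw [pow_succ, h.map_mul (A.pow_mem a.2 m) a.2, ih, pow_succ]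
    rw [← hpow, hexp a a.2, h.map_one]⟩
  have hinj : Function.Injective f := by
    intro a b hab
    have hab' : χ a = χ b := congrArg Subtype.val hab
    by_contra hne
    refine hno _ (A.mul_mem a.2 (A.inv_mem b.2)) (fun h1 => hne (Subtype.ext (mul_inv_eq_one.1 h1))) ?_
    rw [h.map_mul a.2 (A.inv_mem b.2), hab', ← h.map_mul b.2 (A.inv_mem b.2), mul_inv_cancel, h.map_one]
  have h1 := Nat.card_le_card_of_injective f hinj
  rw [Nat.card_eq_fintype_card (α := {z : k // z ∈ Polynomial.nthRootsFinset p (1 : k)}), Fintype.card_coe] at h1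
  have h2 : (Polynomial.nthRootsFinset p (1 : k)).card ≤ p := by
    classical
    rw [Polynomial.nthRootsFinset_def]
    exact (Multiset.toFinset_card_le _).trans (Polynomial.card_nthRoots p 1)
  omega

/-- A noncyclic group of exponent `p` fixes, with one of its elements, a vector of each invariant
subspace. -/
theorem exists_fixed_of_noncyclic {A : Subgroup G} (hA : ∀ a ∈ A, ∀ b ∈ A, a * b = b * a) {p : ℕ}
    (hp : p.Prime) (hexp : ∀ a ∈ A, a ^ p = 1) (hcard : p < Nat.card A) (W : Submodule k V) (hW0 : W ≠ ⊥)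
    (hW : ∀ a ∈ A, ∀ x ∈ W, ρ a x ∈ W) : ∃ a ∈ A, a ≠ 1 ∧ ∃ x ∈ W, x ≠ 0 ∧ ρ a x = x := by
  obtain ⟨x, hx, χ, hχ⟩ := exists_eigen hA W hW0 hW
  obtain ⟨a, ha, ha1, hχa⟩ := hχ.exists_ker hp hexp hcard
  exact ⟨a, ha, ha1, x, hx, hχ.1, by rw [hχ.2 a ha, hχa, one_smul]⟩

/-- The fixed vectors of an element. -/
def fixedSpace (ρ : G →* Module.End k V) (g : G) : Submodule k V := LinearMap.ker (ρ g - 1)

theorem mem_fixedSpace {g : G} {x : V} : x ∈ fixedSpace ρ g ↔ ρ g x = x := by
  rw [fixedSpace, LinearMap.mem_ker, LinearMap.sub_apply, Module.End.one_apply, sub_eq_zero]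

/-- The fixed space of `g` is invariant under the elements normalising `⟨g⟩`. -/
theorem fixedSpace_invariant {g a : G} (h : ∃ m : ℤ, a⁻¹ * g * a = g ^ m) {x : V}
    (hx : x ∈ fixedSpace ρ g) : ρ a x ∈ fixedSpace ρ g := by
  rw [mem_fixedSpace] at hx ⊢
  obtain ⟨m, hm⟩ := h
  have hz : ∀ m : ℤ, ρ (g ^ m) x = x := by
    intro m
    induction m using Int.induction_on with
    | zero => rw [zpow_zero, _root_.map_one, Module.End.one_apply]
    | succ i ih => rw [zpow_add_one, _root_.map_mul, Module.End.mul_apply, hx, ih]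
    | pred i ih =>
      rw [zpow_sub_one, _root_.map_mul, Module.End.mul_apply]
      conv_lhs => rw [← hx, rho_inv_apply]
      exact ih
  calc ρ g (ρ a x) = ρ (a * (a⁻¹ * g * a)) x := by
        rw [show a * (a⁻¹ * g * a) = g * a by group, _root_.map_mul, Module.End.mul_apply]
    _ = ρ a x := by rw [hm, _root_.map_mul, Module.End.mul_apply, hz]

theorem fixedSpace_invariant_of_commute {g a : G} (h : g * a = a * g) {x : V}
    (hx : x ∈ fixedSpace ρ g) : ρ a x ∈ fixedSpace ρ g :=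
  fixedSpace_invariant ⟨1, by rw [zpow_one, mul_assoc, h, inv_mul_cancel_left]⟩ hx

/-- Translates of an eigenvector by a group moving its character freely have nonzero sum, fixed by
that group. -/
theorem exists_fixed_of_free {A : Subgroup G} {Z : Subgroup G} (hZA : Z ≤ Subgroup.normalizer (A : Set G))
    {W : Submodule k V} (hW : ∀ z ∈ Z, ∀ x ∈ W, ρ z x ∈ W) {x : V} (hx : x ∈ W) {χ : G → k}
    (hχ : IsEigen ρ A x χ) (hfree : ∀ z ∈ Z, z ≠ 1 → ∃ a ∈ A, χ (z⁻¹ * a * z) ≠ χ a) :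
    ∃ y ∈ W, y ≠ 0 ∧ (∀ z ∈ Z, ρ z y = y) ∧
      ∀ a ∈ A, (∀ z ∈ Z, χ (z⁻¹ * a * z) = 1) → ρ a y = y := by
  classical
  haveI : Fintype Z := Fintype.ofFinite Z
  have hmem : ∀ z ∈ Z, ∀ a, a ∈ A → z⁻¹ * a * z ∈ A := fun z hz a ha => by
    have := (Subgroup.mem_normalizer_iff.1 (hZA (Z.inv_mem hz)) a).1 ha
    rwa [inv_inv] at this
  have hact : ∀ z ∈ Z, ∀ a ∈ A, ρ a (ρ z x) = χ (z⁻¹ * a * z) • ρ z x := fun z hz a ha => by
    rw [← map_smul, ← hχ.2 _ (hmem z hz a ha), ← Module.End.mul_apply, ← Module.End.mul_apply,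
      ← _root_.map_mul, ← _root_.map_mul]
    congr 2
    group
  have hli : LinearIndependent k (fun z : Z => ρ z x) := by
    refine linearIndependent_of_eigen _ (fun z => rho_ne_zero _ hχ.1) (fun a : A => ρ a)
      (fun z a => χ ((z : G)⁻¹ * a * z)) (fun z a => hact z z.2 a a.2) (fun z z' hzz' => ?_)
    by_contra hne
    obtain ⟨a, ha, hne'⟩ := hfree ((z : G)⁻¹ * z') (Z.mul_mem (Z.inv_mem z.2) z'.2)
      (fun h => hne (Subtype.ext (inv_mul_eq_one.1 h)))
    apply hne'
    have hz' : (z : G) * a * (z : G)⁻¹ ∈ A := (Subgroup.mem_normalizer_iff.1 (hZA z.2) a).1 ha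
    have h1 := hzz' ⟨_, hz'⟩
    simp only at h1
    rw [show (z : G)⁻¹ * ((z : G) * a * (z : G)⁻¹) * z = a by group] at h1
    rw [show ((z : G)⁻¹ * z')⁻¹ * a * ((z : G)⁻¹ * z') = (z' : G)⁻¹ * ((z : G) * a * (z : G)⁻¹) * z' by group]
    exact h1.symm
  refine ⟨∑ z : Z, ρ z x, W.sum_mem fun z _ => hW z z.2 x hx, fun h => ?_, fun z hz => ?_, fun a ha h1 => ?_⟩
  · have h1 := Fintype.linearIndependent_iff.1 hli (fun _ => 1) (by simpa using h) 1
    exact one_ne_zero h1
  · rw [map_sum]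
    refine Fintype.sum_equiv (Equiv.mulLeft (⟨z, hz⟩ : Z)) _ _ fun z' => ?_
    rw [← Module.End.mul_apply, ← _root_.map_mul]
    rfl
  · rw [map_sum]
    exact Finset.sum_congr rfl fun z _ => by rw [hact z z.2 a ha, h1 z z.2, one_smul]

/-- Cyclic version: `g` of prime order moves the character, so fixes a vector. -/
theorem exists_fixed_of_moved {A : Subgroup G} {g : G} {n : ℕ} (hn : n.Prime) (hgn : orderOf g = n)
    (hgA : g ∈ Subgroup.normalizer (A : Set G)) {W : Submodule k V} (hW : ∀ x ∈ W, ρ g x ∈ W) {x : V}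
    (hx : x ∈ W) {χ : G → k} (hχ : IsEigen ρ A x χ) (hmoved : ∃ a ∈ A, χ (g * a * g⁻¹) ≠ χ a) :
    ∃ y ∈ W, y ≠ 0 ∧ ρ g y = y ∧
      ∀ a ∈ A, g * a = a * g → χ a = 1 → ρ a y = y := by
  have hW' : ∀ z ∈ Subgroup.zpowers g, ∀ y ∈ W, ρ z y ∈ W := by
    intro z hz y hy
    obtain ⟨i, rfl⟩ : ∃ i, g ^ i = z := (isOfFinOrder_of_finite g).mem_powers_iff_mem_zpowers.2 hz
    induction i generalizing y with
    | zero => rwa [pow_zero, _root_.map_one, Module.End.one_apply]
    | succ i ih =>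
      rw [pow_succ, _root_.map_mul, Module.End.mul_apply]
      first
      | exact ih _ (hW y hy)
      | exact ih (Subgroup.pow_mem _ (Subgroup.mem_zpowers g) i) _ (hW y hy)
      | exact ih _ (hW y hy) (Subgroup.pow_mem _ (Subgroup.mem_zpowers g) i)
  have hfree : ∀ z ∈ Subgroup.zpowers g, z ≠ 1 → ∃ a ∈ A, χ (z⁻¹ * a * z) ≠ χ a := by
    intro z hz hz1
    by_contra! hall
    obtain ⟨a, ha, hne⟩ := hmoved
    apply hne
    -- `g⁻¹` is a power of `z`
    have hzn : orderOf z = n := by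
      obtain ⟨i, rfl⟩ := hz
      have h1 : orderOf (g ^ i) ∣ n := by
        rw [← hgn]
        exact orderOf_dvd_of_pow_eq_one (by rw [← zpow_natCast, ← zpow_mul, mul_comm, zpow_mul, zpow_natCast,
          pow_orderOf_eq_one, one_zpow])
      exact (hn.eq_one_or_self_of_dvd _ h1).resolve_left (fun h => hz1 (orderOf_eq_one_iff.1 h))
    have hgz : g⁻¹ ∈ Subgroup.zpowers z := by
      have h1 : Subgroup.zpowers z = Subgroup.zpowers g :=
        Subgroup.eq_of_le_of_card_ge (Subgroup.zpowers_le.2 hz)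
          (by rw [Nat.card_zpowers, Nat.card_zpowers, hzn, hgn])
      rw [h1]
      exact Subgroup.inv_mem _ (Subgroup.mem_zpowers g)
    obtain ⟨j, hj⟩ : ∃ j, z ^ j = g⁻¹ := (isOfFinOrder_of_finite z).mem_powers_iff_mem_zpowers.2 hgz
    have hiter : ∀ m : ℕ, ∀ b ∈ A, χ ((z ^ m)⁻¹ * b * z ^ m) = χ b := by
      intro m
      induction m with
      | zero => intro b _; simp
      | succ m ih =>
        intro b hb
        have hb' : (z ^ m)⁻¹ * b * z ^ m ∈ A := by
          have hzN : (z ^ m)⁻¹ ∈ Subgroup.normalizer (A : Set G) :=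
            Subgroup.inv_mem _ (Subgroup.pow_mem _ (Subgroup.zpowers_le.2 hgA hz) m)
          have := (Subgroup.mem_normalizer_iff.1 hzN b).1 hb
          rwa [inv_inv] at this
        rw [show (z ^ (m + 1))⁻¹ * b * z ^ (m + 1) = z⁻¹ * ((z ^ m)⁻¹ * b * z ^ m) * z by
          rw [pow_succ]; group, hall _ hb', ih b hb]
    have h := hiter j a ha
    rwa [hj, inv_inv] at h
  obtain ⟨y, hy, hy0, hyfix, hyA⟩ := exists_fixed_of_free (A := A) (Z := Subgroup.zpowers g)
    (Subgroup.zpowers_le.2 hgA) hW' hx hχ hfree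
  refine ⟨y, hy, hy0, hyfix g (Subgroup.mem_zpowers g), fun a ha hga hχa => hyA a ha fun z hz => ?_⟩
  obtain ⟨i, rfl⟩ := hz
  have hc : Commute g a := hga
  show χ ((g ^ i)⁻¹ * a * g ^ i) = 1
  rw [mul_assoc, ← (hc.zpow_left i).eq, inv_mul_cancel_left, hχa]

end CfsgLib.MetacyclicP
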