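import Mathlib
import Cfsg.Agent.Lib.MetacyclicP.NoTripleBasic
import Cfsg.Agent.Lib.Cores.FPF
import Cfsg.Agent.Lib.ThompsonJ.ElemAbelian

/-!
Groups of three primes `q, r, s` with all pairs joined and no element of order `qrs`, acting so that
commuting elements of different prime orders have no common fixed vector: abelian invariant subgroups.
-/

set_option autoImplicit false
set_option linter.style.haveILetI false

open Module

namespace CfsgLib.MetacyclicP

open CfsgLib.HallHigmanB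

variable {G : Type*} [Group G] [Finite G] {k : Type*} [Field k] [IsAlgClosed k]
  {V : Type*} [AddCommGroup V] [Module k V] [FiniteDimensional k V]

/-- `g` has no nonzero fixed vector. -/
def Fpf (ρ : G →* Module.End k V) (g : G) : Prop := ∀ x, ρ g x = x → x = 0

/-- The standing hypotheses. -/
structure NoTriple (ρ : G →* Module.End k V) (σ : Finset ℕ) : Prop where
  card : σ.card = 3
  prime : ∀ p ∈ σ, p.Prime
  mem : ∀ p, p.Prime → p ∣ Nat.card G → p ∈ σ
  ne_zero : ∀ p ∈ σ, (p : k) ≠ 0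
  faithful : Function.Injective ρ
  nontrivial : Nontrivial V
  edge : ∀ p ∈ σ, ∀ q ∈ σ, p ≠ q → ∃ a b : G, orderOf a = p ∧ orderOf b = q ∧ a * b = b * a
  triple : ∀ p ∈ σ, ∀ q ∈ σ, ∀ r ∈ σ, p ≠ q → q ≠ r → p ≠ r → ∀ a b c : G, orderOf a = p →
    orderOf b = q → orderOf c = r → a * b = b * a → a * c = c * a → b * c = c * b → False
  pair : ∀ p ∈ σ, ∀ q ∈ σ, p ≠ q → ∀ a b : G, orderOf a = p → orderOf b = q → a * b = b * a →
    ∀ x, ρ a x = x → ρ b x = x → x = 0
  rank : ∀ p ∈ σ, ∃ E : Subgroup G, Cfsg.IsElementaryAbelian p E ∧ Nat.card E = p ^ 2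

variable {ρ : G →* Module.End k V} {σ : Finset ℕ}

theorem NoTriple.mem_three (H : NoTriple ρ σ) {q r s : ℕ} (hq : q ∈ σ) (hr : r ∈ σ) (hs : s ∈ σ)
    (hqr : q ≠ r) (hqs : q ≠ s) (hrs : r ≠ s) {t : ℕ} (ht : t ∈ σ) : t = q ∨ t = r ∨ t = s := by
  classical
  by_contra! h
  have hsub : ({t, q, r, s} : Finset ℕ) ⊆ σ := by
    intro x hx
    simp only [Finset.mem_insert, Finset.mem_singleton] at hx
    rcases hx with rfl | rfl | rfl | rfl <;> assumption
  have h1 := Finset.card_le_card hsub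
  rw [H.card, Finset.card_insert_of_notMem, Finset.card_insert_of_notMem, Finset.card_insert_of_notMem,
    Finset.card_singleton] at h1
  · omega
  all_goals simp [hqr, hqs, hrs, h.1, h.2.1, h.2.2]

theorem orderOf_eq_of_mem_exp {A : Subgroup G} {r : ℕ} (hr : r.Prime) (hexp : ∀ a ∈ A, a ^ r = 1) {a : G}
    (ha : a ∈ A) (ha1 : a ≠ 1) : orderOf a = r := by
  haveI := Fact.mk hr
  exact orderOf_eq_prime (hexp a ha) ha1

theorem orderOf_conj_eq (c g : G) : orderOf (c * g * c⁻¹) = orderOf g := by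
  rw [← MulAut.conj_apply]
  exact orderOf_injective (MulAut.conj c).toMonoidHom (MulAut.conj c).injective g

/-- A character fixed by `g` is fixed by the powers of `g`. -/
theorem chi_fixed_pow {A : Subgroup G} {χ : G → k} {g : G} (hgA : g ∈ Subgroup.normalizer (A : Set G))
    (h : ∀ a ∈ A, χ (g * a * g⁻¹) = χ a) {z : G} (hz : z ∈ Subgroup.zpowers g) :
    ∀ a ∈ A, χ (z * a * z⁻¹) = χ a := by
  obtain ⟨i, rfl⟩ : ∃ i, g ^ i = z := (isOfFinOrder_of_finite g).mem_powers_iff_mem_zpowers.2 hz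
  clear hz
  induction i with
  | zero => intro a _; simp
  | succ i ih =>
    intro a ha
    have ha' : g ^ i * a * (g ^ i)⁻¹ ∈ A :=
      (Subgroup.mem_normalizer_iff.1 (Subgroup.pow_mem _ hgA i) a).1 ha
    rw [show g ^ (i + 1) * a * (g ^ (i + 1))⁻¹ = g * (g ^ i * a * (g ^ i)⁻¹) * g⁻¹ by
      rw [pow_succ']; group, h _ ha', ih a ha]

/-- Commuting with an element means commuting with its powers. -/
theorem commute_of_mem_zpowers {g z a : G} (hz : z ∈ Subgroup.zpowers g) (h : g * a = a * g) :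
    z * a = a * z := by
  obtain ⟨i, rfl⟩ := hz
  exact ((show Commute g a from h).zpow_left i).eq

/-- In a product of commuting elements of coprime prime orders each factor is a power. -/
theorem mem_zpowers_mul {v w : G} {q s : ℕ} (hq : q.Prime) (hs : s.Prime) (hqs : q ≠ s)
    (hv : orderOf v = q) (hw : orderOf w = s) (h : v * w = w * v) :
    v ∈ Subgroup.zpowers (v * w) ∧ w ∈ Subgroup.zpowers (v * w) := by
  have key : ∀ {v w : G} {q s : ℕ}, q.Prime → s.Prime → q ≠ s → orderOf v = q → orderOf w = s →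
      v * w = w * v → v ∈ Subgroup.zpowers (v * w) := by
    intro v w q s hq hs hqs hv hw h
    have h1 : (v * w) ^ s = v ^ s := by
      rw [(show Commute v w from h).mul_pow, ← hw, pow_orderOf_eq_one, mul_one]
    have hmem : v ^ s ∈ Subgroup.zpowers (v * w) := h1 ▸ Subgroup.pow_mem _ (Subgroup.mem_zpowers _) s
    obtain ⟨m, hm⟩ := exists_pow_eq_self_of_coprime (x := v) (n := s)
      (by rw [hv]; exact (Nat.coprime_primes hs hq).2 hqs.symm)
    have h2 := Subgroup.pow_mem _ hmem m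
    rwa [hm] at h2
  refine ⟨key hq hs hqs hv hw h, ?_⟩
  rw [h]
  exact key hs hq hqs.symm hw hv h.symm

/-- A noncyclic elementary abelian group normalising `N ≠ 1` centralises some nontrivial element. -/
theorem exists_centralizing {E N : Subgroup G} {p : ℕ} (hp : p.Prime)
    (hE : Cfsg.IsElementaryAbelian p E) (hcard : p < Nat.card E) (hN : N ≠ ⊥)
    (hEN : E ≤ Subgroup.normalizer (N : Set G)) :
    ∃ e ∈ E, e ≠ 1 ∧ ∃ x ∈ N, x ≠ 1 ∧ x * e = e * x := by
  haveI := hE.1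
  by_contra! hno
  have hcyc : IsCyclic E := Cores.isCyclic_of_fpf hN hEN fun a ha ha1 => by
    rw [eq_bot_iff]
    intro x hx
    rw [Subgroup.mem_bot]
    by_contra hx1
    exact hno a ha ha1 x hx.1 hx1 (Subgroup.mem_centralizer_singleton_iff.1 hx.2)
  obtain ⟨g, hg⟩ := IsCyclic.exists_generator (α := E)
  have h1 : Nat.card E = orderOf g := (orderOf_eq_card_of_forall_mem_zpowers hg).symm
  have h2 : orderOf g ∣ p := orderOf_dvd_of_pow_eq_one (Subtype.ext (hE.2 _ g.2))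
  have := Nat.le_of_dvd hp.pos h2
  omega

/-- Two independent commuting elements of order `p` generate a noncyclic elementary abelian group. -/
theorem exists_elemAb_two {a b : G} {p : ℕ} (hp : p.Prime) (ha : orderOf a = p) (hb : orderOf b = p)
    (hab : a * b = b * a) (hne : b ∉ Subgroup.zpowers a) :
    Cfsg.IsElementaryAbelian p (Subgroup.zpowers a ⊔ Subgroup.zpowers b) ∧
      p < Nat.card (Subgroup.zpowers a ⊔ Subgroup.zpowers b : Subgroup G) := by
  refine ⟨ThompsonJ.isElementaryAbelian_sup (ThompsonJ.isElementaryAbelian_zpowers (by rw [← ha]; exact pow_orderOf_eq_one a))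
    (ThompsonJ.isElementaryAbelian_zpowers (by rw [← hb]; exact pow_orderOf_eq_one b)) ?_, ?_⟩
  · intro x hx
    rw [Subgroup.mem_centralizer_iff]
    intro y hy
    obtain ⟨i, rfl⟩ := hx
    obtain ⟨j, rfl⟩ := hy
    exact ((show Commute b a from hab.symm).zpow_zpow j i).eq
  · refine lt_of_le_of_ne ?_ fun h => hne ?_
    · conv_lhs => rw [← ha, ← Nat.card_zpowers]
      exact Subgroup.card_le_of_le le_sup_left
    · have h1 : Subgroup.zpowers a = Subgroup.zpowers a ⊔ Subgroup.zpowers b :=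
        Subgroup.eq_of_le_of_card_ge le_sup_left (by rw [← h, Nat.card_zpowers, ha])
      rw [h1]
      exact Subgroup.mem_sup_right (Subgroup.mem_zpowers b)

/-- An element of prime order `s` normalising but not centralising a group of prime order `q` has
`s ∣ q - 1`. -/
theorem dvd_sub_one_of_normalize {x g : G} {q s : ℕ} (hq : q.Prime) (hs : s.Prime) (hx : orderOf x = q)
    (hg : g ^ s = 1) (hN : g * x * g⁻¹ ∈ Subgroup.zpowers x) (hne : g * x ≠ x * g) : s ∣ q - 1 := by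
  haveI := Fact.mk hq
  haveI := Fact.mk hs
  obtain ⟨m, hm⟩ : ∃ m : ℕ, x ^ m = g * x * g⁻¹ :=
    (isOfFinOrder_of_finite x).mem_powers_iff_mem_zpowers.2 hN
  have hiter : ∀ i : ℕ, g ^ i * x * (g ^ i)⁻¹ = x ^ (m ^ i) := by
    intro i
    induction i with
    | zero => simp
    | succ i ih =>
      calc g ^ (i + 1) * x * (g ^ (i + 1))⁻¹ = g * (g ^ i * x * (g ^ i)⁻¹) * g⁻¹ := by
            rw [pow_succ']; group
        _ = (g * x * g⁻¹) ^ (m ^ i) := by rw [ih, conj_pow]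
        _ = x ^ (m ^ (i + 1)) := by rw [← hm, ← pow_mul, pow_succ']
  have hms : ((m : ZMod q)) ^ s = 1 := by
    have h := hiter s
    rw [hg, one_mul, inv_one, mul_one] at h
    conv_lhs at h => rw [← pow_one x]
    rw [pow_eq_pow_iff_modEq, hx] at h
    rw [← Nat.cast_pow, ← Nat.cast_one, ZMod.natCast_eq_natCast_iff]
    exact h.symm
  have hm1 : (m : ZMod q) ≠ 1 := by
    intro h
    apply hne
    rw [← Nat.cast_one, ZMod.natCast_eq_natCast_iff, ← hx, ← pow_eq_pow_iff_modEq, pow_one, hm,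
      mul_inv_eq_iff_eq_mul] at h
    exact h
  have hord : orderOf (m : ZMod q) = s := orderOf_eq_prime hms hm1
  rw [← hord]
  refine ZMod.orderOf_dvd_card_sub_one fun h0 => ?_
  rw [h0, zero_pow hs.ne_zero] at hms
  exact zero_ne_one hms

namespace NoTriple

variable (H : NoTriple ρ σ)
include H

theorem exists_moved {r : ℕ} (hr : r ∈ σ) {A : Subgroup G} (hAc : ∀ a ∈ A, ∀ b ∈ A, a * b = b * a)
    (hexp : ∀ a ∈ A, a ^ r = 1) (W : Submodule k V) (hW : ∀ a ∈ A, ∀ x ∈ W, ρ a x ∈ W) {b : G}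
    (hb : b ∈ A) (hne : ∃ x ∈ W, ρ b x ≠ x) : ∃ x ∈ W, ∃ χ : G → k, IsEigen ρ A x χ ∧ χ b ≠ 1 := by
  refine exists_eigen_ne hAc W hW hb ?_ hne
  by_cases h : b = 1
  · rw [h, orderOf_one, Nat.cast_one]; exact one_ne_zero
  · rw [orderOf_eq_of_mem_exp (H.prime r hr) hexp hb h]; exact H.ne_zero r hr

theorem exists_vec_moved {b : G} (hb : b ≠ 1) : ∃ x ∈ (⊤ : Submodule k V), ρ b x ≠ x := by
  by_contra! h
  exact hb (H.faithful (by rw [_root_.map_one]; exact LinearMap.ext fun x => h x Submodule.mem_top))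

/-- A character moved by `v` when `(v, w)` is a joined pair: `v` is fixed-point-free on `A`. -/
theorem eq_one_of_moved {q r s : ℕ} (hq : q ∈ σ) (hr : r ∈ σ) (hs : s ∈ σ) (hqr : q ≠ r)
    (hqs : q ≠ s) (hrs : r ≠ s) {A : Subgroup G} (hexp : ∀ a ∈ A, a ^ r = 1) {v w : G}
    (hv : orderOf v = q) (hw : orderOf w = s) (hvw : v * w = w * v)
    (hvA : v ∈ Subgroup.normalizer (A : Set G)) (hwA : w ∈ Subgroup.normalizer (A : Set G)) {x : V}
    {χ : G → k} (hχ : IsEigen ρ A x χ) (hmv : ∃ a ∈ A, χ (v * a * v⁻¹) ≠ χ a)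
    (hfw : ∀ a ∈ A, χ (w * a * w⁻¹) = χ a) : ∀ a ∈ A, v * a = a * v → a = 1 := by
  classical
  let D : Subgroup G := A ⊓ Subgroup.centralizer ({v} : Set G)
  have hwD : ∀ a ∈ D, w * a * w⁻¹ * a⁻¹ ∈ D := by
    intro a ha
    refine D.mul_mem ⟨(Subgroup.mem_normalizer_iff.1 hwA a).1 ha.1, ?_⟩ (D.inv_mem ha)
    have hva : a * v = v * a := Subgroup.mem_centralizer_singleton_iff.1 ha.2
    show _ ∈ Subgroup.centralizer _
    rw [Subgroup.mem_centralizer_singleton_iff]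
    have hc : Commute w v := hvw.symm
    calc w * a * w⁻¹ * v = w * a * (w⁻¹ * v) := by group
      _ = w * a * (v * w⁻¹) := by rw [hc.inv_left.eq]
      _ = w * (a * v) * w⁻¹ := by group
      _ = w * v * a * w⁻¹ := by rw [hva]; group
      _ = v * (w * a * w⁻¹) := by rw [← hvw]; group
  let f : D → D := fun a => ⟨w * a * w⁻¹ * (a : G)⁻¹, hwD a a.2⟩
  have hinj : Function.Injective f := by
    intro a b hab
    have h1 : w * (a : G) * w⁻¹ * (a : G)⁻¹ = w * b * w⁻¹ * (b : G)⁻¹ := congrArg Subtype.val hab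
    by_contra hne
    have hcm : ((b : G)⁻¹ * a) * w = w * ((b : G)⁻¹ * a) := by
      calc ((b : G)⁻¹ * a) * w
          = (b : G)⁻¹ * (w * a * w⁻¹ * (a : G)⁻¹)⁻¹ * (w * a) := by group
        _ = (b : G)⁻¹ * (w * b * w⁻¹ * (b : G)⁻¹)⁻¹ * (w * a) := by rw [h1]
        _ = w * ((b : G)⁻¹ * a) := by group
    have hne1 : (b : G)⁻¹ * a ≠ 1 := fun h => hne (Subtype.ext (inv_mul_eq_one.1 h).symm)
    have hmem : (b : G)⁻¹ * a ∈ D := D.mul_mem (D.inv_mem b.2) a.2
    exact H.triple r hr q hq s hs hqr.symm hqs hrs _ v w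
      (orderOf_eq_of_mem_exp (H.prime r hr) hexp hmem.1 hne1) hv hw
      (Subgroup.mem_centralizer_singleton_iff.1 hmem.2) hcm hvw
  intro a ha hva
  have haD : a ∈ D := ⟨ha, Subgroup.mem_centralizer_singleton_iff.2 hva.symm⟩
  by_contra ha1
  obtain ⟨b, hb⟩ := (Finite.injective_iff_surjective.1 hinj) ⟨a, haD⟩
  have hb' : w * (b : G) * w⁻¹ * (b : G)⁻¹ = a := congrArg Subtype.val hb
  have hχa : χ a = 1 := by
    rw [← hb', hχ.map_mul ((Subgroup.mem_normalizer_iff.1 hwA b).1 b.2.1) (A.inv_mem b.2.1), hfw b b.2.1,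
      ← hχ.map_mul b.2.1 (A.inv_mem b.2.1), mul_inv_cancel, hχ.map_one]
  obtain ⟨y, -, hy0, hyv, hya⟩ := exists_fixed_of_moved (H.prime q hq) hv hvA
    (W := (⊤ : Submodule k V)) (fun _ _ => Submodule.mem_top) Submodule.mem_top hχ hmv
  exact hy0 (H.pair r hr q hq hqr.symm a v (orderOf_eq_of_mem_exp (H.prime r hr) hexp ha ha1) hv hva.symm y
    (hya a ha hva hχa) hyv)

/-- A nontrivial character is not fixed by both members of a joined pair. -/
theorem not_fixed_both {q r s : ℕ} (hq : q ∈ σ) (hr : r ∈ σ) (hs : s ∈ σ) (hqr : q ≠ r)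
    (hqs : q ≠ s) (hrs : r ≠ s) {A : Subgroup G} (hexp : ∀ a ∈ A, a ^ r = 1) {v w : G}
    (hv : orderOf v = q) (hw : orderOf w = s) (hvw : v * w = w * v)
    (hvA : v ∈ Subgroup.normalizer (A : Set G)) (hwA : w ∈ Subgroup.normalizer (A : Set G)) {x : V}
    {χ : G → k} (hχ : IsEigen ρ A x χ) (hfv : ∀ a ∈ A, χ (v * a * v⁻¹) = χ a)
    (hfw : ∀ a ∈ A, χ (w * a * w⁻¹) = χ a) : ∀ a ∈ A, χ a = 1 := by
  classical
  set z := v * w with hz
  have hzA : z ∈ Subgroup.normalizer (A : Set G) := Subgroup.mul_mem _ hvA hwA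
  have hmem : ∀ a ∈ A, z * a * z⁻¹ * a⁻¹ ∈ A := fun a ha =>
    A.mul_mem ((Subgroup.mem_normalizer_iff.1 hzA a).1 ha) (A.inv_mem ha)
  let f : A → A := fun a => ⟨z * a * z⁻¹ * (a : G)⁻¹, hmem a a.2⟩
  have hinj : Function.Injective f := by
    intro a b hab
    have h1 : z * (a : G) * z⁻¹ * (a : G)⁻¹ = z * b * z⁻¹ * (b : G)⁻¹ := congrArg Subtype.val hab
    by_contra hne
    have hcm : z * ((b : G)⁻¹ * a) = ((b : G)⁻¹ * a) * z := by
      symm
      calc ((b : G)⁻¹ * a) * z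
          = (b : G)⁻¹ * (z * a * z⁻¹ * (a : G)⁻¹)⁻¹ * (z * a) := by group
        _ = (b : G)⁻¹ * (z * b * z⁻¹ * (b : G)⁻¹)⁻¹ * (z * a) := by rw [h1]
        _ = z * ((b : G)⁻¹ * a) := by group
    have hne1 : (b : G)⁻¹ * a ≠ 1 := fun h => hne (Subtype.ext (inv_mul_eq_one.1 h).symm)
    obtain ⟨hvz, hwz⟩ := mem_zpowers_mul (H.prime q hq) (H.prime s hs) hqs hv hw hvw
    exact H.triple r hr q hq s hs hqr.symm hqs hrs _ v w
      (orderOf_eq_of_mem_exp (H.prime r hr) hexp (A.mul_mem (A.inv_mem b.2) a.2) hne1) hv hw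
      (commute_of_mem_zpowers hvz hcm).symm (commute_of_mem_zpowers hwz hcm).symm hvw
  intro a ha
  obtain ⟨b, hb⟩ := (Finite.injective_iff_surjective.1 hinj) ⟨a, ha⟩
  have hb' : z * (b : G) * z⁻¹ * (b : G)⁻¹ = a := congrArg Subtype.val hb
  have hfz : χ (z * b * z⁻¹) = χ b := by
    rw [hz, show v * w * (b : G) * (v * w)⁻¹ = v * (w * b * w⁻¹) * v⁻¹ by group,
      hfv _ ((Subgroup.mem_normalizer_iff.1 hwA b).1 b.2), hfw b b.2]
  rw [← hb', hχ.map_mul ((Subgroup.mem_normalizer_iff.1 hzA b).1 b.2) (A.inv_mem b.2), hfz,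
    ← hχ.map_mul b.2 (A.inv_mem b.2), mul_inv_cancel, hχ.map_one]

/-- A character is fixed by one of the members of a joined pair. -/
theorem fixed_one {q r s : ℕ} (hq : q ∈ σ) (_hr : r ∈ σ) (hs : s ∈ σ) (hqs : q ≠ s) {A : Subgroup G}
    {v w : G} (hv : orderOf v = q) (hw : orderOf w = s) (hvw : v * w = w * v)
    (hvA : v ∈ Subgroup.normalizer (A : Set G)) (hwA : w ∈ Subgroup.normalizer (A : Set G)) {x : V}
    {χ : G → k} (hχ : IsEigen ρ A x χ) :
    (∀ a ∈ A, χ (v * a * v⁻¹) = χ a) ∨ (∀ a ∈ A, χ (w * a * w⁻¹) = χ a) := by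
  classical
  by_contra! hboth
  obtain ⟨⟨a1, ha1, hav⟩, ⟨a2, ha2, haw⟩⟩ := hboth
  obtain ⟨hvz, hwz⟩ := mem_zpowers_mul (H.prime q hq) (H.prime s hs) hqs hv hw hvw
  have hzA : v * w ∈ Subgroup.normalizer (A : Set G) := Subgroup.mul_mem _ hvA hwA
  obtain ⟨y, -, hy0, hyfix, -⟩ := exists_fixed_of_free (Z := Subgroup.zpowers (v * w))
    (Subgroup.zpowers_le.2 hzA) (W := (⊤ : Submodule k V)) (fun _ _ _ _ => Submodule.mem_top)
    Submodule.mem_top hχ (fun z hz hz1 => by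
      by_contra! hall
      have hall' : ∀ a ∈ A, χ (z⁻¹ * a * z⁻¹⁻¹) = χ a := fun a ha => by rw [inv_inv]; exact hall a ha
      have hzN : z⁻¹ ∈ Subgroup.normalizer (A : Set G) :=
        Subgroup.inv_mem _ (Subgroup.zpowers_le.2 hzA hz)
      have hpow : ∀ {g : G}, g ∈ Subgroup.zpowers z⁻¹ → ∀ a ∈ A, χ (g * a * g⁻¹) = χ a := fun hg =>
        chi_fixed_pow hzN hall' hg
      -- `v` or `w` is a power of `z⁻¹`
      obtain ⟨i, rfl⟩ : ∃ i, (v * w) ^ i = z :=
        (isOfFinOrder_of_finite _).mem_powers_iff_mem_zpowers.2 hz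
      have hc : Commute v w := hvw
      by_cases hvi : v ^ i = 1
      · have hzw : (v * w) ^ i = w ^ i := by rw [hc.mul_pow, hvi, one_mul]
        have hcop : i.Coprime (orderOf w) := by
          rw [hw, Nat.coprime_comm]
          refine (H.prime s hs).coprime_iff_not_dvd.2 fun hd => hz1 ?_
          rw [hzw]
          exact orderOf_dvd_iff_pow_eq_one.1 (hw.symm ▸ hd)
        obtain ⟨m, hm⟩ := exists_pow_eq_self_of_coprime hcop
        refine haw (hpow (g := w) ?_ a2 ha2)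
        rw [Subgroup.zpowers_inv, hzw]
        exact ⟨(m : ℤ), (zpow_natCast _ m).trans hm⟩
      · have hcop : (i * s).Coprime (orderOf v) := by
          rw [hv, Nat.coprime_comm]
          refine (H.prime q hq).coprime_iff_not_dvd.2 fun hd => hvi ?_
          have : q ∣ i := ((H.prime q hq).dvd_mul.1 hd).resolve_right fun h =>
            hqs ((Nat.prime_dvd_prime_iff_eq (H.prime q hq) (H.prime s hs)).1 h)
          exact orderOf_dvd_iff_pow_eq_one.1 (hv.symm ▸ this)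
        obtain ⟨m, hm⟩ := exists_pow_eq_self_of_coprime hcop
        refine hav (hpow (g := v) ?_ a1 ha1)
        rw [Subgroup.zpowers_inv]
        refine ⟨((s * m : ℕ) : ℤ), ?_⟩
        show ((v * w) ^ i) ^ ((s * m : ℕ) : ℤ) = v
        rw [zpow_natCast, ← pow_mul, hc.mul_pow,
          show i * (s * m) = i * s * m by ring, pow_mul v, hm,
          show i * s * m = s * (i * m) by ring, pow_mul w, ← hw, pow_orderOf_eq_one, one_pow, mul_one])
  exact hy0 (H.pair q hq s hs hqs v w hv hw hvw y (hyfix v hvz) (hyfix w hwz))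

theorem pair_centralizes_aux {q r s : ℕ} (hq : q ∈ σ) (hr : r ∈ σ) (hs : s ∈ σ) (hqr : q ≠ r)
    (hqs : q ≠ s) (hrs : r ≠ s) {A : Subgroup G} (hAc : ∀ a ∈ A, ∀ b ∈ A, a * b = b * a)
    (hexp : ∀ a ∈ A, a ^ r = 1) (hA : A ≠ ⊥) {v w : G} (hv : orderOf v = q) (hw : orderOf w = s)
    (hvw : v * w = w * v) (hvA : v ∈ Subgroup.normalizer (A : Set G))
    (hwA : w ∈ Subgroup.normalizer (A : Set G)) {x : V} {χ : G → k} (hχ : IsEigen ρ A x χ)
    (hmv : ∃ a ∈ A, χ (v * a * v⁻¹) ≠ χ a) :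
    (∀ a ∈ A, w * a = a * w) ∧ (∀ a ∈ A, v * a = a * v → a = 1) ∧ Fpf ρ w := by
  classical
  have hfw : ∀ a ∈ A, χ (w * a * w⁻¹) = χ a :=
    (H.fixed_one hq hr hs hqs hv hw hvw hvA hwA hχ).resolve_left (by push Not; exact hmv)
  have hCv := H.eq_one_of_moved hq hr hs hqr hqs hrs hexp hv hw hvw hvA hwA hχ hmv hfw
  have hnontriv : ∀ (y : V) (ψ : G → k), IsEigen ρ A y ψ → ∀ a ∈ A, ψ (w * a * w⁻¹) = ψ a := by
    intro y ψ hψ
    by_contra! hmw
    have hfv : ∀ a ∈ A, ψ (v * a * v⁻¹) = ψ a :=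
      (H.fixed_one hq hr hs hqs hv hw hvw hvA hwA hψ).resolve_right (by push Not; exact hmw)
    have hCw := H.eq_one_of_moved hs hr hq hrs.symm hqs.symm hqr.symm hexp hw hv hvw.symm hwA hvA hψ
      hmw hfv
    -- `a ↦ [w, a]` is onto, so `χ` is trivial
    let f : A → A := fun a => ⟨w * a * w⁻¹ * (a : G)⁻¹,
      A.mul_mem ((Subgroup.mem_normalizer_iff.1 hwA a).1 a.2) (A.inv_mem a.2)⟩
    have hinj : Function.Injective f := by
      intro a b hab
      have h1 : w * (a : G) * w⁻¹ * (a : G)⁻¹ = w * b * w⁻¹ * (b : G)⁻¹ := congrArg Subtype.val hab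
      refine Subtype.ext ((inv_mul_eq_one.1 (hCw _ (A.mul_mem (A.inv_mem b.2) a.2) ?_)).symm)
      symm
      calc ((b : G)⁻¹ * a) * w
          = (b : G)⁻¹ * (w * a * w⁻¹ * (a : G)⁻¹)⁻¹ * (w * a) := by group
        _ = (b : G)⁻¹ * (w * b * w⁻¹ * (b : G)⁻¹)⁻¹ * (w * a) := by rw [h1]
        _ = w * ((b : G)⁻¹ * a) := by group
    obtain ⟨a, ha, hne⟩ := hmv
    apply hne
    have htriv : ∀ c ∈ A, χ c = 1 := by
      intro c hc
      obtain ⟨b, hb⟩ := (Finite.injective_iff_surjective.1 hinj) ⟨c, hc⟩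
      have hb' : w * (b : G) * w⁻¹ * (b : G)⁻¹ = c := congrArg Subtype.val hb
      rw [← hb', hχ.map_mul ((Subgroup.mem_normalizer_iff.1 hwA b).1 b.2) (A.inv_mem b.2), hfw b b.2,
        ← hχ.map_mul b.2 (A.inv_mem b.2), mul_inv_cancel, hχ.map_one]
    rw [htriv _ ((Subgroup.mem_normalizer_iff.1 hvA a).1 ha), htriv a ha]
  have hwcent : ∀ a ∈ A, w * a = a * w := by
    intro a ha
    by_contra hne
    have hbA : w * a * w⁻¹ * a⁻¹ ∈ A :=
      A.mul_mem ((Subgroup.mem_normalizer_iff.1 hwA a).1 ha) (A.inv_mem ha)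
    obtain ⟨y, -, ψ, hψ, hψb⟩ := H.exists_moved hr hAc hexp ⊤ (fun _ _ _ _ => Submodule.mem_top) hbA
      (H.exists_vec_moved (fun h => hne (mul_inv_eq_iff_eq_mul.1 (mul_inv_eq_one.1 h))))
    apply hψb
    rw [hψ.map_mul ((Subgroup.mem_normalizer_iff.1 hwA a).1 ha) (A.inv_mem ha), hnontriv y ψ hψ a ha,
      ← hψ.map_mul ha (A.inv_mem ha), mul_inv_cancel, hψ.map_one]
  refine ⟨hwcent, hCv, fun y hy => ?_⟩
  by_contra hy0
  set W := fixedSpace ρ w with hW
  have hWA : ∀ a ∈ A, ∀ z ∈ W, ρ a z ∈ W := fun a ha z hz =>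
    fixedSpace_invariant_of_commute (hwcent a ha) hz
  by_cases htriv : ∀ a ∈ A, ∀ z ∈ W, ρ a z = z
  · obtain ⟨a, ha, ha1⟩ := (Subgroup.ne_bot_iff_exists_ne_one.1 hA) |> fun ⟨a, ha⟩ =>
      (⟨a, a.2, fun h => ha (Subtype.ext h)⟩ : ∃ a, a ∈ A ∧ a ≠ 1)
    exact hy0 (H.pair r hr s hs hrs a w (orderOf_eq_of_mem_exp (H.prime r hr) hexp ha ha1) hw
      (hwcent a ha).symm y (htriv a ha y (mem_fixedSpace.2 hy)) hy)
  · push Not at htriv
    obtain ⟨b, hb, z, hz, hbz⟩ := htriv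
    obtain ⟨z', hz', ψ, hψ, hψb⟩ := H.exists_moved hr hAc hexp W hWA hb ⟨z, hz, hbz⟩
    have hmv' : ∃ a ∈ A, ψ (v * a * v⁻¹) ≠ ψ a := by
      by_contra! hfv
      exact hψb (H.not_fixed_both hq hr hs hqr hqs hrs hexp hv hw hvw hvA hwA hψ hfv (hnontriv z' ψ hψ) b hb)
    obtain ⟨u, hu, hu0, huv, -⟩ := exists_fixed_of_moved (H.prime q hq) hv hvA (W := W)
      (fun z hz => fixedSpace_invariant_of_commute hvw.symm hz) hz' hψ hmv'
    exact hu0 (H.pair q hq s hs hqs v w hv hw hvw u huv (mem_fixedSpace.1 hu))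

/-- **Joined pairs and abelian subgroups.** One member centralises `A` and has no fixed vector, the
other is fixed-point-free on `A`. -/
theorem pair_centralizes {q r s : ℕ} (hq : q ∈ σ) (hr : r ∈ σ) (hs : s ∈ σ) (hqr : q ≠ r)
    (hqs : q ≠ s) (hrs : r ≠ s) {A : Subgroup G} (hAc : ∀ a ∈ A, ∀ b ∈ A, a * b = b * a)
    (hexp : ∀ a ∈ A, a ^ r = 1) (hA : A ≠ ⊥) {v w : G} (hv : orderOf v = q) (hw : orderOf w = s)
    (hvw : v * w = w * v) (hvA : v ∈ Subgroup.normalizer (A : Set G))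
    (hwA : w ∈ Subgroup.normalizer (A : Set G)) :
    ((∀ a ∈ A, v * a = a * v) ∧ (∀ a ∈ A, w * a = a * w → a = 1) ∧ Fpf ρ v) ∨
      ((∀ a ∈ A, w * a = a * w) ∧ (∀ a ∈ A, v * a = a * v → a = 1) ∧ Fpf ρ w) := by
  obtain ⟨⟨b, hb⟩, hb1⟩ := Subgroup.ne_bot_iff_exists_ne_one.1 hA
  obtain ⟨x, -, χ, hχ, hχb⟩ := H.exists_moved hr hAc hexp ⊤ (fun _ _ _ _ => Submodule.mem_top) hb
    (H.exists_vec_moved (fun h => hb1 (Subtype.ext h)))
  by_cases hfv : ∀ a ∈ A, χ (v * a * v⁻¹) = χ a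
  · left
    have hmw : ∃ a ∈ A, χ (w * a * w⁻¹) ≠ χ a := by
      by_contra! hfw
      exact hχb (H.not_fixed_both hq hr hs hqr hqs hrs hexp hv hw hvw hvA hwA hχ hfv hfw b hb)
    exact H.pair_centralizes_aux hs hr hq hrs.symm hqs.symm hqr.symm hAc hexp hA hw hv hvw.symm hwA hvA
      hχ hmw
  · right
    push Not at hfv
    exact H.pair_centralizes_aux hq hr hs hqr hqs hrs hAc hexp hA hv hw hvw hvA hwA hχ hfv

/-- An element centralising a noncyclic abelian subgroup of another exponent fixes no vector. -/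
theorem fpf_of_centralizes {r t : ℕ} (hr : r ∈ σ) (ht : t ∈ σ) (hrt : r ≠ t) {A : Subgroup G}
    (hA : Cfsg.IsElementaryAbelian r A) (hcard : r < Nat.card A) {g : G} (hg : orderOf g = t)
    (hc : ∀ a ∈ A, g * a = a * g) : Fpf ρ g := by
  intro y hy
  by_contra hy0
  haveI := hA.1
  obtain ⟨a, ha, ha1, z, hz, hz0, hza⟩ := exists_fixed_of_noncyclic
    (fun a ha b hb => congrArg Subtype.val (mul_comm' (⟨a, ha⟩ : A) ⟨b, hb⟩)) (H.prime r hr) hA.2 hcard
    (fixedSpace ρ g) (fun h => hy0 ((Submodule.mem_bot k).1 (h ▸ mem_fixedSpace.2 hy)))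
    (fun a ha z hz => fixedSpace_invariant_of_commute (hc a ha) hz)
  exact hz0 (H.pair r hr t ht hrt a g (orderOf_eq_of_mem_exp (H.prime r hr) hA.2 ha ha1) hg
    (hc a ha).symm z hza (mem_fixedSpace.1 hz))

/-- Two elements, one normalising the other, without fixed vectors on a common invariant subspace commute. -/
theorem commute_of_fpf {t t' : ℕ} (ht : t ∈ σ) (ht' : t' ∈ σ) {x d : G}
    (hx : orderOf x = t) (hd : orderOf d = t') (hdx : d * x * d⁻¹ ∈ Subgroup.zpowers x)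
    {W : Submodule k V} (hW0 : W ≠ ⊥) (hWx : ∀ z ∈ W, ρ x z ∈ W) (hWd : ∀ z ∈ W, ρ d z ∈ W)
    (hfx : ∀ z ∈ W, ρ x z = z → z = 0) (hfd : ∀ z ∈ W, ρ d z = z → z = 0) : d * x = x * d := by
  haveI := Fact.mk (H.prime t ht)
  set A := Subgroup.zpowers x with hA
  have hAc : ∀ a ∈ A, ∀ b ∈ A, a * b = b * a := fun a ha b hb => by
    obtain ⟨i, rfl⟩ := ha; obtain ⟨j, rfl⟩ := hb; exact (Commute.refl x).zpow_zpow i j |>.eq
  have hWA : ∀ a ∈ A, ∀ z ∈ W, ρ a z ∈ W := by
    intro a ha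
    obtain ⟨i, rfl⟩ : ∃ i, x ^ i = a := (isOfFinOrder_of_finite x).mem_powers_iff_mem_zpowers.2 ha
    clear ha
    induction i with
    | zero => intro z hz; rwa [pow_zero, _root_.map_one, Module.End.one_apply]
    | succ i ih =>
      intro z hz
      rw [pow_succ, _root_.map_mul, Module.End.mul_apply]
      exact ih _ (hWx z hz)
  obtain ⟨y, hy, χ, hχ⟩ := exists_eigen hAc W hW0 hWA
  have hdA : d ∈ Subgroup.normalizer (A : Set G) := by
    have hle : A.map (MulAut.conj d).toMonoidHom ≤ A := by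
      rw [hA, MonoidHom.map_zpowers, Subgroup.zpowers_le]
      exact hdx
    have heq := Subgroup.eq_of_le_of_card_ge hle
      (by rw [Subgroup.card_map_of_injective (MulAut.conj d).injective])
    rw [Subgroup.mem_normalizer_iff]
    intro a
    constructor
    · exact fun ha => heq ▸ ⟨a, ha, rfl⟩
    · intro ha
      rw [← heq] at ha
      obtain ⟨b, hb, hba⟩ := ha
      rwa [(MulAut.conj d).injective hba] at hb
  by_cases hmoved : ∃ a ∈ A, χ (d * a * d⁻¹) ≠ χ a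
  · obtain ⟨u, hu, hu0, hud, -⟩ := exists_fixed_of_moved (H.prime t' ht') hd hdA hWd hy hχ hmoved
    exact absurd (hfd u hu hud) hu0
  push Not at hmoved
  have hm := hmoved x (Subgroup.mem_zpowers x)
  set b := d * x * d⁻¹ * x⁻¹ with hb
  by_contra hne
  have hbA : b ∈ A := A.mul_mem hdx (A.inv_mem (Subgroup.mem_zpowers x))
  have hb1 : b ≠ 1 := fun h => hne (mul_inv_eq_iff_eq_mul.1 (mul_inv_eq_one.1 h))
  have hbχ : χ b = 1 := by
    rw [hb, hχ.map_mul hdx (A.inv_mem (Subgroup.mem_zpowers x)), hm,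
      ← hχ.map_mul (Subgroup.mem_zpowers x) (A.inv_mem (Subgroup.mem_zpowers x)), mul_inv_cancel, hχ.map_one]
  have hby : ρ b y = y := by rw [hχ.2 b hbA, hbχ, one_smul]
  have hxb : x ∈ Subgroup.zpowers b := by
    have h1 : Subgroup.zpowers b = A := Subgroup.eq_of_le_of_card_ge (Subgroup.zpowers_le.2 hbA) (by
      rw [hA, Nat.card_zpowers, Nat.card_zpowers, hx, orderOf_eq_prime (p := t) ?_ hb1]
      obtain ⟨i, hi⟩ := hbA
      rw [← hi, ← hx, ← zpow_natCast, ← zpow_mul, mul_comm, zpow_mul, zpow_natCast, pow_orderOf_eq_one,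
        one_zpow])
    rw [h1]; exact Subgroup.mem_zpowers x
  obtain ⟨i, hi⟩ : ∃ i, b ^ i = x := (isOfFinOrder_of_finite b).mem_powers_iff_mem_zpowers.2 hxb
  refine hχ.1 (hfx y hy ?_)
  rw [← hi]
  clear hi
  induction i with
  | zero => simp
  | succ i ih => rw [pow_succ, _root_.map_mul, Module.End.mul_apply, hby, ih]

/-- An element of order `r` commuting with elements of the other two orders, the second normalising the
first, fixes no vector. -/
theorem fpf_of_two {q r s : ℕ} (hq : q ∈ σ) (hr : r ∈ σ) (hs : s ∈ σ) (hqr : q ≠ r) (hqs : q ≠ s)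
    (hrs : r ≠ s) {x c d : G} (hx : orderOf x = r) (hc : orderOf c = q) (hd : orderOf d = s)
    (hxc : x * c = c * x) (hxd : x * d = d * x) (hdc : d * c * d⁻¹ ∈ Subgroup.zpowers c) : Fpf ρ x := by
  intro y hy
  by_contra hy0
  have hcd := H.commute_of_fpf hq hs hc hd hdc (W := fixedSpace ρ x)
    (fun h => hy0 ((Submodule.mem_bot k).1 (h ▸ mem_fixedSpace.2 hy)))
    (fun z hz => fixedSpace_invariant_of_commute hxc hz)
    (fun z hz => fixedSpace_invariant_of_commute hxd hz)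
    (fun z hz hcz => H.pair r hr q hq hqr.symm x c hx hc hxc z (mem_fixedSpace.1 hz) hcz)
    (fun z hz hdz => H.pair r hr s hs hrs x d hx hd hxd z (mem_fixedSpace.1 hz) hdz)
  exact H.triple r hr q hq s hs hqr.symm hqs hrs x c d hx hc hd hxc hxd hcd.symm

end NoTriple

end CfsgLib.MetacyclicP
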