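import Mathlib
import Cfsg.Agent.Lib.MetacyclicP.NoTripleAbelian
import Cfsg.Agent.Lib.Cores.Fitting
import Cfsg.Agent.Lib.Hall.Existence

/-!
Auxiliary constructions for groups without elements of order `pqr`.
-/

set_option autoImplicit false
set_option linter.style.haveILetI false

open Module

namespace CfsgLib.MetacyclicP

open Cfsg

variable {G : Type*} [Group G] [Finite G]

/-- `Ω₁(Z(O_r(G)))`. -/
def omegaCenter (r : ℕ) (G : Type*) [Group G] : Subgroup G where
  carrier := {x | x ∈ pCore r G ∧ x ^ r = 1 ∧ ∀ y ∈ pCore r G, x * y = y * x}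
  one_mem' := ⟨one_mem _, one_pow _, fun y _ => by rw [one_mul, mul_one]⟩
  mul_mem' := fun {a b} ha hb => ⟨mul_mem ha.1 hb.1, by
    rw [(show Commute a b from ha.2.2 b hb.1).mul_pow, ha.2.1, hb.2.1, one_mul], fun y hy => by
      rw [mul_assoc, hb.2.2 y hy, ← mul_assoc, ha.2.2 y hy, mul_assoc]⟩
  inv_mem' := fun {a} ha => ⟨inv_mem ha.1, by rw [inv_pow, ha.2.1, inv_one], fun y hy =>
    ((show Commute a y from ha.2.2 y hy).inv_left).eq⟩

theorem mem_omegaCenter {r : ℕ} {x : G} :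
    x ∈ omegaCenter r G ↔ x ∈ pCore r G ∧ x ^ r = 1 ∧ ∀ y ∈ pCore r G, x * y = y * x := Iff.rfl

instance omegaCenter_normal (r : ℕ) : (omegaCenter r G).Normal := by
  refine ⟨fun x hx g => ?_⟩
  refine ⟨(inferInstance : (pCore r G).Normal).conj_mem _ hx.1 g, by rw [conj_pow, hx.2.1, mul_one,
    mul_inv_cancel], fun y hy => ?_⟩
  have h := hx.2.2 (g⁻¹ * y * g) ((inferInstance : (pCore r G).Normal).conj_mem' _ hy g)
  calc g * x * g⁻¹ * y = g * (x * (g⁻¹ * y * g)) * g⁻¹ := by group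
    _ = g * ((g⁻¹ * y * g) * x) * g⁻¹ := by rw [h]
    _ = y * (g * x * g⁻¹) := by group

theorem isElementaryAbelian_omegaCenter (r : ℕ) : IsElementaryAbelian r (omegaCenter r G) :=
  ⟨⟨⟨fun a b => Subtype.ext (a.2.2.2 b b.2.1)⟩⟩, fun _ ha => ha.2.1⟩

theorem omegaCenter_ne_bot {r : ℕ} [hr : Fact r.Prime] (h : pCore r G ≠ ⊥) : omegaCenter r G ≠ ⊥ := by
  haveI : Nontrivial (pCore r G) := (Subgroup.nontrivial_iff_ne_bot _).2 h
  have hp := Cores.isPGroup_pCore r G
  haveI : Nontrivial (Subgroup.center (pCore r G)) := hp.center_nontrivial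
  have hdvd : r ∣ Nat.card (Subgroup.center (pCore r G)) := by
    obtain ⟨n, hn⟩ := IsPGroup.iff_card.1 (hp.to_subgroup (Subgroup.center (pCore r G)))
    have h1 : 1 < Nat.card (Subgroup.center (pCore r G)) := Finite.one_lt_card
    rcases n with _ | n
    · rw [hn, pow_zero] at h1; omega
    · rw [hn]; exact dvd_pow_self r n.succ_ne_zero
  obtain ⟨z, hz⟩ := exists_prime_orderOf_dvd_card' r hdvd
  intro hbot
  have hz1 : z ≠ 1 := fun h1 => by rw [h1, orderOf_one] at hz; exact hr.out.ne_one hz.symm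
  have hmem : ((z : pCore r G) : G) ∈ omegaCenter r G := by
    refine ⟨(z : pCore r G).2, ?_, fun y hy => ?_⟩
    · have := pow_orderOf_eq_one z
      rw [hz] at this
      exact congrArg (fun u : Subgroup.center (pCore r G) => ((u : pCore r G) : G)) this
    · exact (congrArg Subtype.val (Subgroup.mem_center_iff.1 z.2 ⟨y, hy⟩)).symm
  rw [hbot, Subgroup.mem_bot] at hmem
  exact hz1 (Subtype.ext (Subtype.ext hmem))

/-- Conjugation on a normal elementary abelian subgroup as a representation over an algebraically closed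
field. -/
theorem exists_conjRep {r : ℕ} [Fact r.Prime] {A : Subgroup G} [A.Normal]
    (hA : IsElementaryAbelian r A) (hA0 : A ≠ ⊥) :
    ∃ (n : ℕ) (τ : G →* Module.End (AlgebraicClosure (ZMod r)) (Fin n → AlgebraicClosure (ZMod r))),
      (∀ g, τ g = 1 ↔ ∀ a ∈ A, g * a = a * g) ∧
      ∀ g v, τ g v = v → v ≠ 0 → ∃ a ∈ A, a ≠ 1 ∧ g * a = a * g := by
  haveI := hA.1
  letI : CommGroup A :=
    { (inferInstance : Group A) with mul_comm := fun a b => mul_comm' a b }
  haveI : Nontrivial A := (Subgroup.nontrivial_iff_ne_bot _).2 hA0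
  obtain ⟨n, τ, -, hker, hfix⟩ := exists_rep (P := A) (fun x => Subtype.ext (hA.2 _ x.2))
    (MulAut.conjNormal : G →* MulAut A)
  refine ⟨n, τ, fun g => (hker g).trans ⟨fun h a ha => ?_, fun h => MulEquiv.ext fun a => Subtype.ext ?_⟩,
    fun g v hv hv0 => ?_⟩
  · have h1 := congrArg Subtype.val (DFunLike.congr_fun h (⟨a, ha⟩ : A))
    rw [MulAut.conjNormal_apply, MulAut.one_apply] at h1
    exact mul_inv_eq_iff_eq_mul.1 h1
  · rw [MulAut.conjNormal_apply, h a a.2, mul_inv_cancel_right, MulAut.one_apply]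
  · obtain ⟨a, ha1, ha⟩ := hfix g v hv hv0
    refine ⟨a, a.2, fun h => ha1 (Subtype.ext h), ?_⟩
    have h1 := congrArg Subtype.val ha
    rw [MulAut.conjNormal_apply] at h1
    exact mul_inv_eq_iff_eq_mul.1 h1

/-- A `{q, s}`-subgroup of `C` containing `U` and meeting both primes as far as `C` does. -/
theorem exists_qs_subgroup [Group.IsSolvable G] (C U : Subgroup G) (hUC : U ≤ C) {q s : ℕ}
    (hU : ∀ p : ℕ, p.Prime → p ∣ Nat.card U → p = q ∨ p = s) :
    ∃ D : Subgroup G, D ≤ C ∧ U ≤ D ∧ (∀ p : ℕ, p.Prime → p ∣ Nat.card D → p = q ∨ p = s) ∧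
      ∀ p : ℕ, p.Prime → p = q ∨ p = s → p ∣ Nat.card C → p ∣ Nat.card D := by
  haveI : Group.IsSolvable C := inferInstance
  obtain ⟨D, hD, hUD⟩ := Hall.exists_isPiHall_ge (G := C) (π := {p | p = q ∨ p = s})
    (U := U.subgroupOf C) (fun p hp hd => hU p hp (by
      rwa [Nat.card_congr (Subgroup.subgroupOfEquivOfLe hUC).toEquiv] at hd))
  have hcard : Nat.card (D.map C.subtype) = Nat.card D :=
    Subgroup.card_map_of_injective C.subtype_injective
  refine ⟨D.map C.subtype, Subgroup.map_subtype_le D, fun x hx => ⟨⟨x, hUC hx⟩, hUD hx, rfl⟩,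
    fun p hp hd => hD.1 p hp (hcard ▸ hd), fun p hp hpqs hd => ?_⟩
  rw [hcard]
  rw [← D.card_mul_index] at hd
  exact (hp.dvd_mul.1 hd).resolve_right (hD.2 p hp hpqs)

/-- If commuting elements of order `t` generate the same subgroup, `O_t(D) ≠ 1` yields a normal subgroup
of order `t`. -/
theorem exists_normal_prime {D : Type*} [Group D] [Finite D] {t : ℕ} [ht : Fact t.Prime]
    (hcore : pCore t D ≠ ⊥)
    (huniq : ∀ x y : D, orderOf x = t → orderOf y = t → x * y = y * x → y ∈ Subgroup.zpowers x) :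
    ∃ x : D, orderOf x = t ∧ ∀ g, g * x * g⁻¹ ∈ Subgroup.zpowers x := by
  obtain ⟨⟨x, hx⟩, hx1⟩ := Subgroup.ne_bot_iff_exists_ne_one.1 (omegaCenter_ne_bot hcore)
  have hx1' : x ≠ 1 := fun h => hx1 (Subtype.ext h)
  have hxt : orderOf x = t := orderOf_eq_prime hx.2.1 hx1'
  refine ⟨x, hxt, fun g => ?_⟩
  have hg := (omegaCenter_normal (G := D) t).conj_mem _ hx g
  exact huniq x _ hxt (by rw [orderOf_conj_eq, hxt]) (hx.2.2 _ hg.1)

/-- Subgroups of a cyclic group of prime order. -/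
theorem eq_of_mem_zpowers_prime {x y : G} {t : ℕ} (ht : t.Prime) (hx : orderOf x = t) (hy : orderOf y = t)
    (h : y ∈ Subgroup.zpowers x) : Subgroup.zpowers y = Subgroup.zpowers x :=
  Subgroup.eq_of_le_of_card_ge (Subgroup.zpowers_le.2 h) (by rw [Nat.card_zpowers, Nat.card_zpowers, hx, hy])

/-- The Fitting subgroup lies in `O_q` when the other cores are trivial. -/
theorem fittingSubgroup_le_pCore {q : ℕ} (h : ∀ t : ℕ, t.Prime → t ∣ Nat.card G → t ≠ q → pCore t G = ⊥) :
    fittingSubgroup G ≤ pCore q G := by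
  rw [Cores.fittingSubgroup_eq_iSup_pCore]
  refine iSup_le fun t => ?_
  obtain ⟨t, ht⟩ := t
  rw [Nat.mem_primeFactors] at ht
  by_cases htq : t = q
  · subst htq; exact le_rfl
  · rw [h t ht.1 ht.2.1 htq]; exact bot_le

/-- An element with all divisors in `{p}` has order a power of `p`; here: no element of order `s` lies in
a `q`-group. -/
theorem notMem_of_isPGroup {H : Subgroup G} {q s : ℕ} [Fact q.Prime] (hH : IsPGroup q H) (hs : s.Prime)
    (hqs : q ≠ s) {x : G} (hx : orderOf x = s) : x ∉ H := by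
  intro hmem
  obtain ⟨k, hk⟩ := hH ⟨x, hmem⟩
  have h1 := orderOf_dvd_of_pow_eq_one (show x ^ q ^ k = 1 from congrArg Subtype.val hk)
  rw [hx] at h1
  exact hqs ((Nat.prime_dvd_prime_iff_eq hs Fact.out).1 (hs.dvd_of_dvd_pow h1)).symm

end CfsgLib.MetacyclicP
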