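import Mathlib
import Cfsg.Agent.Lib.MetacyclicP.NoTripleTools
import Cfsg.Agent.Lib.CoprimeAction.Basic
import Cfsg.Agent.Lib.CoprimeAction.Sylow
import Cfsg.Agent.Lib.PGroups.Aut
import Cfsg.Agent.Lib.PGroups.Omega
import Cfsg.Agent.Lib.PSolvable.FrattiniFacts

/-!
A soluble group of three primes acting faithfully without common fixed vectors for joined pairs, with all
pairs joined and no element of order `qrs`: contradiction.
-/

set_option autoImplicit false
set_option linter.style.haveILetI false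

open Module

namespace CfsgLib.MetacyclicP

open Cfsg

variable {G : Type*} [Group G] [Finite G] [Group.IsSolvable G] {k : Type*} [Field k] [IsAlgClosed k]
  {V : Type*} [AddCommGroup V] [Module k V] [FiniteDimensional k V]
  {ρ : G →* Module.End k V} {σ : Finset ℕ}

namespace NoTriple

variable (H : NoTriple ρ σ)
include H

theorem exists_others {r : ℕ} (hr : r ∈ σ) :
    ∃ q ∈ σ, ∃ s ∈ σ, q ≠ r ∧ r ≠ s ∧ q ≠ s := by
  classical
  have h : 1 < (σ.erase r).card := by rw [Finset.card_erase_of_mem hr, H.card]; norm_num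
  obtain ⟨q, hq, s, hs, hqs⟩ := Finset.one_lt_card.1 h
  rw [Finset.mem_erase] at hq hs
  exact ⟨q, hq.2, s, hs.2, hq.1, hs.1.symm, hqs⟩

theorem dvd_card {p : ℕ} (hp : p ∈ σ) : p ∣ Nat.card G := by
  obtain ⟨E, -, hE⟩ := H.rank p hp
  exact (dvd_pow_self p two_ne_zero).trans (hE ▸ Subgroup.card_subgroup_dvd_card E)

/-- No element of order `s` centralises `A`. -/
theorem no_s_centralizing {q r s : ℕ} (hq : q ∈ σ) (hr : r ∈ σ) (hs : s ∈ σ) (hqr : q ≠ r) (hqs : q ≠ s)
    (hrs : r ≠ s) {A : Subgroup G} (hA : IsElementaryAbelian r A) (hcard : r < Nat.card A) {v : G}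
    (hv : orderOf v = q) (hvA : ∀ a ∈ A, v * a = a * v) {d : G} (hd : orderOf d = s)
    (hdA : ∀ a ∈ A, d * a = a * d) : False := by
  haveI := hA.1
  haveI := Fact.mk (H.prime q hq)
  haveI := Fact.mk (H.prime s hs)
  haveI := H.nontrivial
  have hAc : ∀ a ∈ A, ∀ b ∈ A, a * b = b * a := fun a ha b hb =>
    congrArg Subtype.val (mul_comm' (⟨a, ha⟩ : A) ⟨b, hb⟩)
  set C := Subgroup.centralizer (A : Set G) with hC
  have hvC : v ∈ C := Subgroup.mem_centralizer_iff.2 fun a ha => (hvA a ha).symm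
  have hdC : d ∈ C := Subgroup.mem_centralizer_iff.2 fun a ha => (hdA a ha).symm
  obtain ⟨a, ha, ha1, y, -, hy0, hay⟩ := exists_fixed_of_noncyclic (ρ := ρ) hAc (H.prime r hr) hA.2 hcard ⊤
    top_ne_bot (fun _ _ _ _ => Submodule.mem_top)
  have har : orderOf a = r := orderOf_eq_of_mem_exp (H.prime r hr) hA.2 ha ha1
  set W := fixedSpace ρ a with hW
  have hW0 : W ≠ ⊥ := fun h => hy0 ((Submodule.mem_bot k).1 (h ▸ mem_fixedSpace.2 hay))
  have hCa : ∀ g ∈ C, a * g = g * a := fun g hg => Subgroup.mem_centralizer_iff.1 hg a ha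
  have hWC : ∀ g ∈ C, ∀ z ∈ W, ρ g z ∈ W := fun g hg z hz => fixedSpace_invariant_of_commute (hCa g hg) hz
  have hfW : ∀ g ∈ C, ∀ t ∈ σ, t ≠ r → orderOf g = t → ∀ z ∈ W, ρ g z = z → z = 0 :=
    fun g hg t ht htr hgt z hz hgz => H.pair r hr t ht htr.symm a g har hgt (hCa g hg) z
      (mem_fixedSpace.1 hz) hgz
  obtain ⟨D, hDC, hvD, hDπ, hDdvd⟩ := exists_qs_subgroup C (Subgroup.zpowers v)
    (Subgroup.zpowers_le.2 hvC) (q := q) (s := s) (fun p hp hd' => Or.inl (by
      rw [Nat.card_zpowers, hv] at hd'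
      exact (Nat.prime_dvd_prime_iff_eq hp (H.prime q hq)).1 hd'))
  have hsD : s ∣ Nat.card D :=
    hDdvd s (H.prime s hs) (Or.inr rfl) (hd ▸ Subgroup.orderOf_dvd_natCard C hdC)
  have hqD : q ∣ Nat.card D := hv ▸ Subgroup.orderOf_dvd_natCard D (hvD (Subgroup.mem_zpowers v))
  haveI : Nontrivial D := ⟨⟨v, hvD (Subgroup.mem_zpowers v)⟩, 1, fun h => by
    have h1 : v = 1 := congrArg Subtype.val h
    rw [h1, orderOf_one] at hv
    exact (H.prime q hq).ne_one hv.symm⟩
  obtain ⟨t, ht, hcore⟩ := Hall.exists_pCore_ne_bot (G := D)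
  haveI := Fact.mk ht
  have htqs : t = q ∨ t = s := by
    refine hDπ t ht ?_
    haveI : Nontrivial (pCore t D) := (Subgroup.nontrivial_iff_ne_bot _).2 hcore
    obtain ⟨n, hn⟩ := IsPGroup.iff_card.1 (Cores.isPGroup_pCore t D)
    have h1 : 1 < Nat.card (pCore t D) := Finite.one_lt_card
    rcases n with _ | n
    · rw [hn, pow_zero] at h1; omega
    · have h2 := (dvd_pow_self t n.succ_ne_zero)
      rw [← hn] at h2
      exact h2.trans (Subgroup.card_subgroup_dvd_card _)
  have htσ : t ∈ σ := by rcases htqs with rfl | rfl <;> assumption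
  have htr : t ≠ r := by rcases htqs with rfl | rfl; exacts [hqr, hrs.symm]
  obtain ⟨x, hxt, hxn⟩ := exists_normal_prime (t := t) hcore (fun x y hx hy hxy => by
    by_contra hne
    rw [← Subgroup.orderOf_coe] at hx hy
    have hne' : (y : G) ∉ Subgroup.zpowers (x : G) := by
      rintro ⟨i, hi⟩
      exact hne ⟨i, Subtype.ext (by rw [SubgroupClass.coe_zpow]; exact hi)⟩
    obtain ⟨hE, hEc⟩ := exists_elemAb_two ht hx hy (congrArg Subtype.val hxy) hne'
    have hEC : Subgroup.zpowers (x : G) ⊔ Subgroup.zpowers (y : G) ≤ C :=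
      sup_le (Subgroup.zpowers_le.2 (hDC x.2)) (Subgroup.zpowers_le.2 (hDC y.2))
    haveI := hE.1
    obtain ⟨e, he, he1, z, hz, hz0, hez⟩ := exists_fixed_of_noncyclic (ρ := ρ)
      (fun a ha b hb => congrArg Subtype.val (mul_comm'
        (⟨a, ha⟩ : (Subgroup.zpowers (x : G) ⊔ Subgroup.zpowers (y : G) : Subgroup G)) ⟨b, hb⟩))
      ht hE.2 hEc W hW0 (fun e he => hWC e (hEC he))
    exact hz0 (hfW e (hEC he) t htσ htr (orderOf_eq_of_mem_exp ht hE.2 he he1) z hz hez))
  obtain ⟨t', ht'σ, ht'D, htt', ht'r⟩ : ∃ t' ∈ σ, t' ∣ Nat.card D ∧ t ≠ t' ∧ t' ≠ r := by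
    rcases htqs with rfl | rfl
    exacts [⟨s, hs, hsD, hqs, hrs.symm⟩, ⟨q, hq, hqD, hqs.symm, hqr⟩]
  haveI := Fact.mk (H.prime t' ht'σ)
  obtain ⟨e, he⟩ := exists_prime_orderOf_dvd_card' (G := D) t' ht'D
  rw [← Subgroup.orderOf_coe] at he hxt
  have hconj : (e : G) * x * (e : G)⁻¹ ∈ Subgroup.zpowers (x : G) := by
    obtain ⟨i, hi⟩ := hxn e
    exact ⟨i, by simpa using congrArg (Subtype.val : D → G) hi⟩
  have hcomm := H.commute_of_fpf htσ ht'σ hxt he hconj hW0 (hWC x (hDC x.2)) (hWC e (hDC e.2))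
    (hfW x (hDC x.2) t htσ htr hxt) (hfW e (hDC e.2) t' ht'σ ht'r he)
  exact H.triple r hr t htσ t' ht'σ htr.symm htt' ht'r.symm a x e har hxt he (hCa x (hDC x.2))
    (hCa e (hDC e.2)) hcomm.symm

/-- The case of a noncyclic `A`, for a joined pair `(v, w)` with `v` centralising `A`. -/
theorem false_of_large_aux {q r s : ℕ} (hq : q ∈ σ) (hr : r ∈ σ) (hs : s ∈ σ) (hqr : q ≠ r)
    (hqs : q ≠ s) (hrs : r ≠ s) (A : Subgroup G) [hAn : A.Normal] (hA : IsElementaryAbelian r A)
    (hcard : r < Nat.card A) {v w : G} (hv : orderOf v = q) (hw : orderOf w = s) (hvw : v * w = w * v)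
    (hvA : ∀ a ∈ A, v * a = a * v) : False := by
  classical
  haveI := hA.1
  haveI := Fact.mk (H.prime q hq)
  haveI := Fact.mk (H.prime s hs)
  haveI := Fact.mk (H.prime r hr)
  have hA0 : A ≠ ⊥ := by
    intro h
    rw [h, Subgroup.card_bot] at hcard
    exact absurd hcard (by have := (H.prime r hr).one_lt; omega)
  set C := Subgroup.centralizer (A : Set G) with hC
  haveI hCn : C.Normal := Subgroup.normal_centralizer
  have hCA : ∀ g, g ∈ C ↔ ∀ a ∈ A, g * a = a * g := fun g =>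
    ⟨fun h a ha => (Subgroup.mem_centralizer_iff.1 h a ha).symm,
      fun h => Subgroup.mem_centralizer_iff.2 fun a ha => (h a ha).symm⟩
  have hsC : ∀ d : G, orderOf d = s → d ∉ C := fun d hd hdC =>
    H.no_s_centralizing hq hr hs hqr hqs hrs hA hcard hv hvA hd ((hCA d).1 hdC)
  -- commuting elements of order `q` in `C` generate the same subgroup
  have hone : ∀ x y : G, x ∈ C → y ∈ C → orderOf x = q → orderOf y = q → x * y = y * x →
      y ∈ Subgroup.zpowers x := by
    intro x y hxC hyC hx hy hxy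
    by_contra hne
    obtain ⟨hE, hEc⟩ := exists_elemAb_two (H.prime q hq) hx hy hxy hne
    have hEC : Subgroup.zpowers x ⊔ Subgroup.zpowers y ≤ C :=
      sup_le (Subgroup.zpowers_le.2 hxC) (Subgroup.zpowers_le.2 hyC)
    haveI := hE.1
    haveI := H.nontrivial
    obtain ⟨e, he, he1, z, -, hz0, hez⟩ := exists_fixed_of_noncyclic (ρ := ρ)
      (fun a ha b hb => congrArg Subtype.val (mul_comm'
        (⟨a, ha⟩ : (Subgroup.zpowers x ⊔ Subgroup.zpowers y : Subgroup G)) ⟨b, hb⟩))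
      (H.prime q hq) hE.2 hEc (⊤ : Submodule k V) top_ne_bot (fun _ _ _ _ => Submodule.mem_top)
    exact hz0 (H.fpf_of_centralizes hr hq hqr.symm hA hcard
      (orderOf_eq_of_mem_exp (H.prime q hq) hE.2 he he1) ((hCA e).1 (hEC he)) z hez)
  -- no element of order `s` fixing a point of `A` commutes with `v`
  have htriple : ∀ x d : G, x ∈ C → orderOf x = q → orderOf d = s → x * d = d * x → ∀ a ∈ A, a ≠ 1 →
      d * a ≠ a * d := fun x d hxC hx hd hxd a ha ha1 hda =>
    H.triple r hr q hq s hs hqr.symm hqs hrs a x d (orderOf_eq_of_mem_exp (H.prime r hr) hA.2 ha ha1) hx hd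
      ((hCA x).1 hxC a ha).symm hda.symm hxd
  -- a Sylow `s`-subgroup and an invariant Sylow `q`-subgroup of `C`
  obtain ⟨E, hE, hEc⟩ := H.rank s hs
  obtain ⟨S, hES⟩ := (ThompsonJ.isPGroup_of_isElementaryAbelian hE).exists_le_sylow
  have hsnC : ¬ s ∣ Nat.card C := by
    intro hd
    obtain ⟨d, hd'⟩ := exists_prime_orderOf_dvd_card' (G := C) s hd
    exact hsC d (by rw [Subgroup.orderOf_coe, hd']) d.2
  have hSC : (S : Subgroup G) ≤ Subgroup.normalizer (C : Set G) := by
    rw [Subgroup.normalizer_eq_top]; exact le_top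
  have hcopS : (Nat.card S).Coprime (Nat.card C) := by
    rw [S.card_eq_multiplicity]
    exact ((H.prime s hs).coprime_iff_not_dvd.2 hsnC).pow_left _
  obtain ⟨Qc, hQc⟩ := CoprimeAction.exists_invariant_sylow hSC hcopS
    (Or.inl (inferInstance : Group.IsSolvable S)) q
  set Q₁ := (Qc : Subgroup C).map C.subtype with hQ₁
  have hQ₁C : Q₁ ≤ C := Subgroup.map_subtype_le _
  -- a conjugate `v'` of `v` in `Q₁`, and a central element `z₀`
  have hvC : v ∈ C := (hCA v).2 hvA
  obtain ⟨Qv, hQv⟩ := (IsPGroup.of_card (p := q) (n := 1)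
    (by rw [Nat.card_zpowers, Subgroup.orderOf_mk, pow_one]; exact hv :
      Nat.card (Subgroup.zpowers (⟨v, hvC⟩ : C)) = q ^ 1)).exists_le_sylow
  obtain ⟨c, hc⟩ := MulAction.exists_smul_eq C Qv Qc
  set v' : G := (c : G) * v * (c : G)⁻¹ with hv'def
  set w' : G := (c : G) * w * (c : G)⁻¹ with hw'def
  have hv' : orderOf v' = q := by rw [hv'def, orderOf_conj_eq, hv]
  have hw' : orderOf w' = s := by rw [hw'def, orderOf_conj_eq, hw]
  have hv'w' : v' * w' = w' * v' := by
    rw [hv'def, hw'def, conj_mul, conj_mul, hvw]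
  have hv'C : v' ∈ C := hCn.conj_mem v hvC c
  have hv'Q : v' ∈ Q₁ := by
    have h1 : c * ⟨v, hvC⟩ * c⁻¹ ∈ Qc := by
      rw [← hc]
      exact ⟨⟨v, hvC⟩, hQv (Subgroup.mem_zpowers _), rfl⟩
    exact ⟨_, h1, rfl⟩
  have hQ₁p : IsPGroup q Q₁ := Qc.isPGroup'.map _
  obtain ⟨z₀, hz₀Q, hz₀, hz₀c⟩ : ∃ z₀ ∈ Q₁, orderOf z₀ = q ∧ ∀ y ∈ Q₁, z₀ * y = y * z₀ := by
    haveI : Nontrivial Q₁ := ⟨⟨v', hv'Q⟩, 1, fun h => by
      have h1 : v' = 1 := congrArg Subtype.val h
      rw [h1, orderOf_one] at hv'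
      exact (H.prime q hq).ne_one hv'.symm⟩
    haveI : Nontrivial (Subgroup.center Q₁) := hQ₁p.center_nontrivial
    obtain ⟨n, hn⟩ := IsPGroup.iff_card.1 (hQ₁p.to_subgroup (Subgroup.center Q₁))
    have hn0 : n ≠ 0 := by
      rintro rfl
      have := Finite.one_lt_card (α := Subgroup.center Q₁)
      rw [hn, pow_zero] at this
      omega
    obtain ⟨z, hz⟩ := exists_prime_orderOf_dvd_card' (G := Subgroup.center Q₁) q (hn ▸ dvd_pow_self q hn0)
    refine ⟨((z : Q₁) : G), (z : Q₁).2, by rw [Subgroup.orderOf_coe, Subgroup.orderOf_coe, hz], fun y hy => ?_⟩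
    exact (congrArg Subtype.val (Subgroup.mem_center_iff.1 z.2 ⟨y, hy⟩)).symm
  have hv'z : Subgroup.zpowers v' = Subgroup.zpowers z₀ :=
    eq_of_mem_zpowers_prime (H.prime q hq) hz₀ hv'
      (hone z₀ v' (hQ₁C hz₀Q) hv'C hz₀ hv' (hz₀c v' hv'Q))
  have hSnorm : ∀ g ∈ (S : Subgroup G), g * v' * g⁻¹ ∈ Subgroup.zpowers v' := by
    intro g hg
    have hN := Subgroup.mem_normalizer_iff.1 (hQc hg)
    have hgz : g * z₀ * g⁻¹ ∈ Subgroup.zpowers z₀ := by
      refine hone z₀ _ (hQ₁C hz₀Q) (hQ₁C ((hN z₀).1 hz₀Q)) hz₀ (by rw [orderOf_conj_eq, hz₀]) ?_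
      exact hz₀c _ ((hN z₀).1 hz₀Q)
    have hle : (Subgroup.zpowers z₀).map (MulAut.conj g).toMonoidHom ≤ Subgroup.zpowers z₀ := by
      rw [MonoidHom.map_zpowers, Subgroup.zpowers_le]; exact hgz
    rw [hv'z]
    exact hle ⟨v', hv'z ▸ Subgroup.mem_zpowers v', rfl⟩
  -- `s` divides `q - 1`
  have hsq : s ∣ q - 1 := by
    obtain ⟨e, he, he1, a, ha, ha1, hae⟩ := exists_centralizing (H.prime s hs) hE
      (by rw [hEc]; exact lt_self_pow₀ (H.prime s hs).one_lt one_lt_two) hA0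
      (by rw [Subgroup.normalizer_eq_top]; exact le_top)
    have heo := orderOf_eq_of_mem_exp (H.prime s hs) hE.2 he he1
    refine dvd_sub_one_of_normalize (H.prime q hq) (H.prime s hs) hv' (hE.2 e he) (hSnorm e (hES he)) ?_
    intro hcomm
    exact htriple v' e hv'C hv' heo hcomm.symm a ha ha1 hae.symm
  have hsq' : s < q := by
    have h1 := Nat.le_of_dvd (by have := (H.prime q hq).two_le; omega) hsq
    have := (H.prime q hq).two_le
    omega
  have hq2 : q ≠ 2 := by
    rintro rfl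
    have := (H.prime s hs).two_le
    omega
  -- `v'` is central in a Sylow subgroup `Q`
  obtain ⟨Q, hvQ⟩ := (IsPGroup.of_card (p := q) (n := 1)
    (by rw [Nat.card_zpowers, hv', pow_one] : Nat.card (Subgroup.zpowers v') = q ^ 1)).exists_le_sylow
  have hvcen : ∀ y ∈ (Q : Subgroup G), v' * y = y * v' := by
    set N := C.subgroupOf (Q : Subgroup G) with hN
    haveI : N.Normal := inferInstance
    have hN0 : N ≠ ⊥ := by
      intro h
      have h1 : (⟨v', hvQ (Subgroup.mem_zpowers v')⟩ : (Q : Subgroup G)) ∈ N := hv'C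
      rw [h, Subgroup.mem_bot] at h1
      have h2 : v' = 1 := congrArg Subtype.val h1
      rw [h2, orderOf_one] at hv'
      exact (H.prime q hq).ne_one hv'.symm
    haveI : Nontrivial (N ⊓ Subgroup.center (Q : Subgroup G) : Subgroup (Q : Subgroup G)) := by
      rw [Subgroup.nontrivial_iff_ne_bot]
      haveI := Q.isPGroup'.isNilpotent
      exact PSolvable.inf_center_ne_bot hN0
    obtain ⟨n, hn⟩ := IsPGroup.iff_card.1
      (Q.isPGroup'.to_subgroup (N ⊓ Subgroup.center (Q : Subgroup G)))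
    have hn0 : n ≠ 0 := by
      rintro rfl
      have := Finite.one_lt_card (α := (N ⊓ Subgroup.center (Q : Subgroup G) : Subgroup (Q : Subgroup G)))
      rw [hn, pow_zero] at this
      omega
    obtain ⟨z, hz⟩ := exists_prime_orderOf_dvd_card'
      (G := (N ⊓ Subgroup.center (Q : Subgroup G) : Subgroup (Q : Subgroup G))) q (hn ▸ dvd_pow_self q hn0)
    rw [← Subgroup.orderOf_coe, ← Subgroup.orderOf_coe] at hz
    have hzc : ∀ y ∈ (Q : Subgroup G), ((z : (Q : Subgroup G)) : G) * y = y * ((z : (Q : Subgroup G)) : G) :=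
      fun y hy => (congrArg Subtype.val (Subgroup.mem_center_iff.1 z.2.2 ⟨y, hy⟩)).symm
    have hvz : v' ∈ Subgroup.zpowers (((z : (Q : Subgroup G)) : G)) :=
      hone _ v' z.2.1 hv'C hz hv' (hzc v' (hvQ (Subgroup.mem_zpowers v')))
    exact fun y hy => commute_of_mem_zpowers hvz (hzc y hy)
  -- an element of order `q` outside `C` commuting with `v'`
  obtain ⟨e, heo, hev, heC⟩ : ∃ e : G, orderOf e = q ∧ e * v' = v' * e ∧ e ∉ C := by
    obtain ⟨Eq, hEq, hEqc⟩ := H.rank q hq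
    obtain ⟨Q', hQ'⟩ := (ThompsonJ.isPGroup_of_isElementaryAbelian hEq).exists_le_sylow
    obtain ⟨g, hg⟩ := MulAction.exists_smul_eq G Q' Q
    set Eg := Eq.map (MulAut.conj g).toMonoidHom with hEg
    have hEgab : IsElementaryAbelian q Eg := ThompsonJ.isElementaryAbelian_map hEq _
    have hEgQ : Eg ≤ Q := by
      rintro _ ⟨y, hy, rfl⟩
      rw [← hg]
      exact ⟨y, hQ' hy, rfl⟩
    have hEgc : Nat.card Eg = q ^ 2 := by
      rw [hEg, Subgroup.card_map_of_injective (MulAut.conj g).injective, hEqc]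
    by_contra! hno
    have hin : ∀ y ∈ Eg, y ≠ 1 → y ∈ C := fun y hy hy1 =>
      hno y (orderOf_eq_of_mem_exp (H.prime q hq) hEgab.2 hy hy1) (hvcen y (hEgQ hy)).symm
    have hle : Eg ≤ Subgroup.zpowers v' := by
      intro y hy
      by_cases hy1 : y = 1
      · rw [hy1]; exact one_mem _
      · exact hone v' y hv'C (hin y hy hy1) hv'
          (orderOf_eq_of_mem_exp (H.prime q hq) hEgab.2 hy hy1) (hvcen y (hEgQ hy))
    have h1 := Subgroup.card_le_of_le hle
    rw [hEgc, Nat.card_zpowers, hv'] at h1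
    exact absurd h1 (not_le.2 (lt_self_pow₀ (H.prime q hq).one_lt one_lt_two))
  -- a `{q, s}`-subgroup of `C(v')`
  obtain ⟨D, hDM, heD, hDπ, hDdvd⟩ := exists_qs_subgroup (Subgroup.centralizer ({v'} : Set G))
    (Subgroup.zpowers e) (Subgroup.zpowers_le.2 (Subgroup.mem_centralizer_singleton_iff.2 hev))
    (q := q) (s := s) (fun p hp hd' => Or.inl (by
      rw [Nat.card_zpowers, heo] at hd'
      exact (Nat.prime_dvd_prime_iff_eq hp (H.prime q hq)).1 hd'))
  have hDv : ∀ g ∈ D, g * v' = v' * g := fun g hg => Subgroup.mem_centralizer_singleton_iff.1 (hDM hg)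
  have hsD : s ∣ Nat.card D := by
    refine hDdvd s (H.prime s hs) (Or.inr rfl) ?_
    rw [← hw']
    exact Subgroup.orderOf_dvd_natCard _ (Subgroup.mem_centralizer_singleton_iff.2 hv'w'.symm)
  have hsA : ∀ d ∈ D, orderOf d = s → ∀ a ∈ A, a ≠ 1 → d * a ≠ a * d := fun d hd hds =>
    htriple v' d hv'C hv' hds (hDv d hd).symm
  obtain ⟨n, τ, hτ1, hτfix⟩ := exists_conjRep hA hA0
  -- elements of order `s` centralise `O_q(D)`
  set X := (pCore q D).map D.subtype with hX
  have hXp : IsPGroup q X := (Cores.isPGroup_pCore q D).map _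
  have hXD : X ≤ D := Subgroup.map_subtype_le _
  have hDX : ∀ g ∈ D, g ∈ Subgroup.normalizer (X : Set G) := by
    intro g hg
    rw [Subgroup.mem_normalizer_iff]
    intro x
    constructor
    · rintro ⟨y, hy, rfl⟩
      exact ⟨⟨g, hg⟩ * y * ⟨g, hg⟩⁻¹, (inferInstance : (pCore q D).Normal).conj_mem y hy _, rfl⟩
    · rintro ⟨y, hy, hyx⟩
      refine ⟨⟨g, hg⟩⁻¹ * y * ⟨g, hg⟩, (inferInstance : (pCore q D).Normal).conj_mem' y hy _, ?_⟩
      have hyx' : (y : G) = g * x * g⁻¹ := hyx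
      show g⁻¹ * (y : G) * g = x
      rw [hyx']; group
  have hrK : ∀ m : ℕ, m.Prime → m ≠ r → (m : AlgebraicClosure (ZMod r)) ≠ 0 := fun m hm hmr h0 =>
    hmr ((Nat.prime_dvd_prime_iff_eq (H.prime r hr) hm).1
      ((CharP.cast_eq_zero_iff (AlgebraicClosure (ZMod r)) r m).1 h0)).symm
  have hmodC : ∀ d ∈ D, orderOf d = s → ∀ x ∈ X, x⁻¹ * (d * x * d⁻¹) ∈ C := by
    intro d hd hds x hx
    have hτeq : τ (d * x * d⁻¹) = τ x := by
      by_contra hne
      obtain ⟨y, hy0, hy⟩ := exists_fixed_of_normalised τ hq2 (hrK q (H.prime q hq) hqr) hqs.symm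
        (hrK s (H.prime s hs) hrs.symm) hXp (hDX d hd) (hds ▸ pow_orderOf_eq_one d) ⟨x, hx, hne⟩
      obtain ⟨a, ha, ha1, hda⟩ := hτfix d y hy hy0
      exact hsA d hd hds a ha ha1 hda
    rw [hCA, ← hτ1, _root_.map_mul, hτeq, ← _root_.map_mul, inv_mul_cancel, _root_.map_one]
  have hXC : ∀ d ∈ D, orderOf d = s → ∀ x ∈ X ⊓ C, d * x = x * d := by
    intro d hd hds x hx
    set C₁ := X ⊓ C with hC₁
    have hN : ∀ y, y ∈ C₁ ↔ d * y * d⁻¹ ∈ C₁ := fun y => by
      simp only [hC₁, Subgroup.mem_inf]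
      rw [← Subgroup.mem_normalizer_iff.1 (hDX d hd) y, ← Subgroup.mem_normalizer_iff.1
        (by rw [Subgroup.normalizer_eq_top]; exact Subgroup.mem_top d :
          d ∈ Subgroup.normalizer (C : Set G)) y]
    let φ : MulAut C₁ :=
      { toFun := fun y => ⟨d * y * d⁻¹, (hN y).1 y.2⟩
        invFun := fun y => ⟨d⁻¹ * y * d, (hN _).2 (by simpa [mul_assoc] using y.2)⟩
        left_inv := fun y => Subtype.ext (by simp [mul_assoc])
        right_inv := fun y => Subtype.ext (by simp [mul_assoc])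
        map_mul' := fun a b => Subtype.ext (by simp [mul_assoc]) }
    have hφpow : ∀ m : ℕ, ∀ y : C₁, (((φ ^ m) y : C₁) : G) = d ^ m * y * (d ^ m)⁻¹ := by
      intro m
      induction m with
      | zero => intro y; simp
      | succ m ih =>
        intro y
        rw [pow_succ', MulAut.mul_apply]
        show d * (((φ ^ m) y : C₁) : G) * d⁻¹ = _
        rw [ih, pow_succ']; group
    have hφs : orderOf φ ∣ s := orderOf_dvd_of_pow_eq_one (MulEquiv.ext fun y => Subtype.ext (by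
      rw [hφpow, ← hds, pow_orderOf_eq_one]; simp))
    have hφ1 : φ = 1 := PGroups.eq_one_of_fixed_omega hq2 (hXp.to_le inf_le_left) φ
      (Nat.Coprime.coprime_dvd_left hφs ((Nat.coprime_primes (H.prime s hs) (H.prime q hq)).2 hqs.symm))
      (fun y hy => by
        apply Subtype.ext
        show d * (y : G) * d⁻¹ = y
        by_cases hy1 : (y : G) = 1
        · rw [hy1]; group
        · have hyo : orderOf (y : G) = q := orderOf_eq_prime (by
            rw [← SubgroupClass.coe_pow, hy]; rfl) hy1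
          have hyv : (y : G) ∈ Subgroup.zpowers v' :=
            hone v' y hv'C y.2.2 hv' hyo (hDv y (hXD y.2.1)).symm
          rw [mul_inv_eq_iff_eq_mul]
          exact (commute_of_mem_zpowers hyv (hDv d hd).symm).symm)
    have h1 : d * x * d⁻¹ = x := congrArg Subtype.val (DFunLike.congr_fun hφ1 (⟨x, hx⟩ : C₁))
    exact mul_inv_eq_iff_eq_mul.1 h1
  have hcentX : ∀ d ∈ D, orderOf d = s → ∀ x ∈ X, d * x = x * d := by
    intro d hd hds
    have hpow : ∀ g ∈ Subgroup.zpowers d, g = 1 ∨ (g ∈ D ∧ orderOf g = s) := by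
      intro g hg
      by_cases hg1 : g = 1
      · exact Or.inl hg1
      · exact Or.inr ⟨Subgroup.zpowers_le.2 hd hg, orderOf_eq_of_mem_exp (H.prime s hs) (fun a ha => by
          obtain ⟨i, rfl⟩ := ha
          rw [← zpow_natCast, ← zpow_mul, mul_comm, zpow_mul, zpow_natCast, ← hds, pow_orderOf_eq_one,
            one_zpow]) hg hg1⟩
    obtain ⟨m, hm⟩ := IsPGroup.iff_card.1 (hXp.to_le (inf_le_left : X ⊓ C ≤ X))
    have hle := CoprimeAction.le_centralizer_of_series (A := Subgroup.zpowers d) (K := X) (N := X ⊓ C)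
      inf_le_left (by
        rw [Nat.card_zpowers, hds, hm]
        exact ((Nat.coprime_primes (H.prime s hs) (H.prime q hq)).2 hqs.symm).pow_right m)
      (fun g hg => Subgroup.mem_centralizer_iff.2 fun x hx => by
        rcases hpow g hg with rfl | ⟨hgD, hgs⟩
        · simp
        · exact (hXC g hgD hgs x hx).symm)
      (fun g hg x hx => by
        rcases hpow g hg with rfl | ⟨hgD, hgs⟩
        · simp
        · exact ⟨X.mul_mem (X.inv_mem hx) ((Subgroup.mem_normalizer_iff.1 (hDX g hgD) x).1 hx),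
            hmodC g hgD hgs x hx⟩)
    exact fun x hx => (Subgroup.mem_centralizer_iff.1 (hle (Subgroup.mem_zpowers d)) x hx).symm
  -- `O_s(D)` is nontrivial
  have hcore : pCore s D ≠ ⊥ := by
    intro h
    have hFq : fittingSubgroup D ≤ pCore q D := fittingSubgroup_le_pCore fun t ht htd htq => by
      have := (hDπ t ht htd).resolve_left htq
      subst this
      exact h
    obtain ⟨d, hd⟩ := exists_prime_orderOf_dvd_card' (G := D) s hsD
    have hmem : d ∈ Subgroup.centralizer (fittingSubgroup D : Set D) :=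
      Subgroup.mem_centralizer_iff.2 fun x hx => Subtype.ext
        (hcentX d d.2 (by rw [Subgroup.orderOf_coe, hd]) x ⟨x, hFq hx, rfl⟩).symm
    exact notMem_of_isPGroup (Cores.isPGroup_pCore q D) (H.prime s hs) hqs hd
      (hFq (Cores.centralizer_fittingSubgroup_le hmem))
  obtain ⟨x, hxs, hxn⟩ := exists_normal_prime (t := s) hcore (fun x y hx hy hxy => by
    by_contra hne
    rw [← Subgroup.orderOf_coe] at hx hy
    have hne' : (y : G) ∉ Subgroup.zpowers (x : G) := by
      rintro ⟨i, hi⟩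
      exact hne ⟨i, Subtype.ext (by rw [SubgroupClass.coe_zpow]; exact hi)⟩
    obtain ⟨hE', hE'c⟩ := exists_elemAb_two (H.prime s hs) hx hy (congrArg Subtype.val hxy) hne'
    obtain ⟨d, hd, hd1, a, ha, ha1, had⟩ := exists_centralizing (H.prime s hs) hE' hE'c hA0
      (by rw [Subgroup.normalizer_eq_top]; exact le_top)
    have hE'D : Subgroup.zpowers (x : G) ⊔ Subgroup.zpowers (y : G) ≤ D :=
      sup_le (Subgroup.zpowers_le.2 x.2) (Subgroup.zpowers_le.2 y.2)
    exact hsA d (hE'D hd) (orderOf_eq_of_mem_exp (H.prime s hs) hE'.2 hd hd1) a ha ha1 had.symm)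
  rw [← Subgroup.orderOf_coe] at hxs
  have heD' : e ∈ D := heD (Subgroup.mem_zpowers e)
  have hconj : e * (x : G) * e⁻¹ ∈ Subgroup.zpowers (x : G) := by
    obtain ⟨i, hi⟩ := hxn ⟨e, heD'⟩
    exact ⟨i, by simpa using congrArg (Subtype.val : D → G) hi⟩
  have hex : e * x = x * e := by
    by_contra hne
    have h1 := dvd_sub_one_of_normalize (H.prime s hs) (H.prime q hq) hxs
      (heo ▸ pow_orderOf_eq_one e) hconj hne
    have := Nat.le_of_dvd (by have := (H.prime s hs).two_le; omega) h1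
    omega
  have hAc : ∀ a ∈ A, ∀ b ∈ A, a * b = b * a := fun a ha b hb =>
    congrArg Subtype.val (mul_comm' (⟨a, ha⟩ : A) ⟨b, hb⟩)
  have hNA : ∀ g : G, g ∈ Subgroup.normalizer (A : Set G) := fun g => by
    rw [Subgroup.normalizer_eq_top]; exact Subgroup.mem_top g
  rcases H.pair_centralizes hq hr hs hqr hqs hrs hAc hA.2 hA0 heo hxs hex (hNA e) (hNA x) with h | h
  · exact heC ((hCA e).2 h.1)
  · exact hsC x hxs ((hCA _).2 h.1)

/-- No normal elementary abelian subgroup is noncyclic. -/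
theorem false_of_large {r : ℕ} (hr : r ∈ σ) (A : Subgroup G) [A.Normal]
    (hA : IsElementaryAbelian r A) (hcard : r < Nat.card A) : False := by
  haveI := hA.1
  obtain ⟨q, hq, s, hs, hqr, hrs, hqs⟩ := H.exists_others hr
  obtain ⟨v, w, hv, hw, hvw⟩ := H.edge q hq s hs hqs
  have hA0 : A ≠ ⊥ := by
    intro h
    rw [h, Subgroup.card_bot] at hcard
    have := (H.prime r hr).one_lt
    omega
  have hAc : ∀ a ∈ A, ∀ b ∈ A, a * b = b * a := fun a ha b hb =>
    congrArg Subtype.val (mul_comm' (⟨a, ha⟩ : A) ⟨b, hb⟩)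
  have hNA : ∀ g : G, g ∈ Subgroup.normalizer (A : Set G) := fun g => by
    rw [Subgroup.normalizer_eq_top]; exact Subgroup.mem_top g
  rcases H.pair_centralizes hq hr hs hqr hqs hrs hAc hA.2 hA0 hv hw hvw (hNA v) (hNA w) with h | h
  · exact H.false_of_large_aux hq hr hs hqr hqs hrs A hA hcard hv hw hvw h.1
  · exact H.false_of_large_aux hs hr hq hrs.symm hqs.symm hqr.symm A hA hcard hw hv hvw.symm h.1

end NoTriple

end CfsgLib.MetacyclicP
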