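import Mathlib
import Cfsg.Agent.Lib.MetacyclicP.NoTripleOne

/-!
The end of the three-prime argument: all `Ω₁(Z(O_r))` cyclic.
-/

set_option autoImplicit false
set_option linter.style.haveILetI false

open Module

namespace CfsgLib.MetacyclicP

open Cfsg
open scoped commutatorElement

variable {G : Type*} [Group G] [Finite G] [Group.IsSolvable G] {k : Type*} [Field k] [IsAlgClosed k]
  {V : Type*} [AddCommGroup V] [Module k V] [FiniteDimensional k V]
  {ρ : G →* Module.End k V} {σ : Finset ℕ}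

/-- The data of a core with cyclic centre: its central element of prime order. -/
theorem exists_rankOne (H : NoTriple ρ σ) {r : ℕ} (hr : r ∈ σ) (hcore : pCore r G ≠ ⊥) :
    ∃ u : G, orderOf u = r ∧ u ∈ pCore r G ∧ (∀ y ∈ pCore r G, u * y = y * u) ∧
      (∀ g, g * u * g⁻¹ ∈ Subgroup.zpowers u) ∧
      ∀ x ∈ pCore r G, x ^ r = 1 → (∀ y ∈ pCore r G, x * y = y * x) → x ∈ Subgroup.zpowers u := by
  haveI := Fact.mk (H.prime r hr)
  set A := omegaCenter r G with hA
  have hle : Nat.card A ≤ r := not_lt.1 (H.false_of_large hr A (isElementaryAbelian_omegaCenter r))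
  obtain ⟨⟨u, hu⟩, hu1⟩ := Subgroup.ne_bot_iff_exists_ne_one.1 (omegaCenter_ne_bot hcore)
  have hur : orderOf u = r := orderOf_eq_prime hu.2.1 fun h => hu1 (Subtype.ext h)
  have hAeq : Subgroup.zpowers u = A := Subgroup.eq_of_le_of_card_ge (Subgroup.zpowers_le.2 hu)
    (by rw [Nat.card_zpowers, hur]; exact hle)
  refine ⟨u, hur, hu.1, hu.2.2, fun g => ?_, fun x hx hxr hxc => ?_⟩
  · rw [hAeq]; exact (omegaCenter_normal r).conj_mem u hu g
  · rw [hAeq]; exact ⟨hx, hxr, hxc⟩

/-- `⟨u⟩` for `u` as above is normal. -/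
theorem normal_zpowers {u : G} (h : ∀ g, g * u * g⁻¹ ∈ Subgroup.zpowers u) :
    (Subgroup.zpowers u).Normal := by
  refine ⟨fun x hx g => ?_⟩
  obtain ⟨i, rfl⟩ := hx
  show g * u ^ i * g⁻¹ ∈ Subgroup.zpowers u
  rw [← conj_zpow]
  exact Subgroup.zpow_mem _ (h g) i

namespace NoTriple

variable (H : NoTriple ρ σ)
include H

theorem rankOne_ne_two {r : ℕ} (hr : r ∈ σ) {u : G} (hu : orderOf u = r)
    (hn : ∀ g, g * u * g⁻¹ ∈ Subgroup.zpowers u) : r ≠ 2 := by
  rintro rfl
  obtain ⟨q, hq, s, hs, hqr, hrs, hqs⟩ := H.exists_others hr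
  obtain ⟨v, w, hv, hw, hvw⟩ := H.edge q hq s hs hqs
  have hcen : ∀ g, g * u = u * g := by
    intro g
    obtain ⟨i, hi⟩ : ∃ i, u ^ i = g * u * g⁻¹ := (isOfFinOrder_of_finite u).mem_powers_iff_mem_zpowers.2 (hn g)
    have hne : g * u * g⁻¹ ≠ 1 := fun h => by
      rw [← orderOf_eq_one_iff, orderOf_conj_eq, hu] at h
      omega
    rcases Nat.even_or_odd i with ⟨j, rfl⟩ | ⟨j, rfl⟩
    · refine absurd hi.symm ?_
      rw [← two_mul, pow_mul, ← hu, pow_orderOf_eq_one, one_pow]
      exact hne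
    · rw [pow_succ, pow_mul, ← hu, pow_orderOf_eq_one, one_pow, one_mul] at hi
      exact mul_inv_eq_iff_eq_mul.1 hi.symm
  exact H.triple 2 hr q hq s hs hqr.symm hqs hrs u v w hu hv hw (hcen v).symm (hcen w).symm hvw

/-- An element without fixed vectors normalising an odd core centralises it. -/
theorem centralizes_of_fpf {r t : ℕ} (hr : r ∈ σ) (ht : t ∈ σ) (htr : t ≠ r) (hr2 : r ≠ 2) {g : G}
    (hg : orderOf g = t) (hf : Fpf ρ g) : ∀ x ∈ pCore r G, g * x = x * g := by
  haveI := Fact.mk (H.prime r hr)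
  haveI := Fact.mk (H.prime t ht)
  intro x hx
  by_contra hne
  obtain ⟨y, hy0, hy⟩ := exists_fixed_of_normalised ρ hr2 (H.ne_zero r hr) htr (H.ne_zero t ht)
    (Cores.isPGroup_pCore r G) (by rw [Subgroup.normalizer_eq_top]; exact Subgroup.mem_top g)
    (hg ▸ pow_orderOf_eq_one g)
    ⟨x, hx, fun h => hne (mul_inv_eq_iff_eq_mul.1 (H.faithful h))⟩
  exact hy0 (hf y hy)

/-- Some element of another prime order centralises a core with cyclic centre. -/
theorem exists_centralizing_core {r : ℕ} (hr : r ∈ σ) (hcore : pCore r G ≠ ⊥) :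
    ∃ t ∈ σ, t ≠ r ∧ ∃ g : G, orderOf g = t ∧ ∀ x ∈ pCore r G, g * x = x * g := by
  obtain ⟨u, hu, -, -, hn, -⟩ := exists_rankOne H hr hcore
  have hr2 := H.rankOne_ne_two hr hu hn
  obtain ⟨q, hq, s, hs, hqr, hrs, hqs⟩ := H.exists_others hr
  obtain ⟨v, w, hv, hw, hvw⟩ := H.edge q hq s hs hqs
  haveI := normal_zpowers hn
  have hNA : ∀ g : G, g ∈ Subgroup.normalizer (Subgroup.zpowers u : Set G) := fun g => by
    rw [Subgroup.normalizer_eq_top]; exact Subgroup.mem_top g
  have hexp : ∀ a ∈ Subgroup.zpowers u, a ^ r = 1 := fun a ha => by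
    obtain ⟨i, rfl⟩ := ha
    rw [← zpow_natCast, ← zpow_mul, mul_comm, zpow_mul, zpow_natCast, ← hu, pow_orderOf_eq_one, one_zpow]
  have hne : Subgroup.zpowers u ≠ ⊥ := by
    rw [Subgroup.zpowers_ne_bot]
    intro h
    rw [h, orderOf_one] at hu
    exact (H.prime r hr).ne_one hu.symm
  rcases H.pair_centralizes hq hr hs hqr hqs hrs (fun a ha b hb => commute_of_mem_zpowers ha
    (commute_of_mem_zpowers hb rfl).symm) hexp hne hv hw hvw (hNA v) (hNA w) with h | h
  · exact ⟨q, hq, hqr, v, hv, H.centralizes_of_fpf hr hq hqr hr2 hv h.2.2⟩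
  · exact ⟨s, hs, hrs.symm, w, hw, H.centralizes_of_fpf hr hs hrs.symm hr2 hw h.2.2⟩

/-- A second core is nontrivial. -/
theorem exists_second {r : ℕ} (hr : r ∈ σ) (hcore : pCore r G ≠ ⊥) :
    ∃ q ∈ σ, q ≠ r ∧ pCore q G ≠ ⊥ := by
  by_contra! hall
  obtain ⟨t, ht, htr, g, hg, hgc⟩ := H.exists_centralizing_core hr hcore
  haveI := Fact.mk (H.prime r hr)
  have hF : fittingSubgroup G ≤ pCore r G :=
    fittingSubgroup_le_pCore fun q hq hqd hqr => hall q (H.mem q hq hqd) hqr
  have hmem : g ∈ Subgroup.centralizer (fittingSubgroup G : Set G) :=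
    Subgroup.mem_centralizer_iff.2 fun x hx => (hgc x (hF hx)).symm
  exact notMem_of_isPGroup (Cores.isPGroup_pCore r G) (H.prime t ht) htr.symm hg
    (hF (Cores.centralizer_fittingSubgroup_le hmem))

/-- For two cores with cyclic centre, the third prime divides both `q - 1` and `r - 1`. -/
theorem dvd_sub_one_of_two {q r s : ℕ} (hq : q ∈ σ) (hr : r ∈ σ) (hs : s ∈ σ) (hqr : q ≠ r)
    (hqs : q ≠ s) (hrs : r ≠ s) {u c : G} (hu : orderOf u = r) (hc : orderOf c = q)
    (huc : u * c = c * u) (hun : ∀ g, g * u * g⁻¹ ∈ Subgroup.zpowers u)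
    (hcn : ∀ g, g * c * g⁻¹ ∈ Subgroup.zpowers c) : s ∣ q - 1 ∧ Fpf ρ u := by
  haveI := normal_zpowers hun
  obtain ⟨E, hE, hEc⟩ := H.rank s hs
  have hne : Subgroup.zpowers u ≠ ⊥ := by
    rw [Subgroup.zpowers_ne_bot]
    intro h
    rw [h, orderOf_one] at hu
    exact (H.prime r hr).ne_one hu.symm
  obtain ⟨e, he, he1, x, hx, hx1, hxe⟩ := exists_centralizing (H.prime s hs) hE
    (by rw [hEc]; exact lt_self_pow₀ (H.prime s hs).one_lt one_lt_two) hne
    (by rw [Subgroup.normalizer_eq_top]; exact le_top)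
  have heo := orderOf_eq_of_mem_exp (H.prime s hs) hE.2 he he1
  have hxr : orderOf x = r := orderOf_eq_of_mem_exp (H.prime r hr) (A := Subgroup.zpowers u) (fun a ha => by
    obtain ⟨i, rfl⟩ := ha
    rw [← zpow_natCast, ← zpow_mul, mul_comm, zpow_mul, zpow_natCast, ← hu, pow_orderOf_eq_one, one_zpow]) hx hx1
  have hux : u ∈ Subgroup.zpowers x := by
    rw [eq_of_mem_zpowers_prime (H.prime r hr) hu hxr hx]; exact Subgroup.mem_zpowers u
  have hue : u * e = e * u := commute_of_mem_zpowers hux hxe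
  refine ⟨dvd_sub_one_of_normalize (H.prime q hq) (H.prime s hs) hc (hE.2 e he) (hcn e) fun h =>
    H.triple r hr q hq s hs hqr.symm hqs hrs u c e hu hc heo huc hue h.symm, ?_⟩
  exact H.fpf_of_two hq hr hs hqr hqs hrs hu hc heo huc hue (hcn e)

/-- A noncyclic core with cyclic centre beside a second core is impossible. -/
theorem false_of_noncyclic {q r s : ℕ} (hq : q ∈ σ) (hr : r ∈ σ) (hs : s ∈ σ) (hqr : q ≠ r)
    (hqs : q ≠ s) (hrs : r ≠ s) (hcq : pCore q G ≠ ⊥) (hcr : pCore r G ≠ ⊥)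
    (hnc : ¬ IsCyclic (pCore r G)) : False := by
  classical
  haveI := Fact.mk (H.prime r hr)
  haveI := Fact.mk (H.prime q hq)
  haveI := Fact.mk (H.prime s hs)
  obtain ⟨u, hu, huR, huc, hun, huU⟩ := exists_rankOne H hr hcr
  obtain ⟨c, hc, hcQ, -, hcn, -⟩ := exists_rankOne H hq hcq
  have hr2 := H.rankOne_ne_two hr hu hun
  have hRc : ∀ x ∈ pCore r G, x * c = c * x := fun x hx =>
    Cores.commute_pCore_of_ne hqr.symm hx hcQ
  have hsq := H.dvd_sub_one_of_two hq hr hs hqr hqs hrs hu hc (hRc u huR) hun hcn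
  set R := pCore r G with hR
  set U := Subgroup.zpowers u with hU
  haveI hUn : U.Normal := normal_zpowers hun
  have hUcomm : ∀ z ∈ U, ∀ y ∈ R, z * y = y * z := fun z hz y hy => commute_of_mem_zpowers hz (huc y hy)
  -- the subgroup `B`
  let B0 : Subgroup G :=
    { carrier := {x | x ∈ R ∧ ∀ y ∈ R, x * y * x⁻¹ * y⁻¹ ∈ U}
      one_mem' := ⟨one_mem _, fun y _ => by simp⟩
      mul_mem' := fun {a b} ha hb => ⟨mul_mem ha.1 hb.1, fun y hy => by
        have h1 : a * b * y * (a * b)⁻¹ * y⁻¹ = a * (b * y * b⁻¹ * y⁻¹) * a⁻¹ * (a * y * a⁻¹ * y⁻¹) := by group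
        rw [h1]
        exact U.mul_mem (hUn.conj_mem _ (hb.2 y hy) a) (ha.2 y hy)⟩
      inv_mem' := fun {a} ha => ⟨inv_mem ha.1, fun y hy => by
        have h1 : a⁻¹ * y * a⁻¹⁻¹ * y⁻¹ = a⁻¹ * (a * y * a⁻¹ * y⁻¹)⁻¹ * a⁻¹⁻¹ := by group
        rw [h1]
        exact hUn.conj_mem _ (U.inv_mem (ha.2 y hy)) a⁻¹⟩ }
  have hmul : ∀ a b : G, a ∈ B0 → b ∈ B0 → a ^ r = 1 → b ^ r = 1 → (a * b) ^ r = 1 := by
    intro a b ha hb har hbr
    have hcl : ⁅commutator B0, (⊤ : Subgroup B0)⁆ = ⊥ := by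
      rw [Subgroup.commutator_eq_bot_iff_le_centralizer, commutator_def, Subgroup.commutator_le]
      intro x _ y _
      rw [Subgroup.mem_centralizer_iff]
      intro z _
      refine Subtype.ext ?_
      show (z : G) * ((⁅x, y⁆ : B0) : G) = ((⁅x, y⁆ : B0) : G) * z
      refine (hUcomm _ ?_ z z.2.1).symm
      have := x.2.2 y y.2.1
      simpa [commutatorElement_def] using this
    have := PGroups.mul_pow_eq_one_of_small_class (G := B0) (p := r) (Or.inl ⟨hr2, hcl⟩)
      (x := ⟨a, ha⟩) (y := ⟨b, hb⟩) (Subtype.ext (by simpa using har)) (Subtype.ext (by simpa using hbr))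
    simpa using congrArg (Subtype.val : B0 → G) this
  let B : Subgroup G :=
    { carrier := {x | x ∈ B0 ∧ x ^ r = 1}
      one_mem' := ⟨one_mem _, one_pow _⟩
      mul_mem' := fun {a b} ha hb => ⟨B0.mul_mem ha.1 hb.1, hmul a b ha.1 hb.1 ha.2 hb.2⟩
      inv_mem' := fun {a} ha => ⟨B0.inv_mem ha.1, by rw [inv_pow, ha.2, inv_one]⟩ }
  haveI hBn : B.Normal := by
    refine ⟨fun x hx g => ⟨⟨(inferInstance : R.Normal).conj_mem _ hx.1.1 g, fun y hy => ?_⟩, by
      rw [conj_pow, hx.2, mul_one, mul_inv_cancel]⟩⟩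
    have hy' : g⁻¹ * y * g ∈ R := (inferInstance : R.Normal).conj_mem' _ hy g
    have h := hUn.conj_mem _ (hx.1.2 _ hy') g
    have h1 : g * x * g⁻¹ * y * (g * x * g⁻¹)⁻¹ * y⁻¹ =
        g * (x * (g⁻¹ * y * g) * x⁻¹ * (g⁻¹ * y * g)⁻¹) * g⁻¹ := by group
    rw [h1]; exact h
  have hexpU : ∀ a ∈ U, a ^ r = 1 := fun a ha => by
    obtain ⟨i, rfl⟩ := ha
    rw [← zpow_natCast, ← zpow_mul, mul_comm, zpow_mul, zpow_natCast, ← hu, pow_orderOf_eq_one, one_zpow]
  have hUB : U ≤ B := by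
    rw [hU, Subgroup.zpowers_le]
    refine ⟨⟨huR, fun y hy => ?_⟩, hu ▸ pow_orderOf_eq_one u⟩
    rw [huc y hy]
    simp
  -- `B` is larger than `U`
  obtain ⟨x₀, hx₀B, hx₀U⟩ : ∃ x ∈ B, x ∉ U := by
    have hRp : IsPGroup r R := Cores.isPGroup_pCore r G
    obtain ⟨E₀, hE₀n, hE₀, hE₀c⟩ := PGroups.exists_normal_elemAb_sq hr2 hRp hnc
    haveI := hRp.isNilpotent
    haveI := hE₀n
    -- `[E₀, R]` is smaller, so central
    set L := ⁅E₀, (⊤ : Subgroup R)⁆ with hL
    have hLle : L ≤ E₀ := Subgroup.commutator_le_left E₀ ⊤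
    have hLne : L ≠ E₀ := by
      intro hLE
      obtain ⟨n, hn⟩ := Subgroup.nilpotent_iff_lowerCentralSeries.1 (inferInstance : Group.IsNilpotent R)
      have hall : ∀ m, E₀ ≤ Subgroup.lowerCentralSeries (⊤ : Subgroup R) m := by
        intro m
        induction m with
        | zero => simp
        | succ m ih =>
          rw [Subgroup.lowerCentralSeries_succ]
          exact le_trans (le_of_eq hLE.symm) (Subgroup.commutator_mono ih le_rfl)
      have h0 : E₀ = ⊥ := le_bot_iff.1 (hn ▸ hall n)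
      rw [h0, Subgroup.card_bot] at hE₀c
      exact absurd hE₀c (by
        have := Nat.one_lt_pow two_ne_zero (H.prime r hr).one_lt
        omega)
    have hLr : Nat.card L ≤ r := by
      have hd := Subgroup.card_dvd_of_le hLle
      rw [hE₀c, Nat.dvd_prime_pow (H.prime r hr)] at hd
      obtain ⟨i, hi, hLi⟩ := hd
      rcases Nat.lt_or_ge i 2 with h | h
      · rw [hLi]
        calc r ^ i ≤ r ^ 1 := Nat.pow_le_pow_right (H.prime r hr).pos (by omega)
          _ = r := pow_one r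
      · exact absurd (Subgroup.eq_of_le_of_card_ge hLle (by rw [hLi, hE₀c, show i = 2 by omega])) hLne
    haveI : L.Normal := inferInstance
    have hLU : ∀ l ∈ L, (l : G) ∈ U := by
      intro l hl
      by_cases hl1 : l = 1
      · rw [hl1]; exact U.one_mem
      have hLbot : L ≠ ⊥ := fun h => hl1 (by rwa [h, Subgroup.mem_bot] at hl)
      have hLcen : L ≤ Subgroup.center R := by
        have h1 := PSolvable.inf_center_ne_bot hLbot
        have hcardne : 1 < Nat.card (L ⊓ Subgroup.center R : Subgroup R) :=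
          (Subgroup.one_lt_card_iff_ne_bot _).2 h1
        have hd : Nat.card (L ⊓ Subgroup.center R : Subgroup R) ∣ r ^ 2 :=
          hE₀c ▸ Subgroup.card_dvd_of_le (inf_le_left.trans hLle)
        obtain ⟨i, -, hi⟩ := (Nat.dvd_prime_pow (H.prime r hr)).1 hd
        have hri : r ≤ Nat.card (L ⊓ Subgroup.center R : Subgroup R) := by
          rw [hi] at hcardne ⊢
          refine Nat.le_self_pow ?_ r
          rintro rfl
          simp at hcardne
        have heq := Subgroup.eq_of_le_of_card_ge (inf_le_left : L ⊓ Subgroup.center R ≤ L) (hLr.trans hri)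
        exact heq ▸ inf_le_right
      refine huU l l.2 ?_ fun y hy => (congrArg Subtype.val (Subgroup.mem_center_iff.1 (hLcen hl) ⟨y, hy⟩)).symm
      exact congrArg (Subtype.val : R → G) (hE₀.2 l (hLle hl))
    have hE₀B : ∀ e ∈ E₀, (e : G) ∈ B := fun e he => ⟨⟨e.2, fun y hy => by
      have h1 : ⁅e, (⟨y, hy⟩ : R)⁆ ∈ L := Subgroup.commutator_mem_commutator he (Subgroup.mem_top _)
      simpa [commutatorElement_def] using hLU _ h1⟩,
      congrArg (Subtype.val : R → G) (hE₀.2 e he)⟩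
    by_contra! hBU
    have hle : E₀.map R.subtype ≤ U := by
      rintro _ ⟨e, he, rfl⟩
      exact hBU _ (hE₀B e he)
    have h1 := Subgroup.card_le_of_le hle
    rw [Subgroup.card_map_of_injective R.subtype_injective, hE₀c, hU, Nat.card_zpowers, hu] at h1
    exact absurd h1 (not_le.2 (lt_self_pow₀ (H.prime r hr).one_lt one_lt_two))
  -- an element of `B` outside `U` centralised by an element of order `s`
  obtain ⟨E, hE, hEc⟩ := H.rank s hs
  have hEU : ∀ e ∈ E, e ∈ U → e = 1 := by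
    intro e he heU
    by_contra he1
    have h1 := orderOf_eq_of_mem_exp (H.prime s hs) hE.2 he he1
    rw [orderOf_eq_of_mem_exp (H.prime r hr) hexpU heU he1] at h1
    exact hrs h1
  set π := QuotientGroup.mk' U with hπ
  have hEq : IsElementaryAbelian s (E.map π) := ThompsonJ.isElementaryAbelian_map hE π
  have hEqc : s < Nat.card (E.map π) := by
    have hinj : Function.Injective (π.comp E.subtype) := by
      rw [← MonoidHom.ker_eq_bot_iff, eq_bot_iff]
      intro e he
      rw [MonoidHom.mem_ker, MonoidHom.comp_apply] at he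
      exact (Subgroup.mem_bot).2 (Subtype.ext (hEU e e.2 ((QuotientGroup.eq_one_iff _).1 he)))
    have h1 : E.map π = (π.comp E.subtype).range := by rw [MonoidHom.range_comp, Subgroup.range_subtype]
    rw [h1, ← Nat.card_congr (MonoidHom.ofInjective hinj).toEquiv, hEc]
    exact lt_self_pow₀ (H.prime s hs).one_lt one_lt_two
  have hBq : B.map π ≠ ⊥ := fun h => hx₀U ((QuotientGroup.eq_one_iff _).1
    ((Subgroup.mem_bot).1 (h ▸ ⟨x₀, hx₀B, rfl⟩ : π x₀ ∈ (⊥ : Subgroup (G ⧸ U)))))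
  haveI : (B.map π).Normal := Subgroup.Normal.map hBn π (QuotientGroup.mk'_surjective U)
  obtain ⟨_, ⟨e, he, rfl⟩, he1, _, ⟨x₁, hx₁, rfl⟩, hx₁1, hcomm⟩ := exists_centralizing (H.prime s hs)
    hEq hEqc hBq (by rw [Subgroup.normalizer_eq_top]; exact le_top)
  have he1' : e ≠ 1 := fun h => he1 (by rw [h, _root_.map_one])
  have heo := orderOf_eq_of_mem_exp (H.prime s hs) hE.2 he he1'
  obtain ⟨x, ⟨hxB, hxC⟩, hxU⟩ := CoprimeAction.exists_centralizer_mem_coset_of_le
    (A := Subgroup.zpowers e) (K := B) (N := U) (by rw [Subgroup.normalizer_eq_top]; exact le_top) hUB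
    (by rw [Nat.card_zpowers, Nat.card_zpowers, heo, hu]
        exact (Nat.coprime_primes (H.prime s hs) (H.prime r hr)).2 hrs.symm)
    (Or.inl (CoprimeAction.isSolvable_zpowers e)) hx₁ (fun a ha => by
      have hc' : π a * π x₁ = π x₁ * π a := by
        obtain ⟨i, rfl⟩ := ha
        show π (e ^ i) * π x₁ = π x₁ * π (e ^ i)
        rw [map_zpow]
        exact ((show Commute (π e) (π x₁) from hcomm.symm).zpow_left i).eq
      rw [← QuotientGroup.eq_one_iff]
      show π (x₁⁻¹ * (a * x₁ * a⁻¹)) = 1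
      rw [_root_.map_mul, _root_.map_mul, _root_.map_mul, map_inv, map_inv, hc']
      group)
  have hxe : x * e = e * x := (Subgroup.mem_centralizer_iff.1 hxC e (Subgroup.mem_zpowers e)).symm
  have hxnU : x ∉ U := fun h => hx₁1 ((QuotientGroup.eq_one_iff _).2 (by
    have := U.mul_mem h (U.inv_mem hxU)
    simpa [mul_assoc] using this))
  have hx1 : x ≠ 1 := fun h => hxnU (h ▸ U.one_mem)
  have hxr : orderOf x = r := orderOf_eq_prime hxB.2 hx1
  have hxf : Fpf ρ x := H.fpf_of_two hq hr hs hqr hqs hrs hxr hc heo (hRc x hxB.1.1) hxe (hcn e)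
  -- a conjugating element
  obtain ⟨y, hy, hyx⟩ : ∃ y ∈ R, x * y * x⁻¹ * y⁻¹ ≠ 1 := by
    by_contra! hall
    exact hxnU (huU x hxB.1.1 hxB.2 fun y hy => mul_inv_eq_iff_eq_mul.1 (mul_inv_eq_one.1 (hall y hy)))
  set d := x * y * x⁻¹ * y⁻¹ with hd
  have hdU : d ∈ U := hxB.1.2 y hy
  have hdgen : U = Subgroup.zpowers d :=
    (eq_of_mem_zpowers_prime (H.prime r hr) hu (orderOf_eq_of_mem_exp (H.prime r hr) hexpU hdU hyx) hdU).symm
  have hdR : ∀ z ∈ R, d * z = z * d := fun z hz => hUcomm d hdU z hz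
  have hconj : ∀ j : ℕ, (y ^ j)⁻¹ * x * y ^ j = d ^ j * x := by
    intro j
    induction j with
    | zero => simp
    | succ j ih =>
      have h1 : y⁻¹ * x * y = d * x := by
        have h2 : x * y = d * (y * x) := by rw [hd]; group
        rw [mul_assoc, h2, ← mul_assoc, ← (show Commute d y⁻¹ from hdR y⁻¹ (R.inv_mem hy)).eq,
          mul_assoc, inv_mul_cancel_left]
      calc (y ^ (j + 1))⁻¹ * x * y ^ (j + 1) = y⁻¹ * ((y ^ j)⁻¹ * x * y ^ j) * y := by
            rw [pow_succ]; group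
        _ = y⁻¹ * d ^ j * (x * y) := by rw [ih]; group
        _ = d ^ j * (y⁻¹ * x * y) := by
          rw [← ((show Commute d y⁻¹ from hdR y⁻¹ (R.inv_mem hy)).pow_left j).eq]; group
        _ = d ^ (j + 1) * x := by rw [h1, pow_succ]; group
  have hfconj : ∀ g a : G, Fpf ρ a → Fpf ρ (g * a * g⁻¹) := by
    intro g a ha v hv
    have h1 : ρ a (ρ g⁻¹ v) = ρ g⁻¹ v := by
      rw [← Module.End.mul_apply, ← _root_.map_mul, show a * g⁻¹ = g⁻¹ * (g * a * g⁻¹) by group,
        _root_.map_mul, Module.End.mul_apply, hv]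
    by_contra hv0
    exact rho_ne_zero g⁻¹ hv0 (ha _ h1)
  -- the noncyclic group generated by `d` and `x`
  have hd' : orderOf d = r := orderOf_eq_of_mem_exp (H.prime r hr) hexpU hdU hyx
  have hxd : x ∉ Subgroup.zpowers d := hdgen ▸ hxnU
  obtain ⟨hD, hDc⟩ := exists_elemAb_two (H.prime r hr) hd' hxr (hdR x hxB.1.1) hxd
  haveI := hD.1
  haveI := H.nontrivial
  obtain ⟨a, ha, ha1, v, -, hv0, hav⟩ := exists_fixed_of_noncyclic (ρ := ρ)
    (fun a ha b hb => congrArg Subtype.val (mul_comm'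
      (⟨a, ha⟩ : (Subgroup.zpowers d ⊔ Subgroup.zpowers x : Subgroup G)) ⟨b, hb⟩))
    (H.prime r hr) hD.2 hDc (⊤ : Submodule k V) top_ne_bot (fun _ _ _ _ => Submodule.mem_top)
  rw [← hdgen] at ha
  rw [SetLike.mem_coe.symm.trans Iff.rfl] at ha
  obtain ⟨z, hz, t, ht, rfl⟩ := Subgroup.mem_sup_of_normal_left.1 ha
  obtain ⟨i, rfl⟩ : ∃ i, x ^ i = t := (isOfFinOrder_of_finite x).mem_powers_iff_mem_zpowers.2 ht
  have hfix_pow : ∀ {g : G} {w : V}, ρ g w = w → ∀ m : ℕ, ρ (g ^ m) w = w := fun {g w} hg m => by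
    induction m with
    | zero => simp
    | succ m ih => rw [pow_succ, _root_.map_mul, Module.End.mul_apply, hg, ih]
  by_cases hi : x ^ i = 1
  · -- `a` is a power of `u`
    rw [hi, mul_one] at hav ha1
    have hzo := orderOf_eq_of_mem_exp (H.prime r hr) hexpU hz ha1
    have huz : u ∈ Subgroup.zpowers z := by
      rw [eq_of_mem_zpowers_prime (H.prime r hr) hu hzo hz]; exact Subgroup.mem_zpowers u
    obtain ⟨m, hm⟩ : ∃ m, z ^ m = u := (isOfFinOrder_of_finite z).mem_powers_iff_mem_zpowers.2 huz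
    exact hv0 (hsq.2 v (hm ▸ hfix_pow hav m))
  · -- a power of `a` is conjugate to `x`
    obtain ⟨m, hm⟩ := exists_pow_eq_self_of_coprime (x := x) (n := i) (by
      rw [hxr, Nat.coprime_comm]
      refine (H.prime r hr).coprime_iff_not_dvd.2 fun hd2 => hi ?_
      exact orderOf_dvd_iff_pow_eq_one.1 (hxr.symm ▸ hd2))
    have hzm : (z * x ^ i) ^ m = z ^ m * x := by
      rw [(show Commute z (x ^ i) from hUcomm z hz _ (R.pow_mem hxB.1.1 i)).mul_pow, hm]
    obtain ⟨j, hj⟩ : ∃ j, d ^ j = z ^ m :=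
      (isOfFinOrder_of_finite d).mem_powers_iff_mem_zpowers.2 (hdgen ▸ U.pow_mem hz m)
    have h1 : Fpf ρ (z ^ m * x) := by
      rw [← hj, ← hconj j]
      have := hfconj (y ^ j)⁻¹ x hxf
      rwa [inv_inv] at this
    exact hv0 (h1 v (hzm ▸ hfix_pow hav m))

/-- Two cyclic cores: impossible. -/
theorem false_of_cyclic {q r s : ℕ} (hq : q ∈ σ) (hr : r ∈ σ) (hs : s ∈ σ) (hqr : q < r)
    (hqs : q ≠ s) (hrs : r ≠ s) (hcq : pCore q G ≠ ⊥) (hcr : pCore r G ≠ ⊥)
    (hQ : IsCyclic (pCore q G)) (hR : IsCyclic (pCore r G)) : False := by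
  classical
  haveI := Fact.mk (H.prime r hr)
  haveI := Fact.mk (H.prime q hq)
  haveI := Fact.mk (H.prime s hs)
  obtain ⟨u, hu, huR, -, hun, -⟩ := exists_rankOne H hr hcr
  obtain ⟨c, hc, hcQ, -, hcn, hcU⟩ := exists_rankOne H hq hcq
  have hcs : pCore s G = ⊥ := by
    by_contra hne
    obtain ⟨d, hd, hdS, -⟩ := exists_rankOne H hs hne
    exact H.triple r hr q hq s hs hqr.ne' hqs hrs u c d hu hc hd (Cores.commute_pCore_of_ne hqr.ne' huR hcQ)
      (Cores.commute_pCore_of_ne hrs huR hdS) (Cores.commute_pCore_of_ne hqs hcQ hdS)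
  have hq2 := H.rankOne_ne_two hq hc hcn
  -- an element of order `r` outside `O_r`
  obtain ⟨E, hE, hEc⟩ := H.rank r hr
  obtain ⟨e, he, heR⟩ : ∃ e ∈ E, e ∉ pCore r G := by
    by_contra! hall
    have hinj : Function.Injective (Subgroup.inclusion (fun x hx => hall x hx : E ≤ pCore r G)) :=
      Subgroup.inclusion_injective _
    haveI := hR
    haveI : IsCyclic E := isCyclic_of_injective _ hinj
    obtain ⟨g, hg⟩ := IsCyclic.exists_generator (α := E)
    have h1 : Nat.card E = orderOf g := (orderOf_eq_card_of_forall_mem_zpowers hg).symm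
    have h2 : orderOf g ≤ r :=
      Nat.le_of_dvd (H.prime r hr).pos (orderOf_dvd_of_pow_eq_one (Subtype.ext (hE.2 _ g.2)))
    rw [hEc] at h1
    exact absurd (h1 ▸ h2) (not_le.2 (lt_self_pow₀ (H.prime r hr).one_lt one_lt_two))
  have he1 : e ≠ 1 := fun h => heR (h ▸ one_mem _)
  have heo := orderOf_eq_of_mem_exp (H.prime r hr) hE.2 he he1
  have hec : e * c = c * e := by
    by_contra hne
    have h1 := Nat.le_of_dvd (by have := (H.prime q hq).two_le; omega)
      (dvd_sub_one_of_normalize (H.prime q hq) (H.prime r hr) hc (hE.2 e he) (hcn e) hne)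
    omega
  -- `e` centralises `O_q`
  set φ : MulAut (pCore q G) := MulAut.conjNormal e with hφdef
  have hφ1 : φ = 1 := by
    refine PGroups.eq_one_of_fixed_omega hq2 (Cores.isPGroup_pCore q G) φ ?_ (fun y hy => ?_)
    · refine Nat.Coprime.coprime_dvd_left (orderOf_map_dvd MulAut.conjNormal e) ?_
      rw [heo]
      exact (Nat.coprime_primes (H.prime r hr) (H.prime q hq)).2 hqr.ne'
    · apply Subtype.ext
      rw [hφdef, MulAut.conjNormal_apply]
      have hy' : (y : G) ∈ Subgroup.zpowers c := by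
        haveI := hQ
        letI := IsCyclic.commGroup (α := pCore q G)
        exact hcU y y.2 (congrArg Subtype.val hy) fun z hz =>
          congrArg Subtype.val (mul_comm y (⟨z, hz⟩ : pCore q G))
      rw [mul_inv_eq_iff_eq_mul]
      exact (commute_of_mem_zpowers hy' hec.symm).symm
  have heQ : ∀ y ∈ pCore q G, e * y = y * e := fun y hy => by
    have h1 := congrArg Subtype.val (DFunLike.congr_fun hφ1 (⟨y, hy⟩ : pCore q G))
    rw [hφdef, MulAut.conjNormal_apply, MulAut.one_apply] at h1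
    exact mul_inv_eq_iff_eq_mul.1 h1
  -- the Fitting subgroup
  have hF : fittingSubgroup G ≤ pCore r G ⊔ pCore q G := by
    rw [Cores.fittingSubgroup_eq_iSup_pCore]
    refine iSup_le fun t => ?_
    obtain ⟨t, ht⟩ := t
    rw [Nat.mem_primeFactors] at ht
    rcases H.mem_three hq hr hs hqr.ne hqs hrs (H.mem t ht.1 ht.2.1) with rfl | rfl | rfl
    · exact le_sup_right
    · exact le_sup_left
    · rw [hcs]; exact bot_le
  have hcomF : ∀ g : G, g * e * g⁻¹ * e⁻¹ ∈ pCore r G ⊔ pCore q G := by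
    intro g
    refine hF (Cores.centralizer_fittingSubgroup_le ?_)
    have hcen : g * e * g⁻¹ * e⁻¹ ∈
        Subgroup.centralizer ((pCore r G ⊔ pCore q G : Subgroup G) : Set G) := by
      rw [Subgroup.mem_centralizer_iff]
      intro x hx
      refine (Subgroup.mem_centralizer_singleton_iff.1 ((sup_le ?_ ?_ : pCore r G ⊔ pCore q G ≤
        Subgroup.centralizer ({g * e * g⁻¹ * e⁻¹} : Set G)) hx))
      all_goals
        intro y hy
        rw [Subgroup.mem_centralizer_singleton_iff]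
        symm
        have hcyc : ∀ (N : Subgroup G) [N.Normal], IsCyclic N → y ∈ N →
            g * e * g⁻¹ * e⁻¹ * y = y * (g * e * g⁻¹ * e⁻¹) := by
          intro N _ hN hyN
          obtain ⟨⟨n0, hn0⟩, hgen⟩ := hN.exists_generator
          have hpow : ∀ a : G, ∃ i : ℤ, ∀ z ∈ N, a * z * a⁻¹ = z ^ i := by
            intro a
            obtain ⟨i, hi⟩ := Subgroup.mem_zpowers_iff.1
              (hgen ⟨a * n0 * a⁻¹, (inferInstance : N.Normal).conj_mem _ hn0 a⟩)
            refine ⟨i, fun z hz => ?_⟩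
            obtain ⟨j, hj⟩ := Subgroup.mem_zpowers_iff.1 (hgen ⟨z, hz⟩)
            have hz' : z = n0 ^ j := by simpa using (congrArg (Subtype.val : N → G) hj).symm
            have hi' : a * n0 * a⁻¹ = n0 ^ i := by simpa using (congrArg (Subtype.val : N → G) hi).symm
            rw [hz', ← conj_zpow, hi', ← zpow_mul, ← zpow_mul, mul_comm]
          obtain ⟨i, hi⟩ := hpow g
          obtain ⟨j, hj⟩ := hpow e
          have hcomm2 : ∀ z ∈ N, g * e * z * (g * e)⁻¹ = e * g * z * (e * g)⁻¹ := by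
            intro z hz
            calc g * e * z * (g * e)⁻¹ = g * (e * z * e⁻¹) * g⁻¹ := by group
              _ = (z ^ j) ^ i := by rw [hj z hz, hi _ (N.zpow_mem hz j)]
              _ = (z ^ i) ^ j := by rw [← zpow_mul, ← zpow_mul, mul_comm]
              _ = e * (g * z * g⁻¹) * e⁻¹ := by rw [hi z hz, hj _ (N.zpow_mem hz i)]
              _ = e * g * z * (e * g)⁻¹ := by group
          have hz' : (e * g)⁻¹ * y * (e * g) ∈ N := (inferInstance : N.Normal).conj_mem' _ hyN _
          have h1 := hcomm2 _ hz'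
          rw [show e * g * ((e * g)⁻¹ * y * (e * g)) * (e * g)⁻¹ = y by group] at h1
          conv_rhs => rw [← h1]
          group
      · exact hcyc (pCore r G) hR hy
      · exact hcyc (pCore q G) hQ hy
    refine Subgroup.mem_centralizer_iff.2 fun x hx => Subgroup.mem_centralizer_iff.1 hcen x (hF hx)
  -- `e` lies in a normal `r`-subgroup
  set M := pCore r G ⊔ Subgroup.zpowers e with hM
  have hMp : IsPGroup r M := (Cores.isPGroup_pCore r G).to_sup_of_normal_left
    (IsPGroup.of_card (n := 1) (by rw [Nat.card_zpowers, heo, pow_one]))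
  have hconjM : ∀ g : G, g * e * g⁻¹ ∈ M := by
    intro g
    obtain ⟨fr, hfr, fq, hfq, hf⟩ := Subgroup.mem_sup_of_normal_left.1 (hcomF g)
    have hge : g * e * g⁻¹ = fr * e * fq := by
      calc g * e * g⁻¹ = (g * e * g⁻¹ * e⁻¹) * e := by group
        _ = fr * (fq * e) := by rw [← hf]; group
        _ = fr * e * fq := by rw [← heQ fq hfq]; group
    have hM' : fr * e ∈ M :=
      M.mul_mem (Subgroup.mem_sup_left hfr) (Subgroup.mem_sup_right (Subgroup.mem_zpowers e))
    have hcm : Commute (fr * e) fq :=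
      (Commute.mul_left (Cores.commute_pCore_of_ne hqr.ne' hfr hfq) (heQ fq hfq))
    obtain ⟨n, hn⟩ := hMp ⟨_, hM'⟩
    have hn' : (fr * e) ^ r ^ n = 1 := congrArg Subtype.val hn
    obtain ⟨m, hm⟩ := Cores.isPGroup_pCore q G ⟨fq, hfq⟩
    have hm' : fq ^ q ^ m = 1 := congrArg Subtype.val hm
    have h1 : (g * e * g⁻¹) ^ (r ^ (n + 1)) = 1 := by
      rw [conj_pow, pow_succ', pow_mul, hE.2 e he, one_pow, mul_one, mul_inv_cancel]
    rw [hge, hcm.mul_pow, pow_succ r n, pow_mul (fr * e), hn', one_pow, one_mul] at h1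
    have hfq1 : fq = 1 := by
      have hco : (r ^ (n + 1)).gcd (q ^ m) = 1 := Nat.Coprime.pow (n + 1) m
        ((Nat.coprime_primes (H.prime r hr) (H.prime q hq)).2 hqr.ne')
      rw [← pow_one fq, ← hco]
      exact pow_gcd_eq_one.2 ⟨by rw [pow_succ]; exact h1, hm'⟩
    rw [hge, hfq1, mul_one]
    exact hM'
  have hnc : Subgroup.normalClosure ({e} : Set G) ≤ M := by
    rw [Subgroup.normalClosure, Subgroup.closure_le]
    intro x hx
    obtain ⟨a, ha, hax⟩ := Group.mem_conjugatesOfSet_iff.1 hx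
    rw [Set.mem_singleton_iff] at ha
    subst ha
    obtain ⟨g, rfl⟩ := isConj_iff.1 hax
    exact hconjM g
  exact heR (Cores.le_pCore (hMp.to_le hnc) (Subgroup.subset_normalClosure rfl))

/-- **Three primes, one module: impossible.** -/
theorem not_exists : False := by
  classical
  haveI : Nontrivial G := by
    obtain ⟨p, hp⟩ : σ.Nonempty := Finset.card_pos.1 (by rw [H.card]; norm_num)
    obtain ⟨E, -, hEc⟩ := H.rank p hp
    by_contra hG
    rw [not_nontrivial_iff_subsingleton] at hG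
    haveI := hG
    have h1 : Nat.card E = 1 := Nat.card_of_subsingleton 1
    rw [hEc] at h1
    exact absurd h1 (Nat.one_lt_pow two_ne_zero (H.prime p hp).one_lt).ne'
  obtain ⟨r, hr, hcr⟩ := Hall.exists_pCore_ne_bot (G := G)
  have hrσ : r ∈ σ := by
    refine H.mem r hr ?_
    haveI := Fact.mk hr
    obtain ⟨u, hu⟩ := Subgroup.ne_bot_iff_exists_ne_one.1 (omegaCenter_ne_bot hcr)
    rw [← orderOf_eq_of_mem_exp hr (isElementaryAbelian_omegaCenter r).2 u.2 (fun h => hu (Subtype.ext h))]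
    exact orderOf_dvd_natCard _
  obtain ⟨q, hq, hqr, hcq⟩ := H.exists_second hrσ hcr
  obtain ⟨s, hs, hsr, hsq⟩ : ∃ s ∈ σ, s ≠ r ∧ s ≠ q := by
    obtain ⟨a, ha, b, hb, har, hrb, hab⟩ := H.exists_others hrσ
    by_cases haq : a = q
    · exact ⟨b, hb, hrb.symm, fun h => hab (haq.trans h.symm)⟩
    · exact ⟨a, ha, har, haq⟩
  by_cases hR : IsCyclic (pCore r G)
  · by_cases hQ : IsCyclic (pCore q G)
    · rcases lt_or_gt_of_ne hqr with h | h
      · exact H.false_of_cyclic hq hrσ hs h hsq.symm hsr.symm hcq hcr hQ hR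
      · exact H.false_of_cyclic hrσ hq hs h hsr.symm hsq.symm hcr hcq hR hQ
    · exact H.false_of_noncyclic hrσ hq hs hqr.symm hsr.symm hsq.symm hcr hcq hQ
  · exact H.false_of_noncyclic hq hrσ hs hqr hsq.symm hsr.symm hcq hcr hR

end NoTriple

end CfsgLib.MetacyclicP
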