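import Mathlib
import Cfsg.Agent.Lib.MetacyclicP.NoTripleTools
import Cfsg.Agent.Lib.CoprimeAction.Basic
import Cfsg.Agent.Lib.PSolvable.FrattiniFacts

/-!
A soluble group of two primes acting on two modules: commuting elements of different orders have no common
fixed vector, elements of prime order do not fix vectors in both, both Sylow subgroups noncyclic:
contradiction.
-/

set_option autoImplicit false
set_option linter.style.haveILetI false

open Module

namespace CfsgLib.MetacyclicP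

open Cfsg

/-- The standing hypotheses for two modules. -/
structure NoTriplePair {G : Type*} [Group G] [Finite G] {k₁ : Type*} [Field k₁] {V₁ : Type*}
    [AddCommGroup V₁] [Module k₁ V₁] {k₂ : Type*} [Field k₂] {V₂ : Type*} [AddCommGroup V₂] [Module k₂ V₂]
    (ρ₁ : G →* Module.End k₁ V₁) (ρ₂ : G →* Module.End k₂ V₂) (r s : ℕ) : Prop where
  hr : r.Prime
  hs : s.Prime
  hrs : r ≠ s
  mem : ∀ p, p.Prime → p ∣ Nat.card G → p = r ∨ p = s
  ne_r₁ : (r : k₁) ≠ 0
  ne_s₁ : (s : k₁) ≠ 0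
  ne_r₂ : (r : k₂) ≠ 0
  ne_s₂ : (s : k₂) ≠ 0
  nt₁ : Nontrivial V₁
  nt₂ : Nontrivial V₂
  pair₁ : ∀ a b : G, orderOf a = r → orderOf b = s → a * b = b * a → ∀ x, ρ₁ a x = x → ρ₁ b x = x → x = 0
  pair₂ : ∀ a b : G, orderOf a = r → orderOf b = s → a * b = b * a → ∀ x, ρ₂ a x = x → ρ₂ b x = x → x = 0
  single : ∀ g : G, orderOf g = r ∨ orderOf g = s → ∀ x y, ρ₁ g x = x → ρ₂ g y = y → x = 0 ∨ y = 0
  rank_r : ∃ E : Subgroup G, IsElementaryAbelian r E ∧ Nat.card E = r ^ 2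
  rank_s : ∃ E : Subgroup G, IsElementaryAbelian s E ∧ Nat.card E = s ^ 2

variable {G : Type*} [Group G] [Finite G]
  {k₁ : Type*} [Field k₁] [IsAlgClosed k₁] {V₁ : Type*} [AddCommGroup V₁] [Module k₁ V₁]
  [FiniteDimensional k₁ V₁]
  {k₂ : Type*} [Field k₂] [IsAlgClosed k₂] {V₂ : Type*} [AddCommGroup V₂] [Module k₂ V₂]
  [FiniteDimensional k₂ V₂]
  {ρ₁ : G →* Module.End k₁ V₁} {ρ₂ : G →* Module.End k₂ V₂} {r s : ℕ}

namespace NoTriplePair

variable (H : NoTriplePair ρ₁ ρ₂ r s)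
include H

theorem swap : NoTriplePair ρ₂ ρ₁ r s :=
  ⟨H.hr, H.hs, H.hrs, H.mem, H.ne_r₂, H.ne_s₂, H.ne_r₁, H.ne_s₁, H.nt₂, H.nt₁, H.pair₂, H.pair₁,
    fun g hg x y hx hy => (H.single g hg y x hy hx).symm, H.rank_r, H.rank_s⟩

theorem swapPrimes : NoTriplePair ρ₁ ρ₂ s r :=
  ⟨H.hs, H.hr, H.hrs.symm, fun p hp hd => (H.mem p hp hd).symm, H.ne_s₁, H.ne_r₁, H.ne_s₂, H.ne_r₂,
    H.nt₁, H.nt₂, fun a b ha hb hab x hax hbx => H.pair₁ b a hb ha hab.symm x hbx hax,
    fun a b ha hb hab x hax hbx => H.pair₂ b a hb ha hab.symm x hbx hax,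
    fun g hg => H.single g hg.symm, H.rank_s, H.rank_r⟩

theorem eq_one_of_trivial {g : G} (h₁ : ρ₁ g = 1) (h₂ : ρ₂ g = 1) : g = 1 := by
  by_contra hne
  have ho : orderOf g ≠ 1 := fun h => hne (orderOf_eq_one_iff.1 h)
  obtain ⟨p, hp, hpd⟩ := Nat.exists_prime_and_dvd ho
  have hord : orderOf (g ^ (orderOf g / p)) = p := orderOf_pow_orderOf_div (orderOf_pos g).ne' hpd
  have hpm := H.mem p hp (hpd.trans (orderOf_dvd_natCard g))
  haveI := H.nt₁
  haveI := H.nt₂
  obtain ⟨x, hx⟩ := exists_ne (0 : V₁)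
  obtain ⟨y, hy⟩ := exists_ne (0 : V₂)
  rcases H.single (g ^ (orderOf g / p)) (by rcases hpm with rfl | rfl; exacts [Or.inl hord, Or.inr hord]) x y
    (by rw [map_pow, h₁, one_pow, Module.End.one_apply])
    (by rw [map_pow, h₂, one_pow, Module.End.one_apply]) with h | h
  exacts [hx h, hy h]

theorem exists_typed {E : Subgroup G} {t : ℕ} (ht : t.Prime) (hE : IsElementaryAbelian t E)
    (hEc : t < Nat.card E) : ∃ g ∈ E, orderOf g = t ∧ ∃ x, x ≠ 0 ∧ ρ₁ g x = x := by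
  haveI := hE.1
  haveI := H.nt₁
  obtain ⟨e, he, he1, x, -, hx0, hx⟩ := exists_fixed_of_noncyclic (ρ := ρ₁)
    (fun a ha b hb => congrArg Subtype.val (mul_comm' (⟨a, ha⟩ : E) ⟨b, hb⟩)) ht hE.2 hEc
    (⊤ : Submodule k₁ V₁) top_ne_bot (fun _ _ _ _ => Submodule.mem_top)
  exact ⟨e, he, orderOf_eq_of_mem_exp ht hE.2 he he1, x, hx0, hx⟩

theorem typed_of_moves {B : Subgroup G} [B.Normal] (hB : IsElementaryAbelian r B) {g a : G}
    (hg : orderOf g = s) (ha : a ∈ B) (hne : ρ₁ (g * a * g⁻¹ * a⁻¹) ≠ 1) : ∃ x, x ≠ 0 ∧ ρ₁ g x = x := by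
  haveI := hB.1
  have hBc : ∀ a ∈ B, ∀ b ∈ B, a * b = b * a := fun a ha b hb =>
    congrArg Subtype.val (mul_comm' (⟨a, ha⟩ : B) ⟨b, hb⟩)
  have hga : g * a * g⁻¹ ∈ B := (inferInstance : B.Normal).conj_mem a ha g
  have hbB : g * a * g⁻¹ * a⁻¹ ∈ B := B.mul_mem hga (B.inv_mem ha)
  have hb1 : g * a * g⁻¹ * a⁻¹ ≠ 1 := fun h => hne (by rw [h, _root_.map_one])
  have hord : (orderOf (g * a * g⁻¹ * a⁻¹) : k₁) ≠ 0 := by
    rw [orderOf_eq_of_mem_exp H.hr hB.2 hbB hb1]; exact H.ne_r₁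
  obtain ⟨x, -, χ, hχ, hχb⟩ := exists_eigen_ne hBc (⊤ : Submodule k₁ V₁)
    (fun _ _ _ _ => Submodule.mem_top) hbB hord (by
      by_contra! h
      exact hne (LinearMap.ext fun x => h x Submodule.mem_top))
  obtain ⟨y, -, hy0, hy, -⟩ := exists_fixed_of_moved H.hs hg
    (by rw [Subgroup.normalizer_eq_top]; exact Subgroup.mem_top g : g ∈ Subgroup.normalizer (B : Set G))
    (W := (⊤ : Submodule k₁ V₁)) (fun _ _ => Submodule.mem_top) Submodule.mem_top hχ ⟨a, ha, fun h => hχb (by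
      rw [hχ.map_mul hga (B.inv_mem ha), h, ← hχ.map_mul ha (B.inv_mem ha), mul_inv_cancel, hχ.map_one])⟩
  exact ⟨y, hy0, hy⟩

theorem not_moves {B : Subgroup G} [B.Normal] (hB : IsElementaryAbelian r B) {g a : G}
    (hg : orderOf g = s) (ha : a ∈ B) (hne : ρ₁ (g * a * g⁻¹ * a⁻¹) ≠ 1) : False := by
  obtain ⟨x, hx0, hgx⟩ := H.typed_of_moves hB hg ha hne
  have h2 : ∀ b ∈ B, ρ₂ (g * b * g⁻¹ * b⁻¹) = 1 := fun b hb => by
    by_contra h
    obtain ⟨y, hy0, hgy⟩ := H.swap.typed_of_moves hB hg hb h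
    exact (H.single g (Or.inr hg) x y hgx hgy).elim hx0 hy0
  have hB1 : ∀ b ∈ B, ρ₁ b = 1 → b = 1 := by
    intro b hb hb1
    by_contra hbne
    have hbi : ρ₁ b⁻¹ = 1 := by
      have h := _root_.map_mul ρ₁ b b⁻¹
      rw [mul_inv_cancel, _root_.map_one, hb1, one_mul] at h
      exact h.symm
    have h1 : ρ₁ (g * b * g⁻¹ * b⁻¹) = 1 := by
      rw [_root_.map_mul, _root_.map_mul, _root_.map_mul, hb1, hbi, mul_one, mul_one, ← _root_.map_mul,
        mul_inv_cancel, _root_.map_one]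
    have hcom : g * b = b * g :=
      mul_inv_eq_iff_eq_mul.1 (mul_inv_eq_one.1 (H.eq_one_of_trivial h1 (h2 b hb)))
    exact hx0 (H.pair₁ b g (orderOf_eq_of_mem_exp H.hr hB.2 hb hbne) hg hcom.symm x
      (by rw [hb1, Module.End.one_apply]) hgx)
  obtain ⟨E, hE, hEc⟩ := H.rank_s
  obtain ⟨g', -, hg', y, hy0, hgy⟩ := H.swap.exists_typed H.hs hE
    (by rw [hEc]; exact lt_self_pow₀ H.hs.one_lt one_lt_two)
  have hg'B : ∀ b ∈ B, g' * b = b * g' := by
    intro b hb
    by_contra hb'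
    have hmem : g' * b * g'⁻¹ * b⁻¹ ∈ B :=
      B.mul_mem ((inferInstance : B.Normal).conj_mem b hb g') (B.inv_mem hb)
    have hb1 : ρ₁ (g' * b * g'⁻¹ * b⁻¹) ≠ 1 := fun h =>
      hb' (mul_inv_eq_iff_eq_mul.1 (mul_inv_eq_one.1 (hB1 _ hmem h)))
    obtain ⟨x', hx'0, hgx'⟩ := H.typed_of_moves hB hg' hb hb1
    exact (H.single g' (Or.inr hg') x' y hgx' hgy).elim hx'0 hy0
  have hbB : g * a * g⁻¹ * a⁻¹ ∈ B :=
    B.mul_mem ((inferInstance : B.Normal).conj_mem a ha g) (B.inv_mem ha)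
  exact hy0 (H.pair₂ _ g' (orderOf_eq_of_mem_exp H.hr hB.2 hbB (fun h => hne (by rw [h, _root_.map_one]))) hg'
    (hg'B _ hbB).symm y (by rw [h2 a ha, Module.End.one_apply]) hgy)

theorem centralizes_abelian {B : Subgroup G} [B.Normal] (hB : IsElementaryAbelian r B) {g : G}
    (hg : orderOf g = s) : ∀ a ∈ B, g * a = a * g := by
  intro a ha
  refine mul_inv_eq_iff_eq_mul.1 (mul_inv_eq_one.1 (H.eq_one_of_trivial ?_ ?_))
  · by_contra h
    exact H.not_moves hB hg ha h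
  · by_contra h
    exact H.swap.not_moves hB hg ha h

theorem abelian_small {B : Subgroup G} [B.Normal] (hB : IsElementaryAbelian r B) : Nat.card B ≤ r := by
  by_contra hlt
  rw [not_le] at hlt
  obtain ⟨E, hE, hEc⟩ := H.rank_s
  obtain ⟨e, -, he, x, hx0, hex⟩ := H.exists_typed H.hs hE (by rw [hEc]; exact lt_self_pow₀ H.hs.one_lt one_lt_two)
  have hcomm := H.centralizes_abelian hB he
  haveI := hB.1
  obtain ⟨a, ha, ha1, y, hy, hy0, hay⟩ := exists_fixed_of_noncyclic (ρ := ρ₁)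
    (fun a ha b hb => congrArg Subtype.val (mul_comm' (⟨a, ha⟩ : B) ⟨b, hb⟩)) H.hr hB.2 hlt
    (fixedSpace ρ₁ e) (fun h => hx0 ((Submodule.mem_bot k₁).1 (h ▸ mem_fixedSpace.2 hex)))
    (fun a ha z hz => fixedSpace_invariant_of_commute (hcomm a ha) hz)
  exact hy0 (H.pair₁ a e (orderOf_eq_of_mem_exp H.hr hB.2 ha ha1) he (hcomm a ha).symm y hay
    (mem_fixedSpace.1 hy))

/-- The central element of `O_r` and the absence of fixed vectors. -/
theorem exists_rankOne (hcore : pCore r G ≠ ⊥) :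
    ∃ u : G, orderOf u = r ∧ u ∈ pCore r G ∧ (∀ g, g * u * g⁻¹ ∈ Subgroup.zpowers u) ∧
      (∀ x, ρ₁ u x = x → x = 0) ∧ (∀ x, ρ₂ u x = x → x = 0) ∧
      ∀ x ∈ pCore r G, x ^ r = 1 → (∀ y ∈ pCore r G, x * y = y * x) → x ∈ Subgroup.zpowers u := by
  haveI := Fact.mk H.hr
  set A := omegaCenter r G with hA
  have hAe := isElementaryAbelian_omegaCenter (G := G) r
  obtain ⟨⟨u, hu⟩, hu1⟩ := Subgroup.ne_bot_iff_exists_ne_one.1 (omegaCenter_ne_bot hcore)
  have hur : orderOf u = r := orderOf_eq_prime hu.2.1 fun h => hu1 (Subtype.ext h)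
  have hAeq : Subgroup.zpowers u = A := Subgroup.eq_of_le_of_card_ge (Subgroup.zpowers_le.2 hu)
    (by rw [Nat.card_zpowers, hur]; exact H.abelian_small hAe)
  obtain ⟨E, hE, hEc⟩ := H.rank_s
  have hcomm : ∀ e ∈ E, u * e = e * u := fun e he => by
    by_cases he1 : e = 1
    · rw [he1, mul_one, one_mul]
    · exact (H.centralizes_abelian hAe (orderOf_eq_of_mem_exp H.hs hE.2 he he1) u hu).symm
  haveI := hE.1
  have hEab : ∀ a ∈ E, ∀ b ∈ E, a * b = b * a := fun a ha b hb =>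
    congrArg Subtype.val (mul_comm' (⟨a, ha⟩ : E) ⟨b, hb⟩)
  have hEc' : s < Nat.card E := by rw [hEc]; exact lt_self_pow₀ H.hs.one_lt one_lt_two
  refine ⟨u, hur, hu.1, fun g => hAeq ▸ (omegaCenter_normal r).conj_mem u hu g, fun x hx => ?_, fun x hx => ?_,
    fun x hx hxr hxc => hAeq ▸ ⟨hx, hxr, hxc⟩⟩
  · by_contra hx0
    obtain ⟨e, he, he1, y, hy, hy0, hey⟩ := exists_fixed_of_noncyclic (ρ := ρ₁) hEab H.hs hE.2 hEc'
      (fixedSpace ρ₁ u) (fun h => hx0 ((Submodule.mem_bot k₁).1 (h ▸ mem_fixedSpace.2 hx)))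
      (fun e he z hz => fixedSpace_invariant_of_commute (hcomm e he) hz)
    exact hy0 (H.pair₁ u e hur (orderOf_eq_of_mem_exp H.hs hE.2 he he1) (hcomm e he) y
      (mem_fixedSpace.1 hy) hey)
  · by_contra hx0
    obtain ⟨e, he, he1, y, hy, hy0, hey⟩ := exists_fixed_of_noncyclic (ρ := ρ₂) hEab H.hs hE.2 hEc'
      (fixedSpace ρ₂ u) (fun h => hx0 ((Submodule.mem_bot k₂).1 (h ▸ mem_fixedSpace.2 hx)))
      (fun e he z hz => fixedSpace_invariant_of_commute (hcomm e he) hz)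
    exact hy0 (H.pair₂ u e hur (orderOf_eq_of_mem_exp H.hs hE.2 he he1) (hcomm e he) y
      (mem_fixedSpace.1 hy) hey)

theorem ne_two (hcore : pCore r G ≠ ⊥) : r ≠ 2 := by
  intro hr2
  obtain ⟨u, hu, -, hn, hf₁, hf₂, -⟩ := H.exists_rankOne hcore
  haveI := H.nt₁
  haveI := H.nt₂
  have hu2 : u * u = 1 := by rw [← pow_two, ← hr2, ← hu, pow_orderOf_eq_one]
  have hneg₁ : ∀ x, ρ₁ u x = -x := fun x => eq_neg_of_add_eq_zero_left (hf₁ _ (by
    rw [map_add, ← Module.End.mul_apply, ← _root_.map_mul, hu2, _root_.map_one, Module.End.one_apply, add_comm]))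
  have hneg₂ : ∀ x, ρ₂ u x = -x := fun x => eq_neg_of_add_eq_zero_left (hf₂ _ (by
    rw [map_add, ← Module.End.mul_apply, ← _root_.map_mul, hu2, _root_.map_one, Module.End.one_apply, add_comm]))
  obtain ⟨E, hE, hEc⟩ := H.rank_r
  obtain ⟨i, -, hi, x, hx0, hix⟩ := H.exists_typed H.hr hE (by rw [hEc]; exact lt_self_pow₀ H.hr.one_lt one_lt_two)
  have hi2 : i * i = 1 := by rw [← pow_two, ← hr2, ← hi, pow_orderOf_eq_one]
  have hi₂ : ∀ y, ρ₂ i y = -y := fun y => eq_neg_of_add_eq_zero_left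
    ((H.single i (Or.inl hi) x (ρ₂ i y + y) hix (by
      rw [map_add, ← Module.End.mul_apply, ← _root_.map_mul, hi2, _root_.map_one, Module.End.one_apply,
        add_comm])).resolve_left hx0)
  set j := u * i with hj
  have hj₂ : ∀ y, ρ₂ j y = y := fun y => by rw [hj, _root_.map_mul, Module.End.mul_apply, hi₂, map_neg, hneg₂, neg_neg]
  have hj1 : j ≠ 1 := fun h => by
    have h1 : i = u := by rw [← one_mul i, ← hu2, mul_assoc, ← hj, h, mul_one]
    exact hx0 (hf₁ x (h1 ▸ hix))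
  have hucen : ∀ g, g * u = u * g := by
    intro g
    obtain ⟨m, hm⟩ : ∃ m, u ^ m = g * u * g⁻¹ := (isOfFinOrder_of_finite u).mem_powers_iff_mem_zpowers.2 (hn g)
    rcases Nat.even_or_odd m with ⟨t, rfl⟩ | ⟨t, rfl⟩
    · exfalso
      rw [← two_mul, pow_mul, pow_two, hu2, one_pow] at hm
      have h1 := orderOf_conj_eq g u
      rw [← hm, orderOf_one, hu, hr2] at h1
      omega
    · rw [pow_succ, pow_mul, pow_two, hu2, one_pow, one_mul] at hm
      exact mul_inv_eq_iff_eq_mul.1 hm.symm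
  have hjj : j * j = 1 := by
    rw [hj, show u * i * (u * i) = u * (i * u) * i by group, hucen i, show u * (u * i) * i = (u * u) * (i * i) by group,
      hu2, hi2, one_mul]
  have hjo : orderOf j = r := by
    haveI := Fact.mk H.hr
    exact orderOf_eq_prime (by rw [hr2, pow_two]; exact hjj) hj1
  have hj₁ : ∀ y, ρ₁ j y = -y := by
    intro y
    obtain ⟨z, hz⟩ := exists_ne (0 : V₂)
    exact eq_neg_of_add_eq_zero_left ((H.single j (Or.inl hjo) (ρ₁ j y + y) z (by
      rw [map_add, ← Module.End.mul_apply, ← _root_.map_mul, hjj, _root_.map_one, Module.End.one_apply,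
        add_comm]) (hj₂ z)).resolve_right hz)
  have hi₁ : ∀ y, ρ₁ i y = y := fun y => by
    have h1 : i = u * j := by rw [hj, ← mul_assoc, hu2, one_mul]
    rw [h1, _root_.map_mul, Module.End.mul_apply, hj₁, map_neg, hneg₁, neg_neg]
  obtain ⟨Es, hEs, hEsc⟩ := H.rank_s
  obtain ⟨g, -, hg, w, hw0, hgw⟩ := H.exists_typed H.hs hEs (by rw [hEsc]; exact lt_self_pow₀ H.hs.one_lt one_lt_two)
  have hgi : g * i = i * g := by
    refine mul_inv_eq_iff_eq_mul.1 (mul_inv_eq_one.1 (H.eq_one_of_trivial (g := g * i * g⁻¹ * i⁻¹) ?_ ?_))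
    · refine LinearMap.ext fun y => ?_
      have hii : i⁻¹ = i := inv_eq_of_mul_eq_one_right hi2
      rw [hii, _root_.map_mul, _root_.map_mul, _root_.map_mul]
      simp only [Module.End.mul_apply, Module.End.one_apply, hi₁]
      rw [← Module.End.mul_apply, ← _root_.map_mul, mul_inv_cancel, _root_.map_one, Module.End.one_apply]
    · refine LinearMap.ext fun y => ?_
      have hii : i⁻¹ = i := inv_eq_of_mul_eq_one_right hi2
      rw [hii, _root_.map_mul, _root_.map_mul, _root_.map_mul]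
      simp only [Module.End.mul_apply, Module.End.one_apply, hi₂, map_neg, neg_neg]
      rw [← Module.End.mul_apply, ← _root_.map_mul, mul_inv_cancel, _root_.map_one, Module.End.one_apply]
  exact hw0 (H.pair₁ i g hi hg hgi.symm w (hi₁ w) hgw)

/-- Elements with a fixed vector centralise `O_r`. -/
theorem typed_centralizes (hcore : pCore r G ≠ ⊥) {g : G} (hg : orderOf g = s) {x : V₁} (hx0 : x ≠ 0)
    (hgx : ρ₁ g x = x) : ∀ y ∈ pCore r G, g * y = y * g := by
  haveI := Fact.mk H.hr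
  haveI := Fact.mk H.hs
  have hr2 := H.ne_two hcore
  obtain ⟨u, hu, huR, -, -, hf₂, huU⟩ := H.exists_rankOne hcore
  set R := pCore r G with hR
  have hRp : IsPGroup r R := Cores.isPGroup_pCore r G
  -- the part of `R` acting trivially on the second module
  set N := ρ₂.ker.subgroupOf R with hN
  have hker : ∀ y ∈ R, ρ₂ (g * y * g⁻¹) = ρ₂ y := by
    intro y hy
    by_contra hne
    obtain ⟨z, hz0, hz⟩ := exists_fixed_of_normalised ρ₂ hr2 H.ne_r₂ H.hrs.symm H.ne_s₂ hRp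
      (by rw [Subgroup.normalizer_eq_top]; exact Subgroup.mem_top g) (hg ▸ pow_orderOf_eq_one g) ⟨y, hy, hne⟩
    exact (H.single g (Or.inr hg) x z hgx hz).elim hx0 hz0
  have hNbot : N = ⊥ := by
    by_contra hne
    haveI := hRp.isNilpotent
    haveI : N.Normal := inferInstance
    have h1 := PSolvable.inf_center_ne_bot (G := R) (N := N) hne
    obtain ⟨n, hn⟩ := IsPGroup.iff_card.1 (hRp.to_subgroup (N ⊓ Subgroup.center R))
    have hn0 : n ≠ 0 := by
      rintro rfl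
      rw [pow_zero, Subgroup.card_eq_one] at hn
      exact h1 hn
    obtain ⟨z, hz⟩ := exists_prime_orderOf_dvd_card' (G := (N ⊓ Subgroup.center R : Subgroup R)) r
      (hn ▸ dvd_pow_self r hn0)
    rw [← Subgroup.orderOf_coe, ← Subgroup.orderOf_coe] at hz
    have hzU : ((z : R) : G) ∈ Subgroup.zpowers u := huU _ (z : R).2 (hz ▸ pow_orderOf_eq_one _)
      fun y hy => (congrArg Subtype.val (Subgroup.mem_center_iff.1 z.2.2 ⟨y, hy⟩)).symm
    have huz : u ∈ Subgroup.zpowers ((z : R) : G) := by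
      rw [eq_of_mem_zpowers_prime H.hr hu hz hzU]; exact Subgroup.mem_zpowers u
    have hρu : ρ₂ u = 1 := by
      obtain ⟨m, hm⟩ : ∃ m, ((z : R) : G) ^ m = u := (isOfFinOrder_of_finite _).mem_powers_iff_mem_zpowers.2 huz
      have h2 : ρ₂ ((z : R) : G) = 1 := MonoidHom.mem_ker.1 (Subgroup.mem_subgroupOf.1 z.2.1)
      rw [← hm, map_pow, h2, one_pow]
    haveI := H.nt₂
    obtain ⟨w, hw⟩ := exists_ne (0 : V₂)
    exact hw (hf₂ w (by rw [hρu, Module.End.one_apply]))
  intro y hy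
  have hd : g * y * g⁻¹ * y⁻¹ ∈ R := R.mul_mem ((inferInstance : R.Normal).conj_mem y hy g) (R.inv_mem hy)
  have h1 : (⟨_, hd⟩ : R) ∈ N := by
    rw [hN, Subgroup.mem_subgroupOf, MonoidHom.mem_ker, _root_.map_mul, hker y hy, ← _root_.map_mul,
      mul_inv_cancel, _root_.map_one]
  rw [hNbot, Subgroup.mem_bot] at h1
  exact mul_inv_eq_iff_eq_mul.1 (mul_inv_eq_one.1 (congrArg Subtype.val h1))

theorem second_core [Group.IsSolvable G] (hcore : pCore r G ≠ ⊥) : pCore s G ≠ ⊥ := by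
  intro hs
  haveI := Fact.mk H.hr
  obtain ⟨E, hE, hEc⟩ := H.rank_s
  obtain ⟨g, -, hg, x, hx0, hgx⟩ := H.exists_typed H.hs hE (by rw [hEc]; exact lt_self_pow₀ H.hs.one_lt one_lt_two)
  have hF : fittingSubgroup G ≤ pCore r G := fittingSubgroup_le_pCore fun t ht htd htr => by
    rw [(H.mem t ht htd).resolve_left htr]; exact hs
  have hgc := H.typed_centralizes hcore hg hx0 hgx
  exact notMem_of_isPGroup (Cores.isPGroup_pCore r G) H.hs H.hrs hg (hF (Cores.centralizer_fittingSubgroup_le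
    (Subgroup.mem_centralizer_iff.2 fun y hy => (hgc y (hF hy)).symm)))

theorem false_of_core [Group.IsSolvable G] (hcore : pCore r G ≠ ⊥) : False := by
  classical
  haveI := Fact.mk H.hr
  haveI := Fact.mk H.hs
  have hcs := H.second_core hcore
  obtain ⟨E, hE, hEc⟩ := H.rank_s
  have hEc' : s < Nat.card E := by rw [hEc]; exact lt_self_pow₀ H.hs.one_lt one_lt_two
  obtain ⟨g₁, hg₁E, hg₁, x, hx0, hgx⟩ := H.exists_typed H.hs hE hEc'
  obtain ⟨g₂, hg₂E, hg₂, y, hy0, hgy⟩ := H.swap.exists_typed H.hs hE hEc'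
  haveI := hE.1
  have hEab : ∀ a ∈ E, ∀ b ∈ E, a * b = b * a := fun a ha b hb =>
    congrArg Subtype.val (mul_comm' (⟨a, ha⟩ : E) ⟨b, hb⟩)
  have hne : g₂ ∉ Subgroup.zpowers g₁ := by
    intro h
    obtain ⟨m, hm⟩ : ∃ m, g₁ ^ m = g₂ := (isOfFinOrder_of_finite g₁).mem_powers_iff_mem_zpowers.2 h
    have h1 : ∀ m : ℕ, ρ₁ (g₁ ^ m) x = x := fun m => by
      induction m with
      | zero => simp
      | succ m ih => rw [pow_succ, _root_.map_mul, Module.End.mul_apply, hgx, ih]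
    exact (H.single g₂ (Or.inr hg₂) x y (hm ▸ h1 m) hgy).elim hx0 hy0
  have hgen : Subgroup.zpowers g₁ ⊔ Subgroup.zpowers g₂ = E := by
    obtain ⟨hD, hDc⟩ := exists_elemAb_two H.hs hg₁ hg₂ (hEab g₁ hg₁E g₂ hg₂E) hne
    have hle : Subgroup.zpowers g₁ ⊔ Subgroup.zpowers g₂ ≤ E :=
      sup_le (Subgroup.zpowers_le.2 hg₁E) (Subgroup.zpowers_le.2 hg₂E)
    refine Subgroup.eq_of_le_of_card_ge hle ?_
    have hd := Subgroup.card_dvd_of_le hle
    rw [hEc, Nat.dvd_prime_pow H.hs] at hd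
    obtain ⟨i, hi, hDi⟩ := hd
    rw [hDi] at hDc ⊢
    rw [hEc]
    refine Nat.pow_le_pow_right H.hs.pos ?_
    by_contra hi2
    have h2 := (Nat.pow_le_pow_right H.hs.pos (show i ≤ 1 by omega)).trans_eq (pow_one s)
    omega
  set R := pCore r G with hR
  set S := pCore s G with hS
  have hER : E ≤ Subgroup.centralizer (R : Set G) := by
    rw [← hgen, sup_le_iff, Subgroup.zpowers_le, Subgroup.zpowers_le]
    exact ⟨Subgroup.mem_centralizer_iff.2 fun z hz => (H.typed_centralizes hcore hg₁ hx0 hgx z hz).symm,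
      Subgroup.mem_centralizer_iff.2 fun z hz => (H.swap.typed_centralizes hcore hg₂ hy0 hgy z hz).symm⟩
  obtain ⟨Er, hEr, hErc⟩ := H.rank_r
  obtain ⟨u, -, hu, w, hw0, huw⟩ := H.exists_typed H.hr hEr (by rw [hErc]; exact lt_self_pow₀ H.hr.one_lt one_lt_two)
  have huS := H.swapPrimes.typed_centralizes hcs hu hw0 huw
  -- `u` centralises `E`
  have hRS : ∀ a ∈ R, ∀ b ∈ S, a * b = b * a := fun a ha b hb => Cores.commute_pCore_of_ne H.hrs ha hb
  have huE : ∀ e ∈ E, u * e = e * u := by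
    intro e he
    set f := u * e * u⁻¹ * e⁻¹ with hf
    haveI : (Subgroup.centralizer (R : Set G)).Normal := Subgroup.normal_centralizer
    haveI : (Subgroup.centralizer (S : Set G)).Normal := Subgroup.normal_centralizer
    have hfR : f ∈ Subgroup.centralizer (R : Set G) := Subgroup.mul_mem _
      ((inferInstance : (Subgroup.centralizer (R : Set G)).Normal).conj_mem e (hER he) u)
      (Subgroup.inv_mem _ (hER he))
    have hfS : f ∈ Subgroup.centralizer (S : Set G) := by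
      have huc : u ∈ Subgroup.centralizer (S : Set G) :=
        Subgroup.mem_centralizer_iff.2 fun z hz => (huS z hz).symm
      rw [hf, show u * e * u⁻¹ * e⁻¹ = u * (e * u⁻¹ * e⁻¹) by group]
      exact Subgroup.mul_mem _ huc ((inferInstance : (Subgroup.centralizer (S : Set G)).Normal).conj_mem _
        (Subgroup.inv_mem _ huc) e)
    have hFle : fittingSubgroup G ≤ R ⊔ S := by
      rw [Cores.fittingSubgroup_eq_iSup_pCore]
      refine iSup_le fun t => ?_
      obtain ⟨t, ht⟩ := t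
      rw [Nat.mem_primeFactors] at ht
      rcases H.mem t ht.1 ht.2.1 with h | h
      · subst h; exact le_sup_left
      · subst h; exact le_sup_right
    have hfF : f ∈ R ⊔ S := by
      refine hFle (Cores.centralizer_fittingSubgroup_le (Subgroup.mem_centralizer_iff.2 fun z hz => ?_))
      obtain ⟨a, ha, b, hb, rfl⟩ := Subgroup.mem_sup_of_normal_left.1 (hFle hz)
      have h1 : Commute a f := Subgroup.mem_centralizer_iff.1 hfR a ha
      have h2 : Commute b f := Subgroup.mem_centralizer_iff.1 hfS b hb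
      exact (h1.mul_left h2).eq
    obtain ⟨fr, hfr, fs, hfs, hfeq⟩ := Subgroup.mem_sup_of_normal_left.1 hfF
    have hfr1 : fr = 1 := by
      have hue : u * e * u⁻¹ = fr * (fs * e) := by
        rw [← mul_assoc, hfeq, hf, inv_mul_cancel_right]
      have hS'p : IsPGroup s (S ⊔ E : Subgroup G) :=
        (Cores.isPGroup_pCore s G).to_sup_of_normal_left (ThompsonJ.isPGroup_of_isElementaryAbelian hE)
      have hfse : fs * e ∈ (S ⊔ E : Subgroup G) :=
        Subgroup.mul_mem _ (Subgroup.mem_sup_left hfs) (Subgroup.mem_sup_right he)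
      have hc : Commute fr (fs * e) :=
        Commute.mul_right (hRS fr hfr fs hfs) (Subgroup.mem_centralizer_iff.1 (hER he) fr hfr)
      obtain ⟨n, hn⟩ := hS'p ⟨_, hfse⟩
      have hn' : (fs * e) ^ s ^ n = 1 := congrArg Subtype.val hn
      obtain ⟨m, hm⟩ := Cores.isPGroup_pCore r G ⟨fr, hfr⟩
      have hm' : fr ^ r ^ m = 1 := congrArg Subtype.val hm
      have h1 : (u * e * u⁻¹) ^ (s ^ (n + 1)) = 1 := by
        rw [conj_pow, pow_succ', pow_mul, hE.2 e he, one_pow, mul_one, mul_inv_cancel]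
      rw [hue, hc.mul_pow, pow_succ s n, pow_mul (fs * e), hn', one_pow, mul_one] at h1
      have hco : (s ^ (n + 1)).gcd (r ^ m) = 1 :=
        Nat.Coprime.pow (n + 1) m ((Nat.coprime_primes H.hs H.hr).2 H.hrs.symm)
      rw [← pow_one fr, ← hco]
      exact pow_gcd_eq_one.2 ⟨by rw [pow_succ]; exact h1, hm'⟩
    have hfmem : f ∈ S := by rw [← hfeq, hfr1, one_mul]; exact hfs
    obtain ⟨c, ⟨-, hcC⟩, hc⟩ := CoprimeAction.exists_centralizer_mem_coset_of_le
      (A := Subgroup.zpowers u) (K := (⊤ : Subgroup G)) (N := S)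
      (by rw [Subgroup.normalizer_eq_top]; exact le_top) le_top
      (by
        obtain ⟨m, hm⟩ := IsPGroup.iff_card.1 (Cores.isPGroup_pCore s G)
        rw [Nat.card_zpowers, hu, hS, hm]
        exact ((Nat.coprime_primes H.hr H.hs).2 H.hrs).pow_right m)
      (Or.inl (CoprimeAction.isSolvable_zpowers u)) (Subgroup.mem_top e) (fun a ha => by
        set π := QuotientGroup.mk' S with hπ
        have hπc : π u * π e = π e * π u := by
          have h1 : π f = 1 := (QuotientGroup.eq_one_iff f).2 hfmem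
          rw [hf, _root_.map_mul, _root_.map_mul, _root_.map_mul, map_inv, map_inv, mul_inv_eq_one,
            mul_inv_eq_iff_eq_mul] at h1
          exact h1
        obtain ⟨i, rfl⟩ := ha
        rw [← QuotientGroup.eq_one_iff]
        show π (e⁻¹ * (u ^ i * e * (u ^ i)⁻¹)) = 1
        rw [_root_.map_mul, _root_.map_mul, _root_.map_mul, map_inv, map_inv, map_zpow,
          ((show Commute (π u) (π e) from hπc).zpow_left i).eq]
        group)
    have huc : Commute u c := (Subgroup.mem_centralizer_iff.1 hcC u (Subgroup.mem_zpowers u))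
    have hud : Commute u (e⁻¹ * c) := huS _ hc
    have : Commute u e := by
      have h := huc.mul_right hud.inv_right
      rwa [show c * (e⁻¹ * c)⁻¹ = e by group] at h
    exact this.eq
  obtain ⟨e, he, he1, z, hz, hz0, hez⟩ := exists_fixed_of_noncyclic (ρ := ρ₁) hEab H.hs hE.2 hEc'
    (fixedSpace ρ₁ u) (fun h => hw0 ((Submodule.mem_bot k₁).1 (h ▸ mem_fixedSpace.2 huw)))
    (fun e he z hz => fixedSpace_invariant_of_commute (huE e he) hz)
  exact hz0 (H.pair₁ u e hu (orderOf_eq_of_mem_exp H.hs hE.2 he he1) (huE e he) z (mem_fixedSpace.1 hz) hez)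

/-- **Two primes, two modules: impossible.** -/
theorem not_exists [Group.IsSolvable G] : False := by
  haveI : Nontrivial G := by
    obtain ⟨E, -, hEc⟩ := H.rank_r
    by_contra hG
    rw [not_nontrivial_iff_subsingleton] at hG
    haveI := hG
    have h1 : Nat.card E = 1 := Nat.card_of_subsingleton 1
    rw [hEc] at h1
    exact absurd h1 (Nat.one_lt_pow two_ne_zero H.hr.one_lt).ne'
  obtain ⟨t, ht, hct⟩ := Hall.exists_pCore_ne_bot (G := G)
  haveI := Fact.mk ht
  have htd : t ∣ Nat.card G := by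
    obtain ⟨u, hu⟩ := Subgroup.ne_bot_iff_exists_ne_one.1 (omegaCenter_ne_bot hct)
    rw [← orderOf_eq_of_mem_exp ht (isElementaryAbelian_omegaCenter t).2 u.2 (fun h => hu (Subtype.ext h))]
    exact orderOf_dvd_natCard _
  rcases H.mem t ht htd with h | h
  · exact H.false_of_core (h ▸ hct)
  · exact H.swapPrimes.false_of_core (h ▸ hct)

end NoTriplePair

end CfsgLib.MetacyclicP
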