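import Mathlib
import Cfsg.Agent.Lib.FusionExamples.SmallElements

/-!
A group of order prime to `p` centralising the small elements of a `p`-group centralises it.
-/

set_option autoImplicit false

namespace CfsgLib.MetacyclicP

open CfsgLib.FusionExamples

variable {X : Type*} [Group X] [Finite X] {p : ℕ} [Fact p.Prime]

theorem mem_centralizer_of_fixes_small {P : Subgroup X} (hP : IsPGroup p P) {g : X}
    (hg : g ∈ Subgroup.normalizer (P : Set X)) (hco : (orderOf g).Coprime p)
    (h : ∀ x ∈ P, SmallElt p x → g * x = x * g) : g ∈ Subgroup.centralizer (P : Set X) := by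
  let a : MulAut P := (MulAut.conjNormal (H := P.subgroupOf (Subgroup.normalizer (P : Set X)))
    (⟨g, hg⟩ : Subgroup.normalizer (P : Set X))) |>
      fun e => ((Subgroup.subgroupOfEquivOfLe Subgroup.le_normalizer).symm.trans e).trans
        (Subgroup.subgroupOfEquivOfLe Subgroup.le_normalizer)
  have ha : ∀ x : P, ((a x : P) : X) = g * x * g⁻¹ := fun x => by
    simp [a, MulAut.conjNormal_apply]
  have hpow : ∀ n : ℕ, ∀ x : P, (((a ^ n) x : P) : X) = g ^ n * x * (g ^ n)⁻¹ := by
    intro n
    induction n with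
    | zero => simp
    | succ n ih =>
      intro x
      rw [pow_succ', MulAut.mul_apply, ha, ih, pow_succ']
      group
  have hone : a = 1 := by
    refine eq_one_of_fixes_small hP a (orderOf g) ?_ hco ?_
    · refine MulEquiv.ext fun x => Subtype.ext ?_
      rw [hpow, pow_orderOf_eq_one]; simp
    · intro x hx
      refine Subtype.ext ?_
      rw [ha, h x x.2 ((smallElt_map_iff P.subtype P.subtype_injective).2 hx), mul_inv_cancel_right]
  intro x hx
  have h1 : ((a ⟨x, hx⟩ : P) : X) = x := by rw [hone]; rfl
  rw [ha] at h1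
  exact (mul_inv_eq_iff_eq_mul.1 h1).symm

theorem smallElt_of_odd (hp : p ≠ 2) {x : X} (hx : SmallElt p x) : x ^ p = 1 :=
  hx.resolve_right fun h => hp h.1

end CfsgLib.MetacyclicP

namespace CfsgLib.MetacyclicP

theorem normalizer_inf_le_normalizer_sup {X : Type*} [Group X] {E M : Subgroup X} :
    Subgroup.normalizer (E : Set X) ⊓ Subgroup.normalizer (M : Set X) ≤
      Subgroup.normalizer ((E ⊔ M : Subgroup X) : Set X) := by
  intro g hg
  rw [Subgroup.mem_normalizer_iff_map_conj_eq, Subgroup.map_sup]
  exact congrArg₂ (· ⊔ ·) (Subgroup.mem_normalizer_iff_map_conj_eq.1 hg.1)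
    (Subgroup.mem_normalizer_iff_map_conj_eq.1 hg.2)

end CfsgLib.MetacyclicP
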