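import Mathlib
import Cfsg.Prelude.Def_TwoFusion
import Cfsg.Agent.Lib.NormalPComplement.Frobenius

/-!
A normal `p`-complement criterion relative to a strongly closed subgroup.
-/

set_option autoImplicit false
set_option linter.style.haveILetI false

open scoped commutatorElement

namespace CfsgLib.MetacyclicP

open Cfsg
open CfsgLib.NormalPComplement

variable {G : Type*} [Group G] [Finite G] {p : ℕ} [hp : Fact p.Prime]

omit [Finite G] hp in
theorem mem_normalizer_map_conj_iff {P : Subgroup G} {x g : G} :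
    g ∈ Subgroup.normalizer (P.map (MulAut.conj x).toMonoidHom : Set G) ↔
      x⁻¹ * g * x ∈ Subgroup.normalizer (P : Set G) := by
  rw [← Subgroup.map_equiv_normalizer_eq P (MulAut.conj x), Subgroup.mem_map_equiv]
  simp [MulAut.conj_symm_apply]

/-- Every subgroup of a `p`-group `P` has a conjugate with `N_S` Sylow in the normaliser. -/
theorem exists_fullyNormalized (S : Sylow p G) {P : Subgroup G} (hP : IsPGroup p P) :
    ∃ x : G, P.map (MulAut.conj x).toMonoidHom ≤ (S : Subgroup G) ∧
      ∃ T : Sylow p ↥(Subgroup.normalizer (P.map (MulAut.conj x).toMonoidHom : Set G)),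
        (T : Subgroup _).map (Subgroup.normalizer (P.map (MulAut.conj x).toMonoidHom : Set G)).subtype =
          (S : Subgroup G) ⊓ Subgroup.normalizer (P.map (MulAut.conj x).toMonoidHom : Set G) := by
  set N := Subgroup.normalizer (P : Set G) with hN
  have hPn : (P.subgroupOf N).Normal := Subgroup.normal_in_normalizer
  obtain ⟨T0, hT0⟩ := (hP.comap_subtype : IsPGroup p (P.subgroupOf N)).exists_le_sylow
  obtain ⟨S1, hS1⟩ := (T0.2.map N.subtype).exists_le_sylow
  obtain ⟨x, hx⟩ := MulAction.exists_smul_eq G S1 S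
  have hconj : ∀ y ∈ (S1 : Subgroup G), x * y * x⁻¹ ∈ (S : Subgroup G) := fun y hy => by
    rw [← hx]; exact ⟨y, hy, rfl⟩
  refine ⟨x, ?_, ?_⟩
  · rintro _ ⟨y, hy, rfl⟩
    exact hconj y (hS1 ⟨⟨y, Subgroup.le_normalizer hy⟩, hT0 hy, rfl⟩)
  set P' := P.map (MulAut.conj x).toMonoidHom with hP'
  set N' := Subgroup.normalizer (P' : Set G) with hN'
  have hNmap : N.map (MulAut.conj x).toMonoidHom = N' := Subgroup.map_equiv_normalizer_eq P (MulAut.conj x)
  obtain ⟨T, hT⟩ := ((S.2.to_le (inf_le_left : (S : Subgroup G) ⊓ N' ≤ S)).comap_subtype :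
    IsPGroup p (((S : Subgroup G) ⊓ N').subgroupOf N')).exists_le_sylow
  refine ⟨T, ?_⟩
  have h1 : ((T0 : Subgroup N).map N.subtype).map (MulAut.conj x).toMonoidHom ≤ (S : Subgroup G) ⊓ N' := by
    refine le_inf ?_ (hNmap ▸ Subgroup.map_mono (Subgroup.map_subtype_le _))
    rintro _ ⟨y, hy, rfl⟩
    exact hconj y (hS1 hy)
  have h2 : (S : Subgroup G) ⊓ N' ≤ (T : Subgroup N').map N'.subtype := fun y hy =>
    ⟨⟨y, hy.2⟩, hT hy, rfl⟩
  symm
  refine Subgroup.eq_of_le_of_card_ge h2 ?_
  refine le_trans (le_of_eq ?_) (Subgroup.card_le_of_le h1)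
  rw [Subgroup.card_map_of_injective (Subgroup.subtype_injective N'),
    Subgroup.card_map_of_injective (MulEquiv.injective _),
    Subgroup.card_map_of_injective (Subgroup.subtype_injective N),
    T.card_eq_multiplicity, T0.card_eq_multiplicity, ← hNmap,
    Subgroup.card_map_of_injective (MulEquiv.injective _)]

/-- Frattini argument with elements of order prime to `p`. -/
theorem exists_coprime_normalizing (C : Subgroup G) [C.Normal] (T : Sylow p G) {g : G}
    (hg : (orderOf g).Coprime p) :
    ∃ h : G, (orderOf h).Coprime p ∧ h ∈ Subgroup.normalizer ((C ⊓ T : Subgroup G) : Set G) ∧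
      g * h⁻¹ ∈ C := by
  obtain ⟨R, hR⟩ := ((T.2.to_le (inf_le_right : C ⊓ (T : Subgroup G) ≤ T)).comap_subtype :
    IsPGroup p ((C ⊓ (T : Subgroup G)).subgroupOf C)).exists_le_sylow
  have hmap : (R : Subgroup C).map C.subtype = C ⊓ T := by
    obtain ⟨T1, hT1⟩ := (R.2.map C.subtype).exists_le_sylow
    obtain ⟨x, hx⟩ := MulAction.exists_smul_eq G T1 T
    symm
    refine Subgroup.eq_of_le_of_card_ge (fun y hy => ⟨⟨y, hy.1⟩, hR hy, rfl⟩) ?_
    rw [← Subgroup.card_map_of_injective (K := (R : Subgroup C).map C.subtype)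
      (f := (MulAut.conj x).toMonoidHom) (MulEquiv.injective _)]
    refine Subgroup.card_le_of_le ?_
    rintro _ ⟨y, hy, rfl⟩
    refine ⟨Subgroup.Normal.conj_mem inferInstance _ (Subgroup.map_subtype_le _ hy) x, ?_⟩
    rw [← hx]; exact ⟨y, hT1 hy, rfl⟩
  have hsup := R.normalizer_sup_eq_top
  rw [hmap] at hsup
  have hgt : g ∈ Subgroup.normalizer ((C ⊓ T : Subgroup G) : Set G) ⊔ C := hsup ▸ Subgroup.mem_top g
  obtain ⟨h0, hh0, c, hc, hge⟩ := Subgroup.mem_sup_of_normal_right.1 hgt
  obtain ⟨a, b, hab, ⟨k, hk⟩, hb⟩ := exists_pParts (p := p) (isOfFinOrder_of_finite h0)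
  refine ⟨h0 ^ b, hb, pow_mem hh0 b, ?_⟩
  rw [← QuotientGroup.eq_one_iff]
  show QuotientGroup.mk' C (g * (h0 ^ b)⁻¹) = 1
  have e0 : QuotientGroup.mk' C h0 = QuotientGroup.mk' C g := by
    rw [← hge, map_mul, show QuotientGroup.mk' C c = 1 from (QuotientGroup.eq_one_iff c).2 hc, mul_one]
  have e1 : QuotientGroup.mk' C (h0 ^ a) = 1 := by
    refine orderOf_eq_one_iff.1 (Nat.eq_one_of_dvd_coprimes (hg.pow_right k) ?_
      ((orderOf_map_dvd _ _).trans hk))
    rw [map_pow, e0, ← map_pow]
    exact (orderOf_map_dvd _ _).trans (orderOf_pow_dvd a)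
  have e2 : QuotientGroup.mk' C (h0 ^ b) = QuotientGroup.mk' C g := by
    rw [← e0]
    conv_rhs => rw [← hab, map_mul, e1, one_mul]
  rw [map_mul, map_inv, e2, mul_inv_cancel]

/-- The kernel of the action of a normaliser on `P / Q`, step of the induction. -/
theorem frobeniusCondition_of_stronglyClosed (S : Sylow p G) {D : Subgroup G}
    (hD : IsStronglyClosed D (S : Subgroup G))
    (hloc : ∀ U : Subgroup G, U ≤ D → D ⊓ Subgroup.centralizer (U : Set G) ≤ U →
      HasNormalPComplement p ↥(Subgroup.normalizer (U : Set G))) :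
    FrobeniusCondition p G := by
  classical
  -- reduction to fully normalised subgroups
  have transfer : ∀ (P : Subgroup G) (x : G),
      (∀ g ∈ Subgroup.normalizer (P.map (MulAut.conj x).toMonoidHom : Set G), (orderOf g).Coprime p →
        g ∈ Subgroup.centralizer (P.map (MulAut.conj x).toMonoidHom : Set G)) →
      ∀ g ∈ Subgroup.normalizer (P : Set G), (orderOf g).Coprime p →
        g ∈ Subgroup.centralizer (P : Set G) := by
    intro P x h g hg hcop
    have h1 := h (x * g * x⁻¹) (mem_normalizer_map_conj_iff.2 (by simpa [mul_assoc] using hg))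
      (by rwa [← MulAut.conj_apply, MulEquiv.orderOf_eq])
    refine Subgroup.mem_centralizer_iff.2 fun y hy => ?_
    have h2 := Subgroup.mem_centralizer_iff.1 h1 (x * y * x⁻¹) ⟨y, hy, rfl⟩
    have h3 := congrArg (fun z => x⁻¹ * z * x) h2
    simpa [mul_assoc] using h3
  have hDnorm : ∀ s ∈ (S : Subgroup G), ∀ d ∈ D, s * d * s⁻¹ ∈ D := fun s hs d hd =>
    hD.2 d hd s (mul_mem (mul_mem hs (hD.1 hd)) (inv_mem hs))
  have hnormV : ∀ (R : Subgroup G), R ≤ (S : Subgroup G) →
      ∀ h ∈ Subgroup.normalizer (R : Set G), h ∈ Subgroup.normalizer ((D ⊓ R : Subgroup G) : Set G) := by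
    intro R hR h hh
    refine Subgroup.mem_normalizer_iff.2 fun v => ⟨fun hv => ?_, fun hv => ?_⟩
    · have h1 := (Subgroup.mem_normalizer_iff.1 hh v).1 hv.2
      exact ⟨hD.2 v hv.1 h (hR h1), h1⟩
    · have h1 := (Subgroup.mem_normalizer_iff.1 hh v).2 hv.2
      refine ⟨?_, h1⟩
      have h2 := hD.2 _ hv.1 h⁻¹ (by simpa [mul_assoc] using hR h1)
      simpa [mul_assoc] using h2
  -- subgroups of `D`
  have key1 : ∀ n (P : Subgroup G), Nat.card G ≤ Nat.card P + n → P ≤ D →
      ∀ g ∈ Subgroup.normalizer (P : Set G), (orderOf g).Coprime p → g ∈ Subgroup.centralizer (P : Set G) := by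
    intro n
    induction n using Nat.strong_induction_on with
    | _ n ih =>
      intro P hn hPD
      suffices H : ∀ P' : Subgroup G, Nat.card P' = Nat.card P → P' ≤ D →
          ∀ T : Sylow p ↥(Subgroup.normalizer (P' : Set G)),
          (T : Subgroup _).map (Subgroup.normalizer (P' : Set G)).subtype =
            (S : Subgroup G) ⊓ Subgroup.normalizer (P' : Set G) →
          ∀ g ∈ Subgroup.normalizer (P' : Set G), (orderOf g).Coprime p →
            g ∈ Subgroup.centralizer (P' : Set G) by
        obtain ⟨x, hxS, T, hT⟩ := exists_fullyNormalized S (S.2.to_le (hPD.trans hD.1))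
        refine transfer P x (H _ (Subgroup.card_map_of_injective (MulEquiv.injective _)) ?_ T hT)
        rintro _ ⟨y, hy, rfl⟩
        exact hD.2 y (hPD hy) x (hxS ⟨y, hy, rfl⟩)
      intro P' hcard hP'D T hT g hg hcop
      have hxS : P' ≤ (S : Subgroup G) := hP'D.trans hD.1
      by_cases hV : D ⊓ Subgroup.centralizer (P' : Set G) ≤ P'
      · exact mem_centralizer_of_normalizer (S.2.to_le hxS) (hloc P' hP'D hV) hg hcop
      let M := Subgroup.normalizer (P' : Set G)
      haveI : ((Subgroup.centralizer (P' : Set G)).subgroupOf M).Normal :=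
        ⟨fun c hc m => by
          rw [Subgroup.mem_subgroupOf, Subgroup.mem_centralizer_iff] at hc ⊢
          intro y hy
          have h1 := (Subgroup.mem_normalizer_iff''.1 m.2 y).1 hy
          have h2 := hc _ h1
          simp only [Subgroup.coe_mul, Subgroup.coe_inv]
          have h3 := congrArg (fun z => (m : G) * z * (m : G)⁻¹) h2
          simpa [mul_assoc] using h3⟩
      obtain ⟨h, hhc, hhn, hhC⟩ := exists_coprime_normalizing
        ((Subgroup.centralizer (P' : Set G)).subgroupOf M) T (g := ⟨g, hg⟩)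
        (by rwa [Subgroup.orderOf_mk])
      have hR : ((Subgroup.centralizer (P' : Set G)).subgroupOf M ⊓ (T : Subgroup M)).map M.subtype =
          Subgroup.centralizer (P' : Set G) ⊓ (S : Subgroup G) := by
        rw [Subgroup.map_inf _ _ _ (Subgroup.subtype_injective M), Subgroup.subgroupOf_map_subtype, hT]
        refine le_antisymm (fun y hy => ⟨hy.1.1, hy.2.1⟩) fun y hy => ⟨⟨hy.1, ?_⟩, hy.2, ?_⟩
        all_goals exact Subgroup.centralizer_le_normalizer _ hy.1
      have hhR : (h : G) ∈ Subgroup.normalizer ((Subgroup.centralizer (P' : Set G) ⊓ (S : Subgroup G) : Subgroup G) : Set G) := by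
        rw [← hR]
        exact Subgroup.le_normalizer_map _ ⟨h, hhn, rfl⟩
      have hhV : (h : G) ∈ Subgroup.normalizer ((D ⊓ Subgroup.centralizer (P' : Set G) : Subgroup G) : Set G) := by
        have := hnormV _ inf_le_right _ hhR
        rwa [show D ⊓ (Subgroup.centralizer (P' : Set G) ⊓ (S : Subgroup G)) =
          D ⊓ Subgroup.centralizer (P' : Set G) from le_antisymm (le_inf inf_le_left (inf_le_right.trans inf_le_left))
            (le_inf inf_le_left (le_inf inf_le_right (inf_le_left.trans hD.1)))] at this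
      set X := P' ⊔ (D ⊓ Subgroup.centralizer (P' : Set G)) with hX
      have hXlt : Nat.card P' < Nat.card X := by
        refine lt_of_le_of_ne (Subgroup.card_le_of_le le_sup_left) fun e => hV ?_
        exact le_sup_right.trans (Subgroup.eq_of_le_of_card_ge le_sup_left e.ge).ge
      have hGle : Nat.card X ≤ Nat.card G := Subgroup.card_le_card_group _
      have hh : (h : G) ∈ Subgroup.centralizer (X : Set G) :=
        ih (Nat.card G - Nat.card X) (by omega) X (by omega) (sup_le hP'D inf_le_left) h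
          (Subgroup.normalizer_inf_normalizer_le_normalizer_sup _ _ ⟨h.2, hhV⟩) (by rwa [Subgroup.orderOf_coe])
      have h1 := mul_mem (Subgroup.mem_subgroupOf.1 hhC) (Subgroup.centralizer_le (show (P' : Set G) ⊆ X from
        fun y hy => Subgroup.mem_sup_left hy) hh)
      simpa using h1
  -- all subgroups
  have key2 : ∀ n (P : Subgroup G), Nat.card G ≤ Nat.card P + n → IsPGroup p P →
      ∀ g ∈ Subgroup.normalizer (P : Set G), (orderOf g).Coprime p → g ∈ Subgroup.centralizer (P : Set G) := by
    intro n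
    induction n using Nat.strong_induction_on with
    | _ n ih =>
      intro P hn hP
      suffices H : ∀ P' : Subgroup G, Nat.card P' = Nat.card P → P' ≤ (S : Subgroup G) →
          ∀ T : Sylow p ↥(Subgroup.normalizer (P' : Set G)),
          (T : Subgroup _).map (Subgroup.normalizer (P' : Set G)).subtype =
            (S : Subgroup G) ⊓ Subgroup.normalizer (P' : Set G) →
          ∀ g ∈ Subgroup.normalizer (P' : Set G), (orderOf g).Coprime p →
            g ∈ Subgroup.centralizer (P' : Set G) by
        obtain ⟨x, hxS, T, hT⟩ := exists_fullyNormalized S hP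
        exact transfer P x (H _ (Subgroup.card_map_of_injective (MulEquiv.injective _)) hxS T hT)
      intro P' hcard hxS T hT g hg hcop
      by_cases hDP : D ≤ P'
      · -- `P'` contains `D`
        have hgD : ∀ m ∈ Subgroup.normalizer (P' : Set G), m ∈ Subgroup.normalizer (D : Set G) := fun m hm => by
          refine Subgroup.mem_normalizer_iff.2 fun v => ⟨fun hv =>
            hD.2 v hv m (hxS ((Subgroup.mem_normalizer_iff.1 hm v).1 (hDP hv))), fun hv => ?_⟩
          have h1 := (Subgroup.mem_normalizer_iff.1 hm v).2 (hDP hv)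
          have h2 := hD.2 _ hv m⁻¹ (by simpa [mul_assoc] using hxS h1)
          simpa [mul_assoc] using h2
        set N := Subgroup.normalizer (D : Set G) with hN
        have hPN : P' ≤ N := fun y hy => hgD y (Subgroup.le_normalizer hy)
        have hK := hloc D le_rfl inf_le_left
        have hgK : (⟨g, hgD g hg⟩ : N) ∈ pPrimeCore p N := mem_pPrimeCore_of_coprime hK (by rwa [Subgroup.orderOf_mk])
        refine Subgroup.mem_centralizer_iff.2 fun y hy => ?_
        have h1 : ⁅(⟨y, hPN hy⟩ : N), ⟨g, hgD g hg⟩⁆ ∈ pPrimeCore p N := by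
          rw [commutatorElement_def]
          exact mul_mem (Subgroup.Normal.conj_mem inferInstance _ hgK _) (inv_mem hgK)
        have h2 : ((⁅(⟨y, hPN hy⟩ : N), (⟨g, hgD g hg⟩ : N)⁆ : N) : G) ∈ P' := by
          show y * g * y⁻¹ * g⁻¹ ∈ P'
          rw [mul_assoc y g, mul_assoc y]
          exact mul_mem hy ((Subgroup.mem_normalizer_iff.1 hg _).1 (inv_mem hy))
        rw [← commutatorElement_eq_one_iff_mul_comm]
        obtain ⟨j, hj⟩ := (S.2.to_le hxS) ⟨_, h2⟩
        have h3 : orderOf ((⁅(⟨y, hPN hy⟩ : N), (⟨g, hgD g hg⟩ : N)⁆ : N) : G) = 1 := by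
          refine Nat.eq_one_of_dvd_coprimes ((Cores.card_pPrimeCore_coprime (G := N) p).pow_right j) ?_
            (orderOf_dvd_of_pow_eq_one (congrArg Subtype.val hj))
          rw [Subgroup.orderOf_coe]
          exact Subgroup.orderOf_dvd_natCard _ h1
        exact orderOf_eq_one_iff.1 h3
      let M := Subgroup.normalizer (P' : Set G)
      set Q := P' ⊓ D with hQ
      have hQM : ∀ m ∈ M, m ∈ Subgroup.normalizer (Q : Set G) := fun m hm => by
        rw [hQ, inf_comm]
        exact hnormV P' hxS m hm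
      let C : Subgroup M :=
        { carrier := {m | ∀ y ∈ P', ⁅(m : G), y⁆ ∈ Q}
          one_mem' := fun y _ => by simp
          mul_mem' := fun {a b} ha hb y hy => by
            have e : ⁅((a * b : M) : G), y⁆ = (a : G) * ⁅(b : G), y⁆ * (a : G)⁻¹ * ⁅(a : G), y⁆ := by
              simp [commutatorElement_def, mul_assoc]
            rw [e]
            exact mul_mem ((Subgroup.mem_normalizer_iff.1 (hQM a a.2) _).1 (hb y hy)) (ha y hy)
          inv_mem' := fun {a} ha y hy => by
            have e : ⁅((a⁻¹ : M) : G), y⁆ = (a : G)⁻¹ * ⁅(a : G), y⁆⁻¹ * a := by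
              simp [commutatorElement_def, mul_assoc]
            rw [e]
            exact (Subgroup.mem_normalizer_iff''.1 (hQM a a.2) _).1 (inv_mem (ha y hy)) }
      haveI : C.Normal := ⟨fun c hc m y hy => by
        have h1 := (Subgroup.mem_normalizer_iff''.1 m.2 y).1 hy
        have e : ⁅((m * c * m⁻¹ : M) : G), y⁆ = (m : G) * ⁅(c : G), (m : G)⁻¹ * y * m⁆ * (m : G)⁻¹ := by
          simp [commutatorElement_def, mul_assoc]
        rw [e]
        exact (Subgroup.mem_normalizer_iff.1 (hQM m m.2) _).1 (hc _ h1)⟩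
      obtain ⟨h, hhc, hhn, hhC⟩ := exists_coprime_normalizing C T (g := ⟨g, hg⟩)
        (by rwa [Subgroup.orderOf_mk])
      set R := (C ⊓ (T : Subgroup M)).map M.subtype with hRdef
      have hRS : R ≤ (S : Subgroup G) :=
        (Subgroup.map_mono inf_le_right).trans (hT.le.trans inf_le_left)
      obtain ⟨v, hvD, hvM, hvP⟩ : ∃ v ∈ D, v ∈ M ∧ v ∉ P' := by
        have hlt : P'.subgroupOf (P' ⊔ D) < ⊤ := by
          refine lt_top_iff_ne_top.2 fun e => hDP ?_
          exact le_sup_right.trans (Subgroup.subgroupOf_eq_top.1 e)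
        haveI := (S.2.to_le (sup_le hxS hD.1) : IsPGroup p ↥(P' ⊔ D)).isNilpotent
        obtain ⟨w, hw, hwn⟩ := SetLike.exists_of_lt (normalizerCondition_of_isNilpotent _ hlt)
        have hDn : P' ≤ Subgroup.normalizer (D : Set G) := fun y hy =>
          Subgroup.mem_normalizer_iff.2 fun z => ⟨hDnorm y (hxS hy) z, fun hz => by
            have := hDnorm y⁻¹ (inv_mem (hxS hy)) _ hz
            simpa [mul_assoc] using this⟩
        obtain ⟨y, hy, v, hv, hyv⟩ : ∃ y ∈ P', ∃ v ∈ D, y * v = (w : G) := by
          open scoped Pointwise in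
          have hw2 : (w : G) ∈ (P' : Set G) * (D : Set G) := by
            rw [← Subgroup.coe_mul_of_left_le_normalizer_right _ _ hDn]; exact w.2
          exact hw2
        refine ⟨v, hv, ?_, fun hvP => hwn (by
          rw [Subgroup.mem_subgroupOf, ← hyv]; exact mul_mem hy hvP)⟩
        have hwM : (w : G) ∈ M := by
          refine Subgroup.mem_normalizer_iff.2 fun z => ⟨fun hz => ?_, fun hz => ?_⟩
          · exact (Subgroup.mem_normalizer_iff.1 hw ⟨z, Subgroup.mem_sup_left hz⟩).1 hz
          · have h1 : z ∈ P' ⊔ D := by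
              have h0 : (w : G) * z * (w : G)⁻¹ ∈ P' ⊔ D := Subgroup.mem_sup_left hz
              have := mul_mem (mul_mem (inv_mem w.2) h0) w.2
              simpa [mul_assoc] using this
            exact (Subgroup.mem_normalizer_iff.1 hw ⟨z, h1⟩).2 hz
        have := mul_mem (inv_mem (Subgroup.le_normalizer hy : y ∈ M)) hwM
        rwa [← hyv, inv_mul_cancel_left] at this
      have hvR : v ∈ R := by
        refine ⟨⟨v, hvM⟩, ⟨fun y hy => ⟨?_, ?_⟩, ?_⟩, rfl⟩
        · show v * y * v⁻¹ * y⁻¹ ∈ P'
          exact mul_mem ((Subgroup.mem_normalizer_iff.1 hvM y).1 hy) (inv_mem hy)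
        · show v * y * v⁻¹ * y⁻¹ ∈ D
          rw [show v * y * v⁻¹ * y⁻¹ = v * (y * v⁻¹ * y⁻¹) by group]
          exact mul_mem hvD (hDnorm y (hxS hy) _ (inv_mem hvD))
        · have : v ∈ (T : Subgroup M).map M.subtype := hT ▸ ⟨hD.1 hvD, hvM⟩
          obtain ⟨t, ht, hte⟩ := this
          have e : t = ⟨v, hvM⟩ := Subtype.ext hte
          exact e ▸ ht
      set X := P' ⊔ R with hX
      have hXlt : Nat.card P' < Nat.card X := by
        refine lt_of_le_of_ne (Subgroup.card_le_of_le le_sup_left) fun e => hvP ?_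
        exact (Subgroup.eq_of_le_of_card_ge le_sup_left e.ge).ge (Subgroup.mem_sup_right hvR)
      have hGle : Nat.card X ≤ Nat.card G := Subgroup.card_le_card_group _
      have hh : (h : G) ∈ Subgroup.centralizer (X : Set G) :=
        ih (Nat.card G - Nat.card X) (by omega) X (by omega) (S.2.to_le (sup_le hxS hRS)) h
          (Subgroup.normalizer_inf_normalizer_le_normalizer_sup _ _
            ⟨h.2, Subgroup.le_normalizer_map _ ⟨h, hhn, rfl⟩⟩) (by rwa [Subgroup.orderOf_coe])
      have hhCmem : h ∈ C := fun y hy => by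
        rw [commutatorElement_eq_one_iff_mul_comm.2 (Subgroup.mem_centralizer_iff.1 hh y (Subgroup.mem_sup_left hy)).symm]
        exact one_mem _
      have hgC : (⟨g, hg⟩ : M) ∈ C := by
        have := mul_mem hhC hhCmem
        simpa using this
      have hgQ : g ∈ Subgroup.centralizer (Q : Set G) :=
        key1 _ Q (Nat.le_add_left _ _) inf_le_right g (hQM g hg) hcop
      refine Subgroup.mem_centralizer_iff.2 fun y hy => ?_
      set q := ⁅g, y⁆ with hq
      have hqQ : q ∈ Q := hgC y hy
      have hfix : g * q * g⁻¹ = q := by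
        rw [← Subgroup.mem_centralizer_iff.1 hgQ q hqQ, mul_inv_cancel_right]
      have hgy : g * y * g⁻¹ = q * y := by rw [hq, commutatorElement_def]; group
      have hiter : ∀ m : ℕ, g ^ m * y * (g ^ m)⁻¹ = q ^ m * y := by
        intro m
        induction m with
        | zero => simp
        | succ m ihm =>
          have hqm : g * q ^ m * g⁻¹ = q ^ m := by rw [← conj_pow, hfix]
          rw [pow_succ' g m, mul_inv_rev, show g * g ^ m * y * ((g ^ m)⁻¹ * g⁻¹) =
            g * (g ^ m * y * (g ^ m)⁻¹) * g⁻¹ by simp only [mul_assoc], ihm,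
            show g * (q ^ m * y) * g⁻¹ = (g * q ^ m * g⁻¹) * (g * y * g⁻¹) by group, hqm, hgy,
            ← mul_assoc, ← pow_succ]
      have h1 := hiter (orderOf g)
      rw [pow_orderOf_eq_one, inv_one, mul_one, one_mul, right_eq_mul] at h1
      obtain ⟨j, hj⟩ := S.2.to_le (inf_le_left.trans hxS : Q ≤ S) ⟨q, hqQ⟩
      have : q = 1 := orderOf_eq_one_iff.1 (Nat.eq_one_of_dvd_coprimes (hcop.pow_right j)
        (orderOf_dvd_of_pow_eq_one h1) (orderOf_dvd_of_pow_eq_one (congrArg Subtype.val hj)))
      rw [hq, commutatorElement_eq_one_iff_mul_comm] at this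
      exact this.symm
  exact fun Q hQ => key2 _ Q (Nat.le_add_left _ _) hQ

theorem hasNormalPComplement_iff_stronglyClosed (S : Sylow p G) {D : Subgroup G}
    (hD : IsStronglyClosed D (S : Subgroup G)) :
    HasNormalPComplement p G ↔ ∀ U : Subgroup G, U ≤ D → D ⊓ Subgroup.centralizer (U : Set G) ≤ U →
      HasNormalPComplement p ↥(Subgroup.normalizer (U : Set G)) :=
  ⟨fun h U _ _ => hasNormalPComplement_subgroup h _,
    fun h => hasNormalPComplement_of_frobeniusCondition (frobeniusCondition_of_stronglyClosed S hD h)⟩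

end CfsgLib.MetacyclicP
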